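import Mathlib
import Cfsg.Agent.Lib.Helper44.Dickson
import Cfsg.Agent.Lib.Helper8.WallGen

set_option autoImplicit false

/-! Variants of the characteristic-two results of `Helper44.Dickson` under the weakened
exceptional hypothesis of `Helper8.WallGen` (dimension four over the field of two elements is
allowed when there is no totally singular plane). -/

namespace Cfsg.Agent.Lib.Helper8.DicksonGen

open Matrix Module Cfsg.Agent.Lib.Helper14 Cfsg.Agent.Lib.Helper44 Cfsg.Agent.Lib.Helper8.WallGen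

section char2

variable {ι : Type} [Fintype ι] [DecidableEq ι] {F : Type*} [Field F] [Fintype F]

/-- Cartan–Dieudonné in characteristic two for matrix isometry groups. -/
theorem exists_eq_prodElt_char2_gen (h2 : (2 : F) = 0) (Q : QuadraticForm F (ι → F))
    (hQ : (QuadraticMap.polarBilin Q).Nondegenerate)
    (hcard : Fintype.card F ≠ 2 ∨ Fintype.card ι ≠ 4 ∨
      ∀ U : Submodule F (ι → F), (∀ u ∈ U, Q u = 0) → finrank F U ≤ 1) (g : ↥(Cfsg.isometryGroup F ⇑Q)) :
    ∃ (l : List (ι → F)) (hl : ∀ u ∈ l, Q u ≠ 0), g = prodElt Q hQ l hl := by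
  have hcard' : Fintype.card F ≠ 2 ∨ finrank F (ι → F) ≠ 4 ∨
      ∀ U : Submodule F (ι → F), (∀ u ∈ U, Q u = 0) → finrank F U ≤ 1 := by
    rwa [Module.finrank_fintype_fun_eq_card]
  obtain ⟨l, hl, hσ⟩ := cartan_dieudonne_char2_gen Q h2 hQ hcard' _
    (((g : Matrix.GeneralLinearGroup ι F) : Matrix ι ι F).mulVecLin)
    (fun x => by rw [Matrix.mulVecLin_apply]; exact isom_preserves g x) rfl
  refine ⟨l, hl, eq_prodElt Q hQ l hl g ?_⟩
  rw [ext_iff_mulVec]
  intro x
  rw [← Matrix.mulVecLin_apply, hσ, ← prod_reflectionMatrix_mulVecLin, Matrix.mulVecLin_apply]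


/-- Transitivity of the reflection group on vectors of equal non-zero norm, characteristic
two. -/
theorem exists_prodElt_map_char2_gen (h2 : (2 : F) = 0) (Q : QuadraticForm F (ι → F))
    (hQ : (QuadraticMap.polarBilin Q).Nondegenerate)
    (hcard : Fintype.card F ≠ 2 ∨ Fintype.card ι ≠ 4 ∨
      ∀ U : Submodule F (ι → F), (∀ u ∈ U, Q u = 0) → finrank F U ≤ 1) {u v : ι → F} (hu : Q u ≠ 0)
    (hv : Q v = Q u) :
    ∃ (l : List (ι → F)) (hl : ∀ x ∈ l, Q x ≠ 0),
      (((prodElt Q hQ l hl : ↥(Cfsg.isometryGroup F ⇑Q)) : Matrix.GeneralLinearGroup ι F) :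
        Matrix ι ι F) *ᵥ u = v := by
  have hcard' : Fintype.card F ≠ 2 ∨ finrank F (ι → F) ≠ 4 ∨
      ∀ U : Submodule F (ι → F), (∀ u ∈ U, Q u = 0) → finrank F U ≤ 1 := by
    rwa [Module.finrank_fintype_fun_eq_card]
  obtain ⟨l, hl, hlu⟩ := exists_refl_map_char2_gen Q h2 hQ hcard' hu hv
  refine ⟨l, hl, ?_⟩
  rw [prodElt_coe, ← Matrix.mulVecLin_apply, prod_reflectionMatrix_mulVecLin, hlu]

/-- In characteristic two all reflections are conjugate. -/
theorem exists_conj_reflElt_char2_gen (h2 : (2 : F) = 0) (Q : QuadraticForm F (ι → F))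
    (hQ : (QuadraticMap.polarBilin Q).Nondegenerate)
    (hcard : Fintype.card F ≠ 2 ∨ Fintype.card ι ≠ 4 ∨
      ∀ U : Submodule F (ι → F), (∀ u ∈ U, Q u = 0) → finrank F U ≤ 1) {u v : ι → F} (hu : Q u ≠ 0)
    (hv : Q v ≠ 0) :
    ∃ h : ↥(Cfsg.isometryGroup F ⇑Q), h * reflElt Q hQ u hu * h⁻¹ = reflElt Q hQ v hv := by
  have : CharP F 2 := CharTwo.of_one_ne_zero_of_two_eq_zero one_ne_zero h2
  obtain ⟨t, ht⟩ := FiniteField.isSquare_of_char_two (ringChar.eq F 2) (Q v / Q u)
  have ht0 : t ≠ 0 := by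
    rintro rfl
    rw [mul_zero] at ht
    exact (div_ne_zero hv hu) ht
  have hQtu : Q (t • u) = Q v := by
    rw [QuadraticMap.map_smul, smul_eq_mul, ← ht]
    field_simp
  obtain ⟨l, hl, hlu⟩ := exists_prodElt_map_char2_gen h2 Q hQ hcard (u := t • u) (v := v)
    (by rw [hQtu]; exact hv) hQtu.symm
  refine ⟨prodElt Q hQ l hl, ?_⟩
  rw [conj_reflElt]
  apply isom_ext
  rw [reflElt_coe, reflElt_coe]
  rw [Matrix.mulVec_smul] at hlu
  have e : (((prodElt Q hQ l hl : ↥(Cfsg.isometryGroup F ⇑Q)) : Matrix.GeneralLinearGroup ι F) :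
      Matrix ι ι F) *ᵥ u = t⁻¹ • v := by
    rw [← hlu, smul_smul, inv_mul_cancel₀ ht0, one_smul]
  rw [e, reflectionMatrix_smul Q v (inv_ne_zero ht0)]

/-- In characteristic two, a product of an even number of reflections lies in the commutator
subgroup. -/
theorem prodElt_mem_commutator_of_even_char2_gen (h2 : (2 : F) = 0) (Q : QuadraticForm F (ι → F))
    (hQ : (QuadraticMap.polarBilin Q).Nondegenerate)
    (hcard : Fintype.card F ≠ 2 ∨ Fintype.card ι ≠ 4 ∨
      ∀ U : Submodule F (ι → F), (∀ u ∈ U, Q u = 0) → finrank F U ≤ 1) (l : List (ι → F))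
    (hl : ∀ u ∈ l, Q u ≠ 0) (hev : Even l.length) :
    prodElt Q hQ l hl ∈ commutator ↥(Cfsg.isometryGroup F ⇑Q) := by
  rw [← Abelianization.ker_of, MonoidHom.mem_ker]
  set π : ↥(Cfsg.isometryGroup F ⇑Q) →* Abelianization ↥(Cfsg.isometryGroup F ⇑Q) :=
    Abelianization.of with hπ
  cases l with
  | nil => rw [prodElt_nil, map_one]
  | cons a l' =>
    have ha : Q a ≠ 0 := hl a (List.mem_cons_self ..)
    set ρ := π (reflElt Q hQ a ha) with hρ
    have hρρ : ρ * ρ = 1 := by
      rw [hρ, ← map_mul, reflElt_mul_self, map_one]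
    have hall : ∀ (x : ι → F) (hx : Q x ≠ 0), π (reflElt Q hQ x hx) = ρ := by
      intro x hx
      obtain ⟨h, hh⟩ := exists_conj_reflElt_char2_gen h2 Q hQ hcard ha hx
      rw [← hh, map_mul, map_mul, map_inv, mul_comm, inv_mul_cancel_left]
    have key : ∀ (l : List (ι → F)) (hl : ∀ u ∈ l, Q u ≠ 0),
        π (prodElt Q hQ l hl) = ρ ^ l.length := by
      intro l
      induction l with
      | nil => intro hl; rw [prodElt_nil, map_one]; simp
      | cons b l ih =>
        intro hl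
        rw [prodElt_cons, map_mul, ih, hall, List.length_cons, pow_succ, mul_comm]
    rw [key]
    obtain ⟨k, hk⟩ := hev
    rw [hk, ← two_mul, pow_mul, pow_two, hρρ, one_pow]

/-- Characteristic two: the commutator subgroup of the orthogonal group is the kernel of the
Dickson invariant `rank (g - 1) mod 2`. -/
theorem mem_commutator_iff_even_rank_gen (h2 : (2 : F) = 0) (Q : QuadraticForm F (ι → F))
    (hQ : (QuadraticMap.polarBilin Q).Nondegenerate)
    (hcard : Fintype.card F ≠ 2 ∨ Fintype.card ι ≠ 4 ∨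
      ∀ U : Submodule F (ι → F), (∀ u ∈ U, Q u = 0) → finrank F U ≤ 1) (g : ↥(Cfsg.isometryGroup F ⇑Q)) :
    g ∈ commutator ↥(Cfsg.isometryGroup F ⇑Q) ↔
      Even (((g : Matrix.GeneralLinearGroup ι F) : Matrix ι ι F) - 1).rank := by
  constructor
  · exact even_rank_of_mem_commutator Q hQ (exists_eq_prodElt_char2_gen h2 Q hQ hcard)
  · intro hev
    obtain ⟨l, hl, rfl⟩ := exists_eq_prodElt_char2_gen h2 Q hQ hcard g
    apply prodElt_mem_commutator_of_even_char2_gen h2 Q hQ hcard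
    have := rank_prodElt Q hQ l hl
    rw [Nat.even_iff] at hev ⊢
    omega

end char2

end Cfsg.Agent.Lib.Helper8.DicksonGen
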