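import Mathlib
import Cfsg.Agent.Lib.Helper8.OrthInv
import Cfsg.Agent.Lib.Helper8.SympInv

set_option autoImplicit false

namespace Cfsg.Agent.Lib.Helper8.OrthInvClass

open Matrix Module

section count

/-- Counting conjugacy classes of involutions by a complete irredundant list of
representatives. -/
theorem card_classes_of_reps {G : Type*} [Group G] {I : Type*} [Fintype I] (R : I → G)
    (hR : ∀ x, orderOf (R x) = 2) (hinj : ∀ x y, IsConj (R x) (R y) → x = y)
    (hsurj : ∀ g : G, orderOf g = 2 → ∃ x, IsConj g (R x)) :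
    Nat.card {C : ConjClasses G // ∃ g : G, ConjClasses.mk g = C ∧ orderOf g = 2} =
      Fintype.card I := by
  rw [← Nat.card_eq_fintype_card]
  symm
  apply Nat.card_congr
  refine Equiv.ofBijective (fun x => ⟨ConjClasses.mk (R x), R x, rfl, hR x⟩) ⟨?_, ?_⟩
  · intro x y h
    have := congrArg Subtype.val h
    exact hinj x y (ConjClasses.mk_eq_mk_iff_isConj.mp this)
  · rintro ⟨C, g, rfl, hg⟩
    obtain ⟨x, hx⟩ := hsurj g hg
    exact ⟨x, Subtype.ext (ConjClasses.mk_eq_mk_iff_isConj.mpr hx.symm)⟩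

end count

section general

variable {ι : Type} [Fintype ι] [DecidableEq ι] {F : Type*} [Field F]

theorem exists_gl_of_linearEquiv (g : (ι → F) ≃ₗ[F] (ι → F)) :
    ∃ G : GL ι F, ∀ v, (G : Matrix ι ι F) *ᵥ v = g v := by
  refine ⟨⟨LinearMap.toMatrix' (g : (ι → F) →ₗ[F] (ι → F)),
      LinearMap.toMatrix' (g.symm : (ι → F) →ₗ[F] (ι → F)),
      by rw [← LinearMap.toMatrix'_comp, LinearEquiv.comp_coe, LinearEquiv.symm_trans_self,
        LinearEquiv.refl_toLinearMap, LinearMap.toMatrix'_id],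
      by rw [← LinearMap.toMatrix'_comp, LinearEquiv.comp_coe, LinearEquiv.self_trans_symm,
        LinearEquiv.refl_toLinearMap, LinearMap.toMatrix'_id]⟩, ?_⟩
  intro v
  show LinearMap.toMatrix' (g : (ι → F) →ₗ[F] (ι → F)) *ᵥ v = g v
  rw [← Matrix.toLin'_apply, Matrix.toLin'_toMatrix']
  rfl

theorem polarBilin_isAlt (h2 : (2 : F) = 0) (Q : QuadraticForm F (ι → F)) :
    (QuadraticMap.polarBilin Q).IsAlt := by
  intro x
  rw [QuadraticMap.polarBilin_apply_apply]
  unfold QuadraticMap.polar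
  have : Q (x + x) = 4 * Q x := by
    rw [← two_smul F x, QuadraticMap.map_smul, smul_eq_mul]
    ring
  rw [this]
  linear_combination (Q x) * h2

theorem sub_one_sq (h2 : (2 : F) = 0) (T : Matrix ι ι F) (hT2 : T * T = 1) :
    (T - 1) * (T - 1) = 0 := by
  have e : (T - 1) * (T - 1) = T * T - T - T + 1 := by noncomm_ring
  rw [e, hT2]
  ext i j
  simp only [Matrix.add_apply, Matrix.sub_apply, Matrix.zero_apply]
  linear_combination ((1 : Matrix ι ι F) i j - T i j) * h2

/-- For an involutory matrix in characteristic two, `rank (T - 1)` is at most half the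
dimension. -/
theorem two_mul_rank_le (h2 : (2 : F) = 0) (T : Matrix ι ι F) (hT2 : T * T = 1) :
    2 * (T - 1).rank ≤ Fintype.card ι := by
  have h1 : (T - 1).rank ≤ finrank F (LinearMap.ker (T - 1).mulVecLin) := by
    unfold Matrix.rank
    apply Submodule.finrank_mono
    rintro _ ⟨y, rfl⟩
    rw [LinearMap.mem_ker, Matrix.mulVecLin_apply, Matrix.mulVecLin_apply, Matrix.mulVec_mulVec,
      sub_one_sq h2 T hT2, Matrix.zero_mulVec]
  have h3 := LinearMap.finrank_range_add_finrank_ker (T - 1).mulVecLin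
  rw [Module.finrank_fintype_fun_eq_card] at h3
  have h4 : (T - 1).rank = finrank F (LinearMap.range (T - 1).mulVecLin) := rfl
  omega

theorem rank_sub_one_pos (T : Matrix ι ι F) (hT : T ≠ 1) : 1 ≤ (T - 1).rank := by
  by_contra hcon
  have h0 : finrank F (LinearMap.range (T - 1).mulVecLin) = 0 := by
    have : (T - 1).rank = finrank F (LinearMap.range (T - 1).mulVecLin) := rfl
    omega
  rw [Submodule.finrank_eq_zero] at h0
  apply hT
  apply Matrix.mulVec_injective
  funext v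
  have hmem : (T - 1).mulVecLin v ∈ LinearMap.range (T - 1).mulVecLin := ⟨v, rfl⟩
  rw [h0, Submodule.mem_bot, Matrix.mulVecLin_apply, Matrix.sub_mulVec, sub_eq_zero] at hmem
  exact hmem

theorem polar_selfadjoint (Q : QuadraticForm F (ι → F)) (M : Matrix ι ι F)
    (hM : ∀ v, Q (M *ᵥ v) = Q v) (hM2 : M * M = 1) (x y : ι → F) :
    QuadraticMap.polarBilin Q ((M - 1).mulVecLin x) y =
      QuadraticMap.polarBilin Q x ((M - 1).mulVecLin y) := by
  have hpol : ∀ x y, QuadraticMap.polar Q (M *ᵥ x) (M *ᵥ y) = QuadraticMap.polar Q x y := by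
    intro x y
    unfold QuadraticMap.polar
    rw [← Matrix.mulVec_add, hM, hM, hM]
  have h1 : QuadraticMap.polar Q (M *ᵥ x) y = QuadraticMap.polar Q x (M *ᵥ y) := by
    have := hpol x (M *ᵥ y)
    rw [Matrix.mulVec_mulVec, hM2, Matrix.one_mulVec] at this
    exact this
  rw [QuadraticMap.polarBilin_apply_apply, QuadraticMap.polarBilin_apply_apply,
    Matrix.mulVecLin_apply, Matrix.mulVecLin_apply, Matrix.sub_mulVec, Matrix.sub_mulVec,
    Matrix.one_mulVec, Matrix.one_mulVec, QuadraticMap.polar_sub_left,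
    QuadraticMap.polar_sub_right, h1]

theorem polar_type (h2 : (2 : F) = 0) (Q : QuadraticForm F (ι → F)) (M : Matrix ι ι F)
    (hM : ∀ v, Q (M *ᵥ v) = Q v) :
    (∀ x, QuadraticMap.polarBilin Q x ((M - 1).mulVecLin x) = 0) ↔
      (∀ v, Q (v + M *ᵥ v) = 0) := by
  have key : ∀ x, QuadraticMap.polarBilin Q x ((M - 1).mulVecLin x) = Q (x + M *ᵥ x) := by
    intro x
    rw [QuadraticMap.polarBilin_apply_apply, Matrix.mulVecLin_apply, Matrix.sub_mulVec,
      Matrix.one_mulVec, QuadraticMap.polar_sub_right]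
    have h4 : Q (x + x) = 4 * Q x := by
      rw [← two_smul F x, QuadraticMap.map_smul, smul_eq_mul]
      ring
    unfold QuadraticMap.polar
    rw [hM, h4]
    linear_combination (-(2 : F) * Q x) * h2
  constructor
  · intro h v
    rw [← key]
    exact h v
  · intro h v
    rw [key]
    exact h v

/-- Involutions of `O(Q)` in characteristic two with the same rank and type are conjugate
in `O(Q)`. -/
theorem orth_conj_of_invariants [Finite F] (h2 : (2 : F) = 0) (Q : QuadraticForm F (ι → F))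
    (hQ : (QuadraticMap.polarBilin Q).Nondegenerate) (T S : Matrix ι ι F)
    (hT : ∀ v, Q (T *ᵥ v) = Q v) (hS : ∀ v, Q (S *ᵥ v) = Q v) (hT2 : T * T = 1)
    (hS2 : S * S = 1) (hr : (T - 1).rank = (S - 1).rank)
    (htype : (∀ v, Q (v + T *ᵥ v) = 0) ↔ (∀ v, Q (v + S *ᵥ v) = 0)) :
    ∃ g : GL ι F, (∀ v, Q ((g : Matrix ι ι F) *ᵥ v) = Q v) ∧
      (g : Matrix ι ι F) * T = S * (g : Matrix ι ι F) := by
  have hN2 : ∀ (M : Matrix ι ι F), M * M = 1 → ∀ x,
      (M - 1).mulVecLin ((M - 1).mulVecLin x) = 0 := by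
    intro M hM2 x
    rw [Matrix.mulVecLin_apply, Matrix.mulVecLin_apply, Matrix.mulVec_mulVec, sub_one_sq h2 M hM2,
      Matrix.zero_mulVec]
  obtain ⟨g₀, hg₀, hg₀N⟩ := Cfsg.Agent.Lib.Helper8.SympInv.exists_alt_isometry_conj h2
    (QuadraticMap.polarBilin Q) hQ (polarBilin_isAlt h2 Q) (T - 1).mulVecLin (S - 1).mulVecLin
    (polar_selfadjoint Q T hT hT2) (polar_selfadjoint Q S hS hS2) (hN2 T hT2) (hN2 S hS2) hr
    ((polar_type h2 Q T hT).trans (htype.trans (polar_type h2 Q S hS).symm))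
  obtain ⟨G₀, hG₀⟩ := exists_gl_of_linearEquiv g₀
  apply Cfsg.Agent.Lib.Helper8.OrthInv.exists_orth_conj Q hQ T S G₀ hT hS hS2
  · intro u v
    rw [hG₀, hG₀]
    have := hg₀ u v
    rw [QuadraticMap.polarBilin_apply_apply, QuadraticMap.polarBilin_apply_apply] at this
    exact this
  · apply Matrix.mulVec_injective
    funext v
    rw [← Matrix.mulVec_mulVec, ← Matrix.mulVec_mulVec, hG₀, hG₀]
    have := hg₀N v
    rw [Matrix.mulVecLin_apply, Matrix.mulVecLin_apply, Matrix.sub_mulVec, Matrix.sub_mulVec,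
      Matrix.one_mulVec, Matrix.one_mulVec, map_sub] at this
    exact sub_left_injective this

/-- Rank and type are conjugation invariants. -/
theorem invariants_of_conj (Qf : (ι → F) → F) (T S : Matrix ι ι F) (g : GL ι F)
    (hg : ∀ v, Qf ((g : Matrix ι ι F) *ᵥ v) = Qf v)
    (hconj : (g : Matrix ι ι F) * T = S * (g : Matrix ι ι F)) :
    (T - 1).rank = (S - 1).rank ∧
      ((∀ v, Qf (v + T *ᵥ v) = 0) ↔ (∀ v, Qf (v + S *ᵥ v) = 0)) := by
  obtain ⟨G, hG⟩ : ∃ G : Matrix ι ι F, G = (g : Matrix ι ι F) := ⟨_, rfl⟩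
  obtain ⟨Gi, hGi⟩ : ∃ Gi : Matrix ι ι F, Gi = ((g⁻¹ : GL ι F) : Matrix ι ι F) := ⟨_, rfl⟩
  rw [← hG] at hg hconj
  have hGGi : G * Gi = 1 := by rw [hG, hGi]; exact Units.mul_inv _
  have hGiG : Gi * G = 1 := by rw [hG, hGi]; exact Units.inv_mul _
  have hGdet : IsUnit G.det := by
    rw [hG]
    exact (Matrix.isUnit_iff_isUnit_det _).mp (Units.isUnit g)
  have hGidet : IsUnit Gi.det := by
    rw [hGi]
    exact (Matrix.isUnit_iff_isUnit_det _).mp (Units.isUnit g⁻¹)
  constructor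
  · have e : S - 1 = G * (T - 1) * Gi := by
      rw [Matrix.mul_sub, Matrix.sub_mul, Matrix.mul_one, hGGi, hconj, Matrix.mul_assoc, hGGi,
        Matrix.mul_one]
    rw [e, Matrix.rank_mul_eq_left_of_isUnit_det _ _ hGidet,
      Matrix.rank_mul_eq_right_of_isUnit_det _ _ hGdet]
  · have key : ∀ v, Qf (G *ᵥ v + S *ᵥ (G *ᵥ v)) = Qf (v + T *ᵥ v) := by
      intro v
      rw [Matrix.mulVec_mulVec, ← hconj, ← Matrix.mulVec_mulVec, ← Matrix.mulVec_add, hg]
    constructor
    · intro h w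
      have := key (Gi *ᵥ w)
      rw [Matrix.mulVec_mulVec, hGGi, Matrix.one_mulVec] at this
      rw [this]
      exact h _
    · intro h v
      rw [← key]
      exact h _

/-- An involution of `O(Q)` of alternating type has even rank. -/
theorem even_rank_of_alt_type [Finite F] (h2 : (2 : F) = 0) (Q : QuadraticForm F (ι → F))
    (hQ : (QuadraticMap.polarBilin Q).Nondegenerate) (T : Matrix ι ι F)
    (hT : ∀ v, Q (T *ᵥ v) = Q v) (hT2 : T * T = 1) (h0 : ∀ v, Q (v + T *ᵥ v) = 0) :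
    Even (T - 1).rank :=
  Cfsg.Agent.Lib.Helper8.SympInv.even_finrank_range_of_alt_type h2 (QuadraticMap.polarBilin Q) hQ
    (polarBilin_isAlt h2 Q) (T - 1).mulVecLin (polar_selfadjoint Q T hT hT2)
    ((polar_type h2 Q T hT).mpr h0)

end general

section group

variable {ι : Type} [Fintype ι] [DecidableEq ι] {F : Type*} [Field F]

theorem coe_sq_of_order_two {Qf : (ι → F) → F} (t : ↥(Cfsg.isometryGroup F Qf))
    (ht : orderOf t = 2) :
    ((t : GL ι F) : Matrix ι ι F) * ((t : GL ι F) : Matrix ι ι F) = 1 ∧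
      ((t : GL ι F) : Matrix ι ι F) ≠ 1 := by
  constructor
  · have h : t ^ orderOf t = 1 := pow_orderOf_eq_one t
    rw [ht, pow_two] at h
    have h' : (t : GL ι F) * (t : GL ι F) = 1 := congrArg Subtype.val h
    have := congrArg (fun x : GL ι F => (x : Matrix ι ι F)) h'
    simpa using this
  · intro h
    have h1 : t = 1 := by
      apply Subtype.ext
      apply Units.ext
      exact h
    rw [h1, orderOf_one] at ht
    omega

/-- An involutory isometry as an element of the isometry group. -/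
def mkInv (Qf : (ι → F) → F) (M : Matrix ι ι F) (hM2 : M * M = 1)
    (hM : ∀ v, Qf (M *ᵥ v) = Qf v) : ↥(Cfsg.isometryGroup F Qf) :=
  ⟨⟨M, M, hM2, hM2⟩, fun u _ => hM u⟩

theorem mkInv_coe (Qf : (ι → F) → F) (M : Matrix ι ι F) (hM2 : M * M = 1)
    (hM : ∀ v, Qf (M *ᵥ v) = Qf v) :
    (((mkInv Qf M hM2 hM : ↥(Cfsg.isometryGroup F Qf)) : GL ι F) : Matrix ι ι F) = M := rfl

theorem orderOf_mkInv (Qf : (ι → F) → F) (M : Matrix ι ι F) (hM2 : M * M = 1)
    (hM : ∀ v, Qf (M *ᵥ v) = Qf v) (hne : M ≠ 1) : orderOf (mkInv Qf M hM2 hM) = 2 := by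
  apply orderOf_eq_prime
  · rw [pow_two]
    apply Subtype.ext
    apply Units.ext
    exact hM2
  · intro h
    apply hne
    have := congrArg (fun x : ↥(Cfsg.isometryGroup F Qf) => ((x : GL ι F) : Matrix ι ι F)) h
    exact this

/-- Conjugacy of involutions in `O(Q)`, characteristic two: rank and type. -/
theorem isConj_iff_invariants [Finite F] (h2 : (2 : F) = 0) (Qf : (ι → F) → F)
    (Q : QuadraticForm F (ι → F)) (hQf : ⇑Q = Qf)
    (hQ : (QuadraticMap.polarBilin Q).Nondegenerate) (t s : ↥(Cfsg.isometryGroup F Qf))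
    (ht : orderOf t = 2) (hs : orderOf s = 2) :
    IsConj t s ↔ ((((t : GL ι F) : Matrix ι ι F) - 1).rank = (((s : GL ι F) : Matrix ι ι F) - 1).rank ∧
      ((∀ v, Qf (v + ((t : GL ι F) : Matrix ι ι F) *ᵥ v) = 0) ↔
        (∀ v, Qf (v + ((s : GL ι F) : Matrix ι ι F) *ᵥ v) = 0))) := by
  constructor
  · intro h
    obtain ⟨c, hc⟩ := isConj_iff.mp h
    apply invariants_of_conj Qf _ _ (c : GL ι F) (fun v => c.2 v v)
    rw [mul_inv_eq_iff_eq_mul] at hc
    have := congrArg (fun x : ↥(Cfsg.isometryGroup F Qf) => ((x : GL ι F) : Matrix ι ι F)) hc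
    exact this
  · rintro ⟨hr, hty⟩
    subst hQf
    obtain ⟨g, hg, hgts⟩ := orth_conj_of_invariants h2 Q hQ _ _ (fun v => t.2 v v)
      (fun v => s.2 v v) (coe_sq_of_order_two t ht).1 (coe_sq_of_order_two s hs).1 hr hty
    rw [isConj_iff]
    refine ⟨⟨g, fun u _ => hg u⟩, ?_⟩
    rw [mul_inv_eq_iff_eq_mul]
    apply Subtype.ext
    apply Units.ext
    exact hgts

/-- Counting involution classes of `O(Q)` from representatives with known invariants. -/
theorem card_involution_classes [Finite F] (h2 : (2 : F) = 0) (Qf : (ι → F) → F)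
    (Q : QuadraticForm F (ι → F)) (hQf : ⇑Q = Qf)
    (hQ : (QuadraticMap.polarBilin Q).Nondegenerate) {I : Type*} [Fintype I]
    (R : I → ↥(Cfsg.isometryGroup F Qf)) (rk : I → ℕ) (ty : I → Prop)
    (hR2 : ∀ x, orderOf (R x) = 2)
    (hrk : ∀ x, (((R x : GL ι F) : Matrix ι ι F) - 1).rank = rk x)
    (hty : ∀ x, (∀ v, Qf (v + ((R x : GL ι F) : Matrix ι ι F) *ᵥ v) = 0) ↔ ty x)
    (hinj : ∀ x y, rk x = rk y → (ty x ↔ ty y) → x = y)
    (hsurj : ∀ t : ↥(Cfsg.isometryGroup F Qf), orderOf t = 2 →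
      ∃ x, (((t : GL ι F) : Matrix ι ι F) - 1).rank = rk x ∧
        ((∀ v, Qf (v + ((t : GL ι F) : Matrix ι ι F) *ᵥ v) = 0) ↔ ty x)) :
    Nat.card {C : ConjClasses ↥(Cfsg.isometryGroup F Qf) //
      ∃ g : ↥(Cfsg.isometryGroup F Qf), ConjClasses.mk g = C ∧ orderOf g = 2} =
      Fintype.card I := by
  apply card_classes_of_reps R hR2
  · intro x y hxy
    have := (isConj_iff_invariants h2 Qf Q hQf hQ (R x) (R y) (hR2 x) (hR2 y)).mp hxy
    apply hinj x y
    · rw [← hrk x, ← hrk y]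
      exact this.1
    · rw [← hty x, ← hty y]
      exact this.2
  · intro t ht
    obtain ⟨x, hx1, hx2⟩ := hsurj t ht
    refine ⟨x, (isConj_iff_invariants h2 Qf Q hQf hQ t (R x) ht (hR2 x)).mpr ⟨?_, ?_⟩⟩
    · rw [hx1, hrk x]
    · rw [hx2, hty x]

end group

end Cfsg.Agent.Lib.Helper8.OrthInvClass
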