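import Mathlib
import Cfsg.Agent.Lib.Helper8.OmegaConj
import Cfsg.Agent.Lib.Helper8.OrthInvClass
import Cfsg.Agent.Lib.Helper8.InvReps

set_option autoImplicit false

namespace Cfsg.Agent.Lib.Helper8.OmegaClass

open Matrix Module Cfsg.Agent.Lib.Helper14 Cfsg.Agent.Lib.Helper44

section subgroup

/-- Conjugacy inside a subgroup. -/
theorem subgroup_isConj_iff {G : Type*} [Group G] (H : Subgroup G) (a b : ↥H) :
    IsConj a b ↔ ∃ c ∈ H, c * (a : G) * c⁻¹ = (b : G) := by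
  rw [isConj_iff]
  constructor
  · rintro ⟨c, hc⟩
    exact ⟨c, c.2, congrArg Subtype.val hc⟩
  · rintro ⟨c, hc, h⟩
    exact ⟨⟨c, hc⟩, Subtype.ext h⟩

end subgroup

section general

variable {ι : Type} [Fintype ι] [DecidableEq ι] {F : Type*} [Field F] [Fintype F]

/-- `Ω` has index at most two in `O`, characteristic two. -/
theorem mul_mem_omega_of_notMem (h2 : (2 : F) = 0) (Qf : (ι → F) → F)
    (Q : QuadraticForm F (ι → F)) (hQf : ⇑Q = Qf)
    (hQ : (QuadraticMap.polarBilin Q).Nondegenerate)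
    (hcard : Fintype.card F ≠ 2 ∨ Fintype.card ι ≠ 4)
    (a b : ↥(Cfsg.isometryGroup F Qf)) (ha : a ∉ Cfsg.Omega F Qf) (hb : b ∉ Cfsg.Omega F Qf) :
    a * b ∈ Cfsg.Omega F Qf := by
  subst hQf
  have ha' := (OmegaConj.mem_commutator_iff_dickson h2 Q hQ hcard a).not.mp ha
  have hb' := (OmegaConj.mem_commutator_iff_dickson h2 Q hQ hcard b).not.mp hb
  apply (OmegaConj.mem_commutator_iff_dickson h2 Q hQ hcard (a * b)).mpr
  rw [dickson_mul Q hQ (exists_eq_prodElt_char2 h2 Q hQ hcard)]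
  rcases Int.units_eq_one_or (dickson ⇑Q a) with h | h
  · exact absurd h ha'
  rcases Int.units_eq_one_or (dickson ⇑Q b) with h' | h'
  · exact absurd h' hb'
  rw [h, h']
  rfl

end general

section plus

variable (m : ℕ) (F : Type*) [Field F]

/-- The swap representative as a group element. -/
def sw (s : ℕ) : ↥(Cfsg.isometryGroup F (Cfsg.quadFormPlus m F)) :=
  OrthInvClass.mkInv (Cfsg.quadFormPlus m F) (InvReps.swapM m F s) (InvReps.swapM_sq m F s)
    (InvReps.swapM_quad m F s)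

/-- The alternating representative as a group element. -/
def al (h2 : (2 : F) = 0) (k : ℕ) : ↥(Cfsg.isometryGroup F (Cfsg.quadFormPlus m F)) :=
  OrthInvClass.mkInv (Cfsg.quadFormPlus m F) (InvReps.altM m F k) (InvReps.altM_sq m F k h2)
    (InvReps.altM_quad m F k h2)

theorem sw_rank (s : ℕ) (hs : s ≤ m) : ((((sw m F s) : GL (Fin m ⊕ Fin m) F) : Matrix (Fin m ⊕ Fin m) (Fin m ⊕ Fin m) F) - 1).rank = s :=
  InvReps.swapM_rank m F s hs

theorem al_rank (h2 : (2 : F) = 0) (k : ℕ) (hk : 2 * k ≤ m) :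
    ((((al m F h2 k) : GL (Fin m ⊕ Fin m) F) : Matrix (Fin m ⊕ Fin m) (Fin m ⊕ Fin m) F) - 1).rank = 2 * k :=
  InvReps.altM_rank m F k hk

theorem sw_type (s : ℕ) (hs1 : 1 ≤ s) (hs : s ≤ m) :
    ¬ ∀ v, Cfsg.quadFormPlus m F (v + (((sw m F s) : GL (Fin m ⊕ Fin m) F) : Matrix (Fin m ⊕ Fin m) (Fin m ⊕ Fin m) F) *ᵥ v) = 0 := by
  intro hall
  obtain ⟨v, hv⟩ := InvReps.swapM_type m F s hs1 hs
  exact hv (hall v)

theorem al_type (h2 : (2 : F) = 0) (k : ℕ) (v : Fin m ⊕ Fin m → F) :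
    Cfsg.quadFormPlus m F (v + (((al m F h2 k) : GL (Fin m ⊕ Fin m) F) : Matrix (Fin m ⊕ Fin m) (Fin m ⊕ Fin m) F) *ᵥ v) = 0 :=
  InvReps.altM_type m F k h2 v

theorem sw_order (s : ℕ) (hs1 : 1 ≤ s) (hs : s ≤ m) : orderOf (sw m F s) = 2 := by
  apply OrthInvClass.orderOf_mkInv
  intro h
  have := InvReps.swapM_rank m F s hs
  rw [h, sub_self, Matrix.rank_zero] at this
  omega

theorem al_order (h2 : (2 : F) = 0) (k : ℕ) (hk1 : 1 ≤ k) (hk : 2 * k ≤ m) :
    orderOf (al m F h2 k) = 2 := by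
  apply OrthInvClass.orderOf_mkInv
  intro h
  have := InvReps.altM_rank m F k hk
  rw [h, sub_self, Matrix.rank_zero] at this
  omega

variable [Fintype F]

theorem plus_mem_omega_iff (h2 : (2 : F) = 0)
    (hcard : Fintype.card F ≠ 2 ∨ m ≠ 2) (g : ↥(Cfsg.isometryGroup F (Cfsg.quadFormPlus m F))) :
    g ∈ Cfsg.Omega F (Cfsg.quadFormPlus m F) ↔ Even (((g : GL (Fin m ⊕ Fin m) F) : Matrix (Fin m ⊕ Fin m) (Fin m ⊕ Fin m) F) - 1).rank :=
  mem_omega_iff_even_rank_fun h2 _ (plusQF m F) (plusQF_coe m F) (plusQF_nondegenerate m F)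
    (by
      rcases hcard with h | h
      · exact Or.inl h
      · right
        rw [Fintype.card_sum, Fintype.card_fin]
        omega) g

theorem plus_mul_mem (h2 : (2 : F) = 0) (hcard : Fintype.card F ≠ 2 ∨ m ≠ 2) (a b : ↥(Cfsg.isometryGroup F (Cfsg.quadFormPlus m F)))
    (ha : a ∉ Cfsg.Omega F (Cfsg.quadFormPlus m F)) (hb : b ∉ Cfsg.Omega F (Cfsg.quadFormPlus m F)) : a * b ∈ Cfsg.Omega F (Cfsg.quadFormPlus m F) :=
  mul_mem_omega_of_notMem h2 _ (plusQF m F) (plusQF_coe m F) (plusQF_nondegenerate m F)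
    (by
      rcases hcard with h | h
      · exact Or.inl h
      · right
        rw [Fintype.card_sum, Fintype.card_fin]
        omega) a b ha hb

/-- Involutions of `O⁺` that are conjugate in `O` are conjugate under `Ω`, unless the
commutator space is a maximal totally singular subspace. -/
theorem plus_conj_nonsplit (h2 : (2 : F) = 0) (hcard : Fintype.card F ≠ 2 ∨ m ≠ 2)
    (t s : ↥(Cfsg.isometryGroup F (Cfsg.quadFormPlus m F))) (ht : orderOf t = 2) (hconj : IsConj t s)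
    (hnot : ¬ ((((t : GL (Fin m ⊕ Fin m) F) : Matrix (Fin m ⊕ Fin m) (Fin m ⊕ Fin m) F) - 1).rank = m ∧
      ∀ v, Cfsg.quadFormPlus m F (v + ((t : GL (Fin m ⊕ Fin m) F) : Matrix (Fin m ⊕ Fin m) (Fin m ⊕ Fin m) F) *ᵥ v) = 0)) :
    ∃ g ∈ Cfsg.Omega F (Cfsg.quadFormPlus m F), g * t * g⁻¹ = s :=
  OmegaConj.omega_conj_of_fixed_fun h2 _ (plusQF m F) (plusQF_coe m F)
    (plusQF_nondegenerate m F)
    (by
      rcases hcard with h | h
      · exact Or.inl h
      · right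
        rw [Fintype.card_sum, Fintype.card_fin]
        omega) t s hconj
    (OmegaConj.plus_exists_fixed m F h2 ((t : GL (Fin m ⊕ Fin m) F) : Matrix (Fin m ⊕ Fin m) (Fin m ⊕ Fin m) F) (OrthInvClass.coe_sq_of_order_two t ht).1 hnot)

/-- The splitting class: the two conjugating elements have the same Dickson invariant. -/
theorem plus_split (h2 : (2 : F) = 0) (hcard : Fintype.card F ≠ 2 ∨ m ≠ 2) (hmeven : Even m)
    (t : ↥(Cfsg.isometryGroup F (Cfsg.quadFormPlus m F))) (hrank : (((t : GL (Fin m ⊕ Fin m) F) : Matrix (Fin m ⊕ Fin m) (Fin m ⊕ Fin m) F) - 1).rank = m)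
    (hts : ∀ v, Cfsg.quadFormPlus m F (v + ((t : GL (Fin m ⊕ Fin m) F) : Matrix (Fin m ⊕ Fin m) (Fin m ⊕ Fin m) F) *ᵥ v) = 0)
    (c g₀ : ↥(Cfsg.isometryGroup F (Cfsg.quadFormPlus m F))) (hc : c * t * c⁻¹ = g₀ * t * g₀⁻¹) : c ∈ Cfsg.Omega F (Cfsg.quadFormPlus m F) ↔ g₀ ∈ Cfsg.Omega F (Cfsg.quadFormPlus m F) := by
  have hcard' : Fintype.card F ≠ 2 ∨ Fintype.card (Fin m ⊕ Fin m) ≠ 4 := by
    rcases hcard with h | h
    · exact Or.inl h
    · right
      rw [Fintype.card_sum, Fintype.card_fin]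
      omega
  rw [OmegaConj.mts_conj_iff h2 _ (plusQF m F) (plusQF_coe m F) (plusQF_nondegenerate m F)
      hcard' (finrank_plus m F) t _ c hc hrank hts hmeven,
    OmegaConj.mts_conj_iff h2 _ (plusQF m F) (plusQF_coe m F) (plusQF_nondegenerate m F)
      hcard' (finrank_plus m F) t _ g₀ rfl hrank hts hmeven]

/-- Classification of involutions of `O⁺`, non-alternating type. -/
theorem plus_isConj_sw (h2 : (2 : F) = 0) (t : ↥(Cfsg.isometryGroup F (Cfsg.quadFormPlus m F))) (ht : orderOf t = 2)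
    (hty : ¬ ∀ v, Cfsg.quadFormPlus m F (v + ((t : GL (Fin m ⊕ Fin m) F) : Matrix (Fin m ⊕ Fin m) (Fin m ⊕ Fin m) F) *ᵥ v) = 0) :
    1 ≤ (((t : GL (Fin m ⊕ Fin m) F) : Matrix (Fin m ⊕ Fin m) (Fin m ⊕ Fin m) F) - 1).rank ∧ (((t : GL (Fin m ⊕ Fin m) F) : Matrix (Fin m ⊕ Fin m) (Fin m ⊕ Fin m) F) - 1).rank ≤ m ∧ IsConj t (sw m F (((t : GL (Fin m ⊕ Fin m) F) : Matrix (Fin m ⊕ Fin m) (Fin m ⊕ Fin m) F) - 1).rank) := by
  obtain ⟨hT2, hT1⟩ := OrthInvClass.coe_sq_of_order_two t ht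
  have hs1 := OrthInvClass.rank_sub_one_pos _ hT1
  have hs2 := OrthInvClass.two_mul_rank_le h2 _ hT2
  rw [Fintype.card_sum, Fintype.card_fin] at hs2
  have hsm : (((t : GL (Fin m ⊕ Fin m) F) : Matrix (Fin m ⊕ Fin m) (Fin m ⊕ Fin m) F) - 1).rank ≤ m := by omega
  refine ⟨hs1, hsm, ?_⟩
  rw [OrthInvClass.isConj_iff_invariants h2 _ (plusQF m F) (plusQF_coe m F)
    (plusQF_nondegenerate m F) t _ ht (sw_order m F _ hs1 hsm)]
  refine ⟨(sw_rank m F _ hsm).symm, ?_⟩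
  constructor
  · intro h
    exact absurd h hty
  · intro h
    exact absurd h (sw_type m F _ hs1 hsm)

/-- Classification of involutions of `O⁺`, alternating type. -/
theorem plus_isConj_al (h2 : (2 : F) = 0) (t : ↥(Cfsg.isometryGroup F (Cfsg.quadFormPlus m F))) (ht : orderOf t = 2)
    (hty : ∀ v, Cfsg.quadFormPlus m F (v + ((t : GL (Fin m ⊕ Fin m) F) : Matrix (Fin m ⊕ Fin m) (Fin m ⊕ Fin m) F) *ᵥ v) = 0) :
    ∃ k, 1 ≤ k ∧ 2 * k ≤ m ∧ (((t : GL (Fin m ⊕ Fin m) F) : Matrix (Fin m ⊕ Fin m) (Fin m ⊕ Fin m) F) - 1).rank = 2 * k ∧ IsConj t (al m F h2 k) := by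
  obtain ⟨hT2, hT1⟩ := OrthInvClass.coe_sq_of_order_two t ht
  have hs1 := OrthInvClass.rank_sub_one_pos _ hT1
  have hs2 := OrthInvClass.two_mul_rank_le h2 _ hT2
  rw [Fintype.card_sum, Fintype.card_fin] at hs2
  obtain ⟨k, hk⟩ := OrthInvClass.even_rank_of_alt_type h2 (plusQF m F) (plusQF_nondegenerate m F)
    ((t : GL (Fin m ⊕ Fin m) F) : Matrix (Fin m ⊕ Fin m) (Fin m ⊕ Fin m) F) (fun v => by rw [plusQF_coe]; exact t.2 v v) hT2
    (fun v => by rw [plusQF_coe]; exact hty v)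
  have hk1 : 1 ≤ k := by omega
  have hk2 : 2 * k ≤ m := by omega
  refine ⟨k, hk1, hk2, by omega, ?_⟩
  rw [OrthInvClass.isConj_iff_invariants h2 _ (plusQF m F) (plusQF_coe m F)
    (plusQF_nondegenerate m F) t _ ht (al_order m F h2 k hk1 hk2)]
  refine ⟨by rw [al_rank m F h2 k hk2]; omega, ?_⟩
  constructor
  · intro _
    exact al_type m F h2 k
  · intro _
    exact hty

end plus

section conj

theorem orderOf_mul_conj {G : Type*} [Group G] (c t : G) : orderOf (c * t * c⁻¹) = orderOf t := by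
  have := orderOf_injective (MulAut.conj c).toMonoidHom (MulAut.conj c).injective t
  simpa using this

variable {ι : Type} [Fintype ι] [DecidableEq ι] {F : Type*} [Field F]

/-- Rank and type of a conjugate. -/
theorem invariants_of_mul_conj (Qf : (ι → F) → F) (t c : ↥(Cfsg.isometryGroup F Qf)) :
    ((((t : GL ι F) : Matrix ι ι F) - 1).rank =
        ((((c * t * c⁻¹ : ↥(Cfsg.isometryGroup F Qf)) : GL ι F) : Matrix ι ι F) - 1).rank) ∧
      ((∀ v, Qf (v + ((t : GL ι F) : Matrix ι ι F) *ᵥ v) = 0) ↔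
        (∀ v, Qf (v + (((c * t * c⁻¹ : ↥(Cfsg.isometryGroup F Qf)) : GL ι F) : Matrix ι ι F)
          *ᵥ v) = 0)) := by
  apply OrthInvClass.invariants_of_conj Qf _ _ (c : GL ι F) (fun v => c.2 v v)
  have hc : c * t = c * t * c⁻¹ * c := by group
  have := congrArg (fun x : ↥(Cfsg.isometryGroup F Qf) => ((x : GL ι F) : Matrix ι ι F)) hc
  exact this

end conj

end Cfsg.Agent.Lib.Helper8.OmegaClass
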