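import Mathlib
import Cfsg.Agent.Lib.Helper8.DicksonGen
import Cfsg.Agent.Lib.Helper8.OmegaConj
import Cfsg.Agent.Lib.Helper8.OmegaClass
import Cfsg.Agent.Lib.Helper8.OrthInvClass
import Cfsg.Agent.Lib.Helper8.InvReps
import Cfsg.Agent.Lib.Helper8.MinusReps

set_option autoImplicit false

namespace Cfsg.Agent.Lib.Helper8.OmegaMinus

open Matrix Module Cfsg.Agent.Lib.Helper14 Cfsg.Agent.Lib.Helper44

section general

variable {ι : Type} [Fintype ι] [DecidableEq ι] {F : Type*} [Field F] [Fintype F]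

theorem mem_commutator_iff_dickson_gen (h2 : (2 : F) = 0) (Q : QuadraticForm F (ι → F))
    (hQ : (QuadraticMap.polarBilin Q).Nondegenerate)
    (hcard : Fintype.card F ≠ 2 ∨ Fintype.card ι ≠ 4 ∨
      ∀ U : Submodule F (ι → F), (∀ u ∈ U, Q u = 0) → finrank F U ≤ 1)
    (g : ↥(Cfsg.isometryGroup F ⇑Q)) :
    g ∈ commutator ↥(Cfsg.isometryGroup F ⇑Q) ↔ dickson ⇑Q g = 1 := by
  rw [DicksonGen.mem_commutator_iff_even_rank_gen h2 Q hQ hcard, dickson_eq_one_iff]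

/-- An isometry fixing a non-singular vector: conjugacy in `O` implies conjugacy under `Ω`, in
characteristic two. -/
theorem omega_conj_of_fixed_gen (h2 : (2 : F) = 0) (Q : QuadraticForm F (ι → F))
    (hQ : (QuadraticMap.polarBilin Q).Nondegenerate)
    (hcard : Fintype.card F ≠ 2 ∨ Fintype.card ι ≠ 4 ∨
      ∀ U : Submodule F (ι → F), (∀ u ∈ U, Q u = 0) → finrank F U ≤ 1)
    (t s g : ↥(Cfsg.isometryGroup F ⇑Q)) (hg : g * t * g⁻¹ = s)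
    (v : ι → F) (hv : Q v ≠ 0)
    (htv : ((t : Matrix.GeneralLinearGroup ι F) : Matrix ι ι F) *ᵥ v = v) :
    ∃ g' ∈ commutator ↥(Cfsg.isometryGroup F ⇑Q), g' * t * g'⁻¹ = s := by
  by_cases hgc : g ∈ commutator ↥(Cfsg.isometryGroup F ⇑Q)
  · exact ⟨g, hgc, hg⟩
  · obtain ⟨r, hr⟩ : ∃ r, r = reflElt Q hQ v hv := ⟨_, rfl⟩
    have hcomm : t * r * t⁻¹ = r := by
      rw [hr, conj_reflElt Q hQ t v hv]
      apply isom_ext
      rw [reflElt_coe, reflElt_coe, htv]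
    have hrt : r * t * r⁻¹ = t := by
      rw [mul_inv_eq_iff_eq_mul] at hcomm ⊢
      exact hcomm.symm
    refine ⟨g * r, ?_, ?_⟩
    · rw [mem_commutator_iff_dickson_gen h2 Q hQ hcard,
        dickson_mul Q hQ (DicksonGen.exists_eq_prodElt_char2_gen h2 Q hQ hcard), hr,
        dickson_reflElt]
      have : dickson ⇑Q g = -1 := by
        rcases Int.units_eq_one_or (dickson ⇑Q g) with h | h
        · exact absurd ((mem_commutator_iff_dickson_gen h2 Q hQ hcard g).mpr h) hgc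
        · exact h
      rw [this]
      rfl
    · rw [← hg, _root_.mul_inv_rev]
      calc g * r * t * (r⁻¹ * g⁻¹) = g * (r * t * r⁻¹) * g⁻¹ := by group
        _ = g * t * g⁻¹ := by rw [hrt]

/-- Function-form version of `omega_conj_of_fixed_gen`. -/
theorem omega_conj_of_fixed_fun_gen (h2 : (2 : F) = 0) (Qf : (ι → F) → F)
    (Q : QuadraticForm F (ι → F)) (hQf : ⇑Q = Qf)
    (hQ : (QuadraticMap.polarBilin Q).Nondegenerate)
    (hcard : Fintype.card F ≠ 2 ∨ Fintype.card ι ≠ 4 ∨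
      ∀ U : Submodule F (ι → F), (∀ u ∈ U, Q u = 0) → finrank F U ≤ 1)
    (t s : ↥(Cfsg.isometryGroup F Qf)) (hconj : IsConj t s)
    (hfix : ∃ v, Qf v ≠ 0 ∧ ((t : Matrix.GeneralLinearGroup ι F) : Matrix ι ι F) *ᵥ v = v) :
    ∃ g ∈ Cfsg.Omega F Qf, g * t * g⁻¹ = s := by
  subst hQf
  obtain ⟨g, hg⟩ := isConj_iff.mp hconj
  obtain ⟨v, hv, htv⟩ := hfix
  exact omega_conj_of_fixed_gen h2 Q hQ hcard t s g hg v hv htv

theorem mem_omega_iff_even_rank_fun_gen (h2 : (2 : F) = 0) (Qf : (ι → F) → F)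
    (Q : QuadraticForm F (ι → F)) (hQf : ⇑Q = Qf)
    (hQ : (QuadraticMap.polarBilin Q).Nondegenerate)
    (hcard : Fintype.card F ≠ 2 ∨ Fintype.card ι ≠ 4 ∨
      ∀ U : Submodule F (ι → F), (∀ u ∈ U, Q u = 0) → finrank F U ≤ 1)
    (g : ↥(Cfsg.isometryGroup F Qf)) :
    g ∈ Cfsg.Omega F Qf ↔
      Even (((g : Matrix.GeneralLinearGroup ι F) : Matrix ι ι F) - 1).rank := by
  subst hQf
  exact DicksonGen.mem_commutator_iff_even_rank_gen h2 Q hQ hcard g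

end general

section minus

variable (k : ℕ) (F : Type*) [Field F]

/-- The non-alternating representative (rank `j + 1`) as a group element. -/
def mns (h2 : (2 : F) = 0) (a b : F) (j : ℕ) : ↥(Cfsg.isometryGroup F (Cfsg.quadFormMinus k F a b)) :=
  OrthInvClass.mkInv (Cfsg.quadFormMinus k F a b)
    (MinusReps.blk k F (InvReps.swapM k F j) (MinusReps.rho F a))
    (MinusReps.blk_sq _ _ (InvReps.swapM_sq k F _) (MinusReps.rho_sq h2 a))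
    (MinusReps.blk_quad a b _ _ (InvReps.swapM_quad k F _) (MinusReps.rho_norm h2 a b))

/-- The alternating representative (rank `2 j`) as a group element. -/
def mal (h2 : (2 : F) = 0) (a b : F) (j : ℕ) : ↥(Cfsg.isometryGroup F (Cfsg.quadFormMinus k F a b)) :=
  OrthInvClass.mkInv (Cfsg.quadFormMinus k F a b)
    (MinusReps.blk k F (InvReps.altM k F j) 1)
    (MinusReps.blk_sq _ _ (InvReps.altM_sq k F _ h2) (mul_one 1))
    (MinusReps.blk_quad a b _ _ (InvReps.altM_quad k F _ h2)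
      (fun z => by rw [Matrix.one_mulVec]))

theorem mns_rank (h2 : (2 : F) = 0) (a b : F) (ha : a ≠ 0) (j : ℕ) (hj : j ≤ k) :
    ((((mns k F h2 a b j) : GL ((Fin k ⊕ Fin k) ⊕ Fin 2) F) : Matrix ((Fin k ⊕ Fin k) ⊕ Fin 2) ((Fin k ⊕ Fin k) ⊕ Fin 2) F) - 1).rank = j + 1 := by
  show (MinusReps.blk k F (InvReps.swapM k F j) (MinusReps.rho F a) - 1).rank = _
  rw [MinusReps.blk_rank, InvReps.swapM_rank k F j hj, MinusReps.rho_rank a ha]

theorem mal_rank (h2 : (2 : F) = 0) (a b : F) (j : ℕ) (hj : 2 * j ≤ k) :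
    ((((mal k F h2 a b j) : GL ((Fin k ⊕ Fin k) ⊕ Fin 2) F) : Matrix ((Fin k ⊕ Fin k) ⊕ Fin 2) ((Fin k ⊕ Fin k) ⊕ Fin 2) F) - 1).rank = 2 * j := by
  show (MinusReps.blk k F (InvReps.altM k F j) 1 - 1).rank = _
  rw [MinusReps.blk_rank, InvReps.altM_rank k F j hj, sub_self, Matrix.rank_zero]
  rfl

theorem mns_type (h2 : (2 : F) = 0) (a b : F) (ha : a ≠ 0) (j : ℕ) :
    ¬ ∀ v, Cfsg.quadFormMinus k F a b (v + (((mns k F h2 a b j) : GL ((Fin k ⊕ Fin k) ⊕ Fin 2) F) : Matrix ((Fin k ⊕ Fin k) ⊕ Fin 2) ((Fin k ⊕ Fin k) ⊕ Fin 2) F) *ᵥ v) = 0 := by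
  intro hall
  have h1 := hall (Pi.single (Sum.inr 1) 1)
  change Cfsg.quadFormMinus k F a b (Pi.single (Sum.inr 1) 1 +
    Matrix.mulVec (MinusReps.blk k F (InvReps.swapM k F j) (MinusReps.rho F a))
      (Pi.single (Sum.inr 1) 1)) = 0 at h1
  rw [MinusReps.blk_type, MinusReps.rho_mulVec] at h1
  have e0 : (fun i : Fin k ⊕ Fin k =>
      (Pi.single (Sum.inr 1) 1 : ((Fin k ⊕ Fin k) ⊕ Fin 2) → F) (Sum.inl i)) = 0 := by
    funext i
    simp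
  rw [e0, Matrix.mulVec_zero, add_zero] at h1
  have e1 : Cfsg.quadFormPlus k F 0 = 0 := by
    unfold Cfsg.quadFormPlus
    simp
  rw [e1] at h1
  simp only [Pi.add_apply, Matrix.cons_val_zero, Matrix.cons_val_one, Matrix.cons_val_fin_one,
    Pi.single_eq_same, ne_eq, Sum.inr.injEq, zero_ne_one, not_false_eq_true,
    Pi.single_eq_of_ne, zero_add, mul_one] at h1
  have h3 : a ^ 2 = 0 := by linear_combination h1 - (a ^ 2 + 2 * b) * h2
  exact ha (pow_eq_zero_iff (by norm_num) |>.mp h3)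

theorem mal_type (h2 : (2 : F) = 0) (a b : F) (j : ℕ) (v : (Fin k ⊕ Fin k) ⊕ Fin 2 → F) :
    Cfsg.quadFormMinus k F a b (v + (((mal k F h2 a b j) : GL ((Fin k ⊕ Fin k) ⊕ Fin 2) F) : Matrix ((Fin k ⊕ Fin k) ⊕ Fin 2) ((Fin k ⊕ Fin k) ⊕ Fin 2) F) *ᵥ v) = 0 := by
  change Cfsg.quadFormMinus k F a b (v +
    Matrix.mulVec (MinusReps.blk k F (InvReps.altM k F j) 1) v) = 0
  rw [MinusReps.blk_type, InvReps.altM_type k F j h2, Matrix.one_mulVec]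
  simp only [Pi.add_apply]
  linear_combination (2 * v (Sum.inr 0) ^ 2 + 2 * a * v (Sum.inr 0) * v (Sum.inr 1) +
    2 * b * v (Sum.inr 1) ^ 2) * h2

theorem mns_order (h2 : (2 : F) = 0) (a b : F) (ha : a ≠ 0) (j : ℕ) (hj : j ≤ k) :
    orderOf (mns k F h2 a b j) = 2 := by
  apply OrthInvClass.orderOf_mkInv
  intro h
  have := mns_rank k F h2 a b ha j hj
  change (MinusReps.blk k F (InvReps.swapM k F j) (MinusReps.rho F a) - 1).rank = _ at this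
  rw [h, sub_self, Matrix.rank_zero] at this
  omega

theorem mal_order (h2 : (2 : F) = 0) (a b : F) (j : ℕ) (hj1 : 1 ≤ j) (hj : 2 * j ≤ k) :
    orderOf (mal k F h2 a b j) = 2 := by
  apply OrthInvClass.orderOf_mkInv
  intro h
  have := mal_rank k F h2 a b j hj
  change (MinusReps.blk k F (InvReps.altM k F j) 1 - 1).rank = _ at this
  rw [h, sub_self, Matrix.rank_zero] at this
  omega

variable [Fintype F]

theorem minus_hcard (h2 : (2 : F) = 0) (a b : F)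
    (hab : ∀ z₁ z₂ : F, z₁ ^ 2 + a * z₁ * z₂ + b * z₂ ^ 2 = 0 → z₁ = 0 ∧ z₂ = 0) :
    Fintype.card F ≠ 2 ∨ Fintype.card ((Fin k ⊕ Fin k) ⊕ Fin 2) ≠ 4 ∨
      ∀ U : Submodule F ((Fin k ⊕ Fin k) ⊕ Fin 2 → F),
        (∀ u ∈ U, minusQF k F a b u = 0) → finrank F U ≤ 1 := by
  by_cases hk : k = 1
  · right
    right
    intro U hU
    have := OmegaConj.minus_ts_finrank_le k F a b hab (minusQF_nondegenerate_char2 k F h2 a b hab) U
      (fun u hu => by rw [← minusQF_coe]; exact hU u hu)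
    omega
  · right
    left
    simp only [Fintype.card_sum, Fintype.card_fin]
    omega

theorem minus_mem_omega_iff (h2 : (2 : F) = 0) (a b : F)
    (hab : ∀ z₁ z₂ : F, z₁ ^ 2 + a * z₁ * z₂ + b * z₂ ^ 2 = 0 → z₁ = 0 ∧ z₂ = 0) (g : ↥(Cfsg.isometryGroup F (Cfsg.quadFormMinus k F a b))) :
    g ∈ Cfsg.Omega F (Cfsg.quadFormMinus k F a b) ↔ Even (((g : GL ((Fin k ⊕ Fin k) ⊕ Fin 2) F) : Matrix ((Fin k ⊕ Fin k) ⊕ Fin 2) ((Fin k ⊕ Fin k) ⊕ Fin 2) F) - 1).rank :=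
  mem_omega_iff_even_rank_fun_gen h2 _ (minusQF k F a b) (minusQF_coe k F a b)
    (minusQF_nondegenerate_char2 k F h2 a b hab) (minus_hcard k F h2 a b hab) g

/-- Involutions of `O⁻` that are conjugate in `O` are conjugate under `Ω`. -/
theorem minus_conj (h2 : (2 : F) = 0) (a b : F)
    (hab : ∀ z₁ z₂ : F, z₁ ^ 2 + a * z₁ * z₂ + b * z₂ ^ 2 = 0 → z₁ = 0 ∧ z₂ = 0)
    (t s : ↥(Cfsg.isometryGroup F (Cfsg.quadFormMinus k F a b))) (ht : orderOf t = 2) (hconj : IsConj t s) :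
    ∃ g ∈ Cfsg.Omega F (Cfsg.quadFormMinus k F a b), g * t * g⁻¹ = s :=
  omega_conj_of_fixed_fun_gen h2 _ (minusQF k F a b) (minusQF_coe k F a b)
    (minusQF_nondegenerate_char2 k F h2 a b hab) (minus_hcard k F h2 a b hab) t s hconj
    (OmegaConj.minus_exists_fixed k F h2 a b hab ((t : GL ((Fin k ⊕ Fin k) ⊕ Fin 2) F) : Matrix ((Fin k ⊕ Fin k) ⊕ Fin 2) ((Fin k ⊕ Fin k) ⊕ Fin 2) F) (OrthInvClass.coe_sq_of_order_two t ht).1)

/-- Classification of involutions of `O⁻`, non-alternating type. -/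
theorem minus_isConj_ns (h2 : (2 : F) = 0) (a b : F)
    (hab : ∀ z₁ z₂ : F, z₁ ^ 2 + a * z₁ * z₂ + b * z₂ ^ 2 = 0 → z₁ = 0 ∧ z₂ = 0)
    (t : ↥(Cfsg.isometryGroup F (Cfsg.quadFormMinus k F a b))) (ht : orderOf t = 2)
    (hty : ¬ ∀ v, Cfsg.quadFormMinus k F a b (v + ((t : GL ((Fin k ⊕ Fin k) ⊕ Fin 2) F) : Matrix ((Fin k ⊕ Fin k) ⊕ Fin 2) ((Fin k ⊕ Fin k) ⊕ Fin 2) F) *ᵥ v) = 0) :
    1 ≤ (((t : GL ((Fin k ⊕ Fin k) ⊕ Fin 2) F) : Matrix ((Fin k ⊕ Fin k) ⊕ Fin 2) ((Fin k ⊕ Fin k) ⊕ Fin 2) F) - 1).rank ∧ (((t : GL ((Fin k ⊕ Fin k) ⊕ Fin 2) F) : Matrix ((Fin k ⊕ Fin k) ⊕ Fin 2) ((Fin k ⊕ Fin k) ⊕ Fin 2) F) - 1).rank ≤ k + 1 ∧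
      IsConj t (mns k F h2 a b ((((t : GL ((Fin k ⊕ Fin k) ⊕ Fin 2) F) : Matrix ((Fin k ⊕ Fin k) ⊕ Fin 2) ((Fin k ⊕ Fin k) ⊕ Fin 2) F) - 1).rank - 1)) := by
  have ha : a ≠ 0 := minus_coeff_ne_zero_char2 F h2 a b hab
  obtain ⟨hT2, hT1⟩ := OrthInvClass.coe_sq_of_order_two t ht
  have hs1 := OrthInvClass.rank_sub_one_pos _ hT1
  have hs2 := OrthInvClass.two_mul_rank_le h2 _ hT2
  rw [Fintype.card_sum, Fintype.card_sum, Fintype.card_fin, Fintype.card_fin] at hs2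
  have hsm : (((t : GL ((Fin k ⊕ Fin k) ⊕ Fin 2) F) : Matrix ((Fin k ⊕ Fin k) ⊕ Fin 2) ((Fin k ⊕ Fin k) ⊕ Fin 2) F) - 1).rank ≤ k + 1 := by omega
  refine ⟨hs1, hsm, ?_⟩
  rw [OrthInvClass.isConj_iff_invariants h2 _ (minusQF k F a b) (minusQF_coe k F a b)
    (minusQF_nondegenerate_char2 k F h2 a b hab) t _ ht
    (mns_order k F h2 a b ha _ (by omega))]
  refine ⟨by rw [mns_rank k F h2 a b ha _ (by omega)]; omega, ?_⟩
  constructor
  · intro h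
    exact absurd h hty
  · intro h
    exact absurd h (mns_type k F h2 a b ha _)

/-- Classification of involutions of `O⁻`, alternating type. -/
theorem minus_isConj_al (h2 : (2 : F) = 0) (a b : F)
    (hab : ∀ z₁ z₂ : F, z₁ ^ 2 + a * z₁ * z₂ + b * z₂ ^ 2 = 0 → z₁ = 0 ∧ z₂ = 0)
    (t : ↥(Cfsg.isometryGroup F (Cfsg.quadFormMinus k F a b))) (ht : orderOf t = 2)
    (hty : ∀ v, Cfsg.quadFormMinus k F a b (v + ((t : GL ((Fin k ⊕ Fin k) ⊕ Fin 2) F) : Matrix ((Fin k ⊕ Fin k) ⊕ Fin 2) ((Fin k ⊕ Fin k) ⊕ Fin 2) F) *ᵥ v) = 0) :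
    ∃ j, 1 ≤ j ∧ 2 * j ≤ k ∧ (((t : GL ((Fin k ⊕ Fin k) ⊕ Fin 2) F) : Matrix ((Fin k ⊕ Fin k) ⊕ Fin 2) ((Fin k ⊕ Fin k) ⊕ Fin 2) F) - 1).rank = 2 * j ∧ IsConj t (mal k F h2 a b j) := by
  have hQ := minusQF_nondegenerate_char2 k F h2 a b hab
  have hQc := minusQF_coe k F a b
  obtain ⟨hT2, hT1⟩ := OrthInvClass.coe_sq_of_order_two t ht
  have hs1 := OrthInvClass.rank_sub_one_pos _ hT1
  obtain ⟨j, hj⟩ := OrthInvClass.even_rank_of_alt_type h2 (minusQF k F a b) hQ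
    ((t : GL ((Fin k ⊕ Fin k) ⊕ Fin 2) F) : Matrix ((Fin k ⊕ Fin k) ⊕ Fin 2) ((Fin k ⊕ Fin k) ⊕ Fin 2) F) (fun v => by rw [hQc]; exact t.2 v v) hT2
    (fun v => by rw [hQc]; exact hty v)
  have hts : (((t : GL ((Fin k ⊕ Fin k) ⊕ Fin 2) F) : Matrix ((Fin k ⊕ Fin k) ⊕ Fin 2) ((Fin k ⊕ Fin k) ⊕ Fin 2) F) - 1).rank ≤ k := by
    apply OmegaConj.minus_ts_finrank_le k F a b hab hQ
      (LinearMap.range (((t : GL ((Fin k ⊕ Fin k) ⊕ Fin 2) F) : Matrix ((Fin k ⊕ Fin k) ⊕ Fin 2) ((Fin k ⊕ Fin k) ⊕ Fin 2) F) - 1).mulVecLin)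
    rintro _ ⟨v, rfl⟩
    have e : (((t : GL ((Fin k ⊕ Fin k) ⊕ Fin 2) F) : Matrix ((Fin k ⊕ Fin k) ⊕ Fin 2) ((Fin k ⊕ Fin k) ⊕ Fin 2) F) - 1).mulVecLin v = v + Matrix.mulVec ((t : GL ((Fin k ⊕ Fin k) ⊕ Fin 2) F) : Matrix ((Fin k ⊕ Fin k) ⊕ Fin 2) ((Fin k ⊕ Fin k) ⊕ Fin 2) F) v := by
      rw [Matrix.mulVecLin_apply, Matrix.sub_mulVec, Matrix.one_mulVec]
      funext i
      simp only [Pi.add_apply, Pi.sub_apply]
      linear_combination (-(v i)) * h2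
    rw [e]
    exact hty v
  have hj1 : 1 ≤ j := by omega
  have hj2 : 2 * j ≤ k := by omega
  refine ⟨j, hj1, hj2, by omega, ?_⟩
  rw [OrthInvClass.isConj_iff_invariants h2 _ (minusQF k F a b) hQc hQ t _ ht
    (mal_order k F h2 a b j hj1 hj2)]
  refine ⟨by rw [mal_rank k F h2 a b j hj2]; omega, ?_⟩
  constructor
  · intro _
    exact mal_type k F h2 a b j
  · intro _
    exact hty

end minus

end Cfsg.Agent.Lib.Helper8.OmegaMinus
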