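import Mathlib
import Cfsg.Agent.Lib.Helper8.SympInv
import Cfsg.Agent.Lib.Helper8.InvReps
import Cfsg.Agent.Lib.Helper8.OrthInvClass

set_option autoImplicit false

namespace Cfsg.Agent.Lib.Helper8.SpInvClass

open Matrix Module Cfsg.Agent.Lib.Helper13

variable {F : Type*} [Field F] {m : ℕ}

/-- In characteristic two the standard symplectic form is the polar form of `Σ x_i y_i`. -/
theorem sympForm_eq_polar (h2 : (2 : F) = 0) (u v : Fin m ⊕ Fin m → F) :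
    Cfsg.sympForm m F u v =
      Cfsg.quadFormPlus m F (u + v) - Cfsg.quadFormPlus m F u - Cfsg.quadFormPlus m F v := by
  rw [sympForm_eq]
  unfold Cfsg.quadFormPlus
  rw [← Finset.sum_sub_distrib, ← Finset.sum_sub_distrib]
  apply Finset.sum_congr rfl
  intro i _
  simp only [Pi.add_apply]
  linear_combination (-(u (Sum.inl i) * v (Sum.inr i))) * h2

theorem mem_sp_of_quad (h2 : (2 : F) = 0) (M : Matrix (Fin m ⊕ Fin m) (Fin m ⊕ Fin m) F)
    (hM : ∀ v, Cfsg.quadFormPlus m F (M *ᵥ v) = Cfsg.quadFormPlus m F v) :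
    M ∈ Matrix.symplecticGroup (Fin m) F := by
  apply mem_symplecticGroup_of_sympForm m
  intro u v
  rw [sympForm_eq_polar h2, sympForm_eq_polar h2, ← Matrix.mulVec_add, hM, hM, hM]

theorem symp_type_of_quad (h2 : (2 : F) = 0) (M : Matrix (Fin m ⊕ Fin m) (Fin m ⊕ Fin m) F)
    (hM : ∀ v, Cfsg.quadFormPlus m F (M *ᵥ v) = Cfsg.quadFormPlus m F v)
    (v : Fin m ⊕ Fin m → F) :
    Cfsg.sympForm m F v (M *ᵥ v) = Cfsg.quadFormPlus m F (v + M *ᵥ v) := by
  rw [sympForm_eq_polar h2, hM]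
  linear_combination (-(Cfsg.quadFormPlus m F v)) * h2

theorem coe_sq_of_order_two (a : ↥(Matrix.symplecticGroup (Fin m) F)) (ha : orderOf a = 2) :
    (a : Matrix (Fin m ⊕ Fin m) (Fin m ⊕ Fin m) F) * (a : Matrix (Fin m ⊕ Fin m) (Fin m ⊕ Fin m) F)
      = 1 ∧ (a : Matrix (Fin m ⊕ Fin m) (Fin m ⊕ Fin m) F) ≠ 1 := by
  constructor
  · have h : a ^ orderOf a = 1 := pow_orderOf_eq_one a
    rw [ha, pow_two] at h
    exact congrArg Subtype.val h
  · intro h
    have h1 : a = 1 := Subtype.ext h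
    rw [h1, orderOf_one] at ha
    omega

/-- Conjugacy of involutions in `Sp_{2m}(F)`, characteristic two: rank and type. -/
theorem isConj_iff_invariants [Finite F] (h2 : (2 : F) = 0)
    (a b : ↥(Matrix.symplecticGroup (Fin m) F)) (ha : orderOf a = 2) (hb : orderOf b = 2) :
    IsConj a b ↔ (((a : Matrix (Fin m ⊕ Fin m) (Fin m ⊕ Fin m) F) - 1).rank =
        ((b : Matrix (Fin m ⊕ Fin m) (Fin m ⊕ Fin m) F) - 1).rank ∧
      ((∀ v, Cfsg.sympForm m F v ((a : Matrix (Fin m ⊕ Fin m) (Fin m ⊕ Fin m) F) *ᵥ v) = 0) ↔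
        (∀ v, Cfsg.sympForm m F v ((b : Matrix (Fin m ⊕ Fin m) (Fin m ⊕ Fin m) F) *ᵥ v) = 0))) := by
  constructor
  · intro h
    obtain ⟨c, hc⟩ := isConj_iff.mp h
    have hcc : (c : Matrix (Fin m ⊕ Fin m) (Fin m ⊕ Fin m) F) *
        ((c⁻¹ : ↥(Matrix.symplecticGroup (Fin m) F)) : Matrix (Fin m ⊕ Fin m) (Fin m ⊕ Fin m) F)
          = 1 := congrArg Subtype.val (mul_inv_cancel c)
    have hcc' : ((c⁻¹ : ↥(Matrix.symplecticGroup (Fin m) F)) :
        Matrix (Fin m ⊕ Fin m) (Fin m ⊕ Fin m) F) *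
        (c : Matrix (Fin m ⊕ Fin m) (Fin m ⊕ Fin m) F) = 1 :=
      congrArg Subtype.val (inv_mul_cancel c)
    have hb' : (b : Matrix (Fin m ⊕ Fin m) (Fin m ⊕ Fin m) F) =
        (c : Matrix (Fin m ⊕ Fin m) (Fin m ⊕ Fin m) F) *
          (a : Matrix (Fin m ⊕ Fin m) (Fin m ⊕ Fin m) F) *
        ((c⁻¹ : ↥(Matrix.symplecticGroup (Fin m) F)) :
          Matrix (Fin m ⊕ Fin m) (Fin m ⊕ Fin m) F) := by
      rw [← hc]
      rfl
    have key : ∀ v, Cfsg.sympForm m F ((c : Matrix (Fin m ⊕ Fin m) (Fin m ⊕ Fin m) F) *ᵥ v)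
        ((b : Matrix (Fin m ⊕ Fin m) (Fin m ⊕ Fin m) F) *ᵥ
          ((c : Matrix (Fin m ⊕ Fin m) (Fin m ⊕ Fin m) F) *ᵥ v)) =
        Cfsg.sympForm m F v ((a : Matrix (Fin m ⊕ Fin m) (Fin m ⊕ Fin m) F) *ᵥ v) := by
      intro v
      have e : (b : Matrix (Fin m ⊕ Fin m) (Fin m ⊕ Fin m) F) *ᵥ
          ((c : Matrix (Fin m ⊕ Fin m) (Fin m ⊕ Fin m) F) *ᵥ v) =
          (c : Matrix (Fin m ⊕ Fin m) (Fin m ⊕ Fin m) F) *ᵥ
            ((a : Matrix (Fin m ⊕ Fin m) (Fin m ⊕ Fin m) F) *ᵥ v) := by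
        rw [Matrix.mulVec_mulVec, Matrix.mulVec_mulVec, hb', Matrix.mul_assoc, hcc',
          Matrix.mul_one]
      rw [e, sympForm_mulVec_of_mem m c.2]
    constructor
    · have e : (b : Matrix (Fin m ⊕ Fin m) (Fin m ⊕ Fin m) F) - 1 =
          (c : Matrix (Fin m ⊕ Fin m) (Fin m ⊕ Fin m) F) *
            ((a : Matrix (Fin m ⊕ Fin m) (Fin m ⊕ Fin m) F) - 1) *
          ((c⁻¹ : ↥(Matrix.symplecticGroup (Fin m) F)) :
            Matrix (Fin m ⊕ Fin m) (Fin m ⊕ Fin m) F) := by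
        rw [hb', Matrix.mul_sub, Matrix.sub_mul, Matrix.mul_one, hcc]
      rw [e, Matrix.rank_mul_eq_left_of_isUnit_det _ _
          (SymplecticGroup.symplectic_det (c⁻¹).2),
        Matrix.rank_mul_eq_right_of_isUnit_det _ _ (SymplecticGroup.symplectic_det c.2)]
    · constructor
      · intro hall w
        have := key (((c⁻¹ : ↥(Matrix.symplecticGroup (Fin m) F)) :
          Matrix (Fin m ⊕ Fin m) (Fin m ⊕ Fin m) F) *ᵥ w)
        rw [Matrix.mulVec_mulVec, hcc, Matrix.one_mulVec] at this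
        rw [this]
        exact hall _
      · intro hall v
        rw [← key]
        exact hall _
  · rintro ⟨hr, hty⟩
    obtain ⟨G, hG, hGAB⟩ := Cfsg.Agent.Lib.Helper8.SympInv.exists_sp_conj h2 _ _ a.2 b.2
      (coe_sq_of_order_two a ha).1 (coe_sq_of_order_two b hb).1 hr hty
    rw [isConj_iff]
    refine ⟨⟨G, hG⟩, ?_⟩
    rw [mul_inv_eq_iff_eq_mul]
    apply Subtype.ext
    exact hGAB

/-- An involutory symplectic matrix as a group element. -/
def mkInv (M : Matrix (Fin m ⊕ Fin m) (Fin m ⊕ Fin m) F)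
    (hM : M ∈ Matrix.symplecticGroup (Fin m) F) : ↥(Matrix.symplecticGroup (Fin m) F) := ⟨M, hM⟩

theorem orderOf_mkInv (M : Matrix (Fin m ⊕ Fin m) (Fin m ⊕ Fin m) F)
    (hM : M ∈ Matrix.symplecticGroup (Fin m) F) (hM2 : M * M = 1) (hne : M ≠ 1) :
    orderOf (mkInv M hM) = 2 := by
  apply orderOf_eq_prime
  · rw [pow_two]
    apply Subtype.ext
    exact hM2
  · intro h
    apply hne
    exact congrArg Subtype.val h

/-- An involution of `Sp` of alternating type has even rank. -/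
theorem even_rank_of_alt_type [Finite F] (h2 : (2 : F) = 0)
    (A : Matrix (Fin m ⊕ Fin m) (Fin m ⊕ Fin m) F)
    (hA : A ∈ Matrix.symplecticGroup (Fin m) F) (hA2 : A * A = 1)
    (h0 : ∀ v, Cfsg.sympForm m F v (A *ᵥ v) = 0) : Even (A - 1).rank :=
  Cfsg.Agent.Lib.Helper8.SympInv.even_finrank_range_of_alt_type h2 (sympBilin m F)
    sympBilin_nondegenerate sympBilin_isAlt (A - 1).mulVecLin
    (Cfsg.Agent.Lib.Helper8.SympInv.symp_selfadjoint hA hA2)
    ((Cfsg.Agent.Lib.Helper8.SympInv.symp_type_iff A).mpr h0)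

/-- Counting involution classes of `Sp` from representatives with known invariants. -/
theorem card_involution_classes [Finite F] (h2 : (2 : F) = 0) {I : Type*} [Fintype I]
    (R : I → ↥(Matrix.symplecticGroup (Fin m) F)) (rk : I → ℕ) (ty : I → Prop)
    (hR2 : ∀ x, orderOf (R x) = 2)
    (hrk : ∀ x, ((R x : Matrix (Fin m ⊕ Fin m) (Fin m ⊕ Fin m) F) - 1).rank = rk x)
    (hty : ∀ x, (∀ v, Cfsg.sympForm m F v
      ((R x : Matrix (Fin m ⊕ Fin m) (Fin m ⊕ Fin m) F) *ᵥ v) = 0) ↔ ty x)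
    (hinj : ∀ x y, rk x = rk y → (ty x ↔ ty y) → x = y)
    (hsurj : ∀ t : ↥(Matrix.symplecticGroup (Fin m) F), orderOf t = 2 →
      ∃ x, ((t : Matrix (Fin m ⊕ Fin m) (Fin m ⊕ Fin m) F) - 1).rank = rk x ∧
        ((∀ v, Cfsg.sympForm m F v
          ((t : Matrix (Fin m ⊕ Fin m) (Fin m ⊕ Fin m) F) *ᵥ v) = 0) ↔ ty x)) :
    Nat.card {C : ConjClasses ↥(Matrix.symplecticGroup (Fin m) F) //
      ∃ g : ↥(Matrix.symplecticGroup (Fin m) F), ConjClasses.mk g = C ∧ orderOf g = 2} =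
      Fintype.card I := by
  apply Cfsg.Agent.Lib.Helper8.OrthInvClass.card_classes_of_reps R hR2
  · intro x y hxy
    have := (isConj_iff_invariants h2 (R x) (R y) (hR2 x) (hR2 y)).mp hxy
    apply hinj x y
    · rw [← hrk x, ← hrk y]
      exact this.1
    · rw [← hty x, ← hty y]
      exact this.2
  · intro t ht
    obtain ⟨x, hx1, hx2⟩ := hsurj t ht
    refine ⟨x, (isConj_iff_invariants h2 t (R x) ht (hR2 x)).mpr ⟨?_, ?_⟩⟩
    · rw [hx1, hrk x]
    · rw [hx2, hty x]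

end Cfsg.Agent.Lib.Helper8.SpInvClass
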