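import Mathlib
import Cfsg.Agent.Lib.Helper13.SpParab
import Cfsg.Agent.Lib.Helper40.SympOrder
import Cfsg.Agent.Lib.Helper8.SympInv
import Cfsg.Agent.Lib.Helper8.UnitaryInv
import Cfsg.Agent.Lib.Helper8.OrthInvClass
import Cfsg.Agent.Lib.Helper8.SpInvClass
import Cfsg.Agent.S2594
import Cfsg.Agent.S0245

set_option autoImplicit false

/-! Centraliser orders of involutions of `Sp_2m(q)`, `q` even. -/

namespace Cfsg.Agent.Lib.Helper8.SpInvCent

open Matrix Module Cfsg.Agent.Lib.Helper13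

universe u

section abstract

variable {F : Type*} [Field F] {V : Type*} [AddCommGroup V] [Module F V]

/-- The kernel of a self-adjoint map is orthogonal to its range. -/
theorem ker_perp (B : LinearMap.BilinForm F V) (N : V →ₗ[F] V)
    (hN : ∀ x y, B (N x) y = B x (N y)) {v : V} (hv : N v = 0) (w : LinearMap.range N) :
    B v (w : V) = 0 := by
  obtain ⟨y, hy⟩ := w.2
  rw [← hy, ← hN, hv, map_zero, LinearMap.zero_apply]

/-- An isometry commuting with the self-adjoint map `N` preserves the induced form on the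
range of `N`. -/
theorem gram_of_comm (B : LinearMap.BilinForm F V) (N : V →ₗ[F] V)
    (hN : ∀ x y, B (N x) y = B x (N y)) (s : LinearMap.range N →ₗ[F] V)
    (hNs : ∀ w, N (s w) = (w : V)) (g : V →ₗ[F] V) (hg : ∀ u v, B (g u) (g v) = B u v)
    (hgN : ∀ v, g (N v) = N (g v)) (w₁ w₂ w₁' w₂' : LinearMap.range N)
    (h₁ : (w₁' : V) = g w₁) (h₂ : (w₂' : V) = g w₂) :
    B (s w₁') (w₂' : V) = B (s w₁) (w₂ : V) := by
  have hd : N (s w₁' - g (s w₁)) = 0 := by
    rw [map_sub, hNs, ← hgN, hNs, h₁, sub_self]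
  have h := ker_perp B N hN hd w₂'
  rw [map_sub, LinearMap.sub_apply, sub_eq_zero] at h
  rw [h, h₂, hg]

end abstract

section master

variable {F : Type u} [Field F] [Fintype F] {m : ℕ}

/-- The counting identity for the centraliser of an involution `t` of `Sp_2m(q)`, `q` even:
`|C(t)|` times the number of isotropic frames of length `rank (t - 1)` equals the order of
the isometry group of the induced symmetric form (given by a model Gram matrix `B₀`) times
`|Sp_2m(q)|`. -/
theorem card_centralizer_mul (h2 : (2 : F) = 0) (t : ↥(Matrix.symplecticGroup (Fin m) F))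
    (hT2 : (t : Matrix (Fin m ⊕ Fin m) (Fin m ⊕ Fin m) F) *
      (t : Matrix (Fin m ⊕ Fin m) (Fin m ⊕ Fin m) F) = 1)
    {ι : Type} [Fintype ι] [DecidableEq ι] (B₀ : Matrix ι ι F)
    (hB₀S : ∀ x y, Matrix.toBilin' B₀ x y = Matrix.toBilin' B₀ y x)
    (hB₀N : (Matrix.toBilin' B₀).Nondegenerate)
    (hcard : Fintype.card ι = ((t : Matrix (Fin m ⊕ Fin m) (Fin m ⊕ Fin m) F) - 1).rank)
    (htype : (∀ x, Matrix.toBilin' B₀ x x = 0) ↔
      (∀ v, Cfsg.sympForm m F v ((t : Matrix (Fin m ⊕ Fin m) (Fin m ⊕ Fin m) F) *ᵥ v) = 0)) :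
    Nat.card ↥(Subgroup.centralizer ({t} : Set ↥(Matrix.symplecticGroup (Fin m) F))) *
        Nat.card ↥(isoTuples m F ((t : Matrix (Fin m ⊕ Fin m) (Fin m ⊕ Fin m) F) - 1).rank) =
      Nat.card {c : Matrix ι ι F // cᵀ * B₀ * c = B₀} *
        Nat.card ↥(Matrix.symplecticGroup (Fin m) F) := by
  classical
  obtain ⟨T, hTdef⟩ : ∃ T : Matrix (Fin m ⊕ Fin m) (Fin m ⊕ Fin m) F, T = ↑t := ⟨_, rfl⟩
  rw [← hTdef] at hT2 hcard htype ⊢
  have hTmem : T ∈ Matrix.symplecticGroup (Fin m) F := by rw [hTdef]; exact t.2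
  obtain ⟨N, hNdef⟩ : ∃ N : (Fin m ⊕ Fin m → F) →ₗ[F] (Fin m ⊕ Fin m → F),
      N = (T - 1).mulVecLin := ⟨_, rfl⟩
  have hNadj : ∀ x y, sympBilin m F (N x) y = sympBilin m F x (N y) := by
    rw [hNdef]
    exact SympInv.symp_selfadjoint hTmem hT2
  have hN2 : ∀ x, N (N x) = 0 := by
    intro x
    rw [hNdef, Matrix.mulVecLin_apply, Matrix.mulVecLin_apply, Matrix.mulVec_mulVec,
      SympInv.sub_one_sq' h2 T hT2, Matrix.zero_mulVec]
  have hNapp : ∀ x, N x = T *ᵥ x - x := by
    intro x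
    rw [hNdef, Matrix.mulVecLin_apply, Matrix.sub_mulVec, Matrix.one_mulVec]
  have hsymm : ∀ x y, sympBilin m F x y = sympBilin m F y x := by
    intro x y
    have h := LinearMap.IsAlt.neg (sympBilin_isAlt (m := m) (F := F)) x y
    rw [← h]
    linear_combination (sympBilin m F x y) * h2
  have hS : LinearMap.IsSymm (sympBilin m F) := ⟨fun x y => hsymm x y⟩
  obtain ⟨s, β, hNs, hβ, hβS, hβN⟩ :=
    UnitaryInv.exists_section_form (RingHom.id F) (sympBilin m F) hS sympBilin_nondegenerate N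
      hNadj
  have hrank : finrank F (LinearMap.range N) = (T - 1).rank := by
    rw [hNdef]
    rfl
  -- type of the induced form
  have hβtype : (∀ w, β w w = 0) ↔ (∀ v, Cfsg.sympForm m F v (T *ᵥ v) = 0) := by
    have key : ∀ x, β ⟨N x, LinearMap.mem_range_self N x⟩ ⟨N x, LinearMap.mem_range_self N x⟩ =
        Cfsg.sympForm m F x (T *ᵥ x) := by
      intro x
      rw [hβ]
      have e1 : sympBilin m F (s ⟨N x, LinearMap.mem_range_self N x⟩) (N x) =
          sympBilin m F (N (s ⟨N x, LinearMap.mem_range_self N x⟩)) x := (hNadj _ _).symm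
      change sympBilin m F (s ⟨N x, LinearMap.mem_range_self N x⟩) (N x) = _
      rw [e1, hNs]
      change sympBilin m F (N x) x = _
      rw [hsymm, sympBilin_apply, hNapp, sympForm_sub_right, sympForm_self, sub_zero]
    constructor
    · intro h x
      rw [← key x]
      exact h _
    · intro h w
      obtain ⟨x, hx⟩ := w.2
      have e1 : (⟨N x, LinearMap.mem_range_self N x⟩ : LinearMap.range N) = w := Subtype.ext hx
      rw [← e1, key x]
      exact h x
  -- a basis of the range with Gram matrix `B₀`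
  obtain ⟨φ, hφ⟩ := SympInv.symm_isometry_char2 h2 β (Matrix.toBilin' B₀)
    (fun x y => (hβS.eq y x).symm) hB₀S hβN hB₀N
    (by rw [hrank, Module.finrank_fintype_fun_eq_card, hcard]) (hβtype.trans htype.symm)
  obtain ⟨b', hb'⟩ : ∃ b' : Basis ι F (LinearMap.range N), ∀ i j, β (b' i) (b' j) = B₀ i j := by
    refine ⟨(Pi.basisFun F ι).map φ.symm, fun i j => ?_⟩
    rw [← hφ]
    simp [Matrix.toBilin'_single]
  -- a basis indexed by `Fin k`
  obtain ⟨k, hk⟩ : ∃ k, k = (T - 1).rank := ⟨_, rfl⟩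
  rw [← hk] at hrank ⊢
  obtain ⟨b⟩ : Nonempty (Basis (Fin k) F (LinearMap.range N)) :=
    ⟨Module.finBasisOfFinrankEq F _ hrank⟩
  obtain ⟨x₀, hx₀def⟩ : ∃ x₀ : Fin k → Fin m ⊕ Fin m → F, x₀ = fun i => (b i : Fin m ⊕ Fin m → F) :=
    ⟨_, rfl⟩
  obtain ⟨Tset, hTset⟩ : ∃ Tset : Set (Fin k → Fin m ⊕ Fin m → F),
      Tset = {x | ∃ ψ : LinearMap.range N →ₗ[F] LinearMap.range N,
        (∀ w w', β (ψ w) (ψ w') = β w w') ∧ ∀ i, x i = (ψ (b i) : Fin m ⊕ Fin m → F)} := ⟨_, rfl⟩
  have hψinj : ∀ ψ : LinearMap.range N →ₗ[F] LinearMap.range N,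
      (∀ w w', β (ψ w) (ψ w') = β w w') → Function.Injective ψ := by
    intro ψ hψ
    rw [← LinearMap.ker_eq_bot, LinearMap.ker_eq_bot']
    intro w hw
    apply hβN.1
    intro w'
    rw [← hψ, hw, map_zero, LinearMap.zero_apply]
  have hrange_iso : ∀ w w' : LinearMap.range N,
      Cfsg.sympForm m F (w : Fin m ⊕ Fin m → F) (w' : Fin m ⊕ Fin m → F) = 0 := by
    intro w w'
    obtain ⟨y, hy⟩ := w.2
    obtain ⟨y', hy'⟩ := w'.2
    rw [← hy, ← hy', ← sympBilin_apply, hNadj, hN2, map_zero]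
  have hTiso : ∀ x ∈ Tset, x ∈ isoTuples m F k := by
    intro x hx
    rw [hTset] at hx
    obtain ⟨ψ, hψ, hxψ⟩ := hx
    have hxe : x = fun i => ((ψ (b i) : LinearMap.range N) : Fin m ⊕ Fin m → F) := funext hxψ
    constructor
    · rw [hxe]
      have h1 : LinearIndependent F (fun i => ψ (b i)) :=
        b.linearIndependent.map' ψ (LinearMap.ker_eq_bot.mpr (hψinj ψ hψ))
      exact h1.map' (LinearMap.range N).subtype (Submodule.ker_subtype _)
    · intro i j
      rw [hxψ i, hxψ j]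
      exact hrange_iso _ _
  have hx₀T : x₀ ∈ Tset := by
    rw [hTset]
    exact ⟨LinearMap.id, fun w w' => rfl, fun i => by rw [hx₀def]; rfl⟩
  have hx₀ : x₀ ∈ isoTuples m F k := hTiso x₀ hx₀T
  -- the centraliser as a preimage
  have hS : ∀ A : ↥(Matrix.symplecticGroup (Fin m) F),
      A ∈ Subgroup.centralizer ({t} : Set ↥(Matrix.symplecticGroup (Fin m) F)) ↔
        A • x₀ ∈ Tset := by
    intro A
    have hAiso : ∀ u v, sympBilin m F ((A : Matrix (Fin m ⊕ Fin m) (Fin m ⊕ Fin m) F).mulVecLin u)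
        ((A : Matrix (Fin m ⊕ Fin m) (Fin m ⊕ Fin m) F).mulVecLin v) = sympBilin m F u v := by
      intro u v
      rw [sympBilin_apply, sympBilin_apply, Matrix.mulVecLin_apply, Matrix.mulVecLin_apply,
        sympForm_mulVec_of_mem m A.2]
    have hAx : ∀ i, (A • x₀) i =
        (A : Matrix (Fin m ⊕ Fin m) (Fin m ⊕ Fin m) F) *ᵥ (b i : Fin m ⊕ Fin m → F) := by
      intro i
      rw [hx₀def]
      rfl
    constructor
    · intro hA
      rw [Subgroup.mem_centralizer_iff] at hA
      have hcomm := hA t (Set.mem_singleton t)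
      have hcommM : T * (A : Matrix (Fin m ⊕ Fin m) (Fin m ⊕ Fin m) F) =
          (A : Matrix (Fin m ⊕ Fin m) (Fin m ⊕ Fin m) F) * T := by
        rw [hTdef]
        exact congrArg Subtype.val hcomm
      have hgN : ∀ v, (A : Matrix (Fin m ⊕ Fin m) (Fin m ⊕ Fin m) F).mulVecLin (N v) =
          N ((A : Matrix (Fin m ⊕ Fin m) (Fin m ⊕ Fin m) F).mulVecLin v) := by
        intro v
        rw [hNapp, hNapp, Matrix.mulVecLin_apply, Matrix.mulVecLin_apply, Matrix.mulVec_sub,
          Matrix.mulVec_mulVec, Matrix.mulVec_mulVec, hcommM]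
      have hmaps : ∀ w ∈ LinearMap.range N,
          (A : Matrix (Fin m ⊕ Fin m) (Fin m ⊕ Fin m) F).mulVecLin w ∈ LinearMap.range N := by
        rintro _ ⟨y, rfl⟩
        rw [hgN]
        exact LinearMap.mem_range_self N _
      rw [hTset]
      refine ⟨(A : Matrix (Fin m ⊕ Fin m) (Fin m ⊕ Fin m) F).mulVecLin.restrict hmaps, ?_, ?_⟩
      · intro w w'
        rw [hβ, hβ]
        exact gram_of_comm (sympBilin m F) N hNadj s hNs _ hAiso hgN w w' _ _ rfl rfl
      · intro i
        rw [hAx]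
        rfl
    · intro hA
      rw [hTset] at hA
      obtain ⟨ψ, hψ, hxψ⟩ := hA
      have hAψ : ∀ w : LinearMap.range N,
          (A : Matrix (Fin m ⊕ Fin m) (Fin m ⊕ Fin m) F) *ᵥ (w : Fin m ⊕ Fin m → F) =
            (ψ w : Fin m ⊕ Fin m → F) := by
        have e : (A : Matrix (Fin m ⊕ Fin m) (Fin m ⊕ Fin m) F).mulVecLin ∘ₗ
            (LinearMap.range N).subtype = (LinearMap.range N).subtype ∘ₗ ψ := by
          apply b.ext
          intro i
          simp only [LinearMap.coe_comp, Function.comp_apply, Submodule.coe_subtype,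
            Matrix.mulVecLin_apply]
          rw [← hAx, hxψ]
        intro w
        have := congrArg (fun f : LinearMap.range N →ₗ[F] (Fin m ⊕ Fin m → F) => f w) e
        simpa using this
      obtain ⟨φ', hφ'⟩ : ∃ φ' : LinearMap.range N ≃ₗ[F] LinearMap.range N, ∀ w, φ' w = ψ w :=
        ⟨LinearEquiv.ofInjectiveEndo ψ (hψinj ψ hψ), fun w => rfl⟩
      obtain ⟨g, hg⟩ : ∃ g : (Fin m ⊕ Fin m → F) ≃ₗ[F] (Fin m ⊕ Fin m → F),
          ∀ v, g v = (A : Matrix (Fin m ⊕ Fin m) (Fin m ⊕ Fin m) F) *ᵥ v :=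
        ⟨LinearEquiv.ofInjectiveEndo (A : Matrix (Fin m ⊕ Fin m) (Fin m ⊕ Fin m) F).mulVecLin
          (by
            intro v w h
            rw [Matrix.mulVecLin_apply, Matrix.mulVecLin_apply] at h
            exact symp_mulVec_injective A h), fun v => rfl⟩
      have hcomm : ∀ y, g (N y) = N (g y) := by
        intro y
        apply SympInv.conj_of_extension (sympBilin m F) sympBilin_nondegenerate N N hNadj hNadj
          s s hNs hNs φ' ?_ g ?_ ?_ y
        · intro w w'
          rw [hφ', hφ', ← hβ, ← hβ]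
          exact hψ w w'
        · intro u v
          rw [hg, hg]
          exact hAiso u v
        · intro x
          rw [hg, hφ']
          exact hAψ x
      rw [Subgroup.mem_centralizer_iff]
      intro h hh
      rw [Set.mem_singleton_iff] at hh
      subst hh
      apply Subtype.ext
      change (h : Matrix (Fin m ⊕ Fin m) (Fin m ⊕ Fin m) F) *
        (A : Matrix (Fin m ⊕ Fin m) (Fin m ⊕ Fin m) F) =
        (A : Matrix (Fin m ⊕ Fin m) (Fin m ⊕ Fin m) F) *
          (h : Matrix (Fin m ⊕ Fin m) (Fin m ⊕ Fin m) F)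
      rw [← hTdef]
      apply Matrix.mulVec_injective
      funext v
      have := hcomm v
      rw [hg, hg, hNapp, hNapp, Matrix.mulVec_sub] at this
      rw [← Matrix.mulVec_mulVec, ← Matrix.mulVec_mulVec]
      exact (sub_left_injective this).symm
  have hcC : Nat.card ↥(Subgroup.centralizer ({t} : Set ↥(Matrix.symplecticGroup (Fin m) F))) =
      Nat.card {A : ↥(Matrix.symplecticGroup (Fin m) F) // A • x₀ ∈ Tset} :=
    Nat.card_congr (Equiv.subtypeEquivRight hS)
  have h1 := card_preimage_orbit (G := ↥(Matrix.symplecticGroup (Fin m) F)) x₀ Tset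
    (fun y hy => isoTuples_transitive x₀ y hx₀ (hTiso y hy))
  have h3 := card_preimage_orbit (G := ↥(Matrix.symplecticGroup (Fin m) F)) x₀ (isoTuples m F k)
    (fun y hy => isoTuples_transitive x₀ y hx₀ hy)
  have hcG : Nat.card {A : ↥(Matrix.symplecticGroup (Fin m) F) // A • x₀ ∈ isoTuples m F k} =
      Nat.card ↥(Matrix.symplecticGroup (Fin m) F) :=
    Nat.card_congr (Equiv.subtypeUnivEquiv (fun A => symp_smul_mem_isoTuples A x₀ hx₀))
  -- the set `Tset` is in bijection with the isometries of the induced form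
  have hcT1 : Nat.card ↥Tset = Nat.card {ψ : LinearMap.range N →ₗ[F] LinearMap.range N //
      ∀ w w', β (ψ w) (ψ w') = β w w'} := by
    symm
    apply Nat.card_congr
    refine Equiv.ofBijective (fun ψ => ⟨fun i => (ψ.1 (b i) : Fin m ⊕ Fin m → F), by
      rw [hTset]
      exact ⟨ψ.1, ψ.2, fun i => rfl⟩⟩) ⟨?_, ?_⟩
    · intro ψ ψ' h
      apply Subtype.ext
      apply b.ext
      intro i
      apply Subtype.ext
      have := congrArg Subtype.val h
      exact congrFun this i
    · rintro ⟨x, hx⟩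
      have hx' := hx
      rw [hTset] at hx'
      obtain ⟨ψ, hψ, hxψ⟩ := hx'
      exact ⟨⟨ψ, hψ⟩, Subtype.ext (funext fun i => (hxψ i).symm)⟩
  have hcT2 : Nat.card {ψ : LinearMap.range N →ₗ[F] LinearMap.range N //
      ∀ w w', β (ψ w) (ψ w') = β w w'} = Nat.card {c : Matrix ι ι F // cᵀ * B₀ * c = B₀} := by
    apply Nat.card_congr
    refine Equiv.subtypeEquiv (LinearMap.toMatrix b' b').toEquiv ?_
    intro ψ
    have hB₀ : LinearMap.BilinForm.toMatrix b' (β : LinearMap.BilinForm F (LinearMap.range N)) =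
        B₀ := by
      ext i j
      rw [LinearMap.BilinForm.toMatrix_apply, hb']
    have hcomp := LinearMap.BilinForm.toMatrix_comp b' b'
      (β : LinearMap.BilinForm F (LinearMap.range N)) ψ ψ
    rw [hB₀] at hcomp
    change _ ↔ (LinearMap.toMatrix b' b' ψ)ᵀ * B₀ * LinearMap.toMatrix b' b' ψ = B₀
    rw [← hcomp]
    constructor
    · intro h
      have e : LinearMap.BilinForm.comp (β : LinearMap.BilinForm F (LinearMap.range N)) ψ ψ =
          β := by
        ext w w'
        exact h w w'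
      rw [e, hB₀]
    · intro h w w'
      rw [← hB₀] at h
      have e := (LinearMap.BilinForm.toMatrix b').injective h
      have := congrArg (fun γ : LinearMap.BilinForm F (LinearMap.range N) => γ w w') e
      exact this
  rw [hcC, h1, ← hcG, h3, hcT1, hcT2]
  ring

end master

section models

variable {F : Type u} [Field F] (n : ℕ)

theorem sq_inj_char2 (h2 : (2 : F) = 0) {a b : F} (h : a * a = b * b) : a = b := by
  have h1 : (a - b) * (a - b) = 0 := by
    linear_combination h - (a * b - b * b) * h2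
  have h3 : a - b = 0 := by
    rcases mul_eq_zero.mp h1 with h | h <;> exact h
  exact sub_eq_zero.mp h3

theorem sympBilin_symm_char2 (h2 : (2 : F) = 0) (x y : Fin n ⊕ Fin n → F) :
    sympBilin n F x y = sympBilin n F y x := by
  have h := LinearMap.IsAlt.neg (sympBilin_isAlt (m := n) (F := F)) x y
  rw [← h]
  linear_combination (sympBilin n F x y) * h2

/-- A matrix preserves a Gram matrix iff it preserves the bilinear form. -/
theorem gram_iff {ι : Type*} [Fintype ι] [DecidableEq ι] (B₀ c : Matrix ι ι F) :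
    cᵀ * B₀ * c = B₀ ↔
      ∀ x y, Matrix.toBilin' B₀ (c *ᵥ x) (c *ᵥ y) = Matrix.toBilin' B₀ x y := by
  rw [← Matrix.toBilin'.injective.eq_iff, ← Matrix.toBilin'_comp]
  constructor
  · intro h x y
    have := congrArg (fun γ : LinearMap.BilinForm F (ι → F) => γ x y) h
    simpa using this
  · intro h
    apply LinearMap.ext
    intro x
    apply LinearMap.ext
    intro y
    simpa using h x y

/-! ### The alternating model -/

theorem card_altModel :
    Nat.card {c : Matrix (Fin n ⊕ Fin n) (Fin n ⊕ Fin n) F //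
      cᵀ * Matrix.J (Fin n) F * c = Matrix.J (Fin n) F} =
      Nat.card ↥(Matrix.symplecticGroup (Fin n) F) :=
  Nat.card_congr (Equiv.subtypeEquivRight (fun _ => SymplecticGroup.mem_iff'.symm))

/-! ### The non-alternating model in even dimension -/

/-- The form `f(x, y) + f(u, x) f(u, y)`. -/
noncomputable def evenForm (u : Fin n ⊕ Fin n → F) : LinearMap.BilinForm F (Fin n ⊕ Fin n → F) :=
  sympBilin n F + LinearMap.BilinForm.linMulLin (sympBilin n F u) (sympBilin n F u)

theorem evenForm_apply (u x y : Fin n ⊕ Fin n → F) :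
    evenForm n u x y = Cfsg.sympForm n F x y + Cfsg.sympForm n F u x * Cfsg.sympForm n F u y := by
  unfold evenForm
  rw [LinearMap.add_apply, LinearMap.add_apply, LinearMap.BilinForm.linMulLin_apply,
    sympBilin_apply, sympBilin_apply, sympBilin_apply]

/-- The Gram matrix of `evenForm`. -/
noncomputable def evenModel (u : Fin n ⊕ Fin n → F) : Matrix (Fin n ⊕ Fin n) (Fin n ⊕ Fin n) F :=
  LinearMap.BilinForm.toMatrix' (evenForm n u)

theorem toBilin'_evenModel (u : Fin n ⊕ Fin n → F) :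
    Matrix.toBilin' (evenModel n u) = evenForm n u :=
  Matrix.toBilin'_toMatrix' _

theorem evenForm_symm (h2 : (2 : F) = 0) (u x y : Fin n ⊕ Fin n → F) :
    evenForm n u x y = evenForm n u y x := by
  rw [evenForm_apply, evenForm_apply, ← sympBilin_apply, ← sympBilin_apply (m := n) y x,
    sympBilin_symm_char2 n h2 x y]
  ring

theorem evenForm_self (u x : Fin n ⊕ Fin n → F) :
    evenForm n u x x = Cfsg.sympForm n F u x * Cfsg.sympForm n F u x := by
  rw [evenForm_apply, sympForm_self, zero_add]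

theorem evenForm_nondegenerate (h2 : (2 : F) = 0) (u : Fin n ⊕ Fin n → F) :
    (evenForm n u).Nondegenerate := by
  have hleft : ∀ x, (∀ y, evenForm n u x y = 0) → x = 0 := by
    intro x hx
    have h1 := hx x
    rw [evenForm_self] at h1
    have h0 : Cfsg.sympForm n F u x = 0 := by
      rcases mul_eq_zero.mp h1 with h | h <;> exact h
    apply (sympBilin_nondegenerate (m := n) (F := F)).1
    intro y
    have := hx y
    rw [evenForm_apply, h0, zero_mul, add_zero] at this
    rw [sympBilin_apply]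
    exact this
  refine ⟨hleft, ?_⟩
  intro y hy
  apply hleft
  intro x
  rw [evenForm_symm n h2]
  exact hy x

theorem evenForm_not_alt [Fintype F] (u : Fin n ⊕ Fin n → F) (hu : u ≠ 0) :
    ¬ ∀ x, evenForm n u x x = 0 := by
  intro h
  obtain ⟨v, hv⟩ := Cfsg.Agent.Lib.Helper40.exists_sympForm_eq_one n u hu
  have := h v
  rw [evenForm_self, hv, one_mul] at this
  exact one_ne_zero this

theorem evenModel_iff (h2 : (2 : F) = 0) (u : Fin n ⊕ Fin n → F)
    (c : Matrix (Fin n ⊕ Fin n) (Fin n ⊕ Fin n) F) :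
    cᵀ * evenModel n u * c = evenModel n u ↔
      c ∈ Matrix.symplecticGroup (Fin n) F ∧ c *ᵥ u = u := by
  rw [gram_iff, toBilin'_evenModel]
  constructor
  · intro h
    have hδ : ∀ x, Cfsg.sympForm n F u (c *ᵥ x) = Cfsg.sympForm n F u x := by
      intro x
      have := h x x
      rw [evenForm_self, evenForm_self] at this
      exact sq_inj_char2 h2 this
    have hmem : c ∈ Matrix.symplecticGroup (Fin n) F := by
      apply mem_symplecticGroup_of_sympForm n
      intro x y
      have := h x y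
      rw [evenForm_apply, evenForm_apply, hδ, hδ] at this
      exact add_right_cancel this
    refine ⟨hmem, ?_⟩
    have hsub : c *ᵥ u - u = 0 := by
      apply (sympBilin_nondegenerate (m := n) (F := F)).1
      intro y
      obtain ⟨x, hx⟩ : ∃ x, c *ᵥ x = y := by
        refine ⟨((⟨c, hmem⟩ : ↥(Matrix.symplecticGroup (Fin n) F))⁻¹ :
          ↥(Matrix.symplecticGroup (Fin n) F)).1 *ᵥ y, ?_⟩
        rw [Matrix.mulVec_mulVec]
        have : c * ((⟨c, hmem⟩ : ↥(Matrix.symplecticGroup (Fin n) F))⁻¹ :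
            ↥(Matrix.symplecticGroup (Fin n) F)).1 = 1 := by
          have h1 : (⟨c, hmem⟩ : ↥(Matrix.symplecticGroup (Fin n) F)) * (⟨c, hmem⟩)⁻¹ = 1 :=
            mul_inv_cancel _
          exact congrArg Subtype.val h1
        rw [this, Matrix.one_mulVec]
      rw [sympBilin_apply, sympForm_sub_left, ← hx, sympForm_mulVec_of_mem n hmem, hδ, sub_self]
    exact sub_eq_zero.mp hsub
  · rintro ⟨hmem, hfix⟩ x y
    have hδ : ∀ x, Cfsg.sympForm n F u (c *ᵥ x) = Cfsg.sympForm n F u x := by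
      intro x
      conv_lhs => rw [← hfix]
      exact sympForm_mulVec_of_mem n hmem u x
    rw [evenForm_apply, evenForm_apply, hδ, hδ, sympForm_mulVec_of_mem n hmem]

theorem card_evenModel (h2 : (2 : F) = 0) (u : Fin n ⊕ Fin n → F) :
    Nat.card {c : Matrix (Fin n ⊕ Fin n) (Fin n ⊕ Fin n) F //
      cᵀ * evenModel n u * c = evenModel n u} =
      Nat.card {g : ↥(Matrix.symplecticGroup (Fin n) F) //
        (g : Matrix (Fin n ⊕ Fin n) (Fin n ⊕ Fin n) F) *ᵥ u = u} := by
  apply Nat.card_congr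
  exact
    { toFun := fun c => ⟨⟨c.1, ((evenModel_iff n h2 u c.1).mp c.2).1⟩,
        ((evenModel_iff n h2 u c.1).mp c.2).2⟩
      invFun := fun g => ⟨g.1.1, (evenModel_iff n h2 u g.1.1).mpr ⟨g.1.2, g.2⟩⟩
      left_inv := fun c => rfl
      right_inv := fun g => rfl }

/-! ### The non-alternating model in odd dimension -/

/-- The Gram matrix `J ⊕ (1)`. -/
def oddModel : Matrix ((Fin n ⊕ Fin n) ⊕ Unit) ((Fin n ⊕ Fin n) ⊕ Unit) F :=
  Matrix.fromBlocks (Matrix.J (Fin n) F) 0 0 1

theorem toBilin'_oddModel (x y : (Fin n ⊕ Fin n) ⊕ Unit → F) :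
    Matrix.toBilin' (oddModel n (F := F)) x y =
      Cfsg.sympForm n F (x ∘ Sum.inl) (y ∘ Sum.inl) + x (Sum.inr ()) * y (Sum.inr ()) := by
  have hx : x = Sum.elim (x ∘ Sum.inl) (x ∘ Sum.inr) := (Sum.elim_comp_inl_inr x).symm
  have hy : y = Sum.elim (y ∘ Sum.inl) (y ∘ Sum.inr) := (Sum.elim_comp_inl_inr y).symm
  rw [Matrix.toBilin'_apply']
  conv_lhs => rw [hx, hy]
  rw [oddModel, Matrix.fromBlocks_mulVec, sumElim_dotProduct_sumElim]
  simp only [Matrix.zero_mulVec, add_zero, zero_add, Matrix.one_mulVec, Sum.elim_comp_inl,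
    Sum.elim_comp_inr]
  unfold Cfsg.sympForm
  congr 1
  simp [dotProduct]

theorem oddModel_symm (h2 : (2 : F) = 0) (x y : (Fin n ⊕ Fin n) ⊕ Unit → F) :
    Matrix.toBilin' (oddModel n (F := F)) x y = Matrix.toBilin' (oddModel n (F := F)) y x := by
  rw [toBilin'_oddModel, toBilin'_oddModel, ← sympBilin_apply, ← sympBilin_apply,
    sympBilin_symm_char2 n h2]
  ring

theorem oddModel_nondegenerate (h2 : (2 : F) = 0) :
    (Matrix.toBilin' (oddModel n (F := F))).Nondegenerate := by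
  have hleft : ∀ x, (∀ y, Matrix.toBilin' (oddModel n (F := F)) x y = 0) → x = 0 := by
    intro x hx
    have h1 : x ∘ Sum.inl = 0 := by
      apply (sympBilin_nondegenerate (m := n) (F := F)).1
      intro y
      have := hx (Sum.elim y 0)
      rw [toBilin'_oddModel] at this
      simp only [Sum.elim_comp_inl, Sum.elim_inr, Pi.zero_apply, mul_zero, add_zero] at this
      rw [sympBilin_apply]
      exact this
    have h3 : x (Sum.inr ()) = 0 := by
      have := hx (Pi.single (Sum.inr ()) 1)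
      rw [toBilin'_oddModel] at this
      have e : (Pi.single (Sum.inr ()) 1 : (Fin n ⊕ Fin n) ⊕ Unit → F) ∘ Sum.inl = 0 := by
        funext i
        simp
      rw [e, sympForm_zero_right] at this
      simpa using this
    funext i
    rcases i with i | i
    · exact congrFun h1 i
    · exact h3
  refine ⟨hleft, ?_⟩
  intro y hy
  apply hleft
  intro x
  rw [oddModel_symm n h2]
  exact hy x

theorem oddModel_not_alt : ¬ ∀ x, Matrix.toBilin' (oddModel n (F := F)) x x = 0 := by
  intro h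
  have := h (Pi.single (Sum.inr ()) 1)
  rw [toBilin'_oddModel] at this
  have e : (Pi.single (Sum.inr ()) 1 : (Fin n ⊕ Fin n) ⊕ Unit → F) ∘ Sum.inl = 0 := by
    funext i
    simp
  rw [e, sympForm_zero_right] at this
  simp at this

/-- Entries of `Pᵀ J P` as values of the symplectic form. -/
theorem entry_eq_sympForm {κ : Type*} [Fintype κ] [DecidableEq κ]
    (P : Matrix (Fin n ⊕ Fin n) κ F) (i j : κ) :
    (Pᵀ * Matrix.J (Fin n) F * P) i j =
      Cfsg.sympForm n F (P *ᵥ Pi.single i 1) (P *ᵥ Pi.single j 1) := by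
  unfold Cfsg.sympForm
  rw [Matrix.mulVec_mulVec, ← Matrix.vecMul_transpose P (Pi.single i 1),
    ← Matrix.dotProduct_mulVec, Matrix.mulVec_mulVec, ← Matrix.mul_assoc]
  simp [Matrix.mulVec_single_one]

theorem oddModel_blocks (h2 : (2 : F) = 0)
    (P : Matrix (Fin n ⊕ Fin n) (Fin n ⊕ Fin n) F) (a : Matrix (Fin n ⊕ Fin n) Unit F)
    (r : Matrix Unit (Fin n ⊕ Fin n) F) (d : Matrix Unit Unit F)
    (hc : (Matrix.fromBlocks P a r d)ᵀ * oddModel n * Matrix.fromBlocks P a r d = oddModel n) :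
    Pᵀ * Matrix.J (Fin n) F * P = Matrix.J (Fin n) F ∧ a = 0 ∧ r = 0 ∧ d = 1 := by
  rw [Matrix.fromBlocks_transpose, oddModel, Matrix.fromBlocks_multiply,
    Matrix.fromBlocks_multiply, Matrix.fromBlocks_inj] at hc
  simp only [Matrix.mul_zero, Matrix.mul_one, add_zero, zero_add] at hc
  obtain ⟨h11, h12, -, h22⟩ := hc
  have hr : r = 0 := by
    ext i j
    have := congrFun (congrFun h11 j) j
    rw [Matrix.add_apply, entry_eq_sympForm, sympForm_self, zero_add] at this
    have hJ : Matrix.J (Fin n) F j j = 0 := by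
      rcases j with j | j <;> simp [Matrix.J]
    rw [hJ] at this
    simp only [Matrix.mul_apply, Matrix.transpose_apply, Finset.univ_unique,
      Finset.sum_singleton] at this
    rcases mul_eq_zero.mp this with h | h <;> exact h
  have hd : d = 1 := by
    ext i j
    have := congrFun (congrFun h22 ()) ()
    rw [Matrix.add_apply, entry_eq_sympForm, sympForm_self, zero_add] at this
    simp only [Matrix.mul_apply, Matrix.transpose_apply, Finset.univ_unique,
      Finset.sum_singleton, Matrix.one_apply_eq] at this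
    have h1 : d () () * d () () = 1 * 1 := by rw [this, mul_one]
    simpa using sq_inj_char2 h2 h1
  rw [hr, Matrix.transpose_zero, Matrix.zero_mul, add_zero] at h11
  rw [hr, Matrix.transpose_zero, Matrix.zero_mul, add_zero] at h12
  have hP : P ∈ Matrix.symplecticGroup (Fin n) F := SymplecticGroup.mem_iff'.mpr h11
  have hP' := SymplecticGroup.mem_iff.mp hP
  have ha : a = 0 := by
    have e : P * Matrix.J (Fin n) F * (Pᵀ * Matrix.J (Fin n) F * a) = -a := by
      calc P * Matrix.J (Fin n) F * (Pᵀ * Matrix.J (Fin n) F * a)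
          = (P * Matrix.J (Fin n) F * Pᵀ) * Matrix.J (Fin n) F * a := by
            simp only [Matrix.mul_assoc]
        _ = -a := by rw [hP', Matrix.J_squared, Matrix.neg_mul, Matrix.one_mul]
    rw [h12, Matrix.mul_zero] at e
    exact neg_eq_zero.mp e.symm
  exact ⟨h11, ha, hr, hd⟩

theorem card_oddModel (h2 : (2 : F) = 0) :
    Nat.card {c : Matrix ((Fin n ⊕ Fin n) ⊕ Unit) ((Fin n ⊕ Fin n) ⊕ Unit) F //
      cᵀ * oddModel n * c = oddModel n} = Nat.card ↥(Matrix.symplecticGroup (Fin n) F) := by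
  apply Nat.card_congr
  have key : ∀ c : Matrix ((Fin n ⊕ Fin n) ⊕ Unit) ((Fin n ⊕ Fin n) ⊕ Unit) F,
      cᵀ * oddModel n * c = oddModel n →
        c.toBlocks₁₁ᵀ * Matrix.J (Fin n) F * c.toBlocks₁₁ = Matrix.J (Fin n) F ∧
          c = Matrix.fromBlocks c.toBlocks₁₁ 0 0 1 := by
    intro c hc
    have hc' := hc
    rw [← Matrix.fromBlocks_toBlocks c] at hc'
    obtain ⟨h1, h3, h4, h5⟩ := oddModel_blocks n h2 _ _ _ _ hc'
    refine ⟨h1, ?_⟩
    conv_lhs => rw [← Matrix.fromBlocks_toBlocks c, h3, h4, h5]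
  exact
    { toFun := fun c => ⟨c.1.toBlocks₁₁, SymplecticGroup.mem_iff'.mpr (key c.1 c.2).1⟩
      invFun := fun P => ⟨Matrix.fromBlocks P.1 0 0 1, by
        rw [Matrix.fromBlocks_transpose, oddModel, Matrix.fromBlocks_multiply,
          Matrix.fromBlocks_multiply]
        simp only [Matrix.mul_zero, Matrix.mul_one, add_zero, zero_add, Matrix.transpose_zero,
          Matrix.zero_mul, Matrix.transpose_one]
        rw [SymplecticGroup.mem_iff'.mp P.2]⟩
      left_inv := fun c => Subtype.ext (key c.1 c.2).2.symm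
      right_inv := fun P => Subtype.ext (Matrix.toBlocks_fromBlocks₁₁ _ _ _ _) }

end models

section arith

theorem exp_arith (m s : ℕ) (hs : s ≤ m) :
    2 * m * s - (3 * s ^ 2 - s) / 2 = s * (s + 1) / 2 + 2 * s * (m - s) := by
  obtain ⟨r, rfl⟩ : ∃ r, m = s + r := ⟨m - s, by omega⟩
  have h1 : 2 * (s * (s + 1) / 2) = s ^ 2 + s := by
    rw [Nat.two_mul_div_two_of_even (Nat.even_mul_succ_self s)]
    ring
  have h4 : 2 * (s + r) * s = 2 * s ^ 2 + 2 * (r * s) := by ring
  have h5 : 2 * s * (s + r - s) = 2 * (r * s) := by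
    rw [Nat.add_sub_cancel_left]
    ring
  have h6 : s ≤ s ^ 2 := Nat.le_self_pow (by norm_num) s
  rw [h4, h5]
  generalize s * (s + 1) / 2 = a at *
  generalize s ^ 2 = S2 at *
  generalize r * s = rs at *
  omega

theorem exp_arith2 (m n : ℕ) (hn : 1 ≤ n) (h : n + n ≤ m) :
    n ^ 2 + ((n + n) * (n + n + 1) / 2 + 2 * (n + n) * (m - (n + n))) =
      (2 * m * (n + n) - (3 * (n + n) ^ 2 - 3 * (n + n)) / 2 - 1) + (n - 1) ^ 2 := by
  obtain ⟨r, rfl⟩ : ∃ r, m = n + n + r := ⟨m - (n + n), by omega⟩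
  obtain ⟨k, rfl⟩ : ∃ k, n = k + 1 := ⟨n - 1, by omega⟩
  have h1 : (k + 1 + (k + 1)) * (k + 1 + (k + 1) + 1) = 2 * (2 * (k + 1) ^ 2 + (k + 1)) := by ring
  have h3 : 2 * (k + 1 + (k + 1)) * (k + 1 + (k + 1) + r - (k + 1 + (k + 1))) =
      4 * ((k + 1) * r) := by
    rw [Nat.add_sub_cancel_left]
    ring
  have h4 : 2 * (k + 1 + (k + 1) + r) * (k + 1 + (k + 1)) = 8 * (k + 1) ^ 2 + 4 * ((k + 1) * r) := by
    ring
  have h5 : 3 * (k + 1 + (k + 1)) ^ 2 = 12 * (k + 1) ^ 2 := by ring
  have h6 : (k + 1) ^ 2 = k ^ 2 + 2 * k + 1 := by ring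
  have h7 : k + 1 - 1 = k := by omega
  rw [h1, h3, h4, h5, h7, Nat.mul_div_cancel_left _ (by norm_num : 0 < 2), h6]
  generalize k ^ 2 = K2 at *
  generalize (k + 1) * r = kr at *
  omega

end arith

section final

variable {F : Type u} [Field F] [Fintype F] {m : ℕ}

theorem card_cent_core (h2 : (2 : F) = 0) (t : ↥(Matrix.symplecticGroup (Fin m) F))
    (hT2 : (t : Matrix (Fin m ⊕ Fin m) (Fin m ⊕ Fin m) F) *
      (t : Matrix (Fin m ⊕ Fin m) (Fin m ⊕ Fin m) F) = 1) (s : ℕ)
    (hs : ((t : Matrix (Fin m ⊕ Fin m) (Fin m ⊕ Fin m) F) - 1).rank = s) (X : ℕ)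
    (hX : Nat.card ↥(Subgroup.centralizer ({t} : Set ↥(Matrix.symplecticGroup (Fin m) F))) *
      Nat.card ↥(isoTuples m F s) = X * Nat.card ↥(Matrix.symplecticGroup (Fin m) F)) :
    s ≤ m ∧ Nat.card ↥(Subgroup.centralizer ({t} : Set ↥(Matrix.symplecticGroup (Fin m) F))) =
      X * (Fintype.card F ^ (s * (s + 1) / 2 + 2 * s * (m - s)) *
        (Fintype.card F ^ ((m - s) ^ 2) *
          ∏ i ∈ Finset.range (m - s), (Fintype.card F ^ (2 * (i + 1)) - 1))) := by
  have hq : 1 < Fintype.card F := Fintype.one_lt_card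
  have hsm : s ≤ m := by
    have := OrthInvClass.two_mul_rank_le h2 _ hT2
    rw [Fintype.card_sum, Fintype.card_fin, hs] at this
    omega
  refine ⟨hsm, ?_⟩
  rw [card_isoTuples, Cfsg.Agent.S0245.result rfl m] at hX
  have hK := parab_arith (Fintype.card F) m s hsm hq.le
  have hpos : 0 < ∏ i ∈ Finset.range s,
      ((Fintype.card F) ^ (2 * m - i) - (Fintype.card F) ^ i) := by
    apply Finset.prod_pos
    intro i hi
    rw [Finset.mem_range] at hi
    have : (Fintype.card F) ^ i < (Fintype.card F) ^ (2 * m - i) :=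
      Nat.pow_lt_pow_right hq (by omega)
    omega
  apply Nat.eq_of_mul_eq_mul_right hpos
  rw [hX, ← hK]
  ring

/-- Centraliser order, type `a_s`. -/
theorem card_cent_alt (h2 : (2 : F) = 0) (t : ↥(Matrix.symplecticGroup (Fin m) F))
    (hT2 : (t : Matrix (Fin m ⊕ Fin m) (Fin m ⊕ Fin m) F) *
      (t : Matrix (Fin m ⊕ Fin m) (Fin m ⊕ Fin m) F) = 1) (s : ℕ)
    (hs : ((t : Matrix (Fin m ⊕ Fin m) (Fin m ⊕ Fin m) F) - 1).rank = s) (heven : Even s)
    (halt : ∀ v, Cfsg.sympForm m F v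
      ((t : Matrix (Fin m ⊕ Fin m) (Fin m ⊕ Fin m) F) *ᵥ v) = 0) :
    Nat.card ↥(Subgroup.centralizer ({t} : Set ↥(Matrix.symplecticGroup (Fin m) F))) =
      Fintype.card F ^ (2 * m * s - (3 * s ^ 2 - s) / 2) *
        (Fintype.card F ^ ((s / 2) ^ 2) *
          ∏ i ∈ Finset.range (s / 2), (Fintype.card F ^ (2 * (i + 1)) - 1)) *
        (Fintype.card F ^ ((m - s) ^ 2) *
          ∏ i ∈ Finset.range (m - s), (Fintype.card F ^ (2 * (i + 1)) - 1)) := by
  obtain ⟨n, hn⟩ := heven
  have hmaster := card_centralizer_mul h2 t hT2 (Matrix.J (Fin n) F)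
    (fun x y => sympBilin_symm_char2 n h2 x y) sympBilin_nondegenerate
    (by rw [hs, Fintype.card_sum, Fintype.card_fin]; omega)
    ⟨fun _ => halt, fun _ x => sympBilin_isAlt x⟩
  rw [hs, card_altModel, Cfsg.Agent.S0245.result rfl n] at hmaster
  obtain ⟨hsm, hcore⟩ := card_cent_core h2 t hT2 s hs _ hmaster
  have e : s / 2 = n := by omega
  rw [hcore, exp_arith m s hsm, e]
  ring

/-- Centraliser order, type `b_s`. -/
theorem card_cent_odd (h2 : (2 : F) = 0) (t : ↥(Matrix.symplecticGroup (Fin m) F))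
    (hT2 : (t : Matrix (Fin m ⊕ Fin m) (Fin m ⊕ Fin m) F) *
      (t : Matrix (Fin m ⊕ Fin m) (Fin m ⊕ Fin m) F) = 1) (s : ℕ)
    (hs : ((t : Matrix (Fin m ⊕ Fin m) (Fin m ⊕ Fin m) F) - 1).rank = s) (hodd : Odd s) :
    Nat.card ↥(Subgroup.centralizer ({t} : Set ↥(Matrix.symplecticGroup (Fin m) F))) =
      Fintype.card F ^ (2 * m * s - (3 * s ^ 2 - s) / 2) *
        (Fintype.card F ^ (((s - 1) / 2) ^ 2) *
          ∏ i ∈ Finset.range ((s - 1) / 2), (Fintype.card F ^ (2 * (i + 1)) - 1)) *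
        (Fintype.card F ^ ((m - s) ^ 2) *
          ∏ i ∈ Finset.range (m - s), (Fintype.card F ^ (2 * (i + 1)) - 1)) := by
  have hna : ¬ ∀ v, Cfsg.sympForm m F v
      ((t : Matrix (Fin m ⊕ Fin m) (Fin m ⊕ Fin m) F) *ᵥ v) = 0 := by
    intro h
    have := SpInvClass.even_rank_of_alt_type h2 _ t.2 hT2 h
    rw [hs] at this
    exact (Nat.not_even_iff_odd.mpr hodd) this
  obtain ⟨n, hn⟩ := hodd
  have hmaster := card_centralizer_mul h2 t hT2 (oddModel n (F := F)) (oddModel_symm n h2)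
    (oddModel_nondegenerate n h2)
    (by rw [hs, Fintype.card_sum, Fintype.card_sum, Fintype.card_fin, Fintype.card_unit]; omega)
    ⟨fun h => absurd h (oddModel_not_alt n), fun h => absurd h hna⟩
  rw [hs, card_oddModel n h2, Cfsg.Agent.S0245.result rfl n] at hmaster
  obtain ⟨hsm, hcore⟩ := card_cent_core h2 t hT2 s hs _ hmaster
  have e : (s - 1) / 2 = n := by omega
  rw [hcore, exp_arith m s hsm, e]
  ring

/-- Centraliser order, type `c_s`. -/
theorem card_cent_even_na (h2 : (2 : F) = 0) (t : ↥(Matrix.symplecticGroup (Fin m) F))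
    (hT2 : (t : Matrix (Fin m ⊕ Fin m) (Fin m ⊕ Fin m) F) *
      (t : Matrix (Fin m ⊕ Fin m) (Fin m ⊕ Fin m) F) = 1) (s : ℕ)
    (hs : ((t : Matrix (Fin m ⊕ Fin m) (Fin m ⊕ Fin m) F) - 1).rank = s) (heven : Even s)
    (hna : ¬ ∀ v, Cfsg.sympForm m F v
      ((t : Matrix (Fin m ⊕ Fin m) (Fin m ⊕ Fin m) F) *ᵥ v) = 0) :
    Nat.card ↥(Subgroup.centralizer ({t} : Set ↥(Matrix.symplecticGroup (Fin m) F))) =
      Fintype.card F ^ (2 * m * s - (3 * s ^ 2 - 3 * s) / 2 - 1) *
        (Fintype.card F ^ (((s - 2) / 2) ^ 2) *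
          ∏ i ∈ Finset.range ((s - 2) / 2), (Fintype.card F ^ (2 * (i + 1)) - 1)) *
        (Fintype.card F ^ ((m - s) ^ 2) *
          ∏ i ∈ Finset.range (m - s), (Fintype.card F ^ (2 * (i + 1)) - 1)) := by
  have hq : 1 < Fintype.card F := Fintype.one_lt_card
  have hT1 : (t : Matrix (Fin m ⊕ Fin m) (Fin m ⊕ Fin m) F) ≠ 1 := by
    intro h
    apply hna
    intro v
    rw [h, Matrix.one_mulVec, sympForm_self]
  have hs1 := OrthInvClass.rank_sub_one_pos _ hT1
  rw [hs] at hs1
  obtain ⟨n, hn⟩ := heven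
  have hn1 : 1 ≤ n := by omega
  obtain ⟨u, hu⟩ : ∃ u : Fin n ⊕ Fin n → F, u ≠ 0 := by
    refine ⟨Pi.single (Sum.inl ⟨0, hn1⟩) 1, ?_⟩
    intro h
    have := congrFun h (Sum.inl ⟨0, hn1⟩)
    simp at this
  have hmaster := card_centralizer_mul h2 t hT2 (evenModel n u)
    (by
      intro x y
      rw [toBilin'_evenModel]
      exact evenForm_symm n h2 u x y)
    (by
      rw [toBilin'_evenModel]
      exact evenForm_nondegenerate n h2 u)
    (by rw [hs, Fintype.card_sum, Fintype.card_fin]; omega)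
    ⟨fun h => absurd (by rw [toBilin'_evenModel] at h; exact h) (evenForm_not_alt n u hu),
      fun h => absurd h hna⟩
  rw [hs, card_evenModel n h2 u] at hmaster
  obtain ⟨hsm, hcore⟩ := card_cent_core h2 t hT2 s hs _ hmaster
  have hstab := Cfsg.Agent.S2594.card_stab n u hu
  rw [Cfsg.Agent.S0245.result rfl n] at hstab
  obtain ⟨k, rfl⟩ : ∃ k, n = k + 1 := ⟨n - 1, by omega⟩
  rw [Finset.prod_range_succ] at hstab
  have hpos : 0 < Fintype.card F ^ (k + 1 + (k + 1)) - 1 := by
    have : 1 < Fintype.card F ^ (k + 1 + (k + 1)) := Nat.one_lt_pow (by omega) hq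
    omega
  have e2 : 2 * (k + 1) = k + 1 + (k + 1) := by ring
  rw [e2] at hstab
  have hX : Nat.card {g : ↥(Matrix.symplecticGroup (Fin (k + 1)) F) //
      (g : Matrix (Fin (k + 1) ⊕ Fin (k + 1)) (Fin (k + 1) ⊕ Fin (k + 1)) F) *ᵥ u = u} =
      Fintype.card F ^ ((k + 1) ^ 2) *
        ∏ i ∈ Finset.range k, (Fintype.card F ^ (2 * (i + 1)) - 1) := by
    apply Nat.eq_of_mul_eq_mul_left hpos
    rw [← hstab]
    ring
  have e : (s - 2) / 2 = k := by omega
  have hexp := exp_arith2 m (k + 1) (by omega) (by omega)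
  rw [← hn] at hexp
  have e3 : k + 1 - 1 = k := by omega
  rw [e3] at hexp
  rw [hcore, hX, e]
  have hpow : Fintype.card F ^ ((k + 1) ^ 2) *
      Fintype.card F ^ (s * (s + 1) / 2 + 2 * s * (m - s)) =
      Fintype.card F ^ (2 * m * s - (3 * s ^ 2 - 3 * s) / 2 - 1) * Fintype.card F ^ (k ^ 2) := by
    rw [← pow_add, ← pow_add, hexp]
  generalize (∏ i ∈ Finset.range k, (Fintype.card F ^ (2 * (i + 1)) - 1)) = P at *
  generalize (Fintype.card F ^ ((m - s) ^ 2) *
    ∏ i ∈ Finset.range (m - s), (Fintype.card F ^ (2 * (i + 1)) - 1)) = Q at *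
  calc Fintype.card F ^ (k + 1) ^ 2 * P *
        (Fintype.card F ^ (s * (s + 1) / 2 + 2 * s * (m - s)) * Q)
      = (Fintype.card F ^ (k + 1) ^ 2 * Fintype.card F ^ (s * (s + 1) / 2 + 2 * s * (m - s))) *
          (P * Q) := by ring
    _ = Fintype.card F ^ (2 * m * s - (3 * s ^ 2 - 3 * s) / 2 - 1) * Fintype.card F ^ (k ^ 2) *
          (P * Q) := by rw [hpow]
    _ = _ := by ring

end final

end Cfsg.Agent.Lib.Helper8.SpInvCent
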