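import Mathlib
import Cfsg.Agent.Lib.Helper43.FieldAut.Inndiag
import Cfsg.Agent.Lib.Helper8.SpInvCent
import Cfsg.Agent.Lib.Helper8.SympInv

set_option autoImplicit false

/-!
# Involutory graph automorphisms of `PSL_n(F)`

The coset `cG g * iG` of the inverse-transpose automorphism: squares, conjugation under the
inner-diagonal group, centralisers.
-/

namespace Cfsg.Agent.Lib.Helper8.GraphAut

open Matrix Cfsg.Agent.Lib.Helper43.AutPSLn Cfsg.Agent.Lib.Helper43.FieldAut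

section general

variable {n : ℕ} {F : Type*} [Field F]

local notation "Mx" => Matrix (Fin n) (Fin n) F
local notation "PSLn" => Matrix.ProjectiveSpecialLinearGroup (Fin n) F
local notation "GLn" => GL (Fin n) F

/-- The transpose in `GL_n`. -/
noncomputable def trG (g : GLn) : GLn := (glInvT g)⁻¹

theorem trG_coe (g : GLn) : ((trG g : GLn) : Mx) = (g : Mx)ᵀ := glInvT_inv_coe g

theorem graph_iff (β : MulAut PSLn) :
    Cfsg.IsGraphAutClassPSL β ↔ 3 ≤ n ∧ ∃ g : GLn, β = cG g * iG := by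
  unfold Cfsg.IsGraphAutClassPSL
  constructor
  · rintro ⟨h3, δ, γ, hδ, hγ, rfl⟩
    obtain ⟨g, rfl⟩ := (innerDiag_iff δ).mp hδ
    rw [(invTranspose_iff γ).mp hγ]
    exact ⟨h3, g, rfl⟩
  · rintro ⟨h3, g, rfl⟩
    exact ⟨h3, cG g, iG, (innerDiag_iff _).mpr ⟨g, rfl⟩, (invTranspose_iff _).mpr rfl, rfl⟩

theorem sq_cG_iG (g : GLn) : (cG g * iG : MulAut PSLn) ^ 2 = cG (g * glInvT g) := by
  have e1 : (iG : MulAut PSLn) * cG g = cG (glInvT g) * iG := iG_cG g
  have e4 : (iG : MulAut PSLn) * iG = 1 := iG_mul_self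
  calc (cG g * iG : MulAut PSLn) ^ 2 = cG g * ((iG * cG g) * iG) := by
        rw [pow_two]; simp only [mul_assoc]
    _ = cG g * (cG (glInvT g) * (iG * iG)) := by rw [e1]; simp only [mul_assoc]
    _ = _ := by rw [e4, mul_one, map_mul]

theorem conj_cG_iG (h g : GLn) :
    (cG h * (cG g * iG) * (cG h)⁻¹ : MulAut PSLn) = cG (h * g * trG h) * iG := by
  have e : (iG : MulAut PSLn) * cG h⁻¹ = cG (glInvT h⁻¹) * iG := iG_cG h⁻¹
  have e2 : glInvT h⁻¹ = trG h := by
    apply Units.ext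
    rw [glInvT_coe, trG_coe, inv_inv]
  rw [← map_inv, mul_assoc, mul_assoc, e, e2, map_mul, map_mul]
  simp only [mul_assoc]

theorem scalar_mul_coe (c : Fˣ) (g : GLn) :
    ((Matrix.GeneralLinearGroup.scalar (Fin n) c * g : GLn) : Mx) = (c : F) • (g : Mx) := by
  rw [Units.val_mul, Matrix.GeneralLinearGroup.coe_scalar, Matrix.scalar_apply,
    ← Matrix.smul_eq_diagonal_mul]

theorem cG_eq_iff (hn : 2 ≤ n) (g g' : GLn) :
    (cG g' : MulAut PSLn) = cG g ↔ ∃ c : Fˣ, (g' : Mx) = (c : F) • (g : Mx) := by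
  constructor
  · intro h
    have h1 : (cG (g' * g⁻¹) : MulAut PSLn) = 1 := by
      rw [map_mul, map_inv, h, mul_inv_cancel]
    obtain ⟨c, hc⟩ := exists_scalar_of_cG_eq_one hn _ h1
    refine ⟨c, ?_⟩
    have h2 : g' = Matrix.GeneralLinearGroup.scalar (Fin n) c * g := by
      rw [← hc, inv_mul_cancel_right]
    conv_lhs => rw [h2]
    rw [scalar_mul_coe]
  · rintro ⟨c, hc⟩
    have h2 : g' = Matrix.GeneralLinearGroup.scalar (Fin n) c * g :=
      Units.ext (by rw [scalar_mul_coe, hc])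
    rw [h2, map_mul, cG_scalar, one_mul]

theorem sq_eq_one_iff (hn : 2 ≤ n) (h2 : (2 : F) = 0) (g : GLn) :
    (cG g * iG : MulAut PSLn) ^ 2 = 1 ↔ (g : Mx)ᵀ = (g : Mx) := by
  haveI : Nonempty (Fin n) := ⟨⟨0, by omega⟩⟩
  rw [sq_cG_iG]
  have e : (cG (g * glInvT g) : MulAut PSLn) = 1 ↔ (cG g : MulAut PSLn) = cG (trG g) := by
    rw [map_mul, mul_eq_one_iff_eq_inv, ← map_inv]
    rfl
  rw [e, cG_eq_iff hn]
  constructor
  · rintro ⟨c, hc⟩
    rw [trG_coe] at hc
    have h3 : (g : Mx)ᵀ = (c : F) • (g : Mx) := by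
      conv_lhs => rw [hc]
      rw [Matrix.transpose_smul, Matrix.transpose_transpose]
    have h4 : ((c : F) * c - 1) • (g : Mx) = 0 := by
      rw [sub_smul, one_smul, mul_smul, ← h3, ← hc, sub_self]
    have h5 : (c : F) * c = 1 * 1 := by
      rcases smul_eq_zero.mp h4 with h | h
      · rw [one_mul]
        exact sub_eq_zero.mp h
      · exact absurd h g.ne_zero
    have h6 : (c : F) = 1 := SpInvCent.sq_inj_char2 h2 h5
    rw [h3, h6, one_smul]
  · intro hs
    exact ⟨1, by rw [trG_coe, hs, Units.val_one, one_smul]⟩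

theorem ne_one (hn : 3 ≤ n) (g : GLn) : (cG g * iG : MulAut PSLn) ≠ 1 := by
  intro h
  have h1 : (iG : MulAut PSLn) = cG g⁻¹ * fG 1 := by
    rw [map_one, mul_one, map_inv]
    exact eq_inv_of_mul_eq_one_right h
  exact iG_ne hn _ _ h1

theorem orderOf_eq_two_iff (hn : 3 ≤ n) (h2 : (2 : F) = 0) (g : GLn) :
    orderOf (cG g * iG : MulAut PSLn) = 2 ↔ (g : Mx)ᵀ = (g : Mx) := by
  rw [← sq_eq_one_iff (by omega) h2]
  constructor
  · intro h
    rw [← h]
    exact pow_orderOf_eq_one _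
  · intro h
    exact orderOf_eq_prime h (ne_one hn g)

theorem conj_iff (hn : 2 ≤ n) (g g' : GLn) :
    Cfsg.IsConjUnder (Cfsg.inndiagPSL n F) (cG g * iG : MulAut PSLn) (cG g' * iG) ↔
      ∃ (h : GLn) (c : Fˣ), (g' : Mx) = (c : F) • ((h : Mx) * (g : Mx) * (h : Mx)ᵀ) := by
  unfold Cfsg.IsConjUnder
  rw [inndiag_eq]
  constructor
  · rintro ⟨x, ⟨h, rfl⟩, hxy⟩
    rw [conj_cG_iG, mul_left_inj] at hxy
    obtain ⟨c, hc⟩ := (cG_eq_iff hn _ _).mp hxy
    refine ⟨h, c, ?_⟩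
    rw [hc, Units.val_mul, Units.val_mul, trG_coe]
  · rintro ⟨h, c, hc⟩
    refine ⟨cG h, ⟨h, rfl⟩, ?_⟩
    rw [conj_cG_iG, mul_left_inj]
    apply (cG_eq_iff hn _ _).mpr
    exact ⟨c, by rw [hc, Units.val_mul, Units.val_mul, trG_coe]⟩

/-- The isometry group `{h | h g hᵀ = g}`. -/
def isoG (g : GLn) : Subgroup GLn where
  carrier := {h | (h : Mx) * (g : Mx) * (h : Mx)ᵀ = (g : Mx)}
  mul_mem' := by
    intro a b ha hb
    show ((a * b : GLn) : Mx) * (g : Mx) * ((a * b : GLn) : Mx)ᵀ = (g : Mx)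
    rw [Units.val_mul, Matrix.transpose_mul]
    calc (a : Mx) * (b : Mx) * (g : Mx) * ((b : Mx)ᵀ * (a : Mx)ᵀ)
        = (a : Mx) * ((b : Mx) * (g : Mx) * (b : Mx)ᵀ) * (a : Mx)ᵀ := by
          simp only [Matrix.mul_assoc]
      _ = _ := by rw [hb, ha]
  one_mem' := by
    show ((1 : GLn) : Mx) * (g : Mx) * ((1 : GLn) : Mx)ᵀ = (g : Mx)
    simp
  inv_mem' := by
    intro a ha
    show ((a⁻¹ : GLn) : Mx) * (g : Mx) * ((a⁻¹ : GLn) : Mx)ᵀ = (g : Mx)
    have h1 : ((a⁻¹ : GLn) : Mx) * (a : Mx) = 1 := by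
      rw [← Units.val_mul, inv_mul_cancel]
      rfl
    calc ((a⁻¹ : GLn) : Mx) * (g : Mx) * ((a⁻¹ : GLn) : Mx)ᵀ
        = ((a⁻¹ : GLn) : Mx) * ((a : Mx) * (g : Mx) * (a : Mx)ᵀ) * ((a⁻¹ : GLn) : Mx)ᵀ := by
          rw [ha]
      _ = (((a⁻¹ : GLn) : Mx) * (a : Mx)) * (g : Mx) * (((a⁻¹ : GLn) : Mx) * (a : Mx))ᵀ := by
          rw [Matrix.transpose_mul]
          simp only [Matrix.mul_assoc]
      _ = _ := by rw [h1]; simp

theorem mem_isoG (g h : GLn) : h ∈ isoG g ↔ (h : Mx) * (g : Mx) * (h : Mx)ᵀ = (g : Mx) :=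
  Iff.rfl

theorem mem_cent_iff (hn : 2 ≤ n) (g h : GLn) :
    (cG h : MulAut PSLn) ∈ Subgroup.centralizer {(cG g * iG : MulAut PSLn)} ↔
      ∃ c : Fˣ, (h : Mx) * (g : Mx) * (h : Mx)ᵀ = (c : F) • (g : Mx) := by
  rw [Subgroup.mem_centralizer_iff]
  have e : (∀ y ∈ ({(cG g * iG : MulAut PSLn)} : Set (MulAut PSLn)), y * cG h = cG h * y) ↔
      (cG (h * g * trG h) : MulAut PSLn) = cG g := by
    constructor
    · intro hy
      have h1 := hy _ rfl
      have h2 : (cG h * (cG g * iG) * (cG h)⁻¹ : MulAut PSLn) = cG g * iG := by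
        rw [← h1, mul_inv_cancel_right]
      rw [conj_cG_iG] at h2
      exact mul_right_cancel h2
    · intro hc y hy
      rw [Set.mem_singleton_iff] at hy
      subst hy
      have h2 : (cG h * (cG g * iG) * (cG h)⁻¹ : MulAut PSLn) = cG g * iG := by
        rw [conj_cG_iG, hc]
      exact eq_mul_inv_iff_mul_eq.mp h2.symm
  rw [e, cG_eq_iff hn]
  simp only [Units.val_mul, trG_coe]

theorem cent_equiv [Finite F] (hn : 2 ≤ n) (h2 : (2 : F) = 0) (g : GLn) :
    Nonempty (↥(Cfsg.inndiagPSL n F ⊓ Subgroup.centralizer {(cG g * iG : MulAut PSLn)}) ≃*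
      ↥(isoG g)) := by
  haveI : Nonempty (Fin n) := ⟨⟨0, by omega⟩⟩
  have hmem : ∀ h : ↥(isoG g), (cG (h : GLn) : MulAut PSLn) ∈
      Cfsg.inndiagPSL n F ⊓ Subgroup.centralizer {(cG g * iG : MulAut PSLn)} := by
    intro h
    refine ⟨?_, ?_⟩
    · rw [inndiag_eq]
      exact ⟨_, rfl⟩
    · exact (mem_cent_iff hn g h).mpr ⟨1, by rw [Units.val_one, one_smul]; exact h.2⟩
  let f : ↥(isoG g) →*
      ↥(Cfsg.inndiagPSL n F ⊓ Subgroup.centralizer {(cG g * iG : MulAut PSLn)}) :=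
    ((cG : GLn →* MulAut PSLn).comp (isoG g).subtype).codRestrict _ hmem
  have hinj : Function.Injective f := by
    rw [injective_iff_map_eq_one]
    intro h hh
    have h1 : (cG (h : GLn) : MulAut PSLn) = 1 := congrArg Subtype.val hh
    obtain ⟨c, hc⟩ := exists_scalar_of_cG_eq_one hn _ h1
    have h3 : ((h : GLn) : Mx) = (c : F) • (1 : Mx) := by
      have := scalar_mul_coe c (1 : GLn)
      rw [mul_one] at this
      rw [hc, this]
      rfl
    have h4 : ((h : GLn) : Mx) * (g : Mx) * ((h : GLn) : Mx)ᵀ = (g : Mx) := h.2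
    rw [h3, Matrix.transpose_smul, Matrix.transpose_one, Matrix.smul_mul, Matrix.one_mul,
      Matrix.mul_smul, Matrix.mul_one, smul_smul] at h4
    have h5 : ((c : F) * c - 1) • (g : Mx) = 0 := by
      rw [sub_smul, one_smul, h4, sub_self]
    have h6 : (c : F) * c = 1 * 1 := by
      rcases smul_eq_zero.mp h5 with h | h
      · rw [one_mul]
        exact sub_eq_zero.mp h
      · exact absurd h g.ne_zero
    have h7 : (c : F) = 1 := SpInvCent.sq_inj_char2 h2 h6
    apply Subtype.ext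
    apply Units.ext
    rw [h3, h7, one_smul]
    rfl
  have hsurj : Function.Surjective f := by
    rintro ⟨x, hx1, hx2⟩
    rw [inndiag_eq] at hx1
    obtain ⟨h, rfl⟩ := hx1
    obtain ⟨c, hc⟩ := (mem_cent_iff hn g h).mp hx2
    obtain ⟨d, hd⟩ := SympInv.exists_sqrt_char2 h2 (c : F)
    have hd0 : d ≠ 0 := by
      rintro rfl
      rw [mul_zero] at hd
      exact c.ne_zero hd.symm
    have hcoe : ((Matrix.GeneralLinearGroup.scalar (Fin n) (Units.mk0 d hd0)⁻¹ * h : GLn) : Mx) =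
        d⁻¹ • (h : Mx) := by
      rw [scalar_mul_coe, Units.val_inv_eq_inv_val, Units.val_mk0]
    refine ⟨⟨Matrix.GeneralLinearGroup.scalar (Fin n) (Units.mk0 d hd0)⁻¹ * h, ?_⟩, ?_⟩
    · rw [mem_isoG, hcoe, Matrix.transpose_smul, Matrix.smul_mul, Matrix.mul_smul, Matrix.smul_mul,
        hc, smul_smul, smul_smul, ← hd]
      have : d⁻¹ * d⁻¹ * (d * d) = 1 := by field_simp
      rw [this, one_smul]
    · apply Subtype.ext
      show (cG (Matrix.GeneralLinearGroup.scalar (Fin n) (Units.mk0 d hd0)⁻¹ * h) : MulAut PSLn) =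
        cG h
      rw [map_mul, cG_scalar, one_mul]
  exact ⟨(MulEquiv.ofBijective f ⟨hinj, hsurj⟩).symm⟩

end general


section forms

variable {F : Type*} [Field F]

/-- Two-matrix version of `SpInvCent.gram_iff`. -/
theorem gram_iff2 {ι : Type*} [Fintype ι] [DecidableEq ι] (B B' c : Matrix ι ι F) :
    cᵀ * B * c = B' ↔
      ∀ x y, Matrix.toBilin' B (c *ᵥ x) (c *ᵥ y) = Matrix.toBilin' B' x y := by
  rw [← Matrix.toBilin'.injective.eq_iff, ← Matrix.toBilin'_comp]
  constructor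
  · intro h x y
    have := congrArg (fun γ : LinearMap.BilinForm F (ι → F) => γ x y) h
    simpa using this
  · intro h
    apply LinearMap.ext
    intro x
    apply LinearMap.ext
    intro y
    simpa using h x y

theorem toBilin'_symm {ι : Type*} [Fintype ι] [DecidableEq ι] (M : Matrix ι ι F) (hM : Mᵀ = M)
    (x y : ι → F) : Matrix.toBilin' M x y = Matrix.toBilin' M y x := by
  rw [Matrix.toBilin'_apply', Matrix.toBilin'_apply', Matrix.dotProduct_mulVec,
    ← Matrix.mulVec_transpose, hM, dotProduct_comm]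

theorem eq_zero_of_rank_zero {ι : Type*} [Fintype ι] [DecidableEq ι] (M : Matrix ι ι F)
    (h : M.rank = 0) : M = 0 := by
  have h1 : LinearMap.range M.mulVecLin = ⊥ := Submodule.finrank_eq_zero.mp h
  have h2 : M.mulVecLin = 0 := LinearMap.range_eq_bot.mp h1
  ext i j
  have h3 := congrFun (LinearMap.congr_fun h2 (Pi.single j 1)) i
  rw [Matrix.mulVecLin_apply, Matrix.mulVec_single_one] at h3
  exact h3

variable {n : ℕ}

local notation "Mx" => Matrix (Fin n) (Fin n) F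
local notation "GLn" => GL (Fin n) F

/-- Symmetric invertible matrices of the same type (alternating or not) over a finite field of
characteristic two are congruent. -/
theorem congr_of_type [Finite F] (h2 : (2 : F) = 0) (g g' : GLn)
    (hs : (g : Mx)ᵀ = (g : Mx)) (hs' : (g' : Mx)ᵀ = (g' : Mx))
    (htype : (∀ x, Matrix.toBilin' (g : Mx) x x = 0) ↔ (∀ x, Matrix.toBilin' (g' : Mx) x x = 0)) :
    ∃ h : GLn, (g' : Mx) = (h : Mx) * (g : Mx) * (h : Mx)ᵀ := by
  have hN : ∀ k : GLn, (Matrix.toBilin' (k : Mx)).Nondegenerate := fun k =>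
    LinearMap.BilinForm.nondegenerate_toBilin'_iff_det_ne_zero.mpr
      ((Matrix.isUnit_iff_isUnit_det _).mp k.isUnit).ne_zero
  obtain ⟨φ, hφ⟩ := SympInv.symm_isometry_char2 h2 (Matrix.toBilin' (g' : Mx))
    (Matrix.toBilin' (g : Mx)) (toBilin'_symm _ hs') (toBilin'_symm _ hs) (hN g') (hN g) rfl
    htype.symm
  obtain ⟨P, hP⟩ : ∃ P : Mx, P = LinearMap.toMatrix' (φ : (Fin n → F) →ₗ[F] (Fin n → F)) :=
    ⟨_, rfl⟩
  obtain ⟨Q, hQ⟩ : ∃ Q : Mx, Q = LinearMap.toMatrix' (φ.symm : (Fin n → F) →ₗ[F] (Fin n → F)) :=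
    ⟨_, rfl⟩
  have hPQ : P * Q = 1 := by
    rw [hP, hQ, ← LinearMap.toMatrix'_comp]
    have : (φ : (Fin n → F) →ₗ[F] (Fin n → F)) ∘ₗ (φ.symm : (Fin n → F) →ₗ[F] (Fin n → F)) =
        LinearMap.id := by
      ext x
      simp
    rw [this, LinearMap.toMatrix'_id]
  have hQP : Q * P = 1 := mul_eq_one_comm.mp hPQ
  have hPv : ∀ w, P *ᵥ w = φ w := fun w => by
    rw [hP, ← Matrix.toLin'_apply, Matrix.toLin'_toMatrix']
    rfl
  have key : Pᵀ * (g : Mx) * P = (g' : Mx) := by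
    rw [gram_iff2]
    intro x y
    rw [hPv, hPv, hφ]
  refine ⟨⟨Pᵀ, Qᵀ, ?_, ?_⟩, ?_⟩
  · rw [← Matrix.transpose_mul, hQP, Matrix.transpose_one]
  · rw [← Matrix.transpose_mul, hPQ, Matrix.transpose_one]
  · show (g' : Mx) = Pᵀ * (g : Mx) * Pᵀᵀ
    rw [Matrix.transpose_transpose, key]

theorem alt_of_conj (g g' h : GLn) (c : Fˣ)
    (hc : (g' : Mx) = (c : F) • ((h : Mx) * (g : Mx) * (h : Mx)ᵀ))
    (ha : ∀ x, Matrix.toBilin' (g : Mx) x x = 0) : ∀ x, Matrix.toBilin' (g' : Mx) x x = 0 := by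
  intro x
  have h1 := (gram_iff2 (g : Mx) ((h : Mx) * (g : Mx) * (h : Mx)ᵀ) (h : Mx)ᵀ).mp
    (by rw [Matrix.transpose_transpose]) x x
  rw [hc, map_smul, LinearMap.smul_apply, LinearMap.smul_apply, ← h1, ha, smul_zero]

end forms

section models

variable {n m : ℕ} {F : Type*} [Field F] (e : Fin n ≃ Fin m ⊕ Fin m)

local notation "Mx" => Matrix (Fin n) (Fin n) F
local notation "Kx" => Matrix (Fin m ⊕ Fin m) (Fin m ⊕ Fin m) F
local notation "PSLn" => Matrix.ProjectiveSpecialLinearGroup (Fin n) F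
local notation "GLn" => GL (Fin n) F

/-- The element of `GL_n` obtained from an invertible matrix on `Fin m ⊕ Fin m`. -/
noncomputable def gOf (E : Kx) (hE : E.det ≠ 0) : GLn :=
  Matrix.GeneralLinearGroup.mkOfDetNeZero (E.submatrix e e)
    (by rw [Matrix.det_submatrix_equiv_self]; exact hE)

theorem gOf_coe (E : Kx) (hE : E.det ≠ 0) : ((gOf e E hE : GLn) : Mx) = E.submatrix e e := rfl

theorem sub_mul (M N : Mx) : (M * N).submatrix e.symm e.symm =
    M.submatrix e.symm e.symm * N.submatrix e.symm e.symm :=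
  (Matrix.submatrix_mul_equiv M N e.symm e.symm e.symm).symm

theorem sub_mul' (A B : Kx) : (A * B).submatrix e e = A.submatrix e e * B.submatrix e e :=
  (Matrix.submatrix_mul_equiv A B e e e).symm

theorem sub_sub (E : Kx) : (E.submatrix e e).submatrix e.symm e.symm = E := by
  rw [Matrix.submatrix_submatrix, Equiv.self_comp_symm, Matrix.submatrix_id_id]

theorem sub_sub' (M : Mx) : (M.submatrix e.symm e.symm).submatrix e e = M := by
  rw [Matrix.submatrix_submatrix, Equiv.symm_comp_self, Matrix.submatrix_id_id]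

theorem toBilin'_submatrix (E : Kx) (x y : Fin n → F) :
    Matrix.toBilin' (E.submatrix e e) x y = Matrix.toBilin' E (x ∘ e.symm) (y ∘ e.symm) := by
  rw [Matrix.toBilin'_apply', Matrix.toBilin'_apply', Matrix.submatrix_mulVec_equiv,
    comp_equiv_symm_dotProduct]

theorem mem_isoG_gOf (E : Kx) (hE : E.det ≠ 0) (h : GLn) :
    h ∈ isoG (gOf e E hE) ↔
      (h : Mx).submatrix e.symm e.symm * E * ((h : Mx).submatrix e.symm e.symm)ᵀ = E := by
  rw [mem_isoG, gOf_coe]
  constructor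
  · intro hh
    have := congrArg (fun M : Mx => M.submatrix e.symm e.symm) hh
    simp only [sub_mul, sub_sub, Matrix.transpose_submatrix] at this ⊢
    exact this
  · intro hh
    have := congrArg (fun A : Kx => A.submatrix e e) hh
    simp only [sub_mul', sub_sub', Matrix.transpose_submatrix] at this ⊢
    exact this

theorem isoG_equiv_sp (hJ : (Matrix.J (Fin m) F).det ≠ 0) :
    Nonempty (↥(isoG (gOf e (Matrix.J (Fin m) F) hJ)) ≃* ↥(Matrix.symplecticGroup (Fin m) F)) := by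
  let f : ↥(isoG (gOf e (Matrix.J (Fin m) F) hJ)) →* ↥(Matrix.symplecticGroup (Fin m) F) :=
    { toFun := fun h => ⟨((h : GLn) : Mx).submatrix e.symm e.symm, by
          rw [SymplecticGroup.mem_iff]
          exact (mem_isoG_gOf e _ hJ h.1).mp h.2⟩
      map_one' := by
        apply Subtype.ext
        show (((1 : GLn) : Mx)).submatrix e.symm e.symm = 1
        rw [Units.val_one, Matrix.submatrix_one_equiv]
      map_mul' := fun a b => by
        apply Subtype.ext
        show (((a : GLn) * (b : GLn) : GLn) : Mx).submatrix e.symm e.symm =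
          ((a : GLn) : Mx).submatrix e.symm e.symm * ((b : GLn) : Mx).submatrix e.symm e.symm
        rw [Units.val_mul, sub_mul] }
  have hinj : Function.Injective f := by
    intro a b hab
    have h1 : ((a : GLn) : Mx).submatrix e.symm e.symm =
        ((b : GLn) : Mx).submatrix e.symm e.symm := congrArg Subtype.val hab
    have h3 := congrArg (fun A : Kx => A.submatrix e e) h1
    simp only [sub_sub'] at h3
    exact Subtype.ext (Units.ext h3)
  have hsurj : Function.Surjective f := by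
    intro A
    have hdet : (A : Kx).det ≠ 0 := (SymplecticGroup.symplectic_det A.2).ne_zero
    refine ⟨⟨gOf e (A : Kx) hdet, ?_⟩, ?_⟩
    · rw [mem_isoG_gOf, gOf_coe, sub_sub]
      exact SymplecticGroup.mem_iff.mp A.2
    · apply Subtype.ext
      show ((gOf e (A : Kx) hdet : GLn) : Mx).submatrix e.symm e.symm = A
      rw [gOf_coe, sub_sub]
  exact ⟨MulEquiv.ofBijective f ⟨hinj, hsurj⟩⟩

end models


section evenmodel

open Cfsg.Agent.Lib.Helper13

variable {n m : ℕ} {F : Type*} [Field F] (e : Fin n ≃ Fin m ⊕ Fin m)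

local notation "Mx" => Matrix (Fin n) (Fin n) F
local notation "Kx" => Matrix (Fin m ⊕ Fin m) (Fin m ⊕ Fin m) F
local notation "PSLn" => Matrix.ProjectiveSpecialLinearGroup (Fin n) F
local notation "GLn" => GL (Fin n) F

/-- The symplectic transvection as an element of the symplectic group. -/
def tU (u : Fin m ⊕ Fin m → F) : ↥(Matrix.symplecticGroup (Fin m) F) :=
  ⟨Cfsg.sympTransvection m u 1, sympTransvection_mem m u 1⟩

theorem isTransvection_tU (u : Fin m ⊕ Fin m → F) (hu : u ≠ 0) :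
    Cfsg.IsTransvection ((tU u : ↥(Matrix.symplecticGroup (Fin m) F)) : Kx) := by
  have h1 : Cfsg.sympTransvection m u 1 - 1 = Matrix.vecMulVec u (Matrix.J (Fin m) F *ᵥ u) := by
    unfold Cfsg.sympTransvection
    rw [one_smul, add_sub_cancel_left]
  have h0 : (Matrix.J (Fin m) F *ᵥ u) ⬝ᵥ u = 0 := by
    rw [dotProduct_comm]
    exact sympForm_self m u
  refine ⟨?_, ?_⟩
  · show (Cfsg.sympTransvection m u 1 - 1).rank = 1
    have hle : (Cfsg.sympTransvection m u 1 - 1).rank ≤ 1 := by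
      rw [h1]
      exact Matrix.rank_vecMulVec_le _ _
    have hne : (Cfsg.sympTransvection m u 1 - 1).rank ≠ 0 := by
      intro h
      have h3 := eq_zero_of_rank_zero _ h
      obtain ⟨v, hv⟩ := Cfsg.Agent.Lib.Helper40.exists_sympForm_eq_one m u hu
      have h4 : Cfsg.sympTransvection m u 1 *ᵥ v = v := by
        rw [sub_eq_zero.mp h3, Matrix.one_mulVec]
      rw [sympTransvection_mulVec, one_mul, sympForm_swap, hv] at h4
      have h5 : (-1 : F) • u = 0 := by simpa using h4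
      rw [neg_smul, one_smul, neg_eq_zero] at h5
      exact hu h5
    omega
  · show (Cfsg.sympTransvection m u 1 - 1) * (Cfsg.sympTransvection m u 1 - 1) = 0
    rw [h1, Matrix.vecMulVec_mul_vecMulVec, h0, zero_smul]
    ext i j
    simp [Matrix.vecMulVec_apply]

theorem mem_centralizer_tU_iff (h2 : (2 : F) = 0) (u : Fin m ⊕ Fin m → F) (hu : u ≠ 0)
    (A : ↥(Matrix.symplecticGroup (Fin m) F)) :
    A ∈ Subgroup.centralizer ({tU u} : Set ↥(Matrix.symplecticGroup (Fin m) F)) ↔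
      (A : Kx) *ᵥ u = u := by
  rw [Subgroup.mem_centralizer_iff]
  have e1 : (∀ y ∈ ({tU u} : Set ↥(Matrix.symplecticGroup (Fin m) F)), y * A = A * y) ↔
      ∀ x, Cfsg.sympForm m F ((A : Kx) *ᵥ x) u • u =
        Cfsg.sympForm m F x u • ((A : Kx) *ᵥ u) := by
    have e2 : (∀ y ∈ ({tU u} : Set ↥(Matrix.symplecticGroup (Fin m) F)), y * A = A * y) ↔
        (Cfsg.sympTransvection m u 1 * (A : Kx) = (A : Kx) * Cfsg.sympTransvection m u 1) := by
      constructor
      · intro h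
        exact congrArg Subtype.val (h _ rfl)
      · intro h y hy
        rw [Set.mem_singleton_iff] at hy
        subst hy
        exact Subtype.ext h
    rw [e2, Matrix.ext_iff_mulVec]
    refine forall_congr' fun x => ?_
    rw [← Matrix.mulVec_mulVec, ← Matrix.mulVec_mulVec, sympTransvection_mulVec,
      sympTransvection_mulVec, Matrix.mulVec_add, Matrix.mulVec_smul, one_mul, one_mul]
    exact add_right_inj _
  rw [e1]
  constructor
  · intro h
    have hδ : ∀ x, Cfsg.sympForm m F ((A : Kx) *ᵥ x) u = Cfsg.sympForm m F x u := by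
      intro x
      have h3 := congrArg (fun w => Cfsg.sympForm m F ((A : Kx) *ᵥ x) w) (h x)
      simp only [sympForm_smul_right, sympForm_mulVec_of_mem m A.2] at h3
      exact SpInvCent.sq_inj_char2 h2 h3
    obtain ⟨v, hv⟩ := Cfsg.Agent.Lib.Helper40.exists_sympForm_eq_one m u hu
    have h4 := h v
    rw [hδ, sympForm_swap, hv] at h4
    have h5 := congrArg (fun w => (-1 : F) • w) h4
    simp only [smul_smul] at h5
    rw [show (-1 : F) * -1 = 1 by ring, one_smul, one_smul] at h5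
    exact h5.symm
  · intro h x
    rw [h]
    congr 1
    conv_lhs => rw [← h]
    exact sympForm_mulVec_of_mem m A.2 x u

theorem isoG_equiv_cent [Fintype F] (h2 : (2 : F) = 0) (u : Fin m ⊕ Fin m → F) (hu : u ≠ 0)
    (hE : (SpInvCent.evenModel m u).det ≠ 0) :
    Nonempty (↥(isoG (gOf e (SpInvCent.evenModel m u) hE)) ≃*
      ↥(Subgroup.centralizer ({tU u} : Set ↥(Matrix.symplecticGroup (Fin m) F)))) := by
  have key : ∀ A : Kx, Aᵀ * SpInvCent.evenModel m u * A = SpInvCent.evenModel m u →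
      A ∈ Matrix.symplecticGroup (Fin m) F ∧ ∀ hS : A ∈ Matrix.symplecticGroup (Fin m) F,
        (⟨A, hS⟩ : ↥(Matrix.symplecticGroup (Fin m) F)) ∈
          Subgroup.centralizer ({tU u} : Set ↥(Matrix.symplecticGroup (Fin m) F)) := by
    intro A hA
    rw [SpInvCent.evenModel_iff m h2 u A] at hA
    exact ⟨hA.1, fun hS => (mem_centralizer_tU_iff h2 u hu ⟨A, hS⟩).mpr hA.2⟩
  have key' : ∀ A : ↥(Matrix.symplecticGroup (Fin m) F),
      A ∈ Subgroup.centralizer ({tU u} : Set ↥(Matrix.symplecticGroup (Fin m) F)) →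
      (A : Kx)ᵀ * SpInvCent.evenModel m u * (A : Kx) = SpInvCent.evenModel m u := by
    intro A hA
    rw [SpInvCent.evenModel_iff m h2 u]
    exact ⟨A.2, (mem_centralizer_tU_iff h2 u hu A).mp hA⟩
  have hA : ∀ h : ↥(isoG (gOf e (SpInvCent.evenModel m u) hE)),
      ((((h : GLn)⁻¹ : GLn) : Mx).submatrix e.symm e.symm)ᵀᵀ * SpInvCent.evenModel m u *
        ((((h : GLn)⁻¹ : GLn) : Mx).submatrix e.symm e.symm)ᵀ = SpInvCent.evenModel m u := by
    intro h
    rw [Matrix.transpose_transpose]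
    exact (mem_isoG_gOf e _ hE _).mp (inv_mem h.2)
  let f : ↥(isoG (gOf e (SpInvCent.evenModel m u) hE)) →*
      ↥(Subgroup.centralizer ({tU u} : Set ↥(Matrix.symplecticGroup (Fin m) F))) :=
    { toFun := fun h => ⟨⟨((((h : GLn)⁻¹ : GLn) : Mx).submatrix e.symm e.symm)ᵀ,
        (key _ (hA h)).1⟩, (key _ (hA h)).2 _⟩
      map_one' := by
        apply Subtype.ext
        apply Subtype.ext
        show ((((1 : GLn)⁻¹ : GLn) : Mx).submatrix e.symm e.symm)ᵀ = 1
        rw [inv_one, Units.val_one, Matrix.submatrix_one_equiv, Matrix.transpose_one]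
      map_mul' := fun a b => by
        apply Subtype.ext
        apply Subtype.ext
        show (((((a : GLn) * (b : GLn))⁻¹ : GLn) : Mx).submatrix e.symm e.symm)ᵀ =
          ((((a : GLn)⁻¹ : GLn) : Mx).submatrix e.symm e.symm)ᵀ *
            ((((b : GLn)⁻¹ : GLn) : Mx).submatrix e.symm e.symm)ᵀ
        rw [_root_.mul_inv_rev, Units.val_mul, sub_mul, Matrix.transpose_mul] }
  have hinj : Function.Injective f := by
    intro a b hab
    have h1 : ((((a : GLn)⁻¹ : GLn) : Mx).submatrix e.symm e.symm)ᵀ =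
        ((((b : GLn)⁻¹ : GLn) : Mx).submatrix e.symm e.symm)ᵀ := by
      have h0 : (f a).1.1 = (f b).1.1 := by rw [hab]
      exact h0
    have h3 := congrArg (fun A : Kx => A.submatrix e e) (Matrix.transpose_injective h1)
    simp only [sub_sub'] at h3
    exact Subtype.ext (inv_injective (Units.ext h3))
  have hsurj : Function.Surjective f := by
    intro A
    have hAE := key' A.1 A.2
    have hdet : ((A.1 : Kx)ᵀ).det ≠ 0 := by
      rw [Matrix.det_transpose]
      exact (SymplecticGroup.symplectic_det A.1.2).ne_zero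
    have hk : gOf e (A.1 : Kx)ᵀ hdet ∈ isoG (gOf e (SpInvCent.evenModel m u) hE) := by
      rw [mem_isoG_gOf, gOf_coe, sub_sub, Matrix.transpose_transpose]
      exact hAE
    refine ⟨⟨(gOf e (A.1 : Kx)ᵀ hdet)⁻¹, inv_mem hk⟩, ?_⟩
    apply Subtype.ext
    apply Subtype.ext
    show (((((gOf e (A.1 : Kx)ᵀ hdet)⁻¹)⁻¹ : GLn) : Mx).submatrix e.symm e.symm)ᵀ = (A.1 : Kx)
    rw [inv_inv, gOf_coe, sub_sub, Matrix.transpose_transpose]
  exact ⟨MulEquiv.ofBijective f ⟨hinj, hsurj⟩⟩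

/-- Involutory graph automorphisms of `PSL_n(F)`, `n = 2m ≥ 4`, `F` finite of characteristic two:
two classes under the inner-diagonal group, with centralisers `Sp_n(F)` and the centraliser of
a transvection in `Sp_n(F)`. -/
theorem graph_char2_even [Fintype F] (h2 : (2 : F) = 0) (hm : 2 ≤ m) (hnm : n = 2 * m) :
    ∃ (γ₁ γ₃ : MulAut PSLn) (t : ↥(Matrix.symplecticGroup (Fin m) F)),
      Cfsg.IsTransvection (t : Kx) ∧ Cfsg.IsGraphAutClassPSL γ₁ ∧ orderOf γ₁ = 2 ∧
      Cfsg.IsGraphAutClassPSL γ₃ ∧ orderOf γ₃ = 2 ∧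
      ¬ Cfsg.IsConjUnder (Cfsg.inndiagPSL n F) γ₁ γ₃ ∧
      (∀ γ : MulAut PSLn, Cfsg.IsGraphAutClassPSL γ → orderOf γ = 2 →
        Cfsg.IsConjUnder (Cfsg.inndiagPSL n F) γ₁ γ ∨
          Cfsg.IsConjUnder (Cfsg.inndiagPSL n F) γ₃ γ) ∧
      Nonempty (↥(Cfsg.inndiagPSL n F ⊓ Subgroup.centralizer {γ₁}) ≃*
        ↥(Matrix.symplecticGroup (Fin m) F)) ∧
      Nonempty (↥(Cfsg.inndiagPSL n F ⊓ Subgroup.centralizer {γ₃}) ≃*
        ↥(Subgroup.centralizer ({t} : Set ↥(Matrix.symplecticGroup (Fin m) F)))) := by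
  have hn3 : 3 ≤ n := by omega
  have hn2 : 2 ≤ n := by omega
  obtain ⟨e⟩ : Nonempty (Fin n ≃ Fin m ⊕ Fin m) :=
    ⟨(finCongr (by omega : n = m + m)).trans finSumFinEquiv.symm⟩
  have hJ : (Matrix.J (Fin m) F).det ≠ 0 := by
    intro h
    have := Matrix.J_det_mul_J_det (l := Fin m) (R := F)
    rw [h, mul_zero] at this
    exact zero_ne_one this
  obtain ⟨u, hu⟩ : ∃ u : Fin m ⊕ Fin m → F, u ≠ 0 := by
    refine ⟨Pi.single (Sum.inl ⟨0, by omega⟩) 1, ?_⟩
    intro h
    have := congrFun h (Sum.inl ⟨0, by omega⟩)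
    simp at this
  have hE : (SpInvCent.evenModel m u).det ≠ 0 := by
    apply LinearMap.BilinForm.nondegenerate_toBilin'_iff_det_ne_zero.mp
    rw [SpInvCent.toBilin'_evenModel]
    exact SpInvCent.evenForm_nondegenerate m h2 u
  obtain ⟨g₁, hg₁⟩ : ∃ g₁ : GLn, g₁ = gOf e (Matrix.J (Fin m) F) hJ := ⟨_, rfl⟩
  obtain ⟨g₃, hg₃⟩ : ∃ g₃ : GLn, g₃ = gOf e (SpInvCent.evenModel m u) hE := ⟨_, rfl⟩
  have hs₁ : (g₁ : Mx)ᵀ = (g₁ : Mx) := by
    rw [hg₁, gOf_coe, Matrix.transpose_submatrix, Matrix.J_transpose]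
    congr 1
    rw [neg_eq_iff_add_eq_zero, ← two_smul F, h2, zero_smul]
  have hs₃ : (g₃ : Mx)ᵀ = (g₃ : Mx) := by
    rw [hg₃, gOf_coe, Matrix.transpose_submatrix]
    congr 1
    ext i j
    unfold SpInvCent.evenModel
    rw [Matrix.transpose_apply, LinearMap.BilinForm.toMatrix'_apply,
      LinearMap.BilinForm.toMatrix'_apply]
    exact SpInvCent.evenForm_symm m h2 u _ _
  have ha₁ : ∀ x, Matrix.toBilin' (g₁ : Mx) x x = 0 := by
    intro x
    rw [hg₁, gOf_coe, toBilin'_submatrix, Matrix.toBilin'_apply']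
    exact sympForm_self m _
  have hna₃ : ¬ ∀ x, Matrix.toBilin' (g₃ : Mx) x x = 0 := by
    intro h
    apply SpInvCent.evenForm_not_alt m u hu
    intro v
    have h1 := h (v ∘ e)
    rw [hg₃, gOf_coe, toBilin'_submatrix, SpInvCent.toBilin'_evenModel] at h1
    have h3 : (v ∘ e) ∘ e.symm = v := by
      ext i
      simp
    rw [h3] at h1
    exact h1
  refine ⟨cG g₁ * iG, cG g₃ * iG, tU u, isTransvection_tU u hu, (graph_iff _).mpr ⟨hn3, g₁, rfl⟩,
    (orderOf_eq_two_iff hn3 h2 g₁).mpr hs₁, (graph_iff _).mpr ⟨hn3, g₃, rfl⟩,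
    (orderOf_eq_two_iff hn3 h2 g₃).mpr hs₃, ?_, ?_, ?_, ?_⟩
  · intro hc
    obtain ⟨h, c, hc⟩ := (conj_iff hn2 g₁ g₃).mp hc
    exact hna₃ (alt_of_conj g₁ g₃ h c hc ha₁)
  · intro γ hγ hγ2
    obtain ⟨_, g, rfl⟩ := (graph_iff γ).mp hγ
    have hs := (orderOf_eq_two_iff hn3 h2 g).mp hγ2
    by_cases ha : ∀ x, Matrix.toBilin' (g : Mx) x x = 0
    · left
      obtain ⟨h, hh⟩ := congr_of_type h2 g₁ g hs₁ hs ⟨fun _ => ha, fun _ => ha₁⟩
      exact (conj_iff hn2 g₁ g).mpr ⟨h, 1, by rw [Units.val_one, one_smul]; exact hh⟩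
    · right
      obtain ⟨h, hh⟩ := congr_of_type h2 g₃ g hs₃ hs
        ⟨fun h => absurd h hna₃, fun h => absurd h ha⟩
      exact (conj_iff hn2 g₃ g).mpr ⟨h, 1, by rw [Units.val_one, one_smul]; exact hh⟩
  · obtain ⟨f1⟩ := cent_equiv hn2 h2 g₁
    obtain ⟨f2⟩ := isoG_equiv_sp e hJ
    rw [← hg₁] at f2
    exact ⟨f1.trans f2⟩
  · obtain ⟨f1⟩ := cent_equiv hn2 h2 g₃
    obtain ⟨f2⟩ := isoG_equiv_cent e h2 u hu hE
    rw [← hg₃] at f2
    exact ⟨f1.trans f2⟩

end evenmodel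

end Cfsg.Agent.Lib.Helper8.GraphAut
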