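import Mathlib
import Cfsg.Agent.Lib.Helper8.GraphAut
import Cfsg.Agent.S2623

set_option autoImplicit false

/-!
# Involutory graph automorphisms of `PSL_n(F)`: similarity groups and odd characteristic
-/

namespace Cfsg.Agent.Lib.Helper8.GraphAutOdd

open Matrix Cfsg.Agent.Lib.Helper43.AutPSLn Cfsg.Agent.Lib.Helper43.FieldAut
  Cfsg.Agent.Lib.Helper8.GraphAut

section grp

/-- Centralisers (inside a subgroup) of elements conjugate under the subgroup are isomorphic. -/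
theorem cent_conj_equiv {G : Type*} [Group G] (H : Subgroup G) (x y : G)
    (hxy : Cfsg.IsConjUnder H x y) :
    Nonempty (↥(H ⊓ Subgroup.centralizer {x}) ≃* ↥(H ⊓ Subgroup.centralizer {y})) := by
  obtain ⟨a, ha, rfl⟩ := hxy
  have h : (H ⊓ Subgroup.centralizer {x}).map (MulAut.conj a).toMonoidHom =
      H ⊓ Subgroup.centralizer {a * x * a⁻¹} := by
    ext w
    simp only [Subgroup.mem_inf, Subgroup.mem_centralizer_iff, Set.mem_singleton_iff, forall_eq,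
      Subgroup.mem_map, MulEquiv.coe_toMonoidHom, MulAut.conj_apply]
    constructor
    · rintro ⟨z, ⟨hz, hc⟩, rfl⟩
      refine ⟨H.mul_mem (H.mul_mem ha hz) (H.inv_mem ha), ?_⟩
      have e1 : a * x * a⁻¹ * (a * z * a⁻¹) = a * (x * z) * a⁻¹ := by group
      rw [e1, hc]
      group
    · rintro ⟨hw, hc⟩
      refine ⟨a⁻¹ * w * a, ⟨H.mul_mem (H.mul_mem (H.inv_mem ha) hw) ha, ?_⟩, by group⟩
      have e1 : x * (a⁻¹ * w * a) = a⁻¹ * ((a * x * a⁻¹) * w) * a := by group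
      rw [e1, hc]
      group
  exact ⟨((H ⊓ Subgroup.centralizer {x}).equivMapOfInjective (MulAut.conj a).toMonoidHom
    (MulAut.conj a).injective).trans (MulEquiv.subgroupCongr h)⟩

theorem isConjUnder_symm {G : Type*} [Group G] (H : Subgroup G) {x y : G}
    (hxy : Cfsg.IsConjUnder H x y) : Cfsg.IsConjUnder H y x := by
  obtain ⟨a, ha, rfl⟩ := hxy
  exact ⟨a⁻¹, H.inv_mem ha, by group⟩

theorem isConjUnder_trans {G : Type*} [Group G] (H : Subgroup G) {x y z : G}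
    (hxy : Cfsg.IsConjUnder H x y) (hyz : Cfsg.IsConjUnder H y z) : Cfsg.IsConjUnder H x z := by
  obtain ⟨a, ha, rfl⟩ := hxy
  obtain ⟨b, hb, rfl⟩ := hyz
  exact ⟨b * a, H.mul_mem hb ha, by group⟩

end grp

section general

variable {n : ℕ} {F : Type*} [Field F]

local notation "Mx" => Matrix (Fin n) (Fin n) F
local notation "PSLn" => Matrix.ProjectiveSpecialLinearGroup (Fin n) F
local notation "GLn" => GL (Fin n) F

theorem sq_eq_one_iff' (hn : 2 ≤ n) (g : GLn) :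
    (cG g * iG : MulAut PSLn) ^ 2 = 1 ↔
      (g : Mx)ᵀ = (g : Mx) ∨ (g : Mx)ᵀ = -(g : Mx) := by
  haveI : Nonempty (Fin n) := ⟨⟨0, by omega⟩⟩
  rw [sq_cG_iG]
  have e : (cG (g * glInvT g) : MulAut PSLn) = 1 ↔ (cG g : MulAut PSLn) = cG (trG g) := by
    rw [map_mul, mul_eq_one_iff_eq_inv, ← map_inv]
    rfl
  rw [e, cG_eq_iff hn]
  constructor
  · rintro ⟨c, hc⟩
    rw [trG_coe] at hc
    have h3 : (g : Mx)ᵀ = (c : F) • (g : Mx) := by
      conv_lhs => rw [hc]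
      rw [Matrix.transpose_smul, Matrix.transpose_transpose]
    have h4 : ((c : F) * c - 1) • (g : Mx) = 0 := by
      rw [sub_smul, one_smul, mul_smul, ← h3, ← hc, sub_self]
    have h5 : ((c : F) - 1) * ((c : F) + 1) = 0 := by
      rcases smul_eq_zero.mp h4 with h | h
      · linear_combination h
      · exact absurd h g.ne_zero
    rcases mul_eq_zero.mp h5 with h | h
    · left
      rw [h3, sub_eq_zero.mp h, one_smul]
    · right
      rw [h3, eq_neg_of_add_eq_zero_left h, neg_smul, one_smul]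
  · rintro (hs | hs)
    · exact ⟨1, by rw [trG_coe, hs, Units.val_one, one_smul]⟩
    · exact ⟨-1, by rw [trG_coe, hs, Units.val_neg, Units.val_one, neg_smul, one_smul, neg_neg]⟩

theorem orderOf_eq_two_iff' (hn : 3 ≤ n) (g : GLn) :
    orderOf (cG g * iG : MulAut PSLn) = 2 ↔
      (g : Mx)ᵀ = (g : Mx) ∨ (g : Mx)ᵀ = -(g : Mx) := by
  rw [← sq_eq_one_iff' (by omega)]
  constructor
  · intro h
    rw [← h]
    exact pow_orderOf_eq_one _
  · intro h
    exact orderOf_eq_prime h (ne_one hn g)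

end general

section matrices

variable {F : Type*} [Field F] {ι : Type*} [Fintype ι] [DecidableEq ι]

theorem smul_one_comm (X Y : Matrix ι ι F) (c : Fˣ) :
    X * Y = (c : F) • (1 : Matrix ι ι F) ↔ Y * X = (c : F) • (1 : Matrix ι ι F) := by
  have h : ∀ X Y : Matrix ι ι F, X * Y = (c : F) • (1 : Matrix ι ι F) →
      Y * X = (c : F) • (1 : Matrix ι ι F) := by
    intro X Y hXY
    have h1 : X * ((c : F)⁻¹ • Y) = 1 := by
      rw [Matrix.mul_smul, hXY, smul_smul, inv_mul_cancel₀ c.ne_zero, one_smul]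
    have h2 : ((c : F)⁻¹ • Y) * X = 1 := mul_eq_one_comm.mp h1
    rw [Matrix.smul_mul] at h2
    have h3 := congrArg (fun M : Matrix ι ι F => (c : F) • M) h2
    simp only [smul_smul, mul_inv_cancel₀ c.ne_zero, one_smul] at h3
    exact h3
  exact ⟨h X Y, h Y X⟩

theorem sim_inv_iff (B : Matrix ι ι F) (hB : B.det ≠ 0) (k : Matrix ι ι F) (c : Fˣ) :
    k * B⁻¹ * kᵀ = (c : F) • B⁻¹ ↔ kᵀ * B * k = (c : F) • B := by
  have hu : IsUnit B.det := isUnit_iff_ne_zero.mpr hB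
  have h1 : k * B⁻¹ * kᵀ = (c : F) • B⁻¹ ↔ (k * B⁻¹) * (kᵀ * B) = (c : F) • 1 := by
    constructor
    · intro h
      rw [← Matrix.mul_assoc, h, Matrix.smul_mul, Matrix.nonsing_inv_mul _ hu]
    · intro h
      have h3 := congrArg (fun M : Matrix ι ι F => M * B⁻¹) h
      simp only [Matrix.mul_assoc, Matrix.mul_nonsing_inv _ hu, Matrix.mul_one, Matrix.smul_mul,
        Matrix.one_mul] at h3
      rw [Matrix.mul_assoc]
      exact h3
  have h2 : kᵀ * B * k = (c : F) • B ↔ (kᵀ * B) * (k * B⁻¹) = (c : F) • 1 := by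
    constructor
    · intro h
      rw [← Matrix.mul_assoc, h, Matrix.smul_mul, Matrix.mul_nonsing_inv _ hu]
    · intro h
      have h3 := congrArg (fun M : Matrix ι ι F => M * B) h
      simp only [Matrix.mul_assoc, Matrix.nonsing_inv_mul _ hu, Matrix.mul_one, Matrix.smul_mul,
        Matrix.one_mul] at h3
      rw [Matrix.mul_assoc]
      exact h3
  rw [h1, h2, smul_one_comm]

theorem det_inv_ne_zero (B : Matrix ι ι F) (hB : B.det ≠ 0) : B⁻¹.det ≠ 0 := by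
  rw [Matrix.det_nonsing_inv, Ring.inverse_eq_inv']
  exact inv_ne_zero hB

end matrices

section lemmaB

variable {n : ℕ} {F : Type*} [Field F] {ι : Type} [Fintype ι] [DecidableEq ι] (e : Fin n ≃ ι)

local notation "Mx" => Matrix (Fin n) (Fin n) F
local notation "PSLn" => Matrix.ProjectiveSpecialLinearGroup (Fin n) F
local notation "GLn" => GL (Fin n) F

/-- Reindexing `GL`. -/
noncomputable def rG : GL ι F ≃* GLn :=
  Units.mapEquiv (Matrix.reindexAlgEquiv F F e.symm).toRingEquiv.toMulEquiv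

theorem rG_coe (k : GL ι F) : ((rG e k : GLn) : Mx) = (k : Matrix ι ι F).submatrix e e := rfl

/-- The element of `GL_n` obtained from an invertible matrix on `ι`. -/
noncomputable def gI (E : Matrix ι ι F) (hE : E.det ≠ 0) : GLn :=
  Matrix.GeneralLinearGroup.mkOfDetNeZero (E.submatrix e e)
    (by rw [Matrix.det_submatrix_equiv_self]; exact hE)

theorem gI_coe (E : Matrix ι ι F) (hE : E.det ≠ 0) :
    ((gI e E hE : GLn) : Mx) = E.submatrix e e := rfl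

theorem subI_mul (A B : Matrix ι ι F) : (A * B).submatrix e e = A.submatrix e e * B.submatrix e e :=
  (Matrix.submatrix_mul_equiv A B e e e).symm

theorem subI_smul (c : F) (A : Matrix ι ι F) : (c • A).submatrix e e = c • A.submatrix e e := by
  ext i j
  rfl

theorem subI_inj (A B : Matrix ι ι F) (h : A.submatrix e e = B.submatrix e e) : A = B := by
  have h1 := congrArg (fun M : Mx => M.submatrix e.symm e.symm) h
  simp only [Matrix.submatrix_submatrix, Equiv.self_comp_symm, Matrix.submatrix_id_id] at h1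
  exact h1

theorem cent_equiv_projQuot (hn : 2 ≤ n) (B : Matrix ι ι F) (hB : B.det ≠ 0)
    (H : Subgroup (GL ι F))
    (hH : ∀ k : GL ι F, k ∈ H ↔
      ∃ c : Fˣ, (k : Matrix ι ι F)ᵀ * B * (k : Matrix ι ι F) = (c : F) • B) :
    Nonempty (↥(Cfsg.inndiagPSL n F ⊓ Subgroup.centralizer
      {(cG (gI e B⁻¹ (det_inv_ne_zero B hB)) * iG : MulAut PSLn)}) ≃* Cfsg.projQuot H) := by
  obtain ⟨g, hg⟩ : ∃ g : GLn, g = gI e B⁻¹ (det_inv_ne_zero B hB) := ⟨_, rfl⟩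
  rw [← hg]
  have key : ∀ k : GL ι F, k ∈ H ↔
      (cG (rG e k) : MulAut PSLn) ∈ Subgroup.centralizer {(cG g * iG : MulAut PSLn)} := by
    intro k
    rw [mem_cent_iff hn, hH]
    refine exists_congr fun c => ?_
    rw [rG_coe, hg, gI_coe, ← sim_inv_iff B hB, Matrix.transpose_submatrix, ← subI_mul,
      ← subI_mul, ← subI_smul]
    constructor
    · intro h
      rw [h]
    · intro h
      exact subI_inj e _ _ h
  let ψ : ↥H →* MulAut PSLn :=
    (cG : GLn →* MulAut PSLn).comp ((rG e).toMonoidHom.comp H.subtype)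
  have hrange : ψ.range =
      Cfsg.inndiagPSL n F ⊓ Subgroup.centralizer {(cG g * iG : MulAut PSLn)} := by
    ext x
    constructor
    · rintro ⟨k, rfl⟩
      refine ⟨?_, (key k.1).mp k.2⟩
      rw [inndiag_eq]
      exact ⟨_, rfl⟩
    · rintro ⟨hx1, hx2⟩
      rw [inndiag_eq] at hx1
      obtain ⟨h, rfl⟩ := hx1
      have hk : (rG e).symm h ∈ H := by
        rw [key, MulEquiv.apply_symm_apply]
        exact hx2
      refine ⟨⟨(rG e).symm h, hk⟩, ?_⟩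
      show (cG (rG e ((rG e).symm h)) : MulAut PSLn) = cG h
      rw [MulEquiv.apply_symm_apply]
  have hker : (Cfsg.Geo.scalars ι F).subgroupOf H = ψ.ker := by
    ext k
    rw [Subgroup.mem_subgroupOf, MonoidHom.mem_ker]
    show (k : GL ι F) ∈ Cfsg.Geo.scalars ι F ↔ (cG (rG e (k : GL ι F)) : MulAut PSLn) = 1
    rw [Cfsg.Geo.mem_scalars_iff]
    constructor
    · rintro ⟨c, hc⟩
      have h1 : rG e (k : GL ι F) = Matrix.GeneralLinearGroup.scalar (Fin n) c := by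
        apply Units.ext
        rw [rG_coe, hc, Matrix.GeneralLinearGroup.coe_scalar, subI_smul,
          Matrix.submatrix_one_equiv, Matrix.scalar_apply, Matrix.smul_one_eq_diagonal]
      rw [h1, cG_scalar]
    · intro h
      obtain ⟨c, hc⟩ := exists_scalar_of_cG_eq_one hn _ h
      refine ⟨c, ?_⟩
      apply subI_inj e
      rw [← rG_coe, hc, Matrix.GeneralLinearGroup.coe_scalar, subI_smul,
        Matrix.submatrix_one_equiv, Matrix.scalar_apply, Matrix.smul_one_eq_diagonal]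
  exact ⟨(((QuotientGroup.quotientMulEquivOfEq hker).trans
    (QuotientGroup.quotientKerEquivRange ψ)).trans (MulEquiv.subgroupCongr hrange)).symm⟩

end lemmaB


section oddforms

variable {F : Type*} [Field F] {ι : Type*} [Fintype ι] [DecidableEq ι]

theorem toBilin'_transpose (M : Matrix ι ι F) (x y : ι → F) :
    Matrix.toBilin' Mᵀ x y = Matrix.toBilin' M y x := by
  rw [Matrix.toBilin'_apply', Matrix.toBilin'_apply', Matrix.dotProduct_mulVec y,
    ← Matrix.mulVec_transpose, dotProduct_comm]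

theorem alt_of_skew (h2 : (2 : F) ≠ 0) (M : Matrix ι ι F) (hM : Mᵀ = -M) (x : ι → F) :
    Matrix.toBilin' M x x = 0 := by
  have h1 := toBilin'_transpose M x x
  rw [hM, map_neg, LinearMap.neg_apply, LinearMap.neg_apply] at h1
  have h3 : (2 : F) * Matrix.toBilin' M x x = 0 := by linear_combination -h1
  rcases mul_eq_zero.mp h3 with h | h
  · exact absurd h h2
  · exact h

theorem symm_eq_of_quad (h2 : (2 : F) ≠ 0) (M N : Matrix ι ι F) (hM : Mᵀ = M) (hN : Nᵀ = N)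
    (h : ∀ v, Matrix.toBilin' M v v = Matrix.toBilin' N v v) : M = N := by
  apply Matrix.toBilin'.injective
  apply LinearMap.ext
  intro x
  apply LinearMap.ext
  intro y
  have h1 := h (x + y)
  simp only [map_add, LinearMap.add_apply] at h1
  rw [h x, h y, toBilin'_symm M hM y x, toBilin'_symm N hN y x] at h1
  have h3 : (2 : F) * (Matrix.toBilin' M x y - Matrix.toBilin' N x y) = 0 := by
    linear_combination h1
  rcases mul_eq_zero.mp h3 with h | h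
  · exact absurd h h2
  · exact sub_eq_zero.mp h

theorem quad_iff2 (h2 : (2 : F) ≠ 0) (B B' k : Matrix ι ι F) (hB : Bᵀ = B) (hB' : B'ᵀ = B') :
    kᵀ * B * k = B' ↔
      ∀ v, Matrix.toBilin' B (k *ᵥ v) (k *ᵥ v) = Matrix.toBilin' B' v v := by
  constructor
  · intro h v
    exact (gram_iff2 B B' k).mp h v v
  · intro h
    apply symm_eq_of_quad h2 _ _ _ hB'
    · intro v
      rw [← h v]
      exact ((gram_iff2 B (kᵀ * B * k) k).mp rfl v v).symm
    · rw [Matrix.transpose_mul, Matrix.transpose_mul, Matrix.transpose_transpose, hB,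
        Matrix.mul_assoc]

/-- The quadratic form `v ↦ vᵀ M v`. -/
noncomputable def qOf (M : Matrix ι ι F) : QuadraticForm F (ι → F) :=
  LinearMap.BilinMap.toQuadraticMap (Matrix.toBilin' M)

theorem qOf_apply (M : Matrix ι ι F) (v : ι → F) : qOf M v = Matrix.toBilin' M v v := rfl

theorem polar_qOf (M : Matrix ι ι F) (hM : Mᵀ = M) (x y : ι → F) :
    QuadraticMap.polar (⇑(qOf M)) x y = 2 * Matrix.toBilin' M x y := by
  unfold qOf
  rw [LinearMap.BilinMap.polar_toQuadraticMap, toBilin'_symm M hM y x]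
  ring

theorem polarBilin_qOf (M : Matrix ι ι F) (hM : Mᵀ = M) :
    QuadraticMap.polarBilin (qOf M) = Matrix.toBilin' ((2 : F) • M) := by
  apply LinearMap.ext
  intro x
  apply LinearMap.ext
  intro y
  rw [QuadraticMap.polarBilin_apply_apply, polar_qOf M hM, map_smul, LinearMap.smul_apply,
    LinearMap.smul_apply, smul_eq_mul]

theorem gram_qOf (M : Matrix ι ι F) (hM : Mᵀ = M) :
    Matrix.of (fun i j : ι => QuadraticMap.polar (⇑(qOf M)) (Pi.single i 1) (Pi.single j 1)) =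
      (2 : F) • M := by
  ext i j
  rw [Matrix.of_apply, polar_qOf M hM, Matrix.toBilin'_single, Matrix.smul_apply, smul_eq_mul]

theorem nondeg_qOf (h2 : (2 : F) ≠ 0) (M : Matrix ι ι F) (hM : Mᵀ = M) (hd : M.det ≠ 0) :
    (QuadraticMap.polarBilin (qOf M)).Nondegenerate := by
  rw [polarBilin_qOf M hM]
  apply LinearMap.BilinForm.nondegenerate_toBilin'_iff_det_ne_zero.mpr
  rw [Matrix.det_smul]
  exact mul_ne_zero (pow_ne_zero _ h2) hd

variable {n : ℕ}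

local notation "Mx" => Matrix (Fin n) (Fin n) F
local notation "GLn" => GL (Fin n) F

theorem congr_of_isometry (g g' : Mx) (φ : (Fin n → F) ≃ₗ[F] (Fin n → F))
    (hφ : ∀ w w', Matrix.toBilin' g (φ w) (φ w') = Matrix.toBilin' g' w w') :
    ∃ h : GLn, g' = (h : Mx) * g * (h : Mx)ᵀ := by
  obtain ⟨P, hP⟩ : ∃ P : Mx, P = LinearMap.toMatrix' (φ : (Fin n → F) →ₗ[F] (Fin n → F)) :=
    ⟨_, rfl⟩
  obtain ⟨Q, hQ⟩ : ∃ Q : Mx, Q = LinearMap.toMatrix' (φ.symm : (Fin n → F) →ₗ[F] (Fin n → F)) :=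
    ⟨_, rfl⟩
  have hPQ : P * Q = 1 := by
    rw [hP, hQ, ← LinearMap.toMatrix'_comp]
    have : (φ : (Fin n → F) →ₗ[F] (Fin n → F)) ∘ₗ (φ.symm : (Fin n → F) →ₗ[F] (Fin n → F)) =
        LinearMap.id := by
      ext x
      simp
    rw [this, LinearMap.toMatrix'_id]
  have hQP : Q * P = 1 := mul_eq_one_comm.mp hPQ
  have hPv : ∀ w, P *ᵥ w = φ w := fun w => by
    rw [hP, ← Matrix.toLin'_apply, Matrix.toLin'_toMatrix']
    rfl
  have key : Pᵀ * g * P = g' := by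
    rw [gram_iff2]
    intro x y
    rw [hPv, hPv, hφ]
  refine ⟨⟨Pᵀ, Qᵀ, ?_, ?_⟩, ?_⟩
  · rw [← Matrix.transpose_mul, hQP, Matrix.transpose_one]
  · rw [← Matrix.transpose_mul, hPQ, Matrix.transpose_one]
  · show g' = Pᵀ * g * Pᵀᵀ
    rw [Matrix.transpose_transpose, key]

theorem congr_of_alt (g g' : GLn) (ha : ∀ x, Matrix.toBilin' (g : Mx) x x = 0)
    (ha' : ∀ x, Matrix.toBilin' (g' : Mx) x x = 0) :
    ∃ h : GLn, (g' : Mx) = (h : Mx) * (g : Mx) * (h : Mx)ᵀ := by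
  have hN : ∀ k : GLn, (Matrix.toBilin' (k : Mx)).Nondegenerate := fun k =>
    LinearMap.BilinForm.nondegenerate_toBilin'_iff_det_ne_zero.mpr
      ((Matrix.isUnit_iff_isUnit_det _).mp k.isUnit).ne_zero
  obtain ⟨φ, hφ⟩ := SympInv.alt_isometry (Matrix.toBilin' (g' : Mx)) (Matrix.toBilin' (g : Mx))
    ha' ha (hN g') (hN g) rfl
  exact congr_of_isometry _ _ φ hφ

theorem congr_iff_isSquare [Fintype F] (h2 : (2 : F) ≠ 0) (g g' : GLn)
    (hs : (g : Mx)ᵀ = (g : Mx)) (hs' : (g' : Mx)ᵀ = (g' : Mx)) :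
    (∃ h : GLn, (g' : Mx) = (h : Mx) * (g : Mx) * (h : Mx)ᵀ) ↔
      IsSquare ((g : Mx).det * (g' : Mx).det) := by
  have hdet : ∀ k : GLn, (k : Mx).det ≠ 0 := fun k =>
    ((Matrix.isUnit_iff_isUnit_det _).mp k.isUnit).ne_zero
  constructor
  · rintro ⟨h, hh⟩
    refine ⟨(h : Mx).det * (g : Mx).det, ?_⟩
    rw [hh, Matrix.det_mul, Matrix.det_mul, Matrix.det_transpose]
    ring
  · intro hsq
    have h3 := (Cfsg.Agent.S2623.result h2 (qOf (g : Mx)) (qOf (g' : Mx))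
      (nondeg_qOf h2 _ hs (hdet g)) (nondeg_qOf h2 _ hs' (hdet g'))).mpr (by
        rw [gram_qOf _ hs, gram_qOf _ hs', Matrix.det_smul, Matrix.det_smul]
        obtain ⟨r, hr⟩ := hsq
        refine ⟨2 ^ Fintype.card (Fin n) * r, ?_⟩
        linear_combination ((2 : F) ^ Fintype.card (Fin n)) ^ 2 * hr)
    obtain ⟨φ, hφ⟩ := h3
    obtain ⟨P, hP⟩ : ∃ P : Mx, P = LinearMap.toMatrix' (φ : (Fin n → F) →ₗ[F] (Fin n → F)) :=
      ⟨_, rfl⟩
    obtain ⟨Q, hQ⟩ : ∃ Q : Mx,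
        Q = LinearMap.toMatrix' (φ.symm : (Fin n → F) →ₗ[F] (Fin n → F)) := ⟨_, rfl⟩
    have hPQ : P * Q = 1 := by
      rw [hP, hQ, ← LinearMap.toMatrix'_comp]
      have : (φ : (Fin n → F) →ₗ[F] (Fin n → F)) ∘ₗ (φ.symm : (Fin n → F) →ₗ[F] (Fin n → F)) =
          LinearMap.id := by
        ext x
        simp
      rw [this, LinearMap.toMatrix'_id]
    have hQP : Q * P = 1 := mul_eq_one_comm.mp hPQ
    have hPv : ∀ w, P *ᵥ w = φ w := fun w => by
      rw [hP, ← Matrix.toLin'_apply, Matrix.toLin'_toMatrix']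
      rfl
    have key : Pᵀ * (g' : Mx) * P = (g : Mx) :=
      (quad_iff2 h2 _ _ P hs' hs).mpr (fun v => by rw [hPv]; exact hφ v)
    refine ⟨⟨Qᵀ, Pᵀ, ?_, ?_⟩, ?_⟩
    · rw [← Matrix.transpose_mul, hPQ, Matrix.transpose_one]
    · rw [← Matrix.transpose_mul, hQP, Matrix.transpose_one]
    · show (g' : Mx) = Qᵀ * (g : Mx) * Qᵀᵀ
      rw [Matrix.transpose_transpose, ← key]
      calc (g' : Mx) = (P * Q)ᵀ * (g' : Mx) * (P * Q) := by rw [hPQ]; simp
        _ = Qᵀ * (Pᵀ * (g' : Mx) * P) * Q := by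
          rw [Matrix.transpose_mul]
          simp only [Matrix.mul_assoc]

theorem sim_iff_even [Fintype F] (h2 : (2 : F) ≠ 0) (hn : Even n) (g g' : GLn)
    (hs : (g : Mx)ᵀ = (g : Mx)) (hs' : (g' : Mx)ᵀ = (g' : Mx)) :
    (∃ (h : GLn) (c : Fˣ), (g' : Mx) = (c : F) • ((h : Mx) * (g : Mx) * (h : Mx)ᵀ)) ↔
      IsSquare ((g : Mx).det * (g' : Mx).det) := by
  constructor
  · rintro ⟨h, c, hh⟩
    obtain ⟨r, hr⟩ := hn
    have hp : (c : F) ^ n = (c : F) ^ r * (c : F) ^ r := by rw [hr, pow_add]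
    refine ⟨(c : F) ^ r * (h : Mx).det * (g : Mx).det, ?_⟩
    rw [hh, Matrix.det_smul, Matrix.det_mul, Matrix.det_mul, Matrix.det_transpose,
      Fintype.card_fin, hp]
    ring
  · intro hsq
    obtain ⟨h, hh⟩ := (congr_iff_isSquare h2 g g' hs hs').mpr hsq
    exact ⟨h, 1, by rw [Units.val_one, one_smul]; exact hh⟩

theorem sim_odd [Fintype F] (h2 : (2 : F) ≠ 0) (hn : Odd n) (g g' : GLn)
    (hs : (g : Mx)ᵀ = (g : Mx)) (hs' : (g' : Mx)ᵀ = (g' : Mx)) :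
    ∃ (h : GLn) (c : Fˣ), (g' : Mx) = (c : F) • ((h : Mx) * (g : Mx) * (h : Mx)ᵀ) := by
  have hdet : ∀ k : GLn, (k : Mx).det ≠ 0 := fun k =>
    ((Matrix.isUnit_iff_isUnit_det _).mp k.isUnit).ne_zero
  obtain ⟨r, hr⟩ := hn
  obtain ⟨c, hc⟩ : ∃ c : Fˣ, (c : F) = (g : Mx).det * (g' : Mx).det :=
    ⟨Units.mk0 _ (mul_ne_zero (hdet g) (hdet g')), rfl⟩
  obtain ⟨g'', hg''⟩ : ∃ g'' : GLn, (g'' : Mx) = (c : F)⁻¹ • (g' : Mx) :=
    ⟨Matrix.GeneralLinearGroup.scalar (Fin n) c⁻¹ * g', by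
      rw [scalar_mul_coe, Units.val_inv_eq_inv_val]⟩
  have hs'' : (g'' : Mx)ᵀ = (g'' : Mx) := by
    rw [hg'', Matrix.transpose_smul, hs']
  have hsq : IsSquare ((g : Mx).det * (g'' : Mx).det) := by
    have hp : (c : F)⁻¹ ^ n = (c : F)⁻¹ ^ r * (c : F)⁻¹ ^ r * (c : F)⁻¹ := by
      rw [hr]
      ring
    rw [hg'', Matrix.det_smul, Fintype.card_fin, hp]
    refine ⟨((c : F)⁻¹) ^ r, ?_⟩
    calc (g : Mx).det * ((c : F)⁻¹ ^ r * (c : F)⁻¹ ^ r * (c : F)⁻¹ * (g' : Mx).det)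
        = ((c : F)⁻¹ ^ r * (c : F)⁻¹ ^ r) * ((c : F)⁻¹ * ((g : Mx).det * (g' : Mx).det)) := by
          ring
      _ = _ := by rw [← hc, inv_mul_cancel₀ c.ne_zero, mul_one]
  obtain ⟨h, hh⟩ := (congr_iff_isSquare h2 g g'' hs hs'').mpr hsq
  refine ⟨h, c, ?_⟩
  rw [← hh, hg'', smul_smul, mul_inv_cancel₀ c.ne_zero, one_smul]

end oddforms


section std

variable {F : Type*} [Field F] (m : ℕ)

theorem det_swap :
    (Matrix.fromBlocks (0 : Matrix (Fin m) (Fin m) F) (1 : Matrix (Fin m) (Fin m) F)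
      (1 : Matrix (Fin m) (Fin m) F) (0 : Matrix (Fin m) (Fin m) F)).det = (-1) ^ m := by
  have h1 : Matrix.fromBlocks (1 : Matrix (Fin m) (Fin m) F) (1 : Matrix (Fin m) (Fin m) F)
      (0 : Matrix (Fin m) (Fin m) F) (1 : Matrix (Fin m) (Fin m) F) *
      Matrix.fromBlocks (0 : Matrix (Fin m) (Fin m) F) (1 : Matrix (Fin m) (Fin m) F)
        (1 : Matrix (Fin m) (Fin m) F) (0 : Matrix (Fin m) (Fin m) F) =
      Matrix.fromBlocks (1 : Matrix (Fin m) (Fin m) F) (1 : Matrix (Fin m) (Fin m) F)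
        (1 : Matrix (Fin m) (Fin m) F) (0 : Matrix (Fin m) (Fin m) F) := by
    rw [Matrix.fromBlocks_multiply]
    simp
  have h2 : (Matrix.fromBlocks (1 : Matrix (Fin m) (Fin m) F) (1 : Matrix (Fin m) (Fin m) F)
      (0 : Matrix (Fin m) (Fin m) F) (1 : Matrix (Fin m) (Fin m) F)).det = 1 := by
    rw [Matrix.det_fromBlocks_zero₂₁]
    simp
  have h3 : (Matrix.fromBlocks (1 : Matrix (Fin m) (Fin m) F) (1 : Matrix (Fin m) (Fin m) F)
      (1 : Matrix (Fin m) (Fin m) F) (0 : Matrix (Fin m) (Fin m) F)).det = (-1) ^ m := by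
    rw [Matrix.det_fromBlocks_one₁₁]
    simp [Matrix.det_neg]
  have h4 := congrArg Matrix.det h1
  rw [Matrix.det_mul, h2, one_mul, h3] at h4
  exact h4

/-- The Gram matrix of `quadFormPlus`. -/
noncomputable def gramPlus : Matrix (Fin m ⊕ Fin m) (Fin m ⊕ Fin m) F :=
  (2 : F)⁻¹ • Matrix.fromBlocks 0 1 1 0

theorem gramPlus_symm : (gramPlus m : Matrix (Fin m ⊕ Fin m) (Fin m ⊕ Fin m) F)ᵀ = gramPlus m := by
  unfold gramPlus
  rw [Matrix.transpose_smul, Matrix.fromBlocks_transpose]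
  simp

theorem det_gramPlus :
    (gramPlus m : Matrix (Fin m ⊕ Fin m) (Fin m ⊕ Fin m) F).det =
      ((2 : F)⁻¹ ^ m * (2 : F)⁻¹ ^ m) * (-1) ^ m := by
  unfold gramPlus
  rw [Matrix.det_smul, det_swap, Fintype.card_sum, Fintype.card_fin, pow_add]

theorem swap_quad (v : Fin m ⊕ Fin m → F) :
    Matrix.toBilin' (Matrix.fromBlocks (0 : Matrix (Fin m) (Fin m) F) 1 1 0) v v =
      2 * ∑ i : Fin m, v (Sum.inl i) * v (Sum.inr i) := by
  have hv : v = Sum.elim (v ∘ Sum.inl) (v ∘ Sum.inr) := (Sum.elim_comp_inl_inr v).symm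
  rw [Matrix.toBilin'_apply']
  conv_lhs => rw [hv]
  rw [Matrix.fromBlocks_mulVec, sumElim_dotProduct_sumElim]
  simp only [Matrix.zero_mulVec, Matrix.one_mulVec, zero_add, add_zero, dotProduct,
    Function.comp_apply, Sum.elim_comp_inl, Sum.elim_comp_inr]
  rw [two_mul]
  congr 1
  exact Finset.sum_congr rfl fun i _ => mul_comm _ _

theorem toBilin'_gramPlus (h2 : (2 : F) ≠ 0) (v : Fin m ⊕ Fin m → F) :
    Matrix.toBilin' (gramPlus m) v v = Cfsg.quadFormPlus m F v := by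
  unfold gramPlus Cfsg.quadFormPlus
  rw [map_smul, LinearMap.smul_apply, LinearMap.smul_apply, swap_quad, smul_eq_mul,
    ← mul_assoc, inv_mul_cancel₀ h2, one_mul]

/-- The Gram matrix of `quadFormMinus`. -/
noncomputable def gramMinus (a b : F) :
    Matrix ((Fin m ⊕ Fin m) ⊕ Fin 2) ((Fin m ⊕ Fin m) ⊕ Fin 2) F :=
  Matrix.fromBlocks (gramPlus m) 0 0 !![1, (2 : F)⁻¹ * a; (2 : F)⁻¹ * a, b]

theorem gramMinus_symm (a b : F) : (gramMinus m a b)ᵀ = gramMinus m a b := by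
  unfold gramMinus
  rw [Matrix.fromBlocks_transpose, gramPlus_symm]
  congr 1
  ext i j
  fin_cases i <;> fin_cases j <;> simp

theorem det_gramMinus (a b : F) :
    (gramMinus m a b).det = (gramPlus m : Matrix (Fin m ⊕ Fin m) (Fin m ⊕ Fin m) F).det *
      (b - (2 : F)⁻¹ * a * ((2 : F)⁻¹ * a)) := by
  unfold gramMinus
  rw [Matrix.det_fromBlocks_zero₂₁, Matrix.det_fin_two_of]
  ring

theorem toBilin'_gramMinus (h2 : (2 : F) ≠ 0) (a b : F) (v : (Fin m ⊕ Fin m) ⊕ Fin 2 → F) :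
    Matrix.toBilin' (gramMinus m a b) v v = Cfsg.quadFormMinus m F a b v := by
  have hv : v = Sum.elim (v ∘ Sum.inl) (v ∘ Sum.inr) := (Sum.elim_comp_inl_inr v).symm
  have h1 : Matrix.toBilin' (gramMinus m a b) v v =
      Matrix.toBilin' (gramPlus m) (v ∘ Sum.inl) (v ∘ Sum.inl) +
        Matrix.toBilin' !![1, (2 : F)⁻¹ * a; (2 : F)⁻¹ * a, b] (v ∘ Sum.inr) (v ∘ Sum.inr) := by
    rw [Matrix.toBilin'_apply', Matrix.toBilin'_apply', Matrix.toBilin'_apply']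
    conv_lhs => rw [hv]
    unfold gramMinus
    rw [Matrix.fromBlocks_mulVec, sumElim_dotProduct_sumElim]
    simp only [Matrix.zero_mulVec, zero_add, add_zero, Sum.elim_comp_inl, Sum.elim_comp_inr]
  rw [h1, toBilin'_gramPlus m h2]
  unfold Cfsg.quadFormPlus Cfsg.quadFormMinus
  congr 1
  rw [Matrix.toBilin'_apply']
  simp only [dotProduct, Matrix.mulVec, Fin.sum_univ_two, Matrix.of_apply, Matrix.cons_val_zero,
    Matrix.cons_val_one, Function.comp_apply]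
  field_simp
  ring

/-- The Gram matrix of `quadFormOdd`. -/
noncomputable def gramOdd :
    Matrix (Unit ⊕ (Fin m ⊕ Fin m)) (Unit ⊕ (Fin m ⊕ Fin m)) F :=
  Matrix.fromBlocks 1 0 0 (gramPlus m)

theorem gramOdd_symm : (gramOdd m : Matrix (Unit ⊕ (Fin m ⊕ Fin m)) _ F)ᵀ = gramOdd m := by
  unfold gramOdd
  rw [Matrix.fromBlocks_transpose, gramPlus_symm]
  simp

theorem det_gramOdd :
    (gramOdd m : Matrix (Unit ⊕ (Fin m ⊕ Fin m)) _ F).det =
      (gramPlus m : Matrix (Fin m ⊕ Fin m) (Fin m ⊕ Fin m) F).det := by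
  unfold gramOdd
  rw [Matrix.det_fromBlocks_zero₂₁, Matrix.det_one, one_mul]

theorem toBilin'_gramOdd (h2 : (2 : F) ≠ 0) (v : Unit ⊕ (Fin m ⊕ Fin m) → F) :
    Matrix.toBilin' (gramOdd m) v v = Cfsg.quadFormOdd m F v := by
  have hv : v = Sum.elim (v ∘ Sum.inl) (v ∘ Sum.inr) := (Sum.elim_comp_inl_inr v).symm
  have h1 : Matrix.toBilin' (gramOdd m) v v =
      v (Sum.inl ()) * v (Sum.inl ()) +
        Matrix.toBilin' (gramPlus m) (v ∘ Sum.inr) (v ∘ Sum.inr) := by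
    rw [Matrix.toBilin'_apply', Matrix.toBilin'_apply']
    conv_lhs => rw [hv]
    unfold gramOdd
    rw [Matrix.fromBlocks_mulVec, sumElim_dotProduct_sumElim]
    simp only [Matrix.zero_mulVec, zero_add, add_zero, Matrix.one_mulVec, Sum.elim_comp_inl,
      Sum.elim_comp_inr]
    congr 1
    simp [dotProduct]
  rw [h1, toBilin'_gramPlus m h2]
  unfold Cfsg.quadFormPlus Cfsg.quadFormOdd
  rw [pow_two]
  rfl

theorem mem_quadSim_iff (h2 : (2 : F) ≠ 0) {ι : Type} [Fintype ι] [DecidableEq ι]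
    (B : Matrix ι ι F) (hB : Bᵀ = B) (Q : (ι → F) → F)
    (hQ : ∀ v, Matrix.toBilin' B v v = Q v) (k : GL ι F) :
    k ∈ Cfsg.Geo.quadSimilarityGroup (F := F) Q ↔
      ∃ c : Fˣ, (k : Matrix ι ι F)ᵀ * B * (k : Matrix ι ι F) = (c : F) • B := by
  show (∃ c : Fˣ, ∀ v, Q ((k : Matrix ι ι F) *ᵥ v) = (c : F) * Q v) ↔ _
  refine exists_congr fun c => ?_
  rw [quad_iff2 h2 B ((c : F) • B) _ hB (by rw [Matrix.transpose_smul, hB])]
  refine forall_congr' fun v => ?_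
  rw [hQ, map_smul, LinearMap.smul_apply, LinearMap.smul_apply, hQ, smul_eq_mul]

theorem mem_GSp_iff (k : GL (Fin m ⊕ Fin m) F) :
    k ∈ Cfsg.GSp m F ↔
      ∃ c : Fˣ, (k : Matrix (Fin m ⊕ Fin m) (Fin m ⊕ Fin m) F)ᵀ * Matrix.J (Fin m) F *
        (k : Matrix (Fin m ⊕ Fin m) (Fin m ⊕ Fin m) F) = (c : F) • Matrix.J (Fin m) F := by
  show (∃ c : Fˣ, ∀ u v, Cfsg.sympForm m F ((k : Matrix (Fin m ⊕ Fin m) (Fin m ⊕ Fin m) F) *ᵥ u)
    ((k : Matrix (Fin m ⊕ Fin m) (Fin m ⊕ Fin m) F) *ᵥ v) = (c : F) * Cfsg.sympForm m F u v) ↔ _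
  refine exists_congr fun c => ?_
  rw [gram_iff2]
  refine forall_congr' fun u => forall_congr' fun v => ?_
  rw [map_smul, LinearMap.smul_apply, LinearMap.smul_apply, Matrix.toBilin'_apply',
    Matrix.toBilin'_apply', smul_eq_mul]
  rfl

end std


section final

variable {F : Type*} [Field F]

theorem ringChar_ne_two (h2 : (2 : F) ≠ 0) : ringChar F ≠ 2 := by
  intro h
  apply h2
  have h1 := ringChar.Nat.cast_ringChar (R := F)
  rw [h] at h1
  exact_mod_cast h1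

theorem two_ne_zero_of_odd [Fintype F] (hodd : Odd (Fintype.card F)) : (2 : F) ≠ 0 := by
  intro h
  have h1 : ringChar F = 2 := CharP.ringChar_of_prime_eq_zero Nat.prime_two h
  have h3 := FiniteField.even_card_of_char_two h1
  rw [Nat.odd_iff] at hodd
  omega

theorem nonsq_mul_nonsq [Fintype F] (h2 : (2 : F) ≠ 0) {x y : F} (hx : ¬ IsSquare x)
    (hy : ¬ IsSquare y) : IsSquare (x * y) := by
  have hF := ringChar_ne_two h2
  have hx0 : x ≠ 0 := by
    rintro rfl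
    exact hx ⟨0, by simp⟩
  have hy0 : y ≠ 0 := by
    rintro rfl
    exact hy ⟨0, by simp⟩
  rw [FiniteField.isSquare_iff hF (mul_ne_zero hx0 hy0), mul_pow]
  rcases FiniteField.pow_dichotomy hF hx0 with h | h
  · exact absurd ((FiniteField.isSquare_iff hF hx0).mpr h) hx
  rcases FiniteField.pow_dichotomy hF hy0 with h' | h'
  · exact absurd ((FiniteField.isSquare_iff hF hy0).mpr h') hy
  rw [h, h']
  ring

theorem isSquare_of_sq_mul {s x : F} (hs : s ≠ 0) (h : IsSquare (s * s * x)) : IsSquare x := by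
  obtain ⟨r, hr⟩ := h
  refine ⟨r / s, ?_⟩
  field_simp
  linear_combination hr

variable {n : ℕ}

local notation "Mx" => Matrix (Fin n) (Fin n) F
local notation "PSLn" => Matrix.ProjectiveSpecialLinearGroup (Fin n) F
local notation "GLn" => GL (Fin n) F

theorem not_conj_skew_symm (h2 : (2 : F) ≠ 0) (hn : 2 ≤ n) (g g' : GLn)
    (hg : (g : Mx)ᵀ = -(g : Mx)) (hg' : (g' : Mx)ᵀ = (g' : Mx)) :
    ¬ Cfsg.IsConjUnder (Cfsg.inndiagPSL n F) (cG g * iG : MulAut PSLn) (cG g' * iG) := by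
  haveI : Nonempty (Fin n) := ⟨⟨0, by omega⟩⟩
  intro hc
  obtain ⟨h, c, hh⟩ := (conj_iff hn g g').mp hc
  have h1 : (g' : Mx)ᵀ = -(g' : Mx) := by
    rw [hh, Matrix.transpose_smul, Matrix.transpose_mul, Matrix.transpose_mul,
      Matrix.transpose_transpose, hg, Matrix.neg_mul, Matrix.mul_neg, smul_neg, Matrix.mul_assoc]
  rw [hg'] at h1
  have h3 : (2 : F) • (g' : Mx) = 0 := by
    rw [two_smul]
    nth_rewrite 1 [h1]
    exact neg_add_cancel _
  rcases smul_eq_zero.mp h3 with h | h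
  · exact h2 h
  · exact g'.ne_zero h

theorem std_reps [Fintype F] (h2 : (2 : F) ≠ 0) {m : ℕ} (hm : 2 ≤ m) (hnm : n = 2 * m) :
    ∃ (g₁ g₂ g₃ : GLn) (a b s : F),
      (∀ z₁ z₂ : F, z₁ ^ 2 + a * z₁ * z₂ + b * z₂ ^ 2 = 0 → z₁ = 0 ∧ z₂ = 0) ∧
      (g₁ : Mx)ᵀ = -(g₁ : Mx) ∧ (g₂ : Mx)ᵀ = (g₂ : Mx) ∧ (g₃ : Mx)ᵀ = (g₃ : Mx) ∧
      s ≠ 0 ∧ (g₂ : Mx).det = s * s * (-1) ^ m ∧ ¬ IsSquare ((g₂ : Mx).det * (g₃ : Mx).det) ∧
      Nonempty (↥(Cfsg.inndiagPSL n F ⊓ Subgroup.centralizer {(cG g₁ * iG : MulAut PSLn)}) ≃*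
        Cfsg.PGSp m F) ∧
      Nonempty (↥(Cfsg.inndiagPSL n F ⊓ Subgroup.centralizer {(cG g₂ * iG : MulAut PSLn)}) ≃*
        Cfsg.PGO F (Cfsg.quadFormPlus m F)) ∧
      Nonempty (↥(Cfsg.inndiagPSL n F ⊓ Subgroup.centralizer {(cG g₃ * iG : MulAut PSLn)}) ≃*
        Cfsg.PGO F (Cfsg.quadFormMinus (m - 1) F a b)) := by
  have hn2 : 2 ≤ n := by omega
  obtain ⟨e₂⟩ : Nonempty (Fin n ≃ Fin m ⊕ Fin m) :=
    ⟨(finCongr (by omega : n = m + m)).trans finSumFinEquiv.symm⟩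
  obtain ⟨e₃⟩ : Nonempty (Fin n ≃ (Fin (m - 1) ⊕ Fin (m - 1)) ⊕ Fin 2) :=
    ⟨(finCongr (by omega : n = (m - 1 + (m - 1)) + 2)).trans
      (finSumFinEquiv.symm.trans (Equiv.sumCongr finSumFinEquiv.symm (Equiv.refl _)))⟩
  obtain ⟨ε, hε⟩ := FiniteField.exists_nonsquare (ringChar_ne_two h2)
  have h2i : (2 : F)⁻¹ ≠ 0 := inv_ne_zero h2
  have hε0 : ε ≠ 0 := by
    rintro rfl
    exact hε ⟨0, by simp⟩
  have hJ : (Matrix.J (Fin m) F).det ≠ 0 := by
    intro h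
    have := Matrix.J_det_mul_J_det (l := Fin m) (R := F)
    rw [h, mul_zero] at this
    exact zero_ne_one this
  have hP : ∀ k : ℕ, (gramPlus k : Matrix (Fin k ⊕ Fin k) (Fin k ⊕ Fin k) F).det ≠ 0 := by
    intro k
    rw [det_gramPlus]
    exact mul_ne_zero (mul_ne_zero (pow_ne_zero _ h2i) (pow_ne_zero _ h2i))
      (pow_ne_zero _ (neg_ne_zero.mpr one_ne_zero))
  have hM : (gramMinus (m - 1) 0 (-ε)).det ≠ 0 := by
    rw [det_gramMinus]
    refine mul_ne_zero (hP _) ?_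
    rw [mul_zero, zero_mul, sub_zero]
    exact neg_ne_zero.mpr hε0
  refine ⟨gI e₂ (Matrix.J (Fin m) F)⁻¹ (det_inv_ne_zero _ hJ),
    gI e₂ (gramPlus m)⁻¹ (det_inv_ne_zero _ (hP m)),
    gI e₃ (gramMinus (m - 1) 0 (-ε))⁻¹ (det_inv_ne_zero _ hM), 0, -ε, 2 ^ m,
    ?_, ?_, ?_, ?_, pow_ne_zero _ h2, ?_, ?_, ?_, ?_, ?_⟩
  · intro z₁ z₂ h
    have h' : z₁ ^ 2 = ε * z₂ ^ 2 := by linear_combination h
    by_cases hz : z₂ = 0
    · subst hz
      rw [zero_pow two_ne_zero, mul_zero] at h'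
      exact ⟨pow_eq_zero_iff two_ne_zero |>.mp h', rfl⟩
    · exfalso
      apply hε
      refine ⟨z₁ / z₂, ?_⟩
      field_simp
      linear_combination -h'
  · rw [gI_coe, Matrix.transpose_submatrix, Matrix.J_inv, Matrix.transpose_neg,
      Matrix.J_transpose, neg_neg]
    ext i j
    simp
  · rw [gI_coe, Matrix.transpose_submatrix, Matrix.transpose_nonsing_inv, gramPlus_symm]
  · rw [gI_coe, Matrix.transpose_submatrix, Matrix.transpose_nonsing_inv, gramMinus_symm]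
  · rw [gI_coe, Matrix.det_submatrix_equiv_self, Matrix.det_nonsing_inv, Ring.inverse_eq_inv',
      det_gramPlus]
    have h1 : ((-1 : F) ^ m)⁻¹ = (-1) ^ m := by rw [← inv_pow, inv_neg_one]
    rw [mul_inv, mul_inv, h1, inv_pow, inv_inv]
  · rw [gI_coe, gI_coe, Matrix.det_submatrix_equiv_self, Matrix.det_submatrix_equiv_self,
      Matrix.det_nonsing_inv, Matrix.det_nonsing_inv, Ring.inverse_eq_inv', ← mul_inv,
      isSquare_inv, det_gramMinus, det_gramPlus, det_gramPlus]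
    intro hsq
    apply hε
    have hm1 : (-1 : F) ^ m = (-1) ^ (m - 1) * (-1) := by
      rw [← pow_succ]
      congr 1
      omega
    have hw : (-1 : F) ^ (m - 1) * (-1) ^ (m - 1) = 1 := by
      rw [← mul_pow]
      simp
    have h5 : (2 : F)⁻¹ ^ m * (2 : F)⁻¹ ^ m * (-1) ^ m *
        ((2 : F)⁻¹ ^ (m - 1) * (2 : F)⁻¹ ^ (m - 1) * (-1) ^ (m - 1) *
          (-ε - (2 : F)⁻¹ * 0 * ((2 : F)⁻¹ * 0))) =
        ((2 : F)⁻¹ ^ m * (2 : F)⁻¹ ^ (m - 1)) * ((2 : F)⁻¹ ^ m * (2 : F)⁻¹ ^ (m - 1)) * ε := by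
      rw [hm1]
      linear_combination ((2 : F)⁻¹ ^ m * (2 : F)⁻¹ ^ (m - 1)) *
        ((2 : F)⁻¹ ^ m * (2 : F)⁻¹ ^ (m - 1)) * ε * hw
    rw [h5] at hsq
    exact isSquare_of_sq_mul (mul_ne_zero (pow_ne_zero _ h2i) (pow_ne_zero _ h2i)) hsq
  · exact cent_equiv_projQuot e₂ hn2 (Matrix.J (Fin m) F) hJ (Cfsg.GSp m F) (mem_GSp_iff m)
  · exact cent_equiv_projQuot e₂ hn2 (gramPlus m) (hP m) _
      (mem_quadSim_iff h2 _ (gramPlus_symm m) _ (toBilin'_gramPlus m h2))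
  · exact cent_equiv_projQuot e₃ hn2 (gramMinus (m - 1) 0 (-ε)) hM _
      (mem_quadSim_iff h2 _ (gramMinus_symm (m - 1) 0 (-ε)) _
        (toBilin'_gramMinus (m - 1) h2 0 (-ε)))

/-- Involutory graph automorphisms of `PSL_n(F)`, `n = 2m ≥ 4`, `|F|` odd: three classes. -/
theorem graph_odd_even [Fintype F] (hodd : Odd (Fintype.card F)) {m : ℕ} (hm : 2 ≤ m)
    (hnm : n = 2 * m) :
    ∃ (γ₁ γ₂ γ₃ : MulAut PSLn) (a b : F),
      (∀ z₁ z₂ : F, z₁ ^ 2 + a * z₁ * z₂ + b * z₂ ^ 2 = 0 → z₁ = 0 ∧ z₂ = 0) ∧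
      Cfsg.IsGraphAutClassPSL γ₁ ∧ orderOf γ₁ = 2 ∧ Cfsg.IsGraphAutClassPSL γ₂ ∧ orderOf γ₂ = 2 ∧
      Cfsg.IsGraphAutClassPSL γ₃ ∧ orderOf γ₃ = 2 ∧
      ¬ Cfsg.IsConjUnder (Cfsg.inndiagPSL n F) γ₁ γ₂ ∧
      ¬ Cfsg.IsConjUnder (Cfsg.inndiagPSL n F) γ₁ γ₃ ∧
      ¬ Cfsg.IsConjUnder (Cfsg.inndiagPSL n F) γ₂ γ₃ ∧
      (∀ γ : MulAut PSLn, Cfsg.IsGraphAutClassPSL γ → orderOf γ = 2 →
        Cfsg.IsConjUnder (Cfsg.inndiagPSL n F) γ₁ γ ∨
          Cfsg.IsConjUnder (Cfsg.inndiagPSL n F) γ₂ γ ∨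
            Cfsg.IsConjUnder (Cfsg.inndiagPSL n F) γ₃ γ) ∧
      Nonempty (↥(Cfsg.inndiagPSL n F ⊓ Subgroup.centralizer {γ₁}) ≃* Cfsg.PGSp m F) ∧
      Nonempty (↥(Cfsg.inndiagPSL n F ⊓ Subgroup.centralizer {γ₂}) ≃*
        Cfsg.PGO F (Cfsg.quadFormPlus m F)) ∧
      Nonempty (↥(Cfsg.inndiagPSL n F ⊓ Subgroup.centralizer {γ₃}) ≃*
        Cfsg.PGO F (Cfsg.quadFormMinus (m - 1) F a b)) := by
  have h2 : (2 : F) ≠ 0 := two_ne_zero_of_odd hodd
  obtain ⟨g₁, g₂, g₃, a, b, s, hab, hs₁, hs₂, hs₃, hs0, hdet, hns, hc₁, hc₂, hc₃⟩ :=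
    std_reps (n := n) h2 hm hnm
  have hn3 : 3 ≤ n := by omega
  have hn2 : 2 ≤ n := by omega
  have hev : Even n := ⟨m, by omega⟩
  have hdet' : ∀ k : GLn, (k : Mx).det ≠ 0 := fun k =>
    ((Matrix.isUnit_iff_isUnit_det _).mp k.isUnit).ne_zero
  refine ⟨cG g₁ * iG, cG g₂ * iG, cG g₃ * iG, a, b, hab, (graph_iff _).mpr ⟨hn3, g₁, rfl⟩,
    (orderOf_eq_two_iff' hn3 g₁).mpr (Or.inr hs₁), (graph_iff _).mpr ⟨hn3, g₂, rfl⟩,
    (orderOf_eq_two_iff' hn3 g₂).mpr (Or.inl hs₂), (graph_iff _).mpr ⟨hn3, g₃, rfl⟩,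
    (orderOf_eq_two_iff' hn3 g₃).mpr (Or.inl hs₃), not_conj_skew_symm h2 hn2 g₁ g₂ hs₁ hs₂,
    not_conj_skew_symm h2 hn2 g₁ g₃ hs₁ hs₃, ?_, ?_, hc₁, hc₂, hc₃⟩
  · intro hc
    exact hns ((sim_iff_even h2 hev g₂ g₃ hs₂ hs₃).mp ((conj_iff hn2 g₂ g₃).mp hc))
  · intro γ hγ hγ2
    obtain ⟨_, g, rfl⟩ := (graph_iff γ).mp hγ
    rcases (orderOf_eq_two_iff' hn3 g).mp hγ2 with hs | hs
    · by_cases hsq : IsSquare ((g₂ : Mx).det * (g : Mx).det)
      · right; left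
        exact (conj_iff hn2 g₂ g).mpr ((sim_iff_even h2 hev g₂ g hs₂ hs).mpr hsq)
      · right; right
        have h5 : IsSquare ((g₃ : Mx).det * (g : Mx).det) := by
          have h6 := nonsq_mul_nonsq h2 hns hsq
          have h7 : (g₂ : Mx).det * (g₃ : Mx).det * ((g₂ : Mx).det * (g : Mx).det) =
              (g₂ : Mx).det * (g₂ : Mx).det * ((g₃ : Mx).det * (g : Mx).det) := by ring
          rw [h7] at h6
          exact isSquare_of_sq_mul (hdet' g₂) h6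
        exact (conj_iff hn2 g₃ g).mpr ((sim_iff_even h2 hev g₃ g hs₃ hs).mpr h5)
    · left
      obtain ⟨h, hh⟩ := congr_of_alt g₁ g (alt_of_skew h2 _ hs₁) (alt_of_skew h2 _ hs)
      exact (conj_iff hn2 g₁ g).mpr ⟨h, 1, by rw [Units.val_one, one_smul]; exact hh⟩

/-- The centraliser of the inverse-transpose automorphism, `n = 2m ≥ 4`, `|F|` odd. -/
theorem cent_invTranspose [Fintype F] (hodd : Odd (Fintype.card F)) {m : ℕ} (hm : 2 ≤ m)
    (hnm : n = 2 * m) (ι : MulAut PSLn) (hι : Cfsg.IsInverseTransposeAutPSL ι) :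
    (Even (n * (Fintype.card F - 1) / 4) →
      Nonempty (↥(Cfsg.inndiagPSL n F ⊓ Subgroup.centralizer {ι}) ≃*
        Cfsg.PGO F (Cfsg.quadFormPlus m F))) ∧
    (¬ Even (n * (Fintype.card F - 1) / 4) → ∃ a b : F,
      (∀ z₁ z₂ : F, z₁ ^ 2 + a * z₁ * z₂ + b * z₂ ^ 2 = 0 → z₁ = 0 ∧ z₂ = 0) ∧
      Nonempty (↥(Cfsg.inndiagPSL n F ⊓ Subgroup.centralizer {ι}) ≃*
        Cfsg.PGO F (Cfsg.quadFormMinus (m - 1) F a b))) := by
  have h2 : (2 : F) ≠ 0 := two_ne_zero_of_odd hodd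
  obtain ⟨g₁, g₂, g₃, a, b, s, hab, hs₁, hs₂, hs₃, hs0, hdet, hns, hc₁, hc₂, hc₃⟩ :=
    std_reps (n := n) h2 hm hnm
  have hn2 : 2 ≤ n := by omega
  have hev : Even n := ⟨m, by omega⟩
  have hdet' : ∀ k : GLn, (k : Mx).det ≠ 0 := fun k =>
    ((Matrix.isUnit_iff_isUnit_det _).mp k.isUnit).ne_zero
  have hι' : ι = cG (1 : GLn) * iG := by rw [(invTranspose_iff ι).mp hι, map_one, one_mul]
  have h1s : ((1 : GLn) : Mx)ᵀ = ((1 : GLn) : Mx) := by simp
  have hd1 : ((1 : GLn) : Mx).det = 1 := by simp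
  obtain ⟨t, ht⟩ := hodd
  have hpar : n * (Fintype.card F - 1) / 4 = m * t := by
    have h3 : n * (Fintype.card F - 1) = 4 * (m * t) := by
      rw [hnm, ht, Nat.add_sub_cancel]
      ring
    rw [h3, Nat.mul_div_cancel_left _ (by norm_num)]
  rw [hpar, hι']
  constructor
  · intro hev2
    have hsq : IsSquare ((-1 : F) ^ m) := by
      rcases Nat.even_mul.mp hev2 with he | he
      · obtain ⟨r, hr⟩ := he
        exact ⟨(-1) ^ r, by rw [hr, pow_add]⟩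
      · have h4 : IsSquare (-1 : F) := by
          rw [FiniteField.isSquare_neg_one_iff]
          obtain ⟨r, hr⟩ := he
          omega
        exact h4.pow m
    have hsq2 : IsSquare ((g₂ : Mx).det * ((1 : GLn) : Mx).det) := by
      rw [hd1, mul_one, hdet]
      have hss : IsSquare (s * s) := ⟨s, rfl⟩
      exact hss.mul hsq
    have hconj := (conj_iff hn2 g₂ 1).mpr ((sim_iff_even h2 hev g₂ 1 hs₂ h1s).mpr hsq2)
    obtain ⟨f⟩ := cent_conj_equiv _ _ _ hconj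
    obtain ⟨f2⟩ := hc₂
    exact ⟨f.symm.trans f2⟩
  · intro hnev
    have hmo : Odd m := by
      by_contra h
      exact hnev (Nat.even_mul.mpr (Or.inl (Nat.not_odd_iff_even.mp h)))
    have hto : Odd t := by
      by_contra h
      exact hnev (Nat.even_mul.mpr (Or.inr (Nat.not_odd_iff_even.mp h)))
    have hns1 : ¬ IsSquare (-1 : F) := by
      rw [FiniteField.isSquare_neg_one_iff]
      obtain ⟨u, hu⟩ := hto
      omega
    have hns2 : ¬ IsSquare ((g₂ : Mx).det) := by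
      rw [hdet, hmo.neg_one_pow]
      intro h
      exact hns1 (isSquare_of_sq_mul hs0 h)
    have hsq3 : IsSquare ((g₃ : Mx).det * ((1 : GLn) : Mx).det) := by
      rw [hd1, mul_one]
      have h6 := nonsq_mul_nonsq h2 hns2 hns
      rw [← mul_assoc] at h6
      exact isSquare_of_sq_mul (hdet' g₂) h6
    have hconj := (conj_iff hn2 g₃ 1).mpr ((sim_iff_even h2 hev g₃ 1 hs₃ h1s).mpr hsq3)
    obtain ⟨f⟩ := cent_conj_equiv _ _ _ hconj
    obtain ⟨f2⟩ := hc₃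
    exact ⟨a, b, hab, ⟨f.symm.trans f2⟩⟩

end final

end Cfsg.Agent.Lib.Helper8.GraphAutOdd
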