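import Mathlib
import Cfsg.Prelude.Def_LieTypeDatum
import Cfsg.Agent.Lib.Helper44.PgoAut
import Cfsg.Agent.Lib.Helper43.FieldAut.H90

set_option autoImplicit false

/-!
# Field automorphisms of `PΩ(Q)`

For a form `Q` commuting with the field automorphisms applied to the coordinates (a form with
coefficients in the prime field): the entrywise field automorphisms as automorphisms of `PΩ(Q)`,
their interplay with the conjugation action of the similarity group, and the consequences of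
`Aut(PΩ(Q)) = PΓO(Q)`.
-/

namespace Cfsg.Agent.Lib.Helper8.OField

open Matrix Cfsg.Agent.Lib.Helper14 Cfsg.Agent.Lib.Helper44 Cfsg.Agent.Lib.Helper43.FieldAut

variable {ι : Type} [Fintype ι] [DecidableEq ι] {F : Type*} [Field F]

/-- The form commutes with field automorphisms applied to the coordinates. -/
def FieldCompat (Q : (ι → F) → F) : Prop :=
  ∀ (τ : RingAut F) (v : ι → F), Q (fun i => τ (v i)) = τ (Q v)

/-- A field automorphism applied to the entries of an invertible matrix. -/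
noncomputable def gmap (τ : RingAut F) : GL ι F →* GL ι F :=
  Matrix.GeneralLinearGroup.map (τ : F →+* F)

theorem gmap_coe (τ : RingAut F) (g : GL ι F) :
    ((gmap τ g : GL ι F) : Matrix ι ι F) = (g : Matrix ι ι F).map τ := by
  ext i j
  rfl

theorem gmap_mul (σ τ : RingAut F) (g : GL ι F) : gmap (σ * τ) g = gmap σ (gmap τ g) := by
  apply Units.ext
  ext i j
  rfl

theorem gmap_one (g : GL ι F) : gmap (1 : RingAut F) g = g := by
  apply Units.ext
  ext i j
  rfl

omit [Fintype ι] [DecidableEq ι] in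
theorem surj_coord (τ : RingAut F) (u : ι → F) : ∃ u' : ι → F, u = fun i => τ (u' i) :=
  ⟨fun i => τ.symm (u i), by ext i; simp⟩

theorem map_mem_isom {Q : (ι → F) → F} (hQ : FieldCompat Q) (τ : RingAut F) (g : GL ι F)
    (hg : g ∈ Cfsg.isometryGroup F Q) : gmap τ g ∈ Cfsg.isometryGroup F Q := by
  have hg' := (Helper14.mem_isometryGroup_iff Q g).mp hg
  refine (Helper14.mem_isometryGroup_iff Q _).mpr fun x => ?_
  obtain ⟨x', rfl⟩ := surj_coord τ x
  rw [gmap_coe, ← sigma_mulVec τ _ x', hQ, hg', hQ]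

theorem map_mem_sim {Q : (ι → F) → F} (hQ : FieldCompat Q) (τ : RingAut F) (g : GL ι F)
    (hg : g ∈ Cfsg.Geo.quadSimilarityGroup (F := F) Q) :
    gmap τ g ∈ Cfsg.Geo.quadSimilarityGroup (F := F) Q := by
  obtain ⟨c, hc⟩ := hg
  refine ⟨Units.map ((τ : F →+* F) : F →* F) c, fun x => ?_⟩
  obtain ⟨x', rfl⟩ := surj_coord τ x
  rw [gmap_coe, ← sigma_mulVec τ _ x', hQ, hc, hQ, map_mul]
  rfl

/-- A field automorphism applied entrywise to an isometry. -/
noncomputable def fFun {Q : (ι → F) → F} (hQ : FieldCompat Q) (τ : RingAut F)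
    (s : ↥(Cfsg.isometryGroup F Q)) : ↥(Cfsg.isometryGroup F Q) :=
  ⟨gmap τ (s : GL ι F), map_mem_isom hQ τ _ s.2⟩

/-- Field automorphisms, as automorphisms of the isometry group. -/
noncomputable def fAutO {Q : (ι → F) → F} (hQ : FieldCompat Q) :
    RingAut F →* MulAut ↥(Cfsg.isometryGroup F Q) where
  toFun τ :=
    { toFun := fFun hQ τ
      invFun := fFun hQ τ⁻¹
      left_inv := fun s => by
        apply Subtype.ext
        show gmap τ⁻¹ (gmap τ (s : GL ι F)) = s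
        rw [← gmap_mul, inv_mul_cancel, gmap_one]
      right_inv := fun s => by
        apply Subtype.ext
        show gmap τ (gmap τ⁻¹ (s : GL ι F)) = s
        rw [← gmap_mul, mul_inv_cancel, gmap_one]
      map_mul' := fun s t => by
        apply Subtype.ext
        exact map_mul (gmap τ) (s : GL ι F) (t : GL ι F) }
  map_one' := by
    ext s : 1
    apply Subtype.ext
    show gmap (1 : RingAut F) (s : GL ι F) = s
    exact gmap_one _
  map_mul' := fun x y => by
    ext s : 1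
    apply Subtype.ext
    show gmap (x * y) (s : GL ι F) = gmap x (gmap y (s : GL ι F))
    exact gmap_mul x y _

/-- Field automorphisms, as automorphisms of `PΩ(Q)`. -/
noncomputable def fO {Q : (ι → F) → F} (hQ : FieldCompat Q) :
    RingAut F →* MulAut (Cfsg.POmega F Q) :=
  (Cfsg.Agent.Lib.Helper21.autQuotCenter ↥(Cfsg.Omega F Q)).comp
    ((autCommutator ↥(Cfsg.isometryGroup F Q)).comp (fAutO hQ))

theorem fO_mk {Q : (ι → F) → F} (hQ : FieldCompat Q) (τ : RingAut F) (s : ↥(Cfsg.Omega F Q)) :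
    fO hQ τ (QuotientGroup.mk s) =
      QuotientGroup.mk (autCommutator ↥(Cfsg.isometryGroup F Q) (fAutO hQ τ) s) := rfl

theorem fO_coe {Q : (ι → F) → F} (hQ : FieldCompat Q) (τ : RingAut F) (s : ↥(Cfsg.Omega F Q)) :
    ((((autCommutator ↥(Cfsg.isometryGroup F Q) (fAutO hQ τ) s : ↥(Cfsg.Omega F Q)) :
      ↥(Cfsg.isometryGroup F Q)) : GL ι F) : Matrix ι ι F) =
      ((((s : ↥(Cfsg.isometryGroup F Q)) : GL ι F) : Matrix ι ι F)).map τ :=
  gmap_coe τ _

/-- A field automorphism applied entrywise to a similarity. -/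
noncomputable def mapG {Q : (ι → F) → F} (hQ : FieldCompat Q) (τ : RingAut F) :
    ↥(Cfsg.Geo.quadSimilarityGroup (F := F) Q) →* ↥(Cfsg.Geo.quadSimilarityGroup (F := F) Q) where
  toFun g := ⟨gmap τ (g : GL ι F), map_mem_sim hQ τ _ g.2⟩
  map_one' := by
    apply Subtype.ext
    exact map_one (gmap τ)
  map_mul' := fun g h => by
    apply Subtype.ext
    exact map_mul (gmap τ) _ _

theorem mapG_coe {Q : (ι → F) → F} (hQ : FieldCompat Q) (τ : RingAut F)
    (g : ↥(Cfsg.Geo.quadSimilarityGroup (F := F) Q)) :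
    (((mapG hQ τ g : ↥(Cfsg.Geo.quadSimilarityGroup (F := F) Q)) : GL ι F) : Matrix ι ι F) =
      ((g : GL ι F) : Matrix ι ι F).map τ := gmap_coe τ _

theorem mapG_mul {Q : (ι → F) → F} (hQ : FieldCompat Q) (σ τ : RingAut F)
    (g : ↥(Cfsg.Geo.quadSimilarityGroup (F := F) Q)) :
    mapG hQ (σ * τ) g = mapG hQ σ (mapG hQ τ g) := by
  apply Subtype.ext
  exact gmap_mul σ τ _

theorem mapG_one {Q : (ι → F) → F} (hQ : FieldCompat Q)
    (g : ↥(Cfsg.Geo.quadSimilarityGroup (F := F) Q)) : mapG hQ 1 g = g := by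
  apply Subtype.ext
  exact gmap_one _

theorem fAutO_simConj {Q : (ι → F) → F} (hQ : FieldCompat Q) (τ : RingAut F)
    (g : ↥(Cfsg.Geo.quadSimilarityGroup (F := F) Q)) :
    (fAutO hQ τ : MulAut ↥(Cfsg.isometryGroup F Q)) * simConjHom Q g =
      simConjHom Q (mapG hQ τ g) * fAutO hQ τ := by
  ext s : 1
  apply Subtype.ext
  show gmap τ ((g : GL ι F) * (s : GL ι F) * (g : GL ι F)⁻¹) =
    gmap τ (g : GL ι F) * gmap τ (s : GL ι F) * (gmap τ (g : GL ι F))⁻¹
  rw [map_mul, map_mul, map_inv]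

theorem fO_simAut {Q : (ι → F) → F} (hQ : FieldCompat Q) (τ : RingAut F)
    (g : ↥(Cfsg.Geo.quadSimilarityGroup (F := F) Q)) :
    (fO hQ τ : MulAut (Cfsg.POmega F Q)) * simAut Q g = simAut Q (mapG hQ τ g) * fO hQ τ := by
  show (Cfsg.Agent.Lib.Helper21.autQuotCenter ↥(Cfsg.Omega F Q))
      ((autCommutator ↥(Cfsg.isometryGroup F Q)) (fAutO hQ τ)) *
    (Cfsg.Agent.Lib.Helper21.autQuotCenter ↥(Cfsg.Omega F Q))
      ((autCommutator ↥(Cfsg.isometryGroup F Q)) (simConjHom Q g)) =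
    (Cfsg.Agent.Lib.Helper21.autQuotCenter ↥(Cfsg.Omega F Q))
      ((autCommutator ↥(Cfsg.isometryGroup F Q)) (simConjHom Q (mapG hQ τ g))) *
    (Cfsg.Agent.Lib.Helper21.autQuotCenter ↥(Cfsg.Omega F Q))
      ((autCommutator ↥(Cfsg.isometryGroup F Q)) (fAutO hQ τ))
  rw [← map_mul, ← map_mul, ← map_mul, ← map_mul, fAutO_simConj]

/-- The predicate of the statements: the standard field automorphism. -/
theorem fieldAut_iff {Q : (ι → F) → F} (hQ : FieldCompat Q) (σ : RingAut F)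
    (β : MulAut (Cfsg.POmega F Q)) :
    Cfsg.IsFieldAutPOmegaOf Q σ β ↔ β = fO hQ σ := by
  constructor
  · intro h
    apply MulEquiv.ext
    intro q
    obtain ⟨s, rfl⟩ := QuotientGroup.mk_surjective q
    rw [fO_mk]
    exact h s _ (fO_coe hQ σ s)
  · rintro rfl s s' hs'
    rw [fO_mk]
    congr 1
    apply Subtype.ext
    apply isom_ext
    rw [hs', fO_coe]

theorem sim_of_semisim {Q : (ι → F) → F} (hQ : FieldCompat Q) (g : GL ι F) (σ : RingAut F)
    (h : Cfsg.IsSemisimilarityPair Q g σ) : g ∈ Cfsg.Geo.quadSimilarityGroup (F := F) Q := by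
  obtain ⟨c, hc⟩ := h
  refine ⟨c, fun v => ?_⟩
  obtain ⟨v', rfl⟩ := surj_coord σ v
  rw [hc v', hQ]

theorem induced_eq {Q : (ι → F) → F} (hQ : FieldCompat Q) (g : GL ι F) (σ : RingAut F)
    (hg : g ∈ Cfsg.Geo.quadSimilarityGroup (F := F) Q) (β : MulAut (Cfsg.POmega F Q))
    (h : Cfsg.IsInducedBySemilinearPOmega Q g σ β) : β = simAut Q ⟨g, hg⟩ * fO hQ σ := by
  apply MulEquiv.ext
  intro q
  obtain ⟨s, rfl⟩ := QuotientGroup.mk_surjective q
  rw [MulAut.mul_apply, fO_mk, simAut_mk]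
  apply h
  rw [simConj_coe, fO_coe]

/-- If `Aut(PΩ(Q))` is generated by the semisimilarities, every automorphism is a similarity
followed by a field automorphism. -/
theorem aut_decomp {Q : (ι → F) → F} (hQ : FieldCompat Q) (hAut : Cfsg.gammaPOmega F Q = ⊤)
    (β : MulAut (Cfsg.POmega F Q)) :
    ∃ (g : ↥(Cfsg.Geo.quadSimilarityGroup (F := F) Q)) (τ : RingAut F),
      β = simAut Q g * fO hQ τ := by
  have hmem : β ∈ Cfsg.gammaPOmega F Q := by
    rw [hAut]
    trivial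
  unfold Cfsg.gammaPOmega Cfsg.autSubgroupOf at hmem
  induction hmem using Subgroup.closure_induction with
  | mem x hx =>
    obtain ⟨g, σ, h1, h2⟩ := hx
    exact ⟨⟨g, sim_of_semisim hQ g σ h1⟩, σ, induced_eq hQ g σ _ x h2⟩
  | one => exact ⟨1, 1, by rw [map_one, map_one, mul_one]⟩
  | mul x y _ _ hx hy =>
    obtain ⟨g, σ, rfl⟩ := hx
    obtain ⟨g', σ', rfl⟩ := hy
    refine ⟨g * mapG hQ σ g', σ * σ', ?_⟩
    rw [map_mul, map_mul, mul_assoc, ← mul_assoc (fO hQ σ), fO_simAut]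
    simp only [mul_assoc]
  | inv x _ hx =>
    obtain ⟨g, σ, rfl⟩ := hx
    refine ⟨mapG hQ σ⁻¹ g⁻¹, σ⁻¹, ?_⟩
    rw [_root_.mul_inv_rev, ← map_inv, ← map_inv, fO_simAut]

/-- The image of the similarity group is normal in `Aut(PΩ(Q))`. -/
theorem range_simAut_normal {Q : (ι → F) → F} (hQ : FieldCompat Q)
    (hAut : Cfsg.gammaPOmega F Q = ⊤) : ((simAut Q).range).Normal := by
  constructor
  intro n hn a
  obtain ⟨k, rfl⟩ := hn
  obtain ⟨g, τ, rfl⟩ := aut_decomp hQ hAut a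
  refine ⟨g * mapG hQ τ k * g⁻¹, ?_⟩
  have h1 : (fO hQ τ : MulAut (Cfsg.POmega F Q)) * simAut Q k * (fO hQ τ)⁻¹ =
      simAut Q (mapG hQ τ k) := by
    rw [fO_simAut, mul_assoc, mul_inv_cancel, mul_one]
  rw [map_mul, map_mul, map_inv, ← h1]
  group

/-- The semilinear norm `g σ(g) ⋯ σ^{i-1}(g)` in the similarity group. -/
noncomputable def nrmG {Q : (ι → F) → F} (hQ : FieldCompat Q) (σ : RingAut F)
    (g : ↥(Cfsg.Geo.quadSimilarityGroup (F := F) Q)) :
    ℕ → ↥(Cfsg.Geo.quadSimilarityGroup (F := F) Q)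
  | 0 => 1
  | i + 1 => g * mapG hQ σ (nrmG hQ σ g i)

theorem nrmG_zero {Q : (ι → F) → F} (hQ : FieldCompat Q) (σ : RingAut F)
    (g : ↥(Cfsg.Geo.quadSimilarityGroup (F := F) Q)) : nrmG hQ σ g 0 = 1 := rfl

theorem nrmG_succ {Q : (ι → F) → F} (hQ : FieldCompat Q) (σ : RingAut F)
    (g : ↥(Cfsg.Geo.quadSimilarityGroup (F := F) Q)) (i : ℕ) :
    nrmG hQ σ g (i + 1) = g * mapG hQ σ (nrmG hQ σ g i) := rfl

theorem pow_simAut_fO {Q : (ι → F) → F} (hQ : FieldCompat Q) (σ : RingAut F)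
    (g : ↥(Cfsg.Geo.quadSimilarityGroup (F := F) Q)) (i : ℕ) :
    (simAut Q g * fO hQ σ : MulAut (Cfsg.POmega F Q)) ^ i =
      simAut Q (nrmG hQ σ g i) * fO hQ (σ ^ i) := by
  induction i with
  | zero => rw [pow_zero, pow_zero, nrmG_zero, map_one, map_one, mul_one]
  | succ i ih =>
    rw [pow_succ', ih, nrmG_succ, map_mul, pow_succ', map_mul, mul_assoc (simAut Q g),
      ← mul_assoc (fO hQ σ), fO_simAut]
    simp only [mul_assoc]

theorem nrmG_succ' {Q : (ι → F) → F} (hQ : FieldCompat Q) (σ : RingAut F)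
    (g : ↥(Cfsg.Geo.quadSimilarityGroup (F := F) Q)) (i : ℕ) :
    nrmG hQ σ g (i + 1) = nrmG hQ σ g i * mapG hQ (σ ^ i) g := by
  induction i with
  | zero => rw [nrmG_succ, nrmG_zero, map_one, mul_one, one_mul, pow_zero, mapG_one]
  | succ i ih =>
    have h1 : nrmG hQ σ g (i + 1 + 1) = g * mapG hQ σ (nrmG hQ σ g (i + 1)) := rfl
    rw [h1, ih, map_mul, ← mul_assoc, ← mapG_mul, ← pow_succ', ← nrmG_succ, ih]

end Cfsg.Agent.Lib.Helper8.OField
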