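import Mathlib
import Cfsg.Agent.Lib.Helper8.OField
import Cfsg.Agent.Lib.Helper8.GraphAutOdd
import Cfsg.Agent.Lib.Helper14.Forms
import Cfsg.Agent.Lib.Helper14.OmegaPerfect
import Cfsg.Agent.Lib.Helper14.POmegaOrder
import Cfsg.Agent.Lib.Helper14.OmegaInv
import Cfsg.Agent.Lib.Helper44.PsoAut
import Cfsg.Agent.Lib.Helper43.FieldAut.Galois
import Cfsg.Agent.Lib.Helper43.FieldAut.Cent
import Cfsg.Agent.Lib.Helper43.FieldAut.Coset

set_option autoImplicit false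

/-!
# Field automorphisms of the odd-dimensional orthogonal groups

Hilbert 90 for the conformal orthogonal group of the form `x₀² + Σ xᵢ yᵢ`, and its consequences
for the cosets of field automorphisms.
-/

namespace Cfsg.Agent.Lib.Helper8.OOdd

open Matrix Cfsg.Agent.Lib.Helper14 Cfsg.Agent.Lib.Helper44 Cfsg.Agent.Lib.Helper43.FieldAut
  Cfsg.Agent.Lib.Helper8.OField Cfsg.Agent.Lib.Helper8.GraphAutOdd

section gen

variable {K : Type*} [Field K] {ι : Type} [Fintype ι] [DecidableEq ι]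

omit [DecidableEq ι] in
theorem smap_mul (σ : RingAut K) (L M : Matrix ι ι K) : (L * M).map σ = L.map σ * M.map σ :=
  Matrix.map_mul (f := (σ : K →+* K))

/-- Two nondegenerate symmetric matrices of the same odd size over a finite field of odd
characteristic are similar. -/
theorem sim_odd_gen [Fintype K] (h2 : (2 : K) ≠ 0) (hn : Odd (Fintype.card ι))
    (A B : Matrix ι ι K) (hA : Aᵀ = A) (hB : Bᵀ = B) (hdA : A.det ≠ 0) (hdB : B.det ≠ 0) :
    ∃ (k : Matrix ι ι K) (c : Kˣ), k.det ≠ 0 ∧ kᵀ * A * k = (c : K) • B := by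
  obtain ⟨e⟩ : Nonempty (Fin (Fintype.card ι) ≃ ι) := ⟨(Fintype.equivFin ι).symm⟩
  obtain ⟨h, c, hh⟩ := sim_odd h2 hn (gI e A hdA) (gI e B hdB)
    (by rw [gI_coe, Matrix.transpose_submatrix, hA])
    (by rw [gI_coe, Matrix.transpose_submatrix, hB])
  rw [gI_coe, gI_coe] at hh
  refine ⟨((h : Matrix _ _ K)ᵀ).submatrix e.symm e.symm, c⁻¹, ?_, ?_⟩
  · rw [Matrix.det_submatrix_equiv_self, Matrix.det_transpose]
    exact ((Matrix.isUnit_iff_isUnit_det _).mp h.isUnit).ne_zero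
  · apply subI_inj e
    have hk : (((h : Matrix _ _ K)ᵀ).submatrix e.symm e.symm).submatrix e e =
        (h : Matrix _ _ K)ᵀ := by
      rw [Matrix.submatrix_submatrix, Equiv.symm_comp_self, Matrix.submatrix_id_id]
    have hkT : ((((h : Matrix _ _ K)ᵀ).submatrix e.symm e.symm)ᵀ).submatrix e e =
        (h : Matrix _ _ K) := by
      rw [← Matrix.transpose_submatrix, hk, Matrix.transpose_transpose]
    rw [subI_mul, subI_mul, subI_smul, hkT, hk, hh, smul_smul, Units.val_inv_eq_inv_val,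
      inv_mul_cancel₀ c.ne_zero, one_smul]

theorem isFixEmb_sub [Finite K] (σ : RingAut K) : IsFixEmb σ (fixF σ).subtype := by
  intro b
  rw [← mem_fixF]
  constructor
  · intro hb
    exact ⟨⟨b, hb⟩, rfl⟩
  · rintro ⟨c, rfl⟩
    exact c.2

end gen

variable {F : Type*} [Field F] (m : ℕ)

theorem fieldCompat_odd : FieldCompat (Cfsg.quadFormOdd m F) := by
  intro τ v
  simp only [Cfsg.quadFormOdd, map_add, map_pow, map_sum, map_mul]

theorem gramOdd_map {K : Type*} [Field K] (j : K →+* F) :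
    (gramOdd m : Matrix (Unit ⊕ (Fin m ⊕ Fin m)) (Unit ⊕ (Fin m ⊕ Fin m)) K).map j =
      gramOdd m := by
  unfold gramOdd gramPlus
  have e2 : j 2 = 2 := map_ofNat j 2
  rw [Matrix.fromBlocks_map, Matrix.map_smul' _ _ _ (map_mul j), Matrix.fromBlocks_map,
    map_inv₀, e2]
  simp [Matrix.map_zero, Matrix.map_one]

theorem gramOdd_det_ne (h2 : (2 : F) ≠ 0) :
    (gramOdd m : Matrix (Unit ⊕ (Fin m ⊕ Fin m)) (Unit ⊕ (Fin m ⊕ Fin m)) F).det ≠ 0 := by
  rw [det_gramOdd, det_gramPlus]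
  have h3 : ((2 : F)⁻¹) ≠ 0 := inv_ne_zero h2
  have h4 : ((-1 : F)) ≠ 0 := by simp
  positivity

/-- **Hilbert 90 for the conformal orthogonal group** in odd dimension. -/
theorem exists_sim_fixed [Fintype F] (h2 : (2 : F) ≠ 0) (σ : RingAut F) (r : ℕ)
    (hσ : orderOf σ = r) (hpos : 0 < r)
    (c : Matrix (Unit ⊕ (Fin m ⊕ Fin m)) (Unit ⊕ (Fin m ⊕ Fin m)) F)
    (hc : cᵀ * gramOdd m * c = gramOdd m)
    (G : ℕ → Matrix (Unit ⊕ (Fin m ⊕ Fin m)) (Unit ⊕ (Fin m ⊕ Fin m)) F) (h0 : G 0 = 1)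
    (hs : ∀ i, G (i + 1) = c * (G i).map σ) (hr1 : G r = 1) :
    ∃ (h : Matrix (Unit ⊕ (Fin m ⊕ Fin m)) (Unit ⊕ (Fin m ⊕ Fin m)) F) (d : Fˣ),
      h.det ≠ 0 ∧ hᵀ * gramOdd m * h = (d : F) • gramOdd m ∧ c * h.map σ = h := by
  obtain ⟨h₀, hu, hh⟩ := exists_fixed_matrix σ c G r h0 hs hr1 hσ hpos
  obtain ⟨B, hB⟩ : ∃ B : Matrix (Unit ⊕ (Fin m ⊕ Fin m)) (Unit ⊕ (Fin m ⊕ Fin m)) F,
    B = gramOdd m := ⟨_, rfl⟩
  rw [← hB] at hc ⊢
  have hBσ : B.map σ = B := by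
    rw [hB]
    exact gramOdd_map m (σ : F →+* F)
  have hBs : Bᵀ = B := by rw [hB]; exact gramOdd_symm m
  have hBd : B.det ≠ 0 := by rw [hB]; exact gramOdd_det_ne m h2
  obtain ⟨S, hS⟩ : ∃ S : Matrix (Unit ⊕ (Fin m ⊕ Fin m)) (Unit ⊕ (Fin m ⊕ Fin m)) F,
    S = h₀.map σ := ⟨_, rfl⟩
  rw [← hS] at hh
  obtain ⟨A, hA⟩ : ∃ A : Matrix (Unit ⊕ (Fin m ⊕ Fin m)) (Unit ⊕ (Fin m ⊕ Fin m)) F,
    A = h₀ᵀ * B * h₀ := ⟨_, rfl⟩
  have hA2 : A = Sᵀ * B * S := by
    rw [hA]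
    conv_lhs => rw [← hh]
    rw [Matrix.transpose_mul]
    calc Sᵀ * cᵀ * B * (c * S) = Sᵀ * (cᵀ * B * c) * S := by simp only [Matrix.mul_assoc]
      _ = Sᵀ * B * S := by rw [hc]
  have hAσ : A.map σ = A := by
    calc A.map σ = (h₀ᵀ).map σ * B.map σ * h₀.map σ := by rw [hA, smap_mul, smap_mul]
      _ = Sᵀ * B * S := by rw [hBσ, hS]; rfl
      _ = A := hA2.symm
  have hAs : Aᵀ = A := by
    rw [hA, Matrix.transpose_mul, Matrix.transpose_mul, Matrix.transpose_transpose, hBs,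
      Matrix.mul_assoc]
  have hd₀ : h₀.det ≠ 0 := ((Matrix.isUnit_iff_isUnit_det _).mp hu).ne_zero
  have hAd : A.det ≠ 0 := by
    rw [hA, Matrix.det_mul, Matrix.det_mul, Matrix.det_transpose]
    exact mul_ne_zero (mul_ne_zero hd₀ hBd) hd₀
  -- descend to the fixed field
  have hj := isFixEmb_sub σ
  obtain ⟨j, hjdef⟩ : ∃ j : fixF σ →+* F, j = (fixF σ).subtype := ⟨_, rfl⟩
  rw [← hjdef] at hj
  have hfix : ∀ a b, σ (A a b) = A a b := fun a b => congrFun (congrFun hAσ a) b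
  choose m₀ hm₀ using fun a b => (hj _).mp (hfix a b)
  obtain ⟨A₀, hA₀⟩ : ∃ A₀ : Matrix (Unit ⊕ (Fin m ⊕ Fin m)) (Unit ⊕ (Fin m ⊕ Fin m)) (fixF σ),
    A₀ = Matrix.of m₀ := ⟨_, rfl⟩
  have hA₀j : A₀.map j = A := by
    rw [hA₀]
    ext a b
    exact hm₀ a b
  have hdet₀ : A₀.det ≠ 0 := by
    intro h0'
    have h1 : (A₀.map j).det = 0 := by
      rw [← RingHom.mapMatrix_apply, ← RingHom.map_det, h0', map_zero]
    rw [hA₀j] at h1
    exact hAd h1
  have hA₀s : A₀ᵀ = A₀ := by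
    apply Matrix.ext
    intro a b
    apply j.injective
    have e1 : j (A₀ b a) = A b a := congrFun (congrFun hA₀j b) a
    have e2 : j (A₀ a b) = A a b := congrFun (congrFun hA₀j a) b
    rw [Matrix.transpose_apply, e1, e2]
    exact congrFun (congrFun hAs a) b
  haveI : Fintype (fixF σ) := Fintype.ofFinite _
  have h2' : (2 : fixF σ) ≠ 0 := by
    intro h
    apply h2
    have := congrArg j h
    rwa [map_ofNat, map_zero] at this
  have hcard : Odd (Fintype.card (Unit ⊕ (Fin m ⊕ Fin m))) := by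
    rw [Fintype.card_sum, Fintype.card_sum, Fintype.card_fin, Fintype.card_unit]
    exact ⟨m, by ring⟩
  obtain ⟨k, d, hkd, hk⟩ := sim_odd_gen h2' hcard A₀ (gramOdd m) hA₀s (gramOdd_symm m) hdet₀
    (gramOdd_det_ne m h2')
  obtain ⟨K, hK⟩ : ∃ K : Matrix (Unit ⊕ (Fin m ⊕ Fin m)) (Unit ⊕ (Fin m ⊕ Fin m)) F,
    K = k.map j := ⟨_, rfl⟩
  have hKσ : K.map σ = K := by
    rw [hK]
    ext a b
    exact (hj _).mpr ⟨_, rfl⟩
  have hKd : K.det ≠ 0 := by
    rw [hK, ← RingHom.mapMatrix_apply, ← RingHom.map_det]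
    exact (map_ne_zero j).mpr hkd
  have hKA : Kᵀ * A * K = (j (d : fixF σ)) • B := by
    have h1 := congrArg (fun M : Matrix (Unit ⊕ (Fin m ⊕ Fin m)) (Unit ⊕ (Fin m ⊕ Fin m))
      (fixF σ) => M.map j) hk
    simp only [Matrix.map_mul] at h1
    rw [Matrix.map_smul' _ _ _ (map_mul j), gramOdd_map m j, hA₀j, Matrix.transpose_map, ← hK,
      ← hB] at h1
    exact h1
  refine ⟨h₀ * K, Units.map (j : fixF σ →* F) d, ?_, ?_, ?_⟩
  · rw [Matrix.det_mul]
    exact mul_ne_zero hd₀ hKd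
  · rw [Matrix.transpose_mul]
    calc Kᵀ * h₀ᵀ * B * (h₀ * K) = Kᵀ * (h₀ᵀ * B * h₀) * K := by simp only [Matrix.mul_assoc]
      _ = _ := by rw [← hA, hKA]; rfl
  · rw [smap_mul, hKσ, ← Matrix.mul_assoc, ← hS, hh]


section generic

variable {ι : Type} [Fintype ι] [DecidableEq ι] {K : Type*} [Field K]

theorem scalar_of_simAut_fun [Fintype K] (Q : QuadraticForm K (ι → K))
    (hQ : (QuadraticMap.polarBilin Q).Nondegenerate) (Qf : (ι → K) → K) (hQf : ⇑Q = Qf)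
    (E : Submodule K (ι → K)) (hE : 3 ≤ Module.finrank K E) (hE0 : ∀ x ∈ E, Q x = 0)
    (g : ↥(Cfsg.Geo.quadSimilarityGroup (F := K) Qf)) (hg : simAut Qf g = 1) :
    ∃ lam : K, lam ≠ 0 ∧ ((g : GL ι K) : Matrix ι ι K) = lam • (1 : Matrix ι ι K) := by
  subst hQf
  exact scalar_of_simAut_eq_one Q hQ E hE hE0 g hg

/-- In odd dimension every similarity is a scalar multiple of an isometry of determinant one. -/
theorem exists_SO_of_sim_odd (Q : QuadraticForm K (ι → K))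
    (hQ : (QuadraticMap.polarBilin Q).Nondegenerate) (Qf : (ι → K) → K) (hQf : ⇑Q = Qf)
    (k : ℕ) (hk : Fintype.card ι = 2 * k + 1)
    (g : ↥(Cfsg.Geo.quadSimilarityGroup (F := K) Qf)) :
    ∃ s : ↥(Cfsg.Geo.quadSimilarityGroup (F := K) Qf),
      (s : GL ι K) ∈ Cfsg.specialIsometryGL K Qf ∧ simAut Qf s = simAut Qf g := by
  subst hQf
  obtain ⟨c, hc⟩ := g.2
  have hdet := sim_det_sq Q hQ ((g : GL ι K) : Matrix ι ι K) (c : K) hc
  rw [hk] at hdet
  have hc0 : (c : K) ≠ 0 := c.ne_zero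
  obtain ⟨lam, hlamdef⟩ : ∃ lam : K,
      lam = ((g : GL ι K) : Matrix ι ι K).det / (c : K) ^ k := ⟨_, rfl⟩
  have hd : ((g : GL ι K) : Matrix ι ι K).det = lam * (c : K) ^ k := by
    rw [hlamdef]
    field_simp
  have hlam : (c : K) = lam * lam := by
    have h1 : (c : K) ^ (2 * k) * (lam * lam) = (c : K) ^ (2 * k) * (c : K) := by
      have h3 : (lam * (c : K) ^ k) ^ 2 = (c : K) ^ (2 * k + 1) := by rw [← hd]; exact hdet
      linear_combination h3
    exact (mul_left_cancel₀ (pow_ne_zero _ hc0) h1).symm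
  have hlam0 : lam ≠ 0 := by
    rintro rfl
    rw [mul_zero] at hlam
    exact hc0 hlam
  have hG' : ∀ x, Q ((lam⁻¹ • ((g : GL ι K) : Matrix ι ι K)) *ᵥ x) = Q x := by
    intro x
    rw [Matrix.smul_mulVec, QuadraticMap.map_smul, hc, hlam, smul_eq_mul]
    field_simp
  obtain ⟨s₀, hs₀⟩ : ∃ s₀ : ↥(Cfsg.isometryGroup K ⇑Q),
      s₀ = mkIsom Q hQ (lam⁻¹ • ((g : GL ι K) : Matrix ι ι K)) hG' := ⟨_, rfl⟩
  have hs₀mat : ((s₀ : GL ι K) : Matrix ι ι K) = lam⁻¹ • ((g : GL ι K) : Matrix ι ι K) := by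
    rw [hs₀, mkIsom_coe]
  refine ⟨⟨(s₀ : GL ι K), isometryGroup_le_sim _ s₀.2⟩, ⟨s₀.2, ?_⟩, ?_⟩
  · show (s₀ : GL ι K) ∈ (Matrix.GeneralLinearGroup.det : GL ι K →* Kˣ).ker
    rw [MonoidHom.mem_ker]
    apply Units.ext
    rw [Matrix.GeneralLinearGroup.val_det_apply, Units.val_one, hs₀mat, Matrix.det_smul, hk, hd,
      hlam]
    have h4 : lam⁻¹ ^ (2 * k + 1) * (lam * (lam * lam) ^ k) = (lam⁻¹ * lam) ^ (2 * k + 1) := by
      ring
    rw [h4, inv_mul_cancel₀ hlam0, one_pow]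
  · obtain ⟨s, hs⟩ : ∃ s : ↥(Cfsg.Geo.quadSimilarityGroup (F := K) ⇑Q),
        s = ⟨(s₀ : GL ι K), isometryGroup_le_sim _ s₀.2⟩ := ⟨_, rfl⟩
    rw [← hs]
    have h1 : simAut ⇑Q (g * s⁻¹) = 1 := by
      apply simAut_eq_one_of_scalar ⇑Q _ lam
      have hsmat : ((s : GL ι K) : Matrix ι ι K) = lam⁻¹ • ((g : GL ι K) : Matrix ι ι K) := by
        rw [hs]
        exact hs₀mat
      have hgm : ((g : GL ι K) : Matrix ι ι K) = lam • ((s : GL ι K) : Matrix ι ι K) := by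
        rw [hsmat, smul_smul, mul_inv_cancel₀ hlam0, one_smul]
      rw [Subgroup.coe_mul, Subgroup.coe_inv, Units.val_mul, hgm, smul_mul_assoc,
        ← Units.val_mul, mul_inv_cancel, Units.val_one]
    have h2' : simAut ⇑Q g = simAut ⇑Q (g * s⁻¹) * simAut ⇑Q s := by
      rw [← map_mul, inv_mul_cancel_right]
    rw [h2', h1, one_mul]

/-- A scalar isometry of determinant one in odd dimension is the identity. -/
theorem scalar_SO_eq_one (Q : QuadraticForm K (ι → K)) (Qf : (ι → K) → K) (hQf : ⇑Q = Qf)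
    (hne : ∃ v, Qf v ≠ 0) (k : ℕ) (hk : Fintype.card ι = 2 * k + 1) (g : GL ι K)
    (hg : g ∈ Cfsg.specialIsometryGL K Qf) (lam : K)
    (hlam : (g : Matrix ι ι K) = lam • (1 : Matrix ι ι K)) : (g : Matrix ι ι K) = 1 := by
  subst hQf
  obtain ⟨v, hv⟩ := hne
  have h1 := (Helper14.mem_isometryGroup_iff (⇑Q) g).mp hg.1 v
  rw [hlam, Matrix.smul_mulVec, Matrix.one_mulVec, QuadraticMap.map_smul, smul_eq_mul] at h1
  have h2 : lam * lam = 1 := by
    have h3 : (lam * lam - 1) * Q v = 0 := by linear_combination h1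
    rcases mul_eq_zero.mp h3 with h | h
    · linear_combination h
    · exact absurd h hv
  have h4 : g ∈ (Matrix.GeneralLinearGroup.det : GL ι K →* Kˣ).ker := hg.2
  rw [MonoidHom.mem_ker] at h4
  have h5 := congrArg Units.val h4
  rw [Matrix.GeneralLinearGroup.val_det_apply, Units.val_one, hlam, Matrix.det_smul,
    Matrix.det_one, mul_one, hk] at h5
  have h6 : lam = 1 := by
    have h7 : lam ^ (2 * k + 1) = lam * (lam * lam) ^ k := by ring
    rw [h7, h2, one_pow, mul_one] at h5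
    exact h5
  rw [hlam, h6, one_smul]

theorem map_mem_SO {Q : (ι → K) → K} (hQ : FieldCompat Q) (τ : RingAut K) (g : GL ι K)
    (hg : g ∈ Cfsg.specialIsometryGL K Q) : gmap τ g ∈ Cfsg.specialIsometryGL K Q := by
  refine ⟨map_mem_isom hQ τ g hg.1, ?_⟩
  have h1 : g ∈ (Matrix.GeneralLinearGroup.det : GL ι K →* Kˣ).ker := hg.2
  show gmap τ g ∈ (Matrix.GeneralLinearGroup.det : GL ι K →* Kˣ).ker
  rw [MonoidHom.mem_ker] at h1 ⊢
  show Matrix.GeneralLinearGroup.det (Matrix.GeneralLinearGroup.map (τ : K →+* K) g) = 1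
  rw [Matrix.GeneralLinearGroup.map_det, h1, map_one]

theorem nrmG_mem_SO {Q : (ι → K) → K} (hQ : FieldCompat Q) (σ : RingAut K)
    (s : ↥(Cfsg.Geo.quadSimilarityGroup (F := K) Q))
    (hs : (s : GL ι K) ∈ Cfsg.specialIsometryGL K Q) (i : ℕ) :
    ((nrmG hQ σ s i : ↥(Cfsg.Geo.quadSimilarityGroup (F := K) Q)) : GL ι K) ∈
      Cfsg.specialIsometryGL K Q := by
  induction i with
  | zero => exact Subgroup.one_mem _
  | succ i ih =>
    rw [nrmG_succ]
    exact Subgroup.mul_mem _ hs (map_mem_SO hQ σ _ ih)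

end generic

theorem card_odd (m : ℕ) : Fintype.card (Unit ⊕ (Fin m ⊕ Fin m)) = 2 * m + 1 := by
  rw [Fintype.card_sum, Fintype.card_sum, Fintype.card_fin, Fintype.card_unit]
  ring

theorem odd_ne (m : ℕ) : ∃ v, Cfsg.quadFormOdd m F v ≠ 0 := by
  refine ⟨Pi.single (Sum.inl ()) 1, ?_⟩
  simp [Cfsg.quadFormOdd]

theorem ts3 {m : ℕ} (hm : 3 ≤ m) :
    ∃ E : Submodule F (Unit ⊕ (Fin m ⊕ Fin m) → F),
      3 ≤ Module.finrank F E ∧ ∀ x ∈ E, oddQF m F x = 0 :=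
  exists_ts_three (oddQF m F) (fun j : Fin 3 => Sum.inr (Sum.inl ⟨j, by omega⟩))
    (fun j : Fin 3 => Sum.inr (Sum.inr ⟨j, by omega⟩))
    (fun j => by rw [oddQF_coe]; exact odd_isHypPair m F _)
    (by
      intro i j h
      have := Sum.inl.inj (Sum.inr.inj h)
      rw [Fin.mk.injEq] at this
      exact Fin.ext this)
    (by intro i j h; exact Sum.inl_ne_inr (Sum.inr.inj h))

theorem scalar_odd [Fintype F] (h2 : (2 : F) ≠ 0) {m : ℕ} (hm : 3 ≤ m)
    (g : ↥(Cfsg.Geo.quadSimilarityGroup (F := F) (Cfsg.quadFormOdd m F)))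
    (hg : simAut (Cfsg.quadFormOdd m F) g = 1) :
    ∃ lam : F, lam ≠ 0 ∧ ((g : GL (Unit ⊕ (Fin m ⊕ Fin m)) F) : Matrix _ _ F) =
      lam • (1 : Matrix (Unit ⊕ (Fin m ⊕ Fin m)) (Unit ⊕ (Fin m ⊕ Fin m)) F) := by
  obtain ⟨E, hE, hE0⟩ := ts3 (F := F) hm
  exact scalar_of_simAut_fun (oddQF m F) (oddQF_nondegenerate m F h2) _ (oddQF_coe m F) E hE hE0
    g hg

theorem exists_SO_odd (h2 : (2 : F) ≠ 0) (m : ℕ)
    (g : ↥(Cfsg.Geo.quadSimilarityGroup (F := F) (Cfsg.quadFormOdd m F))) :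
    ∃ s : ↥(Cfsg.Geo.quadSimilarityGroup (F := F) (Cfsg.quadFormOdd m F)),
      (s : GL (Unit ⊕ (Fin m ⊕ Fin m)) F) ∈ Cfsg.specialIsometryGL F (Cfsg.quadFormOdd m F) ∧
        simAut (Cfsg.quadFormOdd m F) s = simAut (Cfsg.quadFormOdd m F) g :=
  exists_SO_of_sim_odd (oddQF m F) (oddQF_nondegenerate m F h2) _ (oddQF_coe m F) m (card_odd m) g

theorem gram_of_isom (h2 : (2 : F) ≠ 0) (m : ℕ) (g : GL (Unit ⊕ (Fin m ⊕ Fin m)) F)
    (hg : g ∈ Cfsg.isometryGroup F (Cfsg.quadFormOdd m F)) :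
    (g : Matrix (Unit ⊕ (Fin m ⊕ Fin m)) (Unit ⊕ (Fin m ⊕ Fin m)) F)ᵀ * gramOdd m *
      (g : Matrix (Unit ⊕ (Fin m ⊕ Fin m)) (Unit ⊕ (Fin m ⊕ Fin m)) F) = gramOdd m := by
  rw [quad_iff2 h2 _ _ _ (gramOdd_symm m) (gramOdd_symm m)]
  intro v
  rw [toBilin'_gramOdd m h2, toBilin'_gramOdd m h2]
  exact (Helper14.mem_isometryGroup_iff _ g).mp hg v

/-- An element of order `r` in the coset of a field automorphism of order `r` is conjugate to
the field automorphism under the conformal group. -/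
theorem conj_of_pow_eq_one [Fintype F] (h2 : (2 : F) ≠ 0) {m : ℕ} (hm : 3 ≤ m) (σ : RingAut F)
    (r : ℕ) (hσ : orderOf σ = r) (hpos : 0 < r)
    (u : ↥(Cfsg.Geo.quadSimilarityGroup (F := F) (Cfsg.quadFormOdd m F)))
    (h : (simAut (Cfsg.quadFormOdd m F) u * fO (fieldCompat_odd m) σ :
      MulAut (Cfsg.POmega F (Cfsg.quadFormOdd m F))) ^ r = 1) :
    ∃ k : ↥(Cfsg.Geo.quadSimilarityGroup (F := F) (Cfsg.quadFormOdd m F)),
      (simAut (Cfsg.quadFormOdd m F) u * fO (fieldCompat_odd m) σ :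
        MulAut (Cfsg.POmega F (Cfsg.quadFormOdd m F))) =
      simAut (Cfsg.quadFormOdd m F) k * fO (fieldCompat_odd m) σ *
        (simAut (Cfsg.quadFormOdd m F) k)⁻¹ := by
  obtain ⟨s, hs, hsu⟩ := exists_SO_odd h2 m u
  rw [← hsu] at h ⊢
  have hσr : σ ^ r = 1 := by rw [← hσ]; exact pow_orderOf_eq_one σ
  rw [pow_simAut_fO, hσr, map_one, mul_one] at h
  obtain ⟨lam, -, hlam⟩ := scalar_odd h2 hm _ h
  have hN := scalar_SO_eq_one (oddQF m F) _ (oddQF_coe m F) (odd_ne m) m (card_odd m) _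
    (nrmG_mem_SO (fieldCompat_odd m) σ s hs r) lam hlam
  obtain ⟨hm', d, hdet, hsim, hfix⟩ := exists_sim_fixed m h2 σ r hσ hpos
    ((s : GL (Unit ⊕ (Fin m ⊕ Fin m)) F) : Matrix _ _ F) (gram_of_isom h2 m _ hs.1)
    (fun i => ((nrmG (fieldCompat_odd m) σ s i :
      ↥(Cfsg.Geo.quadSimilarityGroup (F := F) (Cfsg.quadFormOdd m F))) :
        GL (Unit ⊕ (Fin m ⊕ Fin m)) F))
    (by rw [nrmG_zero]; rfl)
    (fun i => by rw [nrmG_succ, Subgroup.coe_mul, Units.val_mul, mapG_coe])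
    hN
  obtain ⟨k, hk⟩ : ∃ k : ↥(Cfsg.Geo.quadSimilarityGroup (F := F) (Cfsg.quadFormOdd m F)),
      ((k : GL (Unit ⊕ (Fin m ⊕ Fin m)) F) : Matrix _ _ F) = hm' :=
    ⟨⟨Matrix.GeneralLinearGroup.mkOfDetNeZero hm' hdet,
      (mem_quadSim_iff h2 (gramOdd m) (gramOdd_symm m) _ (toBilin'_gramOdd m h2) _).mpr
        ⟨d, hsim⟩⟩, rfl⟩
  refine ⟨k, ?_⟩
  have hk' : s = k * (mapG (fieldCompat_odd m) σ k)⁻¹ := by
    rw [eq_mul_inv_iff_mul_eq]
    apply Subtype.ext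
    apply Units.ext
    rw [Subgroup.coe_mul, Units.val_mul, mapG_coe, hk]
    exact hfix
  rw [hk', map_mul, map_inv, mul_assoc, mul_assoc]
  congr 1
  rw [inv_mul_eq_iff_eq_mul, ← mul_assoc, ← fO_simAut, mul_assoc, mul_inv_cancel, mul_one]


section generic2

variable {ι : Type} [Fintype ι] [DecidableEq ι] {K : Type*} [Field K]

open scoped commutatorElement in
/-- The commutator of a diagonal isometry and a permutation isometry. -/
theorem comm_diag_perm (Q : QuadraticForm K (ι → K))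
    (hQ : (QuadraticMap.polarBilin Q).Nondegenerate) (Qf : (ι → K) → K) (hQf : ⇑Q = Qf)
    (D : ι → K) (hD0 : ∀ i, D i ≠ 0) (π : Equiv.Perm ι)
    (hD : ∀ x, Qf (Matrix.diagonal D *ᵥ x) = Qf x)
    (hW : ∀ x, Qf ((Matrix.of fun i j => if π i = j then (1 : K) else 0) *ᵥ x) = Qf x) :
    ∃ g : ↥(Cfsg.isometryGroup K Qf), g ∈ Cfsg.Omega K Qf ∧
      ((g : GL ι K) : Matrix ι ι K) = Matrix.diagonal (fun i => D i * (D (π i))⁻¹) := by
  subst hQf
  obtain ⟨d, hd⟩ : ∃ d : ↥(Cfsg.isometryGroup K ⇑Q), d = mkIsom Q hQ _ hD := ⟨_, rfl⟩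
  obtain ⟨w, hw⟩ : ∃ w : ↥(Cfsg.isometryGroup K ⇑Q), w = mkIsom Q hQ _ hW := ⟨_, rfl⟩
  have hdm : ((d : GL ι K) : Matrix ι ι K) = Matrix.diagonal D := by rw [hd, mkIsom_coe]
  have hwm : ((w : GL ι K) : Matrix ι ι K) =
      Matrix.of fun i j => if π i = j then (1 : K) else 0 := by rw [hw, mkIsom_coe]
  refine ⟨⁅d, w⁆, ?_, ?_⟩
  · show ⁅d, w⁆ ∈ commutator ↥(Cfsg.isometryGroup K ⇑Q)
    rw [commutator_def]
    exact Subgroup.commutator_mem_commutator (Subgroup.mem_top d) (Subgroup.mem_top w)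
  · have h1 : ⁅d, w⁆ * (w * d) = d * w := by
      rw [commutatorElement_def]
      group
    have h2 : (((⁅d, w⁆ : ↥(Cfsg.isometryGroup K ⇑Q)) : GL ι K) : Matrix ι ι K) *
        (((w : GL ι K) : Matrix ι ι K) * ((d : GL ι K) : Matrix ι ι K)) =
        ((d : GL ι K) : Matrix ι ι K) * ((w : GL ι K) : Matrix ι ι K) := by
      have := congrArg (fun x : ↥(Cfsg.isometryGroup K ⇑Q) => ((x : GL ι K) : Matrix ι ι K)) h1
      simpa only [Subgroup.coe_mul, Units.val_mul] using this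
    have h3 : Matrix.diagonal (fun i => D i * (D (π i))⁻¹) *
        (((w : GL ι K) : Matrix ι ι K) * ((d : GL ι K) : Matrix ι ι K)) =
        ((d : GL ι K) : Matrix ι ι K) * ((w : GL ι K) : Matrix ι ι K) := by
      rw [hdm, hwm]
      ext i j
      rw [Matrix.diagonal_mul, Matrix.mul_diagonal, Matrix.diagonal_mul, Matrix.of_apply]
      by_cases h : π i = j
      · subst h
        have := hD0 (π i)
        rw [if_pos rfl]
        field_simp
      · rw [if_neg h]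
        ring
    have hu : IsUnit (((w : GL ι K) : Matrix ι ι K) * ((d : GL ι K) : Matrix ι ι K)) := by
      rw [← Units.val_mul]
      exact Units.isUnit _
    exact hu.mul_right_cancel (h2.trans h3.symm)

/-- If a field automorphism of `PΩ` is induced by a similarity `g`, then `g` intertwines every
element of `Ω` with its image under the field automorphism. -/
theorem fO_eq_simAut_mat [Fintype K] (Q : QuadraticForm K (ι → K))
    (hQ : (QuadraticMap.polarBilin Q).Nondegenerate) (hn : 5 ≤ Fintype.card ι)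
    (Qf : (ι → K) → K) (hQf : ⇑Q = Qf) (hC : FieldCompat Qf) (τ : RingAut K)
    (g : ↥(Cfsg.Geo.quadSimilarityGroup (F := K) Qf)) (h : fO hC τ = simAut Qf g)
    (s : ↥(Cfsg.isometryGroup K Qf)) (hs : s ∈ Cfsg.Omega K Qf) :
    ((s : GL ι K) : Matrix ι ι K).map τ * ((g : GL ι K) : Matrix ι ι K) =
      ((g : GL ι K) : Matrix ι ι K) * ((s : GL ι K) : Matrix ι ι K) := by
  subst hQf
  have hperf := omega_perfect Q hQ hn
  have h1 : autCommutator ↥(Cfsg.isometryGroup K ⇑Q) (fAutO hC τ) =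
      autCommutator ↥(Cfsg.isometryGroup K ⇑Q) (simConjHom ⇑Q g) := by
    have h0 : Cfsg.Agent.Lib.Helper21.autQuotCenter ↥(Cfsg.Omega K ⇑Q)
        ((autCommutator ↥(Cfsg.isometryGroup K ⇑Q) (simConjHom ⇑Q g))⁻¹ *
          autCommutator ↥(Cfsg.isometryGroup K ⇑Q) (fAutO hC τ)) = 1 := by
      rw [map_mul, map_inv, inv_mul_eq_one]
      exact h.symm
    exact (inv_mul_eq_one.mp (aut_eq_one_of_autQuotCenter hperf _ h0)).symm
  have h2 := congrArg (fun β : MulAut ↥(Cfsg.Omega K ⇑Q) =>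
    ((((β ⟨s, hs⟩ : ↥(Cfsg.Omega K ⇑Q)) : ↥(Cfsg.isometryGroup K ⇑Q)) : GL ι K) :
      Matrix ι ι K)) h1
  have h3 : ((s : GL ι K) : Matrix ι ι K).map τ =
      ((g : GL ι K) : Matrix ι ι K) * ((s : GL ι K) : Matrix ι ι K) *
        (((g : GL ι K)⁻¹ : GL ι K) : Matrix ι ι K) := h2
  have hinv : (((g : GL ι K)⁻¹ : GL ι K) : Matrix ι ι K) * ((g : GL ι K) : Matrix ι ι K) = 1 := by
    rw [← Units.val_mul, inv_mul_cancel, Units.val_one]
  rw [h3, Matrix.mul_assoc, hinv, Matrix.mul_one]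

/-- A field automorphism that moves every nonzero `t` only to `1`, `t` or `t⁻¹` is trivial. -/
theorem aut_eq_one_of_values (h2 : (2 : K) ≠ 0) (τ : RingAut K)
    (h : ∀ t : K, t ≠ 0 → τ t = 1 ∨ τ t = t ∨ τ t = t⁻¹) : τ = 1 := by
  ext t
  show τ t = t
  by_contra hne
  have ht0 : t ≠ 0 := by
    rintro rfl
    exact hne (map_zero τ)
  have hinv : τ t = t⁻¹ := by
    rcases h t ht0 with h1 | h1 | h1
    · exfalso
      apply hne
      have h3 : t = 1 := by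
        have := congrArg τ.symm h1
        simpa using this
      rw [h3, map_one]
    · exact absurd h1 hne
    · exact h1
  have hti : t * t⁻¹ = 1 := mul_inv_cancel₀ ht0
  have ht1 : t ≠ 1 := by
    rintro rfl
    exact hne (map_one τ)
  have htm1 : t + 1 ≠ 0 := by
    intro h0
    have h3 : t = -1 := by linear_combination h0
    apply hne
    rw [h3, map_neg, map_one]
  have hA : t ^ 2 + t + 1 = 0 := by
    have e : τ (t + 1) = t⁻¹ + 1 := by rw [map_add, map_one, hinv]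
    rcases h (t + 1) htm1 with h1 | h1 | h1
    · rw [e] at h1
      have h3 : t⁻¹ = 0 := by linear_combination h1
      exact absurd (inv_eq_zero.mp h3) ht0
    · rw [e] at h1
      exfalso
      apply hne
      rw [hinv]
      linear_combination h1
    · rw [e] at h1
      have h3 : (t⁻¹ + 1) * (t + 1) = 1 := by rw [h1, inv_mul_cancel₀ htm1]
      linear_combination t * h3 - (t + 1) * hti
  have hB : t ^ 2 - t + 1 = 0 := by
    have htm : t - 1 ≠ 0 := sub_ne_zero.mpr ht1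
    have e : τ (t - 1) = t⁻¹ - 1 := by rw [map_sub, map_one, hinv]
    rcases h (t - 1) htm with h1 | h1 | h1
    · rw [e] at h1
      exfalso
      apply hne
      have h4 : t⁻¹ = 2 := by linear_combination h1
      have h5 : t = 2⁻¹ := by rw [← h4, inv_inv]
      rw [h5, map_inv₀, map_ofNat]
    · rw [e] at h1
      exfalso
      apply hne
      rw [hinv]
      linear_combination h1
    · rw [e] at h1
      have h3 : (t⁻¹ - 1) * (t - 1) = 1 := by rw [h1, inv_mul_cancel₀ htm]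
      linear_combination (-t) * h3 + (t - 1) * hti
  have h6 : 2 * t = 0 := by linear_combination hA - hB
  rcases mul_eq_zero.mp h6 with h | h
  · exact h2 h
  · exact ht0 h

end generic2

/-- The diagonal of the isometry scaling one hyperbolic pair. -/
noncomputable def dv {m : ℕ} (i0 : Fin m) (t : F) : Unit ⊕ (Fin m ⊕ Fin m) → F :=
  Sum.elim (fun _ => 1)
    (Sum.elim (fun i => if i = i0 then t else 1) (fun i => if i = i0 then t⁻¹ else 1))

/-- The permutation interchanging two hyperbolic pairs. -/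
def pw {m : ℕ} (i0 i1 : Fin m) : Equiv.Perm (Unit ⊕ (Fin m ⊕ Fin m)) :=
  Equiv.sumCongr (Equiv.refl Unit) (Equiv.sumCongr (Equiv.swap i0 i1) (Equiv.swap i0 i1))

theorem dv_ne {m : ℕ} (i0 : Fin m) (t : F) (ht : t ≠ 0) (j : Unit ⊕ (Fin m ⊕ Fin m)) :
    dv i0 t j ≠ 0 := by
  rcases j with ⟨⟩ | i | i
  · simp [dv]
  · by_cases h : i = i0 <;> simp [dv, h, ht]
  · by_cases h : i = i0 <;> simp [dv, h, ht]

theorem dv_isom {m : ℕ} (i0 : Fin m) (t : F) (ht : t ≠ 0) (x : Unit ⊕ (Fin m ⊕ Fin m) → F) :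
    Cfsg.quadFormOdd m F (Matrix.diagonal (dv i0 t) *ᵥ x) = Cfsg.quadFormOdd m F x := by
  have h1 : Matrix.diagonal (dv i0 t) *ᵥ x = fun i => dv i0 t i * x i := by
    funext i
    exact Matrix.mulVec_diagonal _ _ _
  rw [h1]
  unfold Cfsg.quadFormOdd
  congr 1
  · simp [dv]
  · apply Finset.sum_congr rfl
    intro i _
    by_cases h : i = i0
    · simp only [dv, Sum.elim_inr, Sum.elim_inl, h, if_true]
      field_simp
    · simp [dv, h]

theorem pw_isom {m : ℕ} (i0 i1 : Fin m) (x : Unit ⊕ (Fin m ⊕ Fin m) → F) :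
    Cfsg.quadFormOdd m F
      ((Matrix.of fun i j => if pw i0 i1 i = j then (1 : F) else 0) *ᵥ x) =
      Cfsg.quadFormOdd m F x := by
  have h1 : (Matrix.of fun i j => if pw i0 i1 i = j then (1 : F) else 0) *ᵥ x =
      fun i => x (pw i0 i1 i) := by
    funext i
    simp [Matrix.mulVec, dotProduct]
  rw [h1]
  show x (Sum.inl ()) ^ 2 + ∑ i : Fin m, x (Sum.inr (Sum.inl (Equiv.swap i0 i1 i))) *
    x (Sum.inr (Sum.inr (Equiv.swap i0 i1 i))) = _
  rw [Equiv.sum_comp (Equiv.swap i0 i1)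
    (fun i => x (Sum.inr (Sum.inl i)) * x (Sum.inr (Sum.inr i)))]
  rfl

theorem dv_ratio_i0 {m : ℕ} (i0 i1 : Fin m) (h01 : i0 ≠ i1) (t : F) :
    dv i0 t (Sum.inr (Sum.inl i0)) * (dv i0 t (pw i0 i1 (Sum.inr (Sum.inl i0))))⁻¹ = t := by
  have e : pw i0 i1 (Sum.inr (Sum.inl i0)) = Sum.inr (Sum.inl i1) := by
    show Sum.inr (Sum.inl (Equiv.swap i0 i1 i0)) = _
    rw [Equiv.swap_apply_left]
  rw [e]
  simp [dv, h01.symm]

theorem dv_ratio_mem {m : ℕ} (i0 i1 : Fin m) (h01 : i0 ≠ i1) (t : F)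
    (j : Unit ⊕ (Fin m ⊕ Fin m)) :
    dv i0 t j * (dv i0 t (pw i0 i1 j))⁻¹ = 1 ∨ dv i0 t j * (dv i0 t (pw i0 i1 j))⁻¹ = t ∨
      dv i0 t j * (dv i0 t (pw i0 i1 j))⁻¹ = t⁻¹ := by
  rcases j with ⟨⟩ | i | i
  · left
    show dv i0 t (Sum.inl ()) * (dv i0 t (Sum.inl ()))⁻¹ = 1
    simp [dv]
  · have e : pw i0 i1 (Sum.inr (Sum.inl i)) = Sum.inr (Sum.inl (Equiv.swap i0 i1 i)) := rfl
    rw [e]
    by_cases h0 : i = i0
    · subst h0
      right; left
      rw [Equiv.swap_apply_left]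
      simp [dv, h01.symm]
    · by_cases h1 : i = i1
      · subst h1
        right; right
        rw [Equiv.swap_apply_right]
        simp [dv, h0]
      · left
        rw [Equiv.swap_apply_of_ne_of_ne h0 h1]
        simp [dv, h0]
  · have e : pw i0 i1 (Sum.inr (Sum.inr i)) = Sum.inr (Sum.inr (Equiv.swap i0 i1 i)) := rfl
    rw [e]
    by_cases h0 : i = i0
    · subst h0
      right; right
      rw [Equiv.swap_apply_left]
      simp [dv, h01.symm]
    · by_cases h1 : i = i1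
      · subst h1
        right; left
        rw [Equiv.swap_apply_right]
        simp [dv, h0]
      · left
        rw [Equiv.swap_apply_of_ne_of_ne h0 h1]
        simp [dv, h0]

theorem values_of_fO_eq [Fintype F] (h2 : (2 : F) ≠ 0) {m : ℕ} (hm : 3 ≤ m) (τ : RingAut F)
    (g : ↥(Cfsg.Geo.quadSimilarityGroup (F := F) (Cfsg.quadFormOdd m F)))
    (h : fO (fieldCompat_odd m) τ = simAut (Cfsg.quadFormOdd m F) g) (t : F) (ht : t ≠ 0) :
    τ t = 1 ∨ τ t = t ∨ τ t = t⁻¹ := by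
  obtain ⟨i0, i1, h01⟩ : ∃ i0 i1 : Fin m, i0 ≠ i1 :=
    ⟨⟨0, by omega⟩, ⟨1, by omega⟩, by simp [Fin.ext_iff]⟩
  obtain ⟨s, hs, hsm⟩ := comm_diag_perm (oddQF m F) (oddQF_nondegenerate m F h2) _
    (oddQF_coe m F) (dv i0 t) (dv_ne i0 t ht) (pw i0 i1) (dv_isom i0 t ht) (pw_isom i0 i1)
  have hmat := fO_eq_simAut_mat (oddQF m F) (oddQF_nondegenerate m F h2)
    (by rw [card_odd]; omega) _ (oddQF_coe m F) (fieldCompat_odd m) τ g h s hs
  rw [hsm] at hmat
  obtain ⟨G, hG⟩ : ∃ G : Matrix (Unit ⊕ (Fin m ⊕ Fin m)) (Unit ⊕ (Fin m ⊕ Fin m)) F,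
    G = ((g : GL (Unit ⊕ (Fin m ⊕ Fin m)) F) : Matrix _ _ F) := ⟨_, rfl⟩
  rw [← hG] at hmat
  have hGdet : G.det ≠ 0 := by
    rw [hG]
    exact ((Matrix.isUnit_iff_isUnit_det _).mp (g : GL (Unit ⊕ (Fin m ⊕ Fin m)) F).isUnit).ne_zero
  obtain ⟨j, hj⟩ : ∃ j, G (Sum.inr (Sum.inl i0)) j ≠ 0 := by
    by_contra hcon
    push_neg at hcon
    exact hGdet (Matrix.det_eq_zero_of_row_eq_zero (Sum.inr (Sum.inl i0)) hcon)
  have he := congrFun (congrFun hmat (Sum.inr (Sum.inl i0))) j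
  rw [Matrix.diagonal_map (map_zero _), Matrix.diagonal_mul, Matrix.mul_diagonal] at he
  rw [dv_ratio_i0 i0 i1 h01 t] at he
  have he' : τ t = dv i0 t j * (dv i0 t (pw i0 i1 j))⁻¹ := by
    apply mul_right_cancel₀ hj
    rw [he, mul_comm]
  rw [he']
  exact dv_ratio_mem i0 i1 h01 t j

/-- A field automorphism of `PΩ_{2m+1}(F)` induced by a similarity is trivial. -/
theorem eq_one_of_fO_eq [Fintype F] (h2 : (2 : F) ≠ 0) {m : ℕ} (hm : 3 ≤ m) (τ : RingAut F)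
    (g : ↥(Cfsg.Geo.quadSimilarityGroup (F := F) (Cfsg.quadFormOdd m F)))
    (h : fO (fieldCompat_odd m) τ = simAut (Cfsg.quadFormOdd m F) g) : τ = 1 :=
  aut_eq_one_of_values h2 τ (values_of_fO_eq h2 hm τ g h)

theorem fO_injective [Fintype F] (h2 : (2 : F) ≠ 0) {m : ℕ} (hm : 3 ≤ m) :
    Function.Injective (fO (fieldCompat_odd m) :
      RingAut F →* MulAut (Cfsg.POmega F (Cfsg.quadFormOdd m F))) := by
  rw [injective_iff_map_eq_one]
  intro τ hτ
  exact eq_one_of_fO_eq h2 hm τ 1 (by rw [hτ, map_one])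

theorem inndiag_eq_range (m : ℕ) :
    Cfsg.inndiagPOmegaOdd m F = (simAut (Cfsg.quadFormOdd m F)).range :=
  pgoAut_eq_range (Cfsg.quadFormOdd m F)

/-- Elements of prime order in the coset of a field automorphism are conjugate to it under the
inner-diagonal group. -/
theorem coset_conj [Fintype F] (h2 : (2 : F) ≠ 0) {m : ℕ} (hm : 3 ≤ m)
    (hAut : Cfsg.gammaPOmega F (Cfsg.quadFormOdd m F) = ⊤)
    (x δ : MulAut (Cfsg.POmega F (Cfsg.quadFormOdd m F)))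
    (hx : Cfsg.IsFieldAutClassPOmega (Cfsg.quadFormOdd m F) x) {r : ℕ} (hr : r.Prime)
    (hxr : orderOf x = r) (hδ : δ ∈ Cfsg.inndiagPOmegaOdd m F) (hord : orderOf (δ * x) = r) :
    Cfsg.IsConjUnder (Cfsg.inndiagPOmegaOdd m F) x (δ * x) := by
  have hN : ((simAut (Cfsg.quadFormOdd m F)).range).Normal :=
    range_simAut_normal (fieldCompat_odd m) hAut
  rw [inndiag_eq_range] at hδ ⊢
  haveI := hN
  obtain ⟨α, φ, σ, hσ1, hφ, hconj⟩ := hx
  rw [fieldAut_iff (fieldCompat_odd m)] at hφ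
  subst hφ
  have ho : orderOf σ = r := by
    rw [← orderOf_injective (fO (fieldCompat_odd m)) (fO_injective h2 hm) σ, ← hconj,
      orderOf_conj_aut, hxr]
  show ∃ k ∈ (simAut (Cfsg.quadFormOdd m F)).range, δ * x = k * x * k⁻¹
  apply conj_transport _ α
  have hδ' := hN.conj_mem δ hδ α
  obtain ⟨u, hu⟩ := hδ'
  rw [← hu, hconj]
  have hpow : (simAut (Cfsg.quadFormOdd m F) u * fO (fieldCompat_odd m) σ :
      MulAut (Cfsg.POmega F (Cfsg.quadFormOdd m F))) ^ r = 1 := by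
    have e1 : (simAut (Cfsg.quadFormOdd m F) u * fO (fieldCompat_odd m) σ :
        MulAut (Cfsg.POmega F (Cfsg.quadFormOdd m F))) = α * (δ * x) * α⁻¹ := by
      rw [hu, ← hconj]
      group
    rw [e1, ← hord, ← orderOf_conj_aut α (δ * x)]
    exact pow_orderOf_eq_one _
  obtain ⟨k, hk⟩ := conj_of_pow_eq_one h2 hm σ r ho hr.pos u hpow
  exact ⟨simAut (Cfsg.quadFormOdd m F) k, ⟨k, rfl⟩, hk⟩

end Cfsg.Agent.Lib.Helper8.OOdd
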