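import Mathlib
import Cfsg.Agent.Lib.Helper8.OOdd
import Cfsg.Agent.Lib.Helper14.SOIndex
import Cfsg.Agent.Lib.Helper43.AutPSL2.Main

set_option autoImplicit false

/-!
# Outer automorphisms of the odd-dimensional orthogonal groups

Given `Aut(PΩ_{2m+1}(F)) = PΓO_{2m+1}(F)`: the outer automorphism group is `C₂ × C_f`.
-/

namespace Cfsg.Agent.Lib.Helper8.OOut

open Matrix Cfsg.Agent.Lib.Helper14 Cfsg.Agent.Lib.Helper44 Cfsg.Agent.Lib.Helper43.FieldAut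
  Cfsg.Agent.Lib.Helper8.OField Cfsg.Agent.Lib.Helper8.OOdd

section generic

variable {ι : Type} [Fintype ι] [DecidableEq ι] {K : Type*} [Field K]

/-- In odd dimension the special orthogonal group acts faithfully on `PΩ`. -/
theorem isomAut_SO_inj [Fintype K] (h2 : (2 : K) ≠ 0) (Q : QuadraticForm K (ι → K))
    (hQ : (QuadraticMap.polarBilin Q).Nondegenerate) (Qf : (ι → K) → K) (hQf : ⇑Q = Qf)
    (E : Submodule K (ι → K)) (hE : 3 ≤ Module.finrank K E) (hE0 : ∀ x ∈ E, Q x = 0)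
    (k : ℕ) (hk : Fintype.card ι = 2 * k + 1) :
    Function.Injective ((isomAut Qf).comp (Cfsg.specialIsometryGroup K Qf).subtype) := by
  subst hQf
  rw [injective_iff_map_eq_one]
  intro x hx
  have h1 : isomAut ⇑Q (x : ↥(Cfsg.isometryGroup K ⇑Q)) = 1 := hx
  have hdet := (mem_specialIsometryGroup_iff ⇑Q (x : ↥(Cfsg.isometryGroup K ⇑Q))).mp x.2
  rcases scalar_of_isomAut_eq_one Q hQ E hE hE0 _ h1 with h | h
  · apply Subtype.ext
    apply isom_ext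
    rw [h]
    rfl
  · exfalso
    rw [h, Matrix.det_neg, Matrix.det_one, mul_one, hk, Odd.neg_one_pow ⟨k, rfl⟩] at hdet
    apply h2
    linear_combination (-1 : K) * hdet

theorem psoAut_eq_range_odd (Q : QuadraticForm K (ι → K))
    (hQ : (QuadraticMap.polarBilin Q).Nondegenerate) (Qf : (ι → K) → K) (hQf : ⇑Q = Qf)
    (k : ℕ) (hk : Fintype.card ι = 2 * k + 1) :
    Cfsg.psoAut K Qf = (simAut Qf).range := by
  rw [psoAut_eq_map_sim]
  apply le_antisymm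
  · rintro _ ⟨s, -, rfl⟩
    exact ⟨s, rfl⟩
  · rintro _ ⟨g, rfl⟩
    obtain ⟨s, hs, hsg⟩ := exists_SO_of_sim_odd Q hQ Qf hQf k hk g
    exact ⟨s, Subgroup.mem_subgroupOf.mpr hs, hsg⟩

/-- In odd dimension the inner automorphisms have index two in the image of the conformal
group. -/
theorem relIndex_inn_range [Fintype K] (h2 : (2 : K) ≠ 0) (Q : QuadraticForm K (ι → K))
    (hQ : (QuadraticMap.polarBilin Q).Nondegenerate) (Qf : (ι → K) → K) (hQf : ⇑Q = Qf)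
    (E : Submodule K (ι → K)) (hE : 3 ≤ Module.finrank K E) (hE0 : ∀ x ∈ E, Q x = 0)
    (k : ℕ) (hk1 : 1 ≤ k) (hk : Fintype.card ι = 2 * k + 1) :
    (Cfsg.Inn (Cfsg.POmega K Qf)).relIndex (simAut Qf).range = 2 := by
  have hinj := isomAut_SO_inj h2 Q hQ Qf hQf E hE hE0 k hk
  have hrel : (Cfsg.Omega K Qf).relIndex (Cfsg.specialIsometryGroup K Qf) = 2 := by
    subst hQf
    exact relIndex_omega_SO h2 Q hQ (by omega)
  have hle : Cfsg.Omega K Qf ≤ Cfsg.specialIsometryGroup K Qf :=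
    commutator_le_specialIsometryGroup Qf
  have h1 := Subgroup.relIndex_map_map_of_injective
    ((Cfsg.Omega K Qf).subgroupOf (Cfsg.specialIsometryGroup K Qf)) ⊤ hinj
  rw [Subgroup.relIndex_top_right] at h1
  have e1 : ((Cfsg.Omega K Qf).subgroupOf (Cfsg.specialIsometryGroup K Qf)).map
      ((isomAut Qf).comp (Cfsg.specialIsometryGroup K Qf).subtype) =
        Cfsg.Inn (Cfsg.POmega K Qf) := by
    rw [← Subgroup.map_map, Subgroup.map_subgroupOf_eq_of_le hle, inn_eq_map]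
  have e2 : (⊤ : Subgroup ↥(Cfsg.specialIsometryGroup K Qf)).map
      ((isomAut Qf).comp (Cfsg.specialIsometryGroup K Qf).subtype) = (simAut Qf).range := by
    rw [← Subgroup.map_map, ← MonoidHom.range_eq_map, Subgroup.range_subtype, ← psoAut_eq_map]
    exact psoAut_eq_range_odd Q hQ Qf hQf k hk
  rw [e1, e2] at h1
  rw [h1]
  exact hrel

theorem inn_le_range_odd (Q : QuadraticForm K (ι → K))
    (hQ : (QuadraticMap.polarBilin Q).Nondegenerate) (Qf : (ι → K) → K) (hQf : ⇑Q = Qf)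
    (k : ℕ) (hk : Fintype.card ι = 2 * k + 1) :
    Cfsg.Inn (Cfsg.POmega K Qf) ≤ (simAut Qf).range := by
  rw [inn_eq_map, ← psoAut_eq_range_odd Q hQ Qf hQf k hk, psoAut_eq_map]
  exact Subgroup.map_mono (commutator_le_specialIsometryGroup Qf)

/-- In odd dimension `PΩ` has trivial centre. -/
theorem conj_injective_odd [Fintype K] (h2 : (2 : K) ≠ 0) (Q : QuadraticForm K (ι → K))
    (hQ : (QuadraticMap.polarBilin Q).Nondegenerate) (Qf : (ι → K) → K) (hQf : ⇑Q = Qf)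
    (E : Submodule K (ι → K)) (hE : 3 ≤ Module.finrank K E) (hE0 : ∀ x ∈ E, Q x = 0)
    (k : ℕ) (hk : Fintype.card ι = 2 * k + 1) :
    Function.Injective (MulAut.conj : Cfsg.POmega K Qf →* MulAut (Cfsg.POmega K Qf)) := by
  have hinj := isomAut_SO_inj h2 Q hQ Qf hQf E hE hE0 k hk
  have hle : Cfsg.Omega K Qf ≤ Cfsg.specialIsometryGroup K Qf :=
    commutator_le_specialIsometryGroup Qf
  rw [injective_iff_map_eq_one]
  intro x hx
  obtain ⟨s, rfl⟩ := QuotientGroup.mk_surjective x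
  have h1 : isomAut Qf (s : ↥(Cfsg.isometryGroup K Qf)) = 1 := by
    apply MulEquiv.ext
    intro q
    obtain ⟨t, rfl⟩ := QuotientGroup.mk_surjective q
    rw [isomAut_mk, MulAut.one_apply]
    have h3 := congrArg (fun β : MulAut (Cfsg.POmega K Qf) => β (QuotientGroup.mk t)) hx
    simp only [MulAut.conj_apply, MulAut.one_apply] at h3
    have e : MulAut.conjNormal (s : ↥(Cfsg.isometryGroup K Qf)) t = s * t * s⁻¹ :=
      Subtype.ext (by rw [MulAut.conjNormal_apply]; rfl)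
    rw [e]
    exact h3
  have h4 : (⟨(s : ↥(Cfsg.isometryGroup K Qf)), hle s.2⟩ :
      ↥(Cfsg.specialIsometryGroup K Qf)) = 1 := by
    apply hinj
    show isomAut Qf (s : ↥(Cfsg.isometryGroup K Qf)) = isomAut Qf 1
    rw [h1, map_one]
  have h5 : s = 1 := by
    apply Subtype.ext
    exact congrArg (fun y : ↥(Cfsg.specialIsometryGroup K Qf) =>
      (y : ↥(Cfsg.isometryGroup K Qf))) h4
  rw [h5]
  rfl

end generic

variable {F : Type*} [Field F] [Fintype F]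

theorem finite_aut (m : ℕ) : Finite (MulAut (Cfsg.POmega F (Cfsg.quadFormOdd m F))) :=
  Finite.of_injective
    (fun e : MulAut (Cfsg.POmega F (Cfsg.quadFormOdd m F)) =>
      (e : Cfsg.POmega F (Cfsg.quadFormOdd m F) → Cfsg.POmega F (Cfsg.quadFormOdd m F)))
    DFunLike.coe_injective

theorem relIndex_inn_odd (h2 : (2 : F) ≠ 0) {m : ℕ} (hm : 3 ≤ m) :
    (Cfsg.Inn (Cfsg.POmega F (Cfsg.quadFormOdd m F))).relIndex
      (simAut (Cfsg.quadFormOdd m F)).range = 2 := by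
  obtain ⟨E, hE, hE0⟩ := ts3 (F := F) hm
  exact relIndex_inn_range h2 (oddQF m F) (oddQF_nondegenerate m F h2) _ (oddQF_coe m F) E hE hE0
    m (by omega) (card_odd m)

theorem conj_inj_odd (h2 : (2 : F) ≠ 0) {m : ℕ} (hm : 3 ≤ m) :
    Function.Injective (MulAut.conj : Cfsg.POmega F (Cfsg.quadFormOdd m F) →*
      MulAut (Cfsg.POmega F (Cfsg.quadFormOdd m F))) := by
  obtain ⟨E, hE, hE0⟩ := ts3 (F := F) hm
  exact conj_injective_odd h2 (oddQF m F) (oddQF_nondegenerate m F h2) _ (oddQF_coe m F) E hE hE0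
    m (card_odd m)


theorem inn_le_odd (h2 : (2 : F) ≠ 0) (m : ℕ) :
    Cfsg.Inn (Cfsg.POmega F (Cfsg.quadFormOdd m F)) ≤ (simAut (Cfsg.quadFormOdd m F)).range :=
  inn_le_range_odd (oddQF m F) (oddQF_nondegenerate m F h2) _ (oddQF_coe m F) m (card_odd m)

/-- `α` is a similarity followed by the field automorphism `σ`. -/
def TwO (m : ℕ) (α : MulAut (Cfsg.POmega F (Cfsg.quadFormOdd m F))) (σ : RingAut F) : Prop :=
  ∃ u : ↥(Cfsg.Geo.quadSimilarityGroup (F := F) (Cfsg.quadFormOdd m F)),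
    α = simAut (Cfsg.quadFormOdd m F) u * fO (fieldCompat_odd m) σ

omit [Fintype F] in
theorem twO_mul {m : ℕ} {α β : MulAut (Cfsg.POmega F (Cfsg.quadFormOdd m F))} {σ τ : RingAut F}
    (h1 : TwO m α σ) (h2 : TwO m β τ) : TwO m (α * β) (σ * τ) := by
  obtain ⟨u, rfl⟩ := h1
  obtain ⟨w, rfl⟩ := h2
  refine ⟨u * mapG (fieldCompat_odd m) σ w, ?_⟩
  rw [map_mul, map_mul, mul_assoc (simAut (Cfsg.quadFormOdd m F) u),
    ← mul_assoc (fO (fieldCompat_odd m) σ), fO_simAut]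
  simp only [mul_assoc]

theorem twO_unique (h2 : (2 : F) ≠ 0) {m : ℕ} (hm : 3 ≤ m)
    {α : MulAut (Cfsg.POmega F (Cfsg.quadFormOdd m F))} {σ τ : RingAut F}
    (h1 : TwO m α σ) (h3 : TwO m α τ) : σ = τ := by
  obtain ⟨u, rfl⟩ := h1
  obtain ⟨w, he⟩ := h3
  have h4 : (fO (fieldCompat_odd m) (σ * τ⁻¹) : MulAut (Cfsg.POmega F (Cfsg.quadFormOdd m F))) =
      simAut (Cfsg.quadFormOdd m F) (u⁻¹ * w) := by
    rw [map_mul, map_inv, map_mul, map_inv, eq_inv_mul_iff_mul_eq, ← mul_assoc, he,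
      mul_inv_cancel_right]
  exact mul_inv_eq_one.mp (eq_one_of_fO_eq h2 hm _ _ h4)

omit [Fintype F] in
theorem twO_exists {m : ℕ} (hAut : Cfsg.gammaPOmega F (Cfsg.quadFormOdd m F) = ⊤)
    (α : MulAut (Cfsg.POmega F (Cfsg.quadFormOdd m F))) : ∃ σ : RingAut F, TwO m α σ := by
  obtain ⟨g, τ, e⟩ := aut_decomp (fieldCompat_odd m) hAut α
  exact ⟨τ, g, e⟩

/-- The field automorphism part of an automorphism. -/
noncomputable def typeO (h2 : (2 : F) ≠ 0) {m : ℕ} (hm : 3 ≤ m)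
    (hAut : Cfsg.gammaPOmega F (Cfsg.quadFormOdd m F) = ⊤) :
    MulAut (Cfsg.POmega F (Cfsg.quadFormOdd m F)) →* RingAut F :=
  MonoidHom.mk' (fun α => Classical.choose (twO_exists hAut α)) (by
    intro α β
    exact twO_unique h2 hm (Classical.choose_spec (twO_exists hAut (α * β)))
      (twO_mul (Classical.choose_spec (twO_exists hAut α))
        (Classical.choose_spec (twO_exists hAut β))))

theorem typeO_eq (h2 : (2 : F) ≠ 0) {m : ℕ} (hm : 3 ≤ m)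
    (hAut : Cfsg.gammaPOmega F (Cfsg.quadFormOdd m F) = ⊤)
    {α : MulAut (Cfsg.POmega F (Cfsg.quadFormOdd m F))} {σ : RingAut F} (h : TwO m α σ) :
    typeO h2 hm hAut α = σ :=
  twO_unique h2 hm (Classical.choose_spec (twO_exists hAut α)) h

theorem typeO_fO (h2 : (2 : F) ≠ 0) {m : ℕ} (hm : 3 ≤ m)
    (hAut : Cfsg.gammaPOmega F (Cfsg.quadFormOdd m F) = ⊤) (σ : RingAut F) :
    typeO h2 hm hAut (fO (fieldCompat_odd m) σ) = σ :=
  typeO_eq h2 hm hAut ⟨1, by rw [map_one, one_mul]⟩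

theorem typeO_ker (h2 : (2 : F) ≠ 0) {m : ℕ} (hm : 3 ≤ m)
    (hAut : Cfsg.gammaPOmega F (Cfsg.quadFormOdd m F) = ⊤) :
    (typeO h2 hm hAut).ker = (simAut (Cfsg.quadFormOdd m F)).range := by
  ext α
  rw [MonoidHom.mem_ker]
  constructor
  · intro h
    obtain ⟨σ, u, hu⟩ := twO_exists hAut α
    have h1 : σ = 1 := by
      rw [← typeO_eq h2 hm hAut ⟨u, hu⟩]
      exact h
    subst h1
    rw [map_one, mul_one] at hu
    exact ⟨u, hu.symm⟩
  · rintro ⟨u, rfl⟩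
    exact typeO_eq h2 hm hAut ⟨u, by rw [map_one, mul_one]⟩

/-- The similarity part of an automorphism. -/
theorem dpart_mem (h2 : (2 : F) ≠ 0) {m : ℕ} (hm : 3 ≤ m)
    (hAut : Cfsg.gammaPOmega F (Cfsg.quadFormOdd m F) = ⊤)
    (α : MulAut (Cfsg.POmega F (Cfsg.quadFormOdd m F))) :
    α * (fO (fieldCompat_odd m) (typeO h2 hm hAut α))⁻¹ ∈
      (simAut (Cfsg.quadFormOdd m F)).range := by
  obtain ⟨σ, u, hu⟩ := twO_exists hAut α
  have h1 := typeO_eq h2 hm hAut ⟨u, hu⟩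
  rw [h1, hu, mul_inv_cancel_right]
  exact ⟨u, rfl⟩

theorem mul_mem_inn_iff (h2 : (2 : F) ≠ 0) {m : ℕ} (hm : 3 ≤ m)
    {x y : MulAut (Cfsg.POmega F (Cfsg.quadFormOdd m F))}
    (hx : x ∈ (simAut (Cfsg.quadFormOdd m F)).range)
    (hy : y ∈ (simAut (Cfsg.quadFormOdd m F)).range) :
    x * y ∈ Cfsg.Inn (Cfsg.POmega F (Cfsg.quadFormOdd m F)) ↔
      (x ∈ Cfsg.Inn (Cfsg.POmega F (Cfsg.quadFormOdd m F)) ↔
        y ∈ Cfsg.Inn (Cfsg.POmega F (Cfsg.quadFormOdd m F))) := by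
  have h : ((Cfsg.Inn (Cfsg.POmega F (Cfsg.quadFormOdd m F))).subgroupOf
      (simAut (Cfsg.quadFormOdd m F)).range).index = 2 := relIndex_inn_odd h2 hm
  have key := Subgroup.mul_mem_iff_of_index_two h
    (a := (⟨x, hx⟩ : ↥(simAut (Cfsg.quadFormOdd m F)).range)) (b := ⟨y, hy⟩)
  rw [Subgroup.mem_subgroupOf, Subgroup.mem_subgroupOf, Subgroup.mem_subgroupOf] at key
  exact key

/-- The predicate: the similarity part is inner. -/
def PrO (h2 : (2 : F) ≠ 0) {m : ℕ} (hm : 3 ≤ m)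
    (hAut : Cfsg.gammaPOmega F (Cfsg.quadFormOdd m F) = ⊤)
    (α : MulAut (Cfsg.POmega F (Cfsg.quadFormOdd m F))) : Prop :=
  α * (fO (fieldCompat_odd m) (typeO h2 hm hAut α))⁻¹ ∈
    Cfsg.Inn (Cfsg.POmega F (Cfsg.quadFormOdd m F))

theorem prO_mul (h2 : (2 : F) ≠ 0) {m : ℕ} (hm : 3 ≤ m)
    (hAut : Cfsg.gammaPOmega F (Cfsg.quadFormOdd m F) = ⊤)
    (a b : MulAut (Cfsg.POmega F (Cfsg.quadFormOdd m F))) :
    PrO h2 hm hAut (a * b) ↔ (PrO h2 hm hAut a ↔ PrO h2 hm hAut b) := by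
  unfold PrO
  have hN : ((simAut (Cfsg.quadFormOdd m F)).range).Normal :=
    range_simAut_normal (fieldCompat_odd m) hAut
  obtain ⟨τa, hτa⟩ : ∃ τa, τa = typeO h2 hm hAut a := ⟨_, rfl⟩
  obtain ⟨τb, hτb⟩ : ∃ τb, τb = typeO h2 hm hAut b := ⟨_, rfl⟩
  have hda := dpart_mem h2 hm hAut a
  have hdb := dpart_mem h2 hm hAut b
  rw [map_mul, ← hτa, ← hτb] at *
  obtain ⟨fa, hfa⟩ : ∃ fa : MulAut (Cfsg.POmega F (Cfsg.quadFormOdd m F)),
    fa = fO (fieldCompat_odd m) τa := ⟨_, rfl⟩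
  obtain ⟨fb, hfb⟩ : ∃ fb : MulAut (Cfsg.POmega F (Cfsg.quadFormOdd m F)),
    fb = fO (fieldCompat_odd m) τb := ⟨_, rfl⟩
  rw [map_mul, ← hfa, ← hfb]
  rw [← hfa] at hda
  rw [← hfb] at hdb
  have e : a * b * (fa * fb)⁻¹ = (a * fa⁻¹) * (fa * (b * fb⁻¹) * fa⁻¹) := by group
  have hc : fa * (b * fb⁻¹) * fa⁻¹ ∈ (simAut (Cfsg.quadFormOdd m F)).range :=
    hN.conj_mem _ hdb fa
  have hci : fa * (b * fb⁻¹) * fa⁻¹ ∈ Cfsg.Inn (Cfsg.POmega F (Cfsg.quadFormOdd m F)) ↔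
      b * fb⁻¹ ∈ Cfsg.Inn (Cfsg.POmega F (Cfsg.quadFormOdd m F)) := by
    constructor
    · intro h
      have h3 := (Cfsg.innNormal (Cfsg.POmega F (Cfsg.quadFormOdd m F))).conj_mem _ h fa⁻¹
      have e2 : fa⁻¹ * (fa * (b * fb⁻¹) * fa⁻¹) * fa⁻¹⁻¹ = b * fb⁻¹ := by group
      rwa [e2] at h3
    · intro h
      exact (Cfsg.innNormal (Cfsg.POmega F (Cfsg.quadFormOdd m F))).conj_mem _ h fa
  rw [e, mul_mem_inn_iff h2 hm hda hc, hci]

/-- The sign character: whether the similarity part is inner. -/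
noncomputable def sgnO (h2 : (2 : F) ≠ 0) {m : ℕ} (hm : 3 ≤ m)
    (hAut : Cfsg.gammaPOmega F (Cfsg.quadFormOdd m F) = ⊤) :
    MulAut (Cfsg.POmega F (Cfsg.quadFormOdd m F)) →* Multiplicative (ZMod 2) :=
  boolHom (PrO h2 hm hAut)
    (fun a b ha => by rw [prO_mul h2 hm hAut a b]; exact iff_true_left ha)
    (fun a b ha => by rw [prO_mul h2 hm hAut a b]; exact iff_false_left ha)

theorem sgnO_eq_one_iff (h2 : (2 : F) ≠ 0) {m : ℕ} (hm : 3 ≤ m)
    (hAut : Cfsg.gammaPOmega F (Cfsg.quadFormOdd m F) = ⊤)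
    (α : MulAut (Cfsg.POmega F (Cfsg.quadFormOdd m F))) :
    sgnO h2 hm hAut α = 1 ↔ PrO h2 hm hAut α :=
  boolHom_eq_one_iff _ _ _ α

/-- The sign and the field automorphism part together. -/
noncomputable def psiO (h2 : (2 : F) ≠ 0) {m : ℕ} (hm : 3 ≤ m)
    (hAut : Cfsg.gammaPOmega F (Cfsg.quadFormOdd m F) = ⊤) :
    MulAut (Cfsg.POmega F (Cfsg.quadFormOdd m F)) →* Multiplicative (ZMod 2) × RingAut F :=
  (sgnO h2 hm hAut).prod (typeO h2 hm hAut)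

theorem psiO_ker (h2 : (2 : F) ≠ 0) {m : ℕ} (hm : 3 ≤ m)
    (hAut : Cfsg.gammaPOmega F (Cfsg.quadFormOdd m F) = ⊤) :
    (psiO h2 hm hAut).ker = Cfsg.Inn (Cfsg.POmega F (Cfsg.quadFormOdd m F)) := by
  ext α
  rw [MonoidHom.mem_ker]
  show (sgnO h2 hm hAut α, typeO h2 hm hAut α) = 1 ↔ _
  rw [Prod.mk_eq_one, sgnO_eq_one_iff]
  unfold PrO
  constructor
  · rintro ⟨h1, h3⟩
    rw [h3, map_one, inv_one, mul_one] at h1
    exact h1
  · intro h
    have h3 : typeO h2 hm hAut α = 1 := by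
      rw [← MonoidHom.mem_ker, typeO_ker]
      exact inn_le_odd h2 m h
    refine ⟨?_, h3⟩
    rw [h3, map_one, inv_one, mul_one]
    exact h

theorem psiO_surjective (h2 : (2 : F) ≠ 0) {m : ℕ} (hm : 3 ≤ m)
    (hAut : Cfsg.gammaPOmega F (Cfsg.quadFormOdd m F) = ⊤) :
    Function.Surjective (psiO h2 hm hAut) := by
  have key : ∀ x : Multiplicative (ZMod 2), x ≠ 1 → x = Multiplicative.ofAdd 1 := by decide
  rintro ⟨e, τ⟩
  by_cases he : e = 1
  · subst he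
    refine ⟨fO (fieldCompat_odd m) τ, ?_⟩
    show (sgnO h2 hm hAut _, typeO h2 hm hAut _) = _
    rw [typeO_fO]
    congr 1
    rw [sgnO_eq_one_iff]
    unfold PrO
    rw [typeO_fO, mul_inv_cancel]
    exact Subgroup.one_mem _
  · obtain ⟨δ₀, hδ₀, hδ₀'⟩ : ∃ δ₀ ∈ (simAut (Cfsg.quadFormOdd m F)).range,
        δ₀ ∉ Cfsg.Inn (Cfsg.POmega F (Cfsg.quadFormOdd m F)) := by
      by_contra hcon
      push_neg at hcon
      have h1 : (Cfsg.Inn (Cfsg.POmega F (Cfsg.quadFormOdd m F))).relIndex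
          (simAut (Cfsg.quadFormOdd m F)).range = 1 := Subgroup.relIndex_eq_one.mpr hcon
      rw [relIndex_inn_odd h2 hm] at h1
      omega
    obtain ⟨u₀, rfl⟩ := hδ₀
    have ht : typeO h2 hm hAut (simAut (Cfsg.quadFormOdd m F) u₀ * fO (fieldCompat_odd m) τ) = τ :=
      typeO_eq h2 hm hAut ⟨u₀, rfl⟩
    refine ⟨simAut (Cfsg.quadFormOdd m F) u₀ * fO (fieldCompat_odd m) τ, ?_⟩
    show (sgnO h2 hm hAut _, typeO h2 hm hAut _) = _
    rw [ht]
    congr 1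
    rw [key e he]
    apply key
    rw [Ne, sgnO_eq_one_iff]
    unfold PrO
    rw [ht, mul_inv_cancel_right]
    exact hδ₀'

/-- **`Out(Ω_{2m+1}(q)) ≅ C₂ × C_f`**, given `Aut(PΩ) = PΓO`. -/
theorem out_odd {p f : ℕ} [Fact p.Prime] (hF : Fintype.card F = p ^ f) (h2 : (2 : F) ≠ 0)
    {m : ℕ} (hm : 3 ≤ m) (hAut : Cfsg.gammaPOmega F (Cfsg.quadFormOdd m F) = ⊤) :
    Nonempty (Cfsg.Out (Cfsg.POmega F (Cfsg.quadFormOdd m F)) ≃*
      Multiplicative (ZMod 2 × ZMod f)) := by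
  obtain ⟨e⟩ := Cfsg.Agent.Lib.Helper43.AutPSL2.exists_ringAut_equiv (F := F) hF
  have e1 := QuotientGroup.quotientKerEquivOfSurjective (psiO h2 hm hAut)
    (psiO_surjective h2 hm hAut)
  have e2 := QuotientGroup.quotientMulEquivOfEq (psiO_ker h2 hm hAut)
  exact ⟨(e2.symm.trans e1).trans
    ((MulEquiv.prodCongr (MulEquiv.refl _) e).trans (MulEquiv.prodMultiplicative (G := ZMod 2) (H := ZMod f)).symm)⟩

/-- **`|Aut(Ω_{2m+1}(q))| = 2 f |Ω_{2m+1}(q)|`**, given `Aut(PΩ) = PΓO`. -/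
theorem card_aut_odd {p f : ℕ} [Fact p.Prime] (hF : Fintype.card F = p ^ f) (h2 : (2 : F) ≠ 0)
    {m : ℕ} (hm : 3 ≤ m) (hAut : Cfsg.gammaPOmega F (Cfsg.quadFormOdd m F) = ⊤) :
    Nat.card (MulAut (Cfsg.POmega F (Cfsg.quadFormOdd m F))) =
      2 * f * Nat.card (Cfsg.POmega F (Cfsg.quadFormOdd m F)) := by
  obtain ⟨e⟩ := out_odd hF h2 hm hAut
  have h1 := Subgroup.card_mul_index (Cfsg.Inn (Cfsg.POmega F (Cfsg.quadFormOdd m F)))
  have h3 : (Cfsg.Inn (Cfsg.POmega F (Cfsg.quadFormOdd m F))).index = 2 * f := by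
    show Nat.card (Cfsg.Out (Cfsg.POmega F (Cfsg.quadFormOdd m F))) = 2 * f
    rw [Nat.card_congr e.toEquiv, Nat.card_congr Multiplicative.toAdd, Nat.card_prod,
      Nat.card_zmod, Nat.card_zmod]
  have h5 : Nat.card (Cfsg.Inn (Cfsg.POmega F (Cfsg.quadFormOdd m F))) =
      Nat.card (Cfsg.POmega F (Cfsg.quadFormOdd m F)) :=
    (Nat.card_congr (MonoidHom.ofInjective (conj_inj_odd h2 hm)).toEquiv).symm
  rw [← h1, h5, h3]
  ring

end Cfsg.Agent.Lib.Helper8.OOut
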