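import Mathlib
import Cfsg.Agent.Lib.Helper8.OOut
import Cfsg.Agent.Lib.Helper14.Spinor3
import Cfsg.Agent.Lib.Helper14.ReflGen
import Cfsg.Agent.Lib.Helper44.PgoInn
import Cfsg.Agent.Lib.Helper43.FieldAut.Main

set_option autoImplicit false

/-!
# Centralizers of field automorphisms of the odd-dimensional orthogonal groups

Given `Aut(PΩ_{2m+1}(F)) = PΓO_{2m+1}(F)`: the centralizer in the inner-diagonal group of a field
automorphism is the inner-diagonal group over the fixed field, and the class splitting.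
-/

namespace Cfsg.Agent.Lib.Helper8.OCent

open Matrix Cfsg.Agent.Lib.Helper14 Cfsg.Agent.Lib.Helper44 Cfsg.Agent.Lib.Helper43.FieldAut
  Cfsg.Agent.Lib.Helper8.OField Cfsg.Agent.Lib.Helper8.OOdd Cfsg.Agent.Lib.Helper8.OOut
  Cfsg.Agent.Lib.Helper8.GraphAutOdd

variable {F : Type*} [Field F] {F₀ : Type*} [Field F₀] (m : ℕ)

omit [Field F] in
theorem two_ne_zero_of_hom [Field F] (h2 : (2 : F) ≠ 0) (j : F₀ →+* F) : (2 : F₀) ≠ 0 := by
  intro h
  apply h2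
  have := congrArg j h
  rwa [map_ofNat, map_zero] at this

theorem odd_compat_j (j : F₀ →+* F) (v : Unit ⊕ (Fin m ⊕ Fin m) → F₀) :
    Cfsg.quadFormOdd m F (fun i => j (v i)) = j (Cfsg.quadFormOdd m F₀ v) := by
  simp only [Cfsg.quadFormOdd, map_add, map_pow, map_sum, map_mul]

theorem mem_isom_iff_gram (h2 : (2 : F) ≠ 0) (g : GL (Unit ⊕ (Fin m ⊕ Fin m)) F) :
    g ∈ Cfsg.isometryGroup F (Cfsg.quadFormOdd m F) ↔
      (g : Matrix (Unit ⊕ (Fin m ⊕ Fin m)) (Unit ⊕ (Fin m ⊕ Fin m)) F)ᵀ * gramOdd m *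
        (g : Matrix (Unit ⊕ (Fin m ⊕ Fin m)) (Unit ⊕ (Fin m ⊕ Fin m)) F) = gramOdd m := by
  rw [quad_iff2 h2 _ _ _ (gramOdd_symm m) (gramOdd_symm m), Helper14.mem_isometryGroup_iff]
  refine forall_congr' fun v => ?_
  rw [toBilin'_gramOdd m h2, toBilin'_gramOdd m h2]

theorem map_mem_SO_j (h2 : (2 : F) ≠ 0) (j : F₀ →+* F) (k : GL (Unit ⊕ (Fin m ⊕ Fin m)) F₀)
    (hk : k ∈ Cfsg.specialIsometryGL F₀ (Cfsg.quadFormOdd m F₀)) :
    Matrix.GeneralLinearGroup.map j k ∈ Cfsg.specialIsometryGL F (Cfsg.quadFormOdd m F) := by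
  have h2' : (2 : F₀) ≠ 0 := two_ne_zero_of_hom h2 j
  refine ⟨?_, ?_⟩
  · refine (mem_isom_iff_gram m h2 _).mpr ?_
    have h1 := (mem_isom_iff_gram m h2' k).mp hk.1
    have h3 := congrArg (fun M : Matrix (Unit ⊕ (Fin m ⊕ Fin m)) (Unit ⊕ (Fin m ⊕ Fin m)) F₀ =>
      M.map j) h1
    simp only [Matrix.map_mul] at h3
    rw [gramOdd_map m j, Matrix.transpose_map] at h3
    exact h3
  · have h1 : k ∈ (Matrix.GeneralLinearGroup.det : GL (Unit ⊕ (Fin m ⊕ Fin m)) F₀ →* F₀ˣ).ker :=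
      hk.2
    show Matrix.GeneralLinearGroup.map j k ∈
      (Matrix.GeneralLinearGroup.det : GL (Unit ⊕ (Fin m ⊕ Fin m)) F →* Fˣ).ker
    rw [MonoidHom.mem_ker] at h1 ⊢
    rw [Matrix.GeneralLinearGroup.map_det, h1, map_one]

/-- The entrywise embedding of the special orthogonal group over a subfield. -/
noncomputable def mapJ (h2 : (2 : F) ≠ 0) (j : F₀ →+* F) :
    ↥(Cfsg.specialIsometryGL F₀ (Cfsg.quadFormOdd m F₀)) →*
      ↥(Cfsg.Geo.quadSimilarityGroup (F := F) (Cfsg.quadFormOdd m F)) where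
  toFun k := ⟨Matrix.GeneralLinearGroup.map j (k : GL (Unit ⊕ (Fin m ⊕ Fin m)) F₀),
    isometryGroup_le_sim _ (map_mem_SO_j m h2 j _ k.2).1⟩
  map_one' := Subtype.ext (map_one _)
  map_mul' a b := Subtype.ext (map_mul _ _ _)

/-- The special orthogonal group over a subfield acting on `PΩ` over the big field. -/
noncomputable def thetaJ (h2 : (2 : F) ≠ 0) (j : F₀ →+* F) :
    ↥(Cfsg.specialIsometryGL F₀ (Cfsg.quadFormOdd m F₀)) →*
      MulAut (Cfsg.POmega F (Cfsg.quadFormOdd m F)) :=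
  (simAut (Cfsg.quadFormOdd m F)).comp (mapJ m h2 j)

theorem inf_centralizer_fO [Fintype F] (h2 : (2 : F) ≠ 0) {m : ℕ} (hm : 3 ≤ m) (σ : RingAut F)
    (j : F₀ →+* F) (hj : IsFixEmb σ j) :
    (simAut (Cfsg.quadFormOdd m F)).range ⊓ Subgroup.centralizer
        {(fO (fieldCompat_odd m) σ : MulAut (Cfsg.POmega F (Cfsg.quadFormOdd m F)))} =
      (thetaJ m h2 j).range := by
  have h2' : (2 : F₀) ≠ 0 := two_ne_zero_of_hom h2 j
  ext y
  rw [Subgroup.mem_inf, Subgroup.mem_centralizer_iff]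
  constructor
  · rintro ⟨⟨u, rfl⟩, hc⟩
    have h1 := hc (fO (fieldCompat_odd m) σ) rfl
    obtain ⟨s, hs, hsu⟩ := exists_SO_odd h2 m u
    rw [← hsu] at h1 ⊢
    rw [fO_simAut] at h1
    have h3 : simAut (Cfsg.quadFormOdd m F) (s⁻¹ * mapG (fieldCompat_odd m) σ s) = 1 := by
      rw [map_mul, map_inv, inv_mul_eq_one]
      exact (mul_right_cancel h1).symm
    obtain ⟨lam, -, hlam⟩ := scalar_odd h2 hm _ h3
    have hSO : ((s⁻¹ * mapG (fieldCompat_odd m) σ s :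
        ↥(Cfsg.Geo.quadSimilarityGroup (F := F) (Cfsg.quadFormOdd m F))) :
          GL (Unit ⊕ (Fin m ⊕ Fin m)) F) ∈ Cfsg.specialIsometryGL F (Cfsg.quadFormOdd m F) :=
      Subgroup.mul_mem _ (Subgroup.inv_mem _ hs) (map_mem_SO (fieldCompat_odd m) σ _ hs)
    have h4 := scalar_SO_eq_one (oddQF m F) _ (oddQF_coe m F) (odd_ne m) m (card_odd m) _ hSO
      lam hlam
    have h5 : mapG (fieldCompat_odd m) σ s = s := by
      have h6 : s⁻¹ * mapG (fieldCompat_odd m) σ s = 1 := Subtype.ext (Units.ext h4)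
      exact (inv_mul_eq_one.mp h6).symm
    have hfix : ∀ a b, σ (((s : GL (Unit ⊕ (Fin m ⊕ Fin m)) F) :
        Matrix (Unit ⊕ (Fin m ⊕ Fin m)) (Unit ⊕ (Fin m ⊕ Fin m)) F) a b) =
        ((s : GL (Unit ⊕ (Fin m ⊕ Fin m)) F) :
          Matrix (Unit ⊕ (Fin m ⊕ Fin m)) (Unit ⊕ (Fin m ⊕ Fin m)) F) a b := fun a b => by
      have h7 := congrArg (fun x : ↥(Cfsg.Geo.quadSimilarityGroup (F := F)
        (Cfsg.quadFormOdd m F)) => ((x : GL (Unit ⊕ (Fin m ⊕ Fin m)) F) :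
          Matrix (Unit ⊕ (Fin m ⊕ Fin m)) (Unit ⊕ (Fin m ⊕ Fin m)) F) a b) h5
      exact h7
    choose k₀ hk₀ using fun a b => (hj _).mp (hfix a b)
    have hKj : (Matrix.of k₀).map j = ((s : GL (Unit ⊕ (Fin m ⊕ Fin m)) F) :
        Matrix (Unit ⊕ (Fin m ⊕ Fin m)) (Unit ⊕ (Fin m ⊕ Fin m)) F) := by
      ext a b
      exact hk₀ a b
    have hdet : (Matrix.of k₀).det ≠ 0 := by
      intro h0
      have h1' : ((Matrix.of k₀).map j).det = 0 := by
        rw [← RingHom.mapMatrix_apply, ← RingHom.map_det, h0, map_zero]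
      rw [hKj] at h1'
      exact ((Matrix.isUnit_iff_isUnit_det _).mp
        (s : GL (Unit ⊕ (Fin m ⊕ Fin m)) F).isUnit).ne_zero h1'
    obtain ⟨k, hk⟩ : ∃ k : GL (Unit ⊕ (Fin m ⊕ Fin m)) F₀,
        (k : Matrix (Unit ⊕ (Fin m ⊕ Fin m)) (Unit ⊕ (Fin m ⊕ Fin m)) F₀) = Matrix.of k₀ :=
      ⟨Matrix.GeneralLinearGroup.mkOfDetNeZero _ hdet, rfl⟩
    have hkmap : Matrix.GeneralLinearGroup.map j k = (s : GL (Unit ⊕ (Fin m ⊕ Fin m)) F) := by
      apply Units.ext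
      show (k : Matrix (Unit ⊕ (Fin m ⊕ Fin m)) (Unit ⊕ (Fin m ⊕ Fin m)) F₀).map j = _
      rw [hk, hKj]
    have hkSO : k ∈ Cfsg.specialIsometryGL F₀ (Cfsg.quadFormOdd m F₀) := by
      refine ⟨?_, ?_⟩
      · refine (mem_isom_iff_gram m h2' _).mpr ?_
        apply Matrix.map_injective j.injective
        show ((k : Matrix (Unit ⊕ (Fin m ⊕ Fin m)) (Unit ⊕ (Fin m ⊕ Fin m)) F₀)ᵀ * gramOdd m *
          (k : Matrix (Unit ⊕ (Fin m ⊕ Fin m)) (Unit ⊕ (Fin m ⊕ Fin m)) F₀)).map j =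
            (gramOdd m : Matrix (Unit ⊕ (Fin m ⊕ Fin m)) (Unit ⊕ (Fin m ⊕ Fin m)) F₀).map j
        rw [Matrix.map_mul, Matrix.map_mul, Matrix.transpose_map, gramOdd_map m j, hk, hKj]
        exact (mem_isom_iff_gram m h2 _).mp hs.1
      · show k ∈ (Matrix.GeneralLinearGroup.det :
          GL (Unit ⊕ (Fin m ⊕ Fin m)) F₀ →* F₀ˣ).ker
        rw [MonoidHom.mem_ker]
        apply Units.ext
        apply j.injective
        rw [Matrix.GeneralLinearGroup.val_det_apply, Units.val_one, map_one, RingHom.map_det,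
          RingHom.mapMatrix_apply, hk, hKj]
        have h6 : (s : GL (Unit ⊕ (Fin m ⊕ Fin m)) F) ∈
            (Matrix.GeneralLinearGroup.det : GL (Unit ⊕ (Fin m ⊕ Fin m)) F →* Fˣ).ker := hs.2
        have h7 := congrArg Units.val (MonoidHom.mem_ker.mp h6)
        rwa [Matrix.GeneralLinearGroup.val_det_apply, Units.val_one] at h7
    refine ⟨⟨k, hkSO⟩, ?_⟩
    show simAut (Cfsg.quadFormOdd m F) (mapJ m h2 j ⟨k, hkSO⟩) =
      simAut (Cfsg.quadFormOdd m F) s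
    congr 1
    exact Subtype.ext hkmap
  · rintro ⟨k, rfl⟩
    refine ⟨⟨_, rfl⟩, ?_⟩
    intro z hz
    rw [Set.mem_singleton_iff] at hz
    subst hz
    show fO (fieldCompat_odd m) σ * simAut (Cfsg.quadFormOdd m F) (mapJ m h2 j k) =
      simAut (Cfsg.quadFormOdd m F) (mapJ m h2 j k) * fO (fieldCompat_odd m) σ
    rw [fO_simAut]
    have h1 : mapG (fieldCompat_odd m) σ (mapJ m h2 j k) = mapJ m h2 j k := by
      apply Subtype.ext
      apply Units.ext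
      ext a b
      show σ (j ((k : GL (Unit ⊕ (Fin m ⊕ Fin m)) F₀) a b)) =
        j ((k : GL (Unit ⊕ (Fin m ⊕ Fin m)) F₀) a b)
      exact (hj _).mpr ⟨_, rfl⟩
    rw [h1]

theorem thetaJ_injective [Fintype F] (h2 : (2 : F) ≠ 0) {m : ℕ} (hm : 3 ≤ m) (j : F₀ →+* F) :
    Function.Injective (thetaJ m h2 j) := by
  rw [injective_iff_map_eq_one]
  intro k hk
  have h1 : simAut (Cfsg.quadFormOdd m F) (mapJ m h2 j k) = 1 := hk
  obtain ⟨lam, -, hlam⟩ := scalar_odd h2 hm _ h1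
  have h4 := scalar_SO_eq_one (oddQF m F) _ (oddQF_coe m F) (odd_ne m) m (card_odd m) _
    (map_mem_SO_j m h2 j _ k.2) lam hlam
  apply Subtype.ext
  apply Units.ext
  apply Matrix.map_injective j.injective
  show ((k : GL (Unit ⊕ (Fin m ⊕ Fin m)) F₀) :
    Matrix (Unit ⊕ (Fin m ⊕ Fin m)) (Unit ⊕ (Fin m ⊕ Fin m)) F₀).map j =
      (1 : Matrix (Unit ⊕ (Fin m ⊕ Fin m)) (Unit ⊕ (Fin m ⊕ Fin m)) F₀).map j
  rw [Matrix.map_one _ (map_zero j) (map_one j)]
  exact h4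

theorem SO_le_sim (m : ℕ) (K : Type*) [Field K] :
    Cfsg.specialIsometryGL K (Cfsg.quadFormOdd m K) ≤
      Cfsg.Geo.quadSimilarityGroup (F := K) (Cfsg.quadFormOdd m K) :=
  fun _ hg => isometryGroup_le_sim _ (Subgroup.mem_inf.mp hg).1

/-- The special orthogonal group acting on its own `PΩ`. -/
noncomputable def theta0 (m : ℕ) (K : Type*) [Field K] :
    ↥(Cfsg.specialIsometryGL K (Cfsg.quadFormOdd m K)) →*
      MulAut (Cfsg.POmega K (Cfsg.quadFormOdd m K)) :=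
  (simAut (Cfsg.quadFormOdd m K)).comp (Subgroup.inclusion (SO_le_sim m K))

theorem theta0_injective [Fintype F] (h2 : (2 : F) ≠ 0) {m : ℕ} (hm : 3 ≤ m) :
    Function.Injective (theta0 m F) := by
  rw [injective_iff_map_eq_one]
  intro k hk
  have h1 : simAut (Cfsg.quadFormOdd m F) (Subgroup.inclusion (SO_le_sim m F) k) = 1 := hk
  obtain ⟨lam, -, hlam⟩ := scalar_odd h2 hm _ h1
  have h4 := scalar_SO_eq_one (oddQF m F) _ (oddQF_coe m F) (odd_ne m) m (card_odd m) _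
    k.2 lam hlam
  apply Subtype.ext
  apply Units.ext
  exact h4

theorem theta0_range (h2 : (2 : F) ≠ 0) (m : ℕ) :
    (theta0 m F).range = (simAut (Cfsg.quadFormOdd m F)).range := by
  apply le_antisymm
  · rintro _ ⟨k, rfl⟩
    exact ⟨_, rfl⟩
  · rintro _ ⟨g, rfl⟩
    obtain ⟨s, hs, hsg⟩ := exists_SO_odd h2 m g
    refine ⟨⟨(s : GL (Unit ⊕ (Fin m ⊕ Fin m)) F), hs⟩, ?_⟩
    rw [← hsg]
    rfl

/-- The centralizer of a field automorphism in the inner-diagonal group is the inner-diagonal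
group over the fixed field. -/
theorem centralizer_equiv [Fintype F] [Fintype F₀] (h2 : (2 : F) ≠ 0) {m : ℕ} (hm : 3 ≤ m)
    (hAut : Cfsg.gammaPOmega F (Cfsg.quadFormOdd m F) = ⊤) (σ : RingAut F)
    (j : F₀ →+* F) (hj : IsFixEmb σ j)
    (a : MulAut (Cfsg.POmega F (Cfsg.quadFormOdd m F))) :
    Nonempty (↥(Cfsg.inndiagPOmegaOdd m F ⊓ Subgroup.centralizer
      {a * (fO (fieldCompat_odd m) σ : MulAut (Cfsg.POmega F (Cfsg.quadFormOdd m F))) * a⁻¹}) ≃*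
        ↥(Cfsg.inndiagPOmegaOdd m F₀)) := by
  have h2' : (2 : F₀) ≠ 0 := two_ne_zero_of_hom h2 j
  have hN : ((simAut (Cfsg.quadFormOdd m F)).range).Normal :=
    range_simAut_normal (fieldCompat_odd m) hAut
  rw [inndiag_eq_range, inndiag_eq_range]
  haveI := hN
  rw [inf_centralizer_conj, inf_centralizer_fO h2 hm σ j hj, ← theta0_range h2' m]
  have e1 := MonoidHom.ofInjective (thetaJ_injective h2 hm j)
  have e2 := MonoidHom.ofInjective (theta0_injective h2' hm)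
  have e3 := (MulAut.conj a).subgroupMap (thetaJ m h2 j).range
  exact ⟨(e3.symm.trans e1.symm).trans e2⟩


/-! ### The class splitting -/

theorem splitCount_eq_relIndex [Fintype F] (h2 : (2 : F) ≠ 0) {m : ℕ} (hm : 3 ≤ m)
    (hAut : Cfsg.gammaPOmega F (Cfsg.quadFormOdd m F) = ⊤) (σ : RingAut F)
    (j : F₀ →+* F) (hj : IsFixEmb σ j)
    (a : MulAut (Cfsg.POmega F (Cfsg.quadFormOdd m F))) :
    Cfsg.splitClassCount (Cfsg.inndiagPOmegaOdd m F)
        (Cfsg.Inn (Cfsg.POmega F (Cfsg.quadFormOdd m F)))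
        (a * (fO (fieldCompat_odd m) σ : MulAut (Cfsg.POmega F (Cfsg.quadFormOdd m F))) * a⁻¹) =
      (Cfsg.Inn (Cfsg.POmega F (Cfsg.quadFormOdd m F)) ⊔ (thetaJ m h2 j).range).relIndex
        (simAut (Cfsg.quadFormOdd m F)).range := by
  have hN : ((simAut (Cfsg.quadFormOdd m F)).range).Normal :=
    range_simAut_normal (fieldCompat_odd m) hAut
  rw [inndiag_eq_range]
  haveI := hN
  have hle : Cfsg.Inn (Cfsg.POmega F (Cfsg.quadFormOdd m F)) ≤
      (simAut (Cfsg.quadFormOdd m F)).range := inn_le_odd h2 m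
  rw [splitClassCount_eq _ _ hle, inf_centralizer_conj]
  conv_lhs =>
    rw [← normal_map_conj (Cfsg.Inn (Cfsg.POmega F (Cfsg.quadFormOdd m F))) a,
      ← Subgroup.map_sup]
  conv_lhs =>
    arg 2
    rw [← normal_map_conj (simAut (Cfsg.quadFormOdd m F)).range a]
  rw [Subgroup.relIndex_map_map_of_injective _ _ (MulAut.conj a).injective,
    inf_centralizer_fO h2 hm σ j hj]

theorem count_two [Fintype F] (h2 : (2 : F) ≠ 0) {m : ℕ} (hm : 3 ≤ m)
    (hAut : Cfsg.gammaPOmega F (Cfsg.quadFormOdd m F) = ⊤) (σ : RingAut F)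
    (j : F₀ →+* F) (hj : IsFixEmb σ j)
    (a : MulAut (Cfsg.POmega F (Cfsg.quadFormOdd m F)))
    (h : (thetaJ m h2 j).range ≤ Cfsg.Inn (Cfsg.POmega F (Cfsg.quadFormOdd m F))) :
    Cfsg.splitClassCount (Cfsg.inndiagPOmegaOdd m F)
        (Cfsg.Inn (Cfsg.POmega F (Cfsg.quadFormOdd m F)))
        (a * (fO (fieldCompat_odd m) σ : MulAut (Cfsg.POmega F (Cfsg.quadFormOdd m F))) * a⁻¹) =
      2 := by
  rw [splitCount_eq_relIndex h2 hm hAut σ j hj a, sup_eq_left.mpr h]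
  exact relIndex_inn_odd h2 hm

theorem count_one [Fintype F] (h2 : (2 : F) ≠ 0) {m : ℕ} (hm : 3 ≤ m)
    (hAut : Cfsg.gammaPOmega F (Cfsg.quadFormOdd m F) = ⊤) (σ : RingAut F)
    (j : F₀ →+* F) (hj : IsFixEmb σ j)
    (a : MulAut (Cfsg.POmega F (Cfsg.quadFormOdd m F)))
    (h : ¬ (thetaJ m h2 j).range ≤ Cfsg.Inn (Cfsg.POmega F (Cfsg.quadFormOdd m F))) :
    Cfsg.splitClassCount (Cfsg.inndiagPOmegaOdd m F)
        (Cfsg.Inn (Cfsg.POmega F (Cfsg.quadFormOdd m F)))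
        (a * (fO (fieldCompat_odd m) σ : MulAut (Cfsg.POmega F (Cfsg.quadFormOdd m F))) * a⁻¹) =
      1 := by
  rw [splitCount_eq_relIndex h2 hm hAut σ j hj a]
  have hle : Cfsg.Inn (Cfsg.POmega F (Cfsg.quadFormOdd m F)) ≤
      (simAut (Cfsg.quadFormOdd m F)).range := inn_le_odd h2 m
  have hR : (thetaJ m h2 j).range ≤ (simAut (Cfsg.quadFormOdd m F)).range := by
    rintro _ ⟨k, rfl⟩
    exact ⟨_, rfl⟩
  have h1 := Subgroup.relIndex_mul_relIndex (Cfsg.Inn (Cfsg.POmega F (Cfsg.quadFormOdd m F)))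
    (Cfsg.Inn (Cfsg.POmega F (Cfsg.quadFormOdd m F)) ⊔ (thetaJ m h2 j).range)
    (simAut (Cfsg.quadFormOdd m F)).range le_sup_left (sup_le hle hR)
  rw [relIndex_inn_odd h2 hm] at h1
  have h3 : (Cfsg.Inn (Cfsg.POmega F (Cfsg.quadFormOdd m F))).relIndex
      (Cfsg.Inn (Cfsg.POmega F (Cfsg.quadFormOdd m F)) ⊔ (thetaJ m h2 j).range) ≠ 1 := by
    intro h4
    rw [Subgroup.relIndex_eq_one] at h4
    exact h (le_trans le_sup_right h4)
  have h5 : (Cfsg.Inn (Cfsg.POmega F (Cfsg.quadFormOdd m F))).relIndex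
      (Cfsg.Inn (Cfsg.POmega F (Cfsg.quadFormOdd m F)) ⊔ (thetaJ m h2 j).range) ∣ 2 :=
    Dvd.intro _ h1
  rcases (Nat.dvd_prime Nat.prime_two).mp h5 with h6 | h6
  · exact absurd h6 h3
  · rw [h6] at h1
    omega

/-! ### Reflections under a field embedding -/

theorem refl_map_j (j : F₀ →+* F) (v : Unit ⊕ (Fin m ⊕ Fin m) → F₀) :
    (Cfsg.reflectionMatrix (Cfsg.quadFormOdd m F₀) v).map j =
      Cfsg.reflectionMatrix (Cfsg.quadFormOdd m F) (fun i => j (v i)) := by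
  have hpol : ∀ b, j (Cfsg.polarVec (Cfsg.quadFormOdd m F₀) v b) =
      Cfsg.polarVec (Cfsg.quadFormOdd m F) (fun i => j (v i)) b := by
    intro b
    unfold Cfsg.polarVec QuadraticMap.polar
    have e2 : (Pi.single b 1 : Unit ⊕ (Fin m ⊕ Fin m) → F) =
        fun i => j ((Pi.single b 1 : Unit ⊕ (Fin m ⊕ Fin m) → F₀) i) := by
      funext i
      by_cases h : i = b
      · subst h
        simp
      · simp [Pi.single_apply, h]
    have e1 : (fun i => j (v i)) + (Pi.single b 1 : Unit ⊕ (Fin m ⊕ Fin m) → F) =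
        fun i => j ((v + (Pi.single b 1 : Unit ⊕ (Fin m ⊕ Fin m) → F₀)) i) := by
      rw [e2]
      funext i
      simp only [Pi.add_apply, map_add]
    rw [e1, e2, odd_compat_j, odd_compat_j, odd_compat_j, map_sub, map_sub]
  unfold Cfsg.reflectionMatrix
  ext a b
  rw [Matrix.map_apply, Matrix.sub_apply, Matrix.sub_apply, Matrix.smul_apply, Matrix.smul_apply,
    Matrix.vecMulVec_apply, Matrix.vecMulVec_apply, smul_eq_mul, smul_eq_mul, map_sub, map_mul,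
    map_mul, map_inv₀, hpol b, odd_compat_j]
  congr 1
  by_cases h : a = b
  · subst h
    simp
  · simp [Matrix.one_apply, h]

theorem prod_refl_map_j (j : F₀ →+* F) (l : List (Unit ⊕ (Fin m ⊕ Fin m) → F₀)) :
    ((l.map (Cfsg.reflectionMatrix (Cfsg.quadFormOdd m F₀))).prod).map j =
      ((l.map (fun v i => j (v i))).map
        (Cfsg.reflectionMatrix (Cfsg.quadFormOdd m F))).prod := by
  induction l with
  | nil =>
    rw [List.map_nil, List.prod_nil, List.map_nil, List.map_nil, List.prod_nil,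
      Matrix.map_one _ (map_zero j) (map_one j)]
  | cons a l ih =>
    rw [List.map_cons, List.prod_cons, Matrix.map_mul, ih, refl_map_j, List.map_cons,
      List.map_cons, List.prod_cons]

theorem prod_Q_map_j (j : F₀ →+* F) (l : List (Unit ⊕ (Fin m ⊕ Fin m) → F₀)) :
    ((l.map (fun v i => j (v i))).map (Cfsg.quadFormOdd m F)).prod =
      j ((l.map (Cfsg.quadFormOdd m F₀)).prod) := by
  induction l with
  | nil => simp
  | cons a l ih =>
    rw [List.map_cons, List.map_cons, List.prod_cons, ih, odd_compat_j, List.map_cons,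
      List.prod_cons, map_mul]

theorem thetaJ_mem_inn_iff [Fintype F] (h2 : (2 : F) ≠ 0) {m : ℕ} (hm : 3 ≤ m) (j : F₀ →+* F)
    (k : ↥(Cfsg.specialIsometryGL F₀ (Cfsg.quadFormOdd m F₀))) :
    thetaJ m h2 j k ∈ Cfsg.Inn (Cfsg.POmega F (Cfsg.quadFormOdd m F)) ↔
      ∃ g : ↥(Cfsg.isometryGroup F (Cfsg.quadFormOdd m F)),
        g ∈ Cfsg.Omega F (Cfsg.quadFormOdd m F) ∧
        ((g : GL (Unit ⊕ (Fin m ⊕ Fin m)) F) :
          Matrix (Unit ⊕ (Fin m ⊕ Fin m)) (Unit ⊕ (Fin m ⊕ Fin m)) F) =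
        ((k : GL (Unit ⊕ (Fin m ⊕ Fin m)) F₀) :
          Matrix (Unit ⊕ (Fin m ⊕ Fin m)) (Unit ⊕ (Fin m ⊕ Fin m)) F₀).map j := by
  obtain ⟨g', hg'⟩ : ∃ g' : ↥(Cfsg.isometryGroup F (Cfsg.quadFormOdd m F)),
      (g' : GL (Unit ⊕ (Fin m ⊕ Fin m)) F) =
        Matrix.GeneralLinearGroup.map j (k : GL (Unit ⊕ (Fin m ⊕ Fin m)) F₀) :=
    ⟨⟨_, (map_mem_SO_j m h2 j _ k.2).1⟩, rfl⟩
  have hΘ : thetaJ m h2 j k = isomAut (Cfsg.quadFormOdd m F) g' := by
    rw [← simAut_incl]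
    show simAut (Cfsg.quadFormOdd m F) (mapJ m h2 j k) = _
    congr 1
    exact Subtype.ext hg'.symm
  have hg'SO : g' ∈ Cfsg.specialIsometryGroup F (Cfsg.quadFormOdd m F) := by
    rw [mem_specialIsometryGroup_iff, hg']
    have h6 : Matrix.GeneralLinearGroup.map j (k : GL (Unit ⊕ (Fin m ⊕ Fin m)) F₀) ∈
        (Matrix.GeneralLinearGroup.det : GL (Unit ⊕ (Fin m ⊕ Fin m)) F →* Fˣ).ker :=
      (map_mem_SO_j m h2 j _ k.2).2
    have h7 := congrArg Units.val (MonoidHom.mem_ker.mp h6)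
    rwa [Matrix.GeneralLinearGroup.val_det_apply, Units.val_one] at h7
  rw [hΘ, inn_eq_map]
  constructor
  · rintro ⟨t, ht, hte⟩
    obtain ⟨E, hE, hE0⟩ := ts3 (F := F) hm
    have hinj := isomAut_SO_inj h2 (oddQF m F) (oddQF_nondegenerate m F h2) _ (oddQF_coe m F) E
      hE hE0 m (card_odd m)
    have hle := commutator_le_specialIsometryGroup (Cfsg.quadFormOdd m F)
    have h8 : (⟨t, hle ht⟩ : ↥(Cfsg.specialIsometryGroup F (Cfsg.quadFormOdd m F))) =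
        ⟨g', hg'SO⟩ := hinj hte
    have h9 : t = g' := congrArg Subtype.val h8
    refine ⟨t, ht, ?_⟩
    rw [h9, hg']
    rfl
  · rintro ⟨g, hg, hgm⟩
    have h9 : g = g' := isom_ext (by rw [hgm, hg']; rfl)
    exact ⟨g, hg, by rw [h9]⟩

/-- If every element of the subfield is a square in the big field, the orthogonal group of the
subfield lies in `Ω` of the big field. -/
theorem thetaJ_range_le [Fintype F] [Fintype F₀] (h2 : (2 : F) ≠ 0) {m : ℕ} (hm : 3 ≤ m)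
    (j : F₀ →+* F) (hsq : ∀ a : F₀, IsSquare (j a)) :
    (thetaJ m h2 j).range ≤ Cfsg.Inn (Cfsg.POmega F (Cfsg.quadFormOdd m F)) := by
  have h2' : (2 : F₀) ≠ 0 := two_ne_zero_of_hom h2 j
  rintro _ ⟨k, rfl⟩
  rw [thetaJ_mem_inn_iff h2 hm j k]
  have hA : ∀ x, oddQF m F₀ (((k : GL (Unit ⊕ (Fin m ⊕ Fin m)) F₀) :
      Matrix (Unit ⊕ (Fin m ⊕ Fin m)) (Unit ⊕ (Fin m ⊕ Fin m)) F₀) *ᵥ x) = oddQF m F₀ x := by
    intro x
    rw [oddQF_coe]
    exact (Helper14.mem_isometryGroup_iff _ _).mp k.2.1 x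
  obtain ⟨l₀, hl₀, hAl⟩ := matrix_eq_prod_refl h2' (oddQF m F₀) (oddQF_nondegenerate m F₀ h2') _ hA
  have hdet : ((k : GL (Unit ⊕ (Fin m ⊕ Fin m)) F₀) :
      Matrix (Unit ⊕ (Fin m ⊕ Fin m)) (Unit ⊕ (Fin m ⊕ Fin m)) F₀).det = 1 := by
    have h6 : (k : GL (Unit ⊕ (Fin m ⊕ Fin m)) F₀) ∈
        (Matrix.GeneralLinearGroup.det : GL (Unit ⊕ (Fin m ⊕ Fin m)) F₀ →* F₀ˣ).ker := k.2.2
    have h7 := congrArg Units.val (MonoidHom.mem_ker.mp h6)
    rwa [Matrix.GeneralLinearGroup.val_det_apply, Units.val_one] at h7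
  have hev : Even l₀.length := by
    have h3 := det_prod_reflectionMatrix (oddQF m F₀) l₀ hl₀
    rw [← hAl, hdet] at h3
    have hne : (-1 : F₀) ≠ 1 := by
      intro h
      apply h2'
      linear_combination -h
    exact (neg_one_pow_eq_one_iff_even hne).mp h3.symm
  have hl : ∀ u ∈ l₀.map (fun v i => j (v i)), oddQF m F u ≠ 0 := by
    intro u hu
    rw [List.mem_map] at hu
    obtain ⟨u₀, hu₀, rfl⟩ := hu
    have h3 := hl₀ u₀ hu₀
    rw [oddQF_coe] at h3 ⊢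
    rw [odd_compat_j]
    exact (map_ne_zero j).mpr h3
  have hM : ((l₀.map (fun v i => j (v i))).map (Cfsg.reflectionMatrix ⇑(oddQF m F))).prod =
      ((k : GL (Unit ⊕ (Fin m ⊕ Fin m)) F₀) :
        Matrix (Unit ⊕ (Fin m ⊕ Fin m)) (Unit ⊕ (Fin m ⊕ Fin m)) F₀).map j := by
    rw [oddQF_coe, ← prod_refl_map_j, hAl, oddQF_coe]
  have key := exists_mem_omega_iff h2 (oddQF m F) (oddQF_nondegenerate m F h2)
    (Cfsg.quadFormOdd m F) (oddQF_coe m F) (l₀.map (fun v i => j (v i))) hl _ hM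
  apply key.mpr
  refine ⟨by rw [List.length_map]; exact hev, ?_⟩
  rw [oddQF_coe, prod_Q_map_j]
  exact hsq _

/-- If some element of the subfield is a non-square in the big field, the orthogonal group of the
subfield does not lie in `Ω` of the big field. -/
theorem thetaJ_range_not_le [Fintype F] (h2 : (2 : F) ≠ 0) {m : ℕ} (hm : 3 ≤ m)
    (j : F₀ →+* F) (c : F₀) (hc : ¬ IsSquare (j c)) :
    ¬ (thetaJ m h2 j).range ≤ Cfsg.Inn (Cfsg.POmega F (Cfsg.quadFormOdd m F)) := by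
  have h2' : (2 : F₀) ≠ 0 := two_ne_zero_of_hom h2 j
  intro hle
  obtain ⟨i0⟩ : Nonempty (Fin m) := ⟨⟨0, by omega⟩⟩
  obtain ⟨u, hu⟩ : ∃ u : Unit ⊕ (Fin m ⊕ Fin m) → F₀, Cfsg.quadFormOdd m F₀ u = 1 :=
    ⟨Pi.single (Sum.inl ()) 1, by simp [Cfsg.quadFormOdd]⟩
  obtain ⟨v, hv⟩ : ∃ v : Unit ⊕ (Fin m ⊕ Fin m) → F₀, Cfsg.quadFormOdd m F₀ v = c :=
    ⟨Pi.single (Sum.inr (Sum.inl i0)) 1 + Pi.single (Sum.inr (Sum.inr i0)) c, by
      simp [Cfsg.quadFormOdd, Pi.single_apply]⟩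
  have hc0 : c ≠ 0 := by
    rintro rfl
    apply hc
    rw [map_zero]
    exact ⟨0, by simp⟩
  obtain ⟨l₀, hl₀def⟩ : ∃ l₀ : List (Unit ⊕ (Fin m ⊕ Fin m) → F₀), l₀ = [u, v] := ⟨_, rfl⟩
  have hl₀ : ∀ w ∈ l₀, oddQF m F₀ w ≠ 0 := by
    intro w hw
    rw [oddQF_coe]
    rw [hl₀def, List.mem_cons, List.mem_singleton] at hw
    rcases hw with rfl | rfl
    · rw [hu]
      exact one_ne_zero
    · rw [hv]
      exact hc0
  obtain ⟨A, hAdef⟩ : ∃ A : Matrix (Unit ⊕ (Fin m ⊕ Fin m)) (Unit ⊕ (Fin m ⊕ Fin m)) F₀,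
    A = (l₀.map (Cfsg.reflectionMatrix (Cfsg.quadFormOdd m F₀))).prod := ⟨_, rfl⟩
  have hAiso : ∀ x, Cfsg.quadFormOdd m F₀ (A *ᵥ x) = Cfsg.quadFormOdd m F₀ x := by
    intro x
    have h3 := prod_reflectionMatrix_isometry (oddQF m F₀) l₀ hl₀ x
    rw [oddQF_coe] at h3
    rw [hAdef]
    exact h3
  have hAdet : A.det = 1 := by
    have h3 := det_prod_reflectionMatrix (oddQF m F₀) l₀ hl₀
    rw [oddQF_coe] at h3
    rw [hAdef, h3, hl₀def]
    simp
  obtain ⟨k, hk⟩ : ∃ k : GL (Unit ⊕ (Fin m ⊕ Fin m)) F₀,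
      (k : Matrix (Unit ⊕ (Fin m ⊕ Fin m)) (Unit ⊕ (Fin m ⊕ Fin m)) F₀) = A :=
    ⟨Matrix.GeneralLinearGroup.mkOfDetNeZero A (by rw [hAdet]; exact one_ne_zero), rfl⟩
  have hkSO : k ∈ Cfsg.specialIsometryGL F₀ (Cfsg.quadFormOdd m F₀) := by
    refine ⟨(Helper14.mem_isometryGroup_iff _ _).mpr (by rw [hk]; exact hAiso), ?_⟩
    show k ∈ (Matrix.GeneralLinearGroup.det : GL (Unit ⊕ (Fin m ⊕ Fin m)) F₀ →* F₀ˣ).ker
    rw [MonoidHom.mem_ker]
    apply Units.ext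
    rw [Matrix.GeneralLinearGroup.val_det_apply, Units.val_one, hk, hAdet]
  have hmem := hle ⟨⟨k, hkSO⟩, rfl⟩
  rw [thetaJ_mem_inn_iff h2 hm j] at hmem
  have hl : ∀ w ∈ l₀.map (fun v i => j (v i)), oddQF m F w ≠ 0 := by
    intro w hw
    rw [List.mem_map] at hw
    obtain ⟨w₀, hw₀, rfl⟩ := hw
    have h3 := hl₀ w₀ hw₀
    rw [oddQF_coe] at h3 ⊢
    rw [odd_compat_j]
    exact (map_ne_zero j).mpr h3
  have hM : ((l₀.map (fun v i => j (v i))).map (Cfsg.reflectionMatrix ⇑(oddQF m F))).prod =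
      ((k : GL (Unit ⊕ (Fin m ⊕ Fin m)) F₀) :
        Matrix (Unit ⊕ (Fin m ⊕ Fin m)) (Unit ⊕ (Fin m ⊕ Fin m)) F₀).map j := by
    rw [oddQF_coe, ← prod_refl_map_j, hk, hAdef]
  have key := exists_mem_omega_iff h2 (oddQF m F) (oddQF_nondegenerate m F h2)
    (Cfsg.quadFormOdd m F) (oddQF_coe m F) (l₀.map (fun v i => j (v i))) hl _ hM
  obtain ⟨-, hsq⟩ := key.mp hmem
  rw [oddQF_coe, prod_Q_map_j, hl₀def] at hsq
  simp only [List.map_cons, List.map_nil, List.prod_cons, List.prod_nil, hu, hv, one_mul,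
    mul_one] at hsq
  exact hc hsq

/-! ### Squares of the subfield in the big field -/

theorem card_eq_pow_order [Fintype F] [Fintype F₀] (σ : RingAut F) (j : F₀ →+* F)
    (hj : IsFixEmb σ j) : Fintype.card F = Fintype.card F₀ ^ orderOf σ := by
  have h1 := card_fixF_pow σ
  have h2 : Nat.card (fixF σ) = Fintype.card F₀ := by
    rw [← Nat.card_eq_fintype_card]
    symm
    apply Nat.card_congr
    exact Equiv.ofBijective
      (fun b => (⟨j b, (mem_fixF σ).mpr ((hj _).mpr ⟨b, rfl⟩)⟩ : fixF σ))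
      ⟨fun a b h => j.injective (congrArg Subtype.val h), fun ⟨c, hc⟩ => by
        obtain ⟨b, hb⟩ := (hj c).mp ((mem_fixF σ).mp hc)
        exact ⟨b, Subtype.ext hb⟩⟩
  rw [h2, Nat.card_eq_fintype_card] at h1
  exact h1.symm

theorem odd_card_of_two_ne_zero (K : Type*) [Field K] [Fintype K] (h2 : (2 : K) ≠ 0) :
    Fintype.card K % 2 = 1 :=
  FiniteField.odd_card_of_char_ne_two (GraphAutOdd.ringChar_ne_two h2)

/-- In a quadratic extension every element of the small field is a square. -/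
theorem isSquare_of_card_sq [Fintype F] [Fintype F₀] (h2 : (2 : F) ≠ 0) (j : F₀ →+* F)
    (hq : Fintype.card F = Fintype.card F₀ ^ 2) (a : F₀) : IsSquare (j a) := by
  have h2' : (2 : F₀) ≠ 0 := two_ne_zero_of_hom h2 j
  by_cases ha : a = 0
  · subst ha
    rw [map_zero]
    exact IsSquare.zero
  have hja : j a ≠ 0 := fun h => ha (j.injective (by rw [h, map_zero]))
  rw [FiniteField.isSquare_iff (GraphAutOdd.ringChar_ne_two h2) hja]
  have ho := odd_card_of_two_ne_zero F₀ h2'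
  obtain ⟨k, hk⟩ : ∃ k, Fintype.card F₀ = 2 * k + 1 := ⟨Fintype.card F₀ / 2, by omega⟩
  have h3 : Fintype.card F / 2 = (Fintype.card F₀ - 1) * (k + 1) := by
    rw [hq, hk]
    have : (2 * k + 1) ^ 2 = 2 * (2 * k * (k + 1)) + 1 := by ring
    rw [this]
    have h4 : 2 * k + 1 - 1 = 2 * k := by omega
    rw [h4]
    omega
  rw [h3, pow_mul, ← map_pow, FiniteField.pow_card_sub_one_eq_one a ha, map_one, one_pow]

theorem geom_odd (k r : ℕ) (hr : Odd r) : Odd (∑ i ∈ Finset.range r, (2 * k + 1) ^ i) := by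
  rw [Nat.odd_iff, Finset.sum_nat_mod]
  have h1 : ∀ i ∈ Finset.range r, (2 * k + 1) ^ i % 2 = 1 := by
    intro i _
    rw [Nat.pow_mod]
    have : (2 * k + 1) % 2 = 1 := by omega
    rw [this, one_pow]
    rfl
  rw [Finset.sum_congr rfl h1, Finset.sum_const, Finset.card_range, smul_eq_mul, mul_one]
  exact Nat.odd_iff.mp hr

/-- In an extension of odd degree a non-square of the small field stays a non-square. -/
theorem exists_not_isSquare_of_card_odd_pow [Fintype F] [Fintype F₀] (h2 : (2 : F) ≠ 0)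
    (j : F₀ →+* F) {r : ℕ} (hr : Odd r) (hq : Fintype.card F = Fintype.card F₀ ^ r) :
    ∃ c : F₀, ¬ IsSquare (j c) := by
  have h2' : (2 : F₀) ≠ 0 := two_ne_zero_of_hom h2 j
  obtain ⟨c, hc⟩ := Helper14.exists_not_isSquare h2'
  refine ⟨c, ?_⟩
  have hc0 : c ≠ 0 := by
    rintro rfl
    exact hc IsSquare.zero
  have hjc : j c ≠ 0 := fun h => hc0 (j.injective (by rw [h, map_zero]))
  rw [FiniteField.isSquare_iff (GraphAutOdd.ringChar_ne_two h2) hjc]
  have hc1 : c ^ (Fintype.card F₀ / 2) = -1 := by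
    rcases FiniteField.pow_dichotomy (GraphAutOdd.ringChar_ne_two h2') hc0 with h | h
    · exact absurd ((FiniteField.isSquare_iff (GraphAutOdd.ringChar_ne_two h2') hc0).mpr h) hc
    · exact h
  have ho := odd_card_of_two_ne_zero F₀ h2'
  obtain ⟨k, hk⟩ : ∃ k, Fintype.card F₀ = 2 * k + 1 := ⟨Fintype.card F₀ / 2, by omega⟩
  have hk2 : Fintype.card F₀ / 2 = k := by omega
  have h3 : Fintype.card F / 2 = k * ∑ i ∈ Finset.range r, (2 * k + 1) ^ i := by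
    rw [hq, hk]
    have h4 := geom_sum_mul_add (2 * k) r
    have h5 : (2 * k + 1) ^ r = 2 * (k * ∑ i ∈ Finset.range r, (2 * k + 1) ^ i) + 1 := by
      rw [← h4]
      ring
    rw [h5]
    omega
  rw [hk2] at hc1
  rw [h3, pow_mul, ← map_pow, hc1, map_neg, map_one, (geom_odd k r hr).neg_one_pow]
  intro h
  apply h2
  have h6 : (2 : F) = 1 - (-1) := by ring
  rw [h6, h]
  ring

/-! ### The main theorem -/

/-- Field automorphisms of prime order of `Ω_{2m+1}(F)`: the centralizer in the inner-diagonal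
group and the class splitting. -/
theorem field_aut_main_odd {F : Type*} [Field F] [Fintype F] {p f : ℕ} [Fact p.Prime]
    (hF : Fintype.card F = p ^ f) (h2 : (2 : F) ≠ 0) {m : ℕ} (hm : 3 ≤ m)
    (hAut : Cfsg.gammaPOmega F (Cfsg.quadFormOdd m F) = ⊤)
    (x : MulAut (Cfsg.POmega F (Cfsg.quadFormOdd m F)))
    (hx : Cfsg.IsFieldAutClassPOmega (Cfsg.quadFormOdd m F) x) {r : ℕ} (hr : r.Prime)
    (hxr : orderOf x = r) (F₀ : Type*) [Field F₀] [Fintype F₀]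
    (hF₀ : Fintype.card F₀ = p ^ (f / r)) :
    r ∣ f ∧
    Nonempty (↥(Cfsg.inndiagPOmegaOdd m F ⊓ Subgroup.centralizer {x}) ≃*
      ↥(Cfsg.inndiagPOmegaOdd m F₀)) ∧
    (Odd r → Cfsg.splitClassCount (Cfsg.inndiagPOmegaOdd m F)
      (Cfsg.Inn (Cfsg.POmega F (Cfsg.quadFormOdd m F))) x = 1) ∧
    (r = 2 → Cfsg.splitClassCount (Cfsg.inndiagPOmegaOdd m F)
      (Cfsg.Inn (Cfsg.POmega F (Cfsg.quadFormOdd m F))) x = 2) := by
  obtain ⟨α, φ, σ, hσ, hφ, hstd⟩ := hx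
  rw [fieldAut_iff (fieldCompat_odd m)] at hφ
  subst hφ
  have hx' : x = α⁻¹ * (fO (fieldCompat_odd m) σ :
      MulAut (Cfsg.POmega F (Cfsg.quadFormOdd m F))) * α⁻¹⁻¹ := by
    rw [← hstd]
    group
  have ho : orderOf σ = r := by
    rw [← orderOf_injective (fO (fieldCompat_odd m) :
      RingAut F →* MulAut (Cfsg.POmega F (Cfsg.quadFormOdd m F))) (fO_injective h2 hm) σ,
      ← hstd, orderOf_conj_aut, hxr]
  obtain ⟨hdiv, hc0⟩ := card_fixF_eq hF σ hr.pos ho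
  haveI : Fintype (fixF σ) := Fintype.ofFinite _
  have hcard : Fintype.card F₀ = Fintype.card (fixF σ) := by
    rw [hF₀, ← hc0, Nat.card_eq_fintype_card]
  let ι : F₀ ≃+* fixF σ := FiniteField.ringEquivOfCardEq hcard
  let j : F₀ →+* F := (fixF σ).subtype.comp (ι : F₀ →+* fixF σ)
  have hj : IsFixEmb σ j := by
    intro a
    constructor
    · intro ha
      refine ⟨ι.symm ⟨a, (mem_fixF σ).mpr ha⟩, ?_⟩
      change ((ι (ι.symm ⟨a, (mem_fixF σ).mpr ha⟩) : fixF σ) : F) = a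
      rw [RingEquiv.apply_symm_apply]
    · rintro ⟨b, rfl⟩
      exact (mem_fixF σ).mp (ι b).2
  have hq := card_eq_pow_order σ j hj
  rw [ho] at hq
  refine ⟨hdiv, ?_, ?_, ?_⟩
  · rw [hx']
    exact centralizer_equiv h2 hm hAut σ j hj α⁻¹
  · intro hodd
    rw [hx']
    obtain ⟨c, hc⟩ := exists_not_isSquare_of_card_odd_pow h2 j hodd hq
    exact count_one h2 hm hAut σ j hj α⁻¹ (thetaJ_range_not_le h2 hm j c hc)
  · intro hr2
    rw [hx']
    rw [hr2] at hq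
    exact count_two h2 hm hAut σ j hj α⁻¹
      (thetaJ_range_le h2 hm j (isSquare_of_card_sq h2 j hq))

end Cfsg.Agent.Lib.Helper8.OCent
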