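import Mathlib
import Cfsg.Prelude.Def_LieTypeDatum
import Cfsg.Agent.Lib.Helper13.PSUSimple
import Cfsg.Agent.Lib.Helper43.FieldAut.GraphMain
import Cfsg.Agent.Lib.Helper45.HermCenter

set_option autoImplicit false

/-!
# The standard automorphisms of `PSU_n(q)`

Conjugation by unitary similitudes and entrywise field automorphisms, as automorphisms of
`PSU_n(q)`, with the predicates of the statements expressed through them.
-/

namespace Cfsg.Agent.Lib.Helper8.PSUAut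

open Matrix Cfsg.Agent.Lib.Helper43.AutPSLn Cfsg.Agent.Lib.Helper43.FieldAut
  Cfsg.Agent.Lib.Helper45

open scoped commutatorElement

variable {n : ℕ} {F : Type*} [Field F] {q : ℕ}

local notation "Mx" => Matrix (Fin n) (Fin n) F
local notation "SLn" => Matrix.SpecialLinearGroup (Fin n) F
local notation "GLn" => GL (Fin n) F

/-- The unitary similitudes of the standard Hermitian form. -/
def GUs (n : ℕ) (F : Type*) [Field F] (q : ℕ) : Subgroup (GL (Fin n) F) where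
  carrier := {x | ∃ e : Fˣ, ∀ u v,
    Cfsg.hermForm n F q ((x : Matrix (Fin n) (Fin n) F) *ᵥ u)
      ((x : Matrix (Fin n) (Fin n) F) *ᵥ v) = (e : F) * Cfsg.hermForm n F q u v}
  mul_mem' := by
    rintro a b ⟨c, hc⟩ ⟨d, hd⟩
    refine ⟨c * d, fun u v => ?_⟩
    rw [Units.val_mul, ← Matrix.mulVec_mulVec, ← Matrix.mulVec_mulVec, hc, hd, Units.val_mul,
      mul_assoc]
  one_mem' := ⟨1, fun u v => by simp⟩
  inv_mem' := by
    rintro a ⟨c, hc⟩
    refine ⟨c⁻¹, fun u v => ?_⟩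
    have h := hc (((a⁻¹ : GL (Fin n) F) : Matrix (Fin n) (Fin n) F) *ᵥ u)
      (((a⁻¹ : GL (Fin n) F) : Matrix (Fin n) (Fin n) F) *ᵥ v)
    rw [Matrix.mulVec_mulVec, Matrix.mulVec_mulVec, Units.mul_inv, Matrix.one_mulVec,
      Matrix.one_mulVec] at h
    rw [h, ← mul_assoc, Units.val_inv_eq_inv_val, inv_mul_cancel₀ c.ne_zero, one_mul]

theorem GU_le_GUs : Cfsg.GU n F q ≤ GUs n F q := fun x hx =>
  ⟨1, fun u v => by rw [Units.val_one, one_mul]; exact hx u v⟩

theorem isHermIso_conj (x : GLn) (hx : x ∈ GUs n F q) (M : Mx) (hM : IsHermIso n F q M) :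
    IsHermIso n F q ((x : Mx) * M * ((x⁻¹ : GLn) : Mx)) := by
  obtain ⟨e, he⟩ := hx
  intro u v
  simp only [← Matrix.mulVec_mulVec]
  rw [he, hM, ← he, Matrix.mulVec_mulVec, Matrix.mulVec_mulVec, Units.mul_inv,
    Matrix.one_mulVec, Matrix.one_mulVec]

/-- Conjugation of `SU_n` by a unitary similitude. -/
def uFun (x : ↥(GUs n F q)) (s : ↥(Cfsg.SU n F q)) : ↥(Cfsg.SU n F q) :=
  ⟨glAut (x : GLn) (s : SLn), isHermIso_conj (x : GLn) x.2 _ s.2⟩

theorem uFun_coe (x : ↥(GUs n F q)) (s : ↥(Cfsg.SU n F q)) :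
    ((uFun x s : ↥(Cfsg.SU n F q)) : SLn) = glAut (x : GLn) (s : SLn) := rfl

/-- Conjugation by unitary similitudes, as automorphisms of `SU_n`. -/
def uAut : ↥(GUs n F q) →* MulAut ↥(Cfsg.SU n F q) where
  toFun x :=
    { toFun := uFun x
      invFun := uFun x⁻¹
      left_inv := fun s => by
        apply Subtype.ext
        show glAut ((x⁻¹ : ↥(GUs n F q)) : GLn) (glAut (x : GLn) (s : SLn)) = s
        rw [← MulAut.mul_apply, ← map_mul, Subgroup.coe_inv, inv_mul_cancel, map_one,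
          MulAut.one_apply]
      right_inv := fun s => by
        apply Subtype.ext
        show glAut (x : GLn) (glAut ((x⁻¹ : ↥(GUs n F q)) : GLn) (s : SLn)) = s
        rw [← MulAut.mul_apply, ← map_mul, Subgroup.coe_inv, mul_inv_cancel, map_one,
          MulAut.one_apply]
      map_mul' := fun s t => by
        apply Subtype.ext
        exact map_mul (glAut (x : GLn)) (s : SLn) (t : SLn) }
  map_one' := by
    ext s : 1
    apply Subtype.ext
    show glAut ((1 : ↥(GUs n F q)) : GLn) (s : SLn) = s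
    rw [Subgroup.coe_one, map_one, MulAut.one_apply]
  map_mul' := fun x y => by
    ext s : 1
    apply Subtype.ext
    show glAut ((x * y : ↥(GUs n F q)) : GLn) (s : SLn) =
      glAut (x : GLn) (glAut (y : GLn) (s : SLn))
    rw [Subgroup.coe_mul, map_mul, MulAut.mul_apply]

theorem uAut_coe (x : ↥(GUs n F q)) (s : ↥(Cfsg.SU n F q)) :
    ((uAut x s : ↥(Cfsg.SU n F q)) : SLn) = glAut (x : GLn) (s : SLn) := rfl

/-- An automorphism of `SU_n` induces one of `PSU_n`. -/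
def psuAut : MulAut ↥(Cfsg.SU n F q) →* MulAut (Cfsg.PSU n F q) where
  toFun e := QuotientGroup.congr _ _ e (Subgroup.characteristic_iff_map_eq.mp inferInstance e)
  map_one' := by
    ext x
    obtain ⟨M, rfl⟩ := QuotientGroup.mk_surjective x
    rfl
  map_mul' := fun e₁ e₂ => by
    ext x
    obtain ⟨M, rfl⟩ := QuotientGroup.mk_surjective x
    rfl

theorem psuAut_mk (e : MulAut ↥(Cfsg.SU n F q)) (s : ↥(Cfsg.SU n F q)) :
    psuAut e (QuotientGroup.mk s : Cfsg.PSU n F q) = QuotientGroup.mk (e s) := rfl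

/-- Conjugation by unitary similitudes, as automorphisms of `PSU_n`. -/
def cU : ↥(GUs n F q) →* MulAut (Cfsg.PSU n F q) := psuAut.comp uAut

theorem cU_mk (x : ↥(GUs n F q)) (s : ↥(Cfsg.SU n F q)) :
    cU x (QuotientGroup.mk s : Cfsg.PSU n F q) = QuotientGroup.mk (uAut x s) := rfl

/-! ### Field automorphisms -/

theorem hermForm_map (τ : RingAut F) (u v : Fin n → F) :
    Cfsg.hermForm n F q (fun i => τ (u i)) (fun i => τ (v i)) = τ (Cfsg.hermForm n F q u v) := by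
  simp only [Cfsg.hermForm, map_sum, map_mul, map_pow]

theorem isHermIso_map (τ : RingAut F) (M : Mx) (hM : IsHermIso n F q M) :
    IsHermIso n F q (M.map τ) := by
  intro u v
  obtain ⟨u', rfl⟩ : ∃ u' : Fin n → F, u = fun i => τ (u' i) :=
    ⟨fun i => τ.symm (u i), by ext i; simp⟩
  obtain ⟨v', rfl⟩ : ∃ v' : Fin n → F, v = fun i => τ (v' i) :=
    ⟨fun i => τ.symm (v i), by ext i; simp⟩
  rw [← sigma_mulVec τ M u', ← sigma_mulVec τ M v', hermForm_map, hM, hermForm_map]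

/-- A field automorphism applied entrywise to `SU_n`. -/
def fFun (τ : RingAut F) (s : ↥(Cfsg.SU n F q)) : ↥(Cfsg.SU n F q) :=
  ⟨fAutN τ (s : SLn), isHermIso_map τ _ s.2⟩

/-- Field automorphisms, as automorphisms of `SU_n`. -/
def fAutU : RingAut F →* MulAut ↥(Cfsg.SU n F q) where
  toFun τ :=
    { toFun := fFun τ
      invFun := fFun τ⁻¹
      left_inv := fun s => by
        apply Subtype.ext
        show fAutN τ⁻¹ (fAutN τ (s : SLn)) = s
        rw [← MulAut.mul_apply, ← map_mul, inv_mul_cancel, map_one, MulAut.one_apply]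
      right_inv := fun s => by
        apply Subtype.ext
        show fAutN τ (fAutN τ⁻¹ (s : SLn)) = s
        rw [← MulAut.mul_apply, ← map_mul, mul_inv_cancel, map_one, MulAut.one_apply]
      map_mul' := fun s t => by
        apply Subtype.ext
        exact map_mul (fAutN τ) (s : SLn) (t : SLn) }
  map_one' := by
    ext s : 1
    apply Subtype.ext
    show fAutN (1 : RingAut F) (s : SLn) = s
    rw [map_one, MulAut.one_apply]
  map_mul' := fun x y => by
    ext s : 1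
    apply Subtype.ext
    show fAutN (x * y) (s : SLn) = fAutN x (fAutN y (s : SLn))
    rw [map_mul, MulAut.mul_apply]

theorem fAutU_coe (τ : RingAut F) (s : ↥(Cfsg.SU n F q)) :
    ((fAutU τ s : ↥(Cfsg.SU n F q)) : SLn) = fAutN τ (s : SLn) := rfl

/-- Field automorphisms, as automorphisms of `PSU_n`. -/
def fU : RingAut F →* MulAut (Cfsg.PSU n F q) := psuAut.comp fAutU

theorem fU_mk (τ : RingAut F) (s : ↥(Cfsg.SU n F q)) :
    fU τ (QuotientGroup.mk s : Cfsg.PSU n F q) = QuotientGroup.mk (fAutU τ s) := rfl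

theorem map_mem_GUs (τ : RingAut F) (x : GLn) (hx : x ∈ GUs n F q) :
    Matrix.GeneralLinearGroup.map (τ : F →+* F) x ∈ GUs n F q := by
  obtain ⟨e, he⟩ := hx
  refine ⟨Units.map ((τ : F →+* F) : F →* F) e, fun u v => ?_⟩
  obtain ⟨u', rfl⟩ : ∃ u' : Fin n → F, u = fun i => τ (u' i) :=
    ⟨fun i => τ.symm (u i), by ext i; simp⟩
  obtain ⟨v', rfl⟩ : ∃ v' : Fin n → F, v = fun i => τ (v' i) :=
    ⟨fun i => τ.symm (v i), by ext i; simp⟩
  rw [glmap_coe, ← sigma_mulVec τ _ u', ← sigma_mulVec τ _ v', hermForm_map, he, hermForm_map,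
    map_mul]
  rfl

/-- A field automorphism applied to a unitary similitude. -/
def mapU (τ : RingAut F) (x : ↥(GUs n F q)) : ↥(GUs n F q) :=
  ⟨Matrix.GeneralLinearGroup.map (τ : F →+* F) (x : GLn), map_mem_GUs τ _ x.2⟩

theorem mapU_coe (τ : RingAut F) (x : ↥(GUs n F q)) :
    (((mapU τ x : ↥(GUs n F q)) : GLn) : Mx) = ((x : GLn) : Mx).map τ := glmap_coe τ _

theorem fAutU_uAut (τ : RingAut F) (x : ↥(GUs n F q)) :
    (fAutU τ : MulAut ↥(Cfsg.SU n F q)) * uAut x = uAut (mapU τ x) * fAutU τ := by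
  ext s : 1
  apply Subtype.ext
  show fAutN τ (glAut (x : GLn) (s : SLn)) =
    glAut (Matrix.GeneralLinearGroup.map (τ : F →+* F) (x : GLn)) (fAutN τ (s : SLn))
  exact DFunLike.congr_fun (fAutN_glAut τ (x : GLn)) (s : SLn)

theorem fU_cU (τ : RingAut F) (x : ↥(GUs n F q)) :
    (fU τ : MulAut (Cfsg.PSU n F q)) * cU x = cU (mapU τ x) * fU τ := by
  show psuAut (fAutU τ) * psuAut (uAut x) = psuAut (uAut (mapU τ x)) * psuAut (fAutU τ)
  rw [← map_mul, ← map_mul, fAutU_uAut]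

/-! ### The predicates -/

/-- An element of the unitary group, as a unitary similitude. -/
def ofGU (g : GLn) (hg : g ∈ Cfsg.GU n F q) : ↥(GUs n F q) := ⟨g, GU_le_GUs hg⟩

theorem innerDiag_iff (β : MulAut (Cfsg.PSU n F q)) :
    Cfsg.IsInnerDiagonalAutPSU β ↔ ∃ (g : GLn) (hg : g ∈ Cfsg.GU n F q), β = cU (ofGU g hg) := by
  constructor
  · rintro ⟨g, hg, h⟩
    refine ⟨g, hg, ?_⟩
    ext x
    obtain ⟨s, rfl⟩ := QuotientGroup.mk_surjective x
    exact h s (uAut (ofGU g hg) s) rfl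
  · rintro ⟨g, hg, rfl⟩
    refine ⟨g, hg, fun s s' h => ?_⟩
    rw [cU_mk]
    congr 1
    exact Subtype.ext (Subtype.ext h.symm)

theorem fieldAut_iff (σ : RingAut F) (β : MulAut (Cfsg.PSU n F q)) :
    Cfsg.IsFieldAutPSUOf σ β ↔ β = fU σ := by
  constructor
  · intro h
    ext x
    obtain ⟨s, rfl⟩ := QuotientGroup.mk_surjective x
    exact h s (fAutU σ s) rfl
  · rintro rfl
    intro s s' h
    rw [fU_mk]
    congr 1
    exact Subtype.ext (Subtype.ext h.symm)


theorem cU_of_scalar (x : ↥(GUs n F q)) (c : F) (h : ((x : GLn) : Mx) = c • (1 : Mx)) :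
    (cU x : MulAut (Cfsg.PSU n F q)) = 1 := by
  have h1 : uAut x = 1 := by
    ext s : 1
    apply Subtype.ext
    apply Subtype.ext
    show ((x : GLn) : Mx) * ((s : SLn) : Mx) * (((x : GLn)⁻¹ : GLn) : Mx) = ((s : SLn) : Mx)
    have h2 : ((x : GLn) : Mx) * ((s : SLn) : Mx) = ((s : SLn) : Mx) * ((x : GLn) : Mx) := by
      rw [h, Matrix.smul_mul, Matrix.mul_smul, Matrix.one_mul, Matrix.mul_one]
    rw [h2, Matrix.mul_assoc, Units.mul_inv, Matrix.mul_one]
  show psuAut (uAut x) = 1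
  rw [h1, map_one]

theorem cU_eq_of_smul (x y : ↥(GUs n F q)) (d : F)
    (h : ((x : GLn) : Mx) = d • ((y : GLn) : Mx)) :
    (cU x : MulAut (Cfsg.PSU n F q)) = cU y := by
  have h1 : (cU (x * y⁻¹) : MulAut (Cfsg.PSU n F q)) = 1 := by
    apply cU_of_scalar _ d
    show ((x : GLn) : Mx) * (((y : GLn)⁻¹ : GLn) : Mx) = _
    rw [h, Matrix.smul_mul, Units.mul_inv]
  rw [map_mul, map_inv, mul_inv_eq_one] at h1
  exact h1

theorem sq_cU_fU (σ : RingAut F) (x : ↥(GUs n F q)) :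
    (cU x * fU σ : MulAut (Cfsg.PSU n F q)) ^ 2 = cU (x * mapU σ x) * fU (σ * σ) := by
  have e := fU_cU σ x
  calc (cU x * fU σ : MulAut (Cfsg.PSU n F q)) ^ 2
      = cU x * ((fU σ * cU x) * fU σ) := by rw [pow_two]; simp only [mul_assoc]
    _ = _ := by rw [e, map_mul, map_mul]; simp only [mul_assoc]

theorem conj_cU_fU (σ : RingAut F) (h x : ↥(GUs n F q)) :
    (cU h * (cU x * fU σ) * (cU h)⁻¹ : MulAut (Cfsg.PSU n F q)) =
      cU (h * x * mapU σ h⁻¹) * fU σ := by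
  have e := fU_cU σ h⁻¹
  rw [← map_inv, mul_assoc, mul_assoc, e, ← mul_assoc, ← mul_assoc, ← map_mul, ← map_mul]

theorem conj_coe (σ : RingAut F) (h x : ↥(GUs n F q)) :
    (((h * x * mapU σ h⁻¹ : ↥(GUs n F q)) : GLn) : Mx) =
      ((h : GLn) : Mx) * ((x : GLn) : Mx) * ((((h : GLn)⁻¹ : GLn) : Mx).map σ) := by
  rw [Subgroup.coe_mul, Subgroup.coe_mul, Units.val_mul, Units.val_mul, mapU_coe,
    Subgroup.coe_inv]

theorem scalar_mul_coe' (c : Fˣ) (g : GLn) :
    ((Matrix.GeneralLinearGroup.scalar (Fin n) c * g : GLn) : Mx) = (c : F) • (g : Mx) := by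
  rw [Units.val_mul, Matrix.GeneralLinearGroup.coe_scalar, Matrix.scalar_apply,
    ← Matrix.smul_eq_diagonal_mul]

theorem comm_central_left {G : Type*} [Group G] (z a b : G) (hz : ∀ g : G, g * z = z * g) :
    ⁅z * a, b⁆ = ⁅a, b⁆ := by
  rw [commutatorElement_def, commutatorElement_def]
  calc z * a * b * (z * a)⁻¹ * b⁻¹ = z * (a * b * a⁻¹) * z⁻¹ * b⁻¹ := by group
    _ = (a * b * a⁻¹) * z * z⁻¹ * b⁻¹ := by rw [hz (a * b * a⁻¹)]
    _ = a * b * a⁻¹ * b⁻¹ := by group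

theorem comm_central_right {G : Type*} [Group G] (z a b : G) (hz : ∀ g : G, g * z = z * g) :
    ⁅a, z * b⁆ = ⁅a, b⁆ := by
  rw [commutatorElement_def, commutatorElement_def]
  calc a * (z * b) * a⁻¹ * (z * b)⁻¹ = (a * z) * (b * a⁻¹ * b⁻¹) * z⁻¹ := by group
    _ = z * (a * (b * a⁻¹ * b⁻¹)) * z⁻¹ := by rw [hz a]; group
    _ = (a * (b * a⁻¹ * b⁻¹)) * z * z⁻¹ := by rw [hz (a * (b * a⁻¹ * b⁻¹))]
    _ = a * b * a⁻¹ * b⁻¹ := by group

theorem aut_fix_of_perfect {G : Type*} [Group G] (hG : commutator G = ⊤) (f : G ≃* G)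
    (h : ∀ s, f s * s⁻¹ ∈ Subgroup.center G) (s : G) : f s = s := by
  have hs : s ∈ commutator G := by
    rw [hG]
    exact Subgroup.mem_top s
  rw [commutator_eq_closure] at hs
  induction hs using Subgroup.closure_induction with
  | mem x hx =>
    obtain ⟨a, b, rfl⟩ := hx
    have ha := Subgroup.mem_center_iff.mp (h a)
    have hb := Subgroup.mem_center_iff.mp (h b)
    have e1 : f a = f a * a⁻¹ * a := by group
    have e2 : f b = f b * b⁻¹ * b := by group
    rw [map_commutatorElement, e1, e2, comm_central_left _ _ _ ha, comm_central_right _ _ _ hb]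
  | one => exact map_one f
  | mul x y _ _ hx hy => rw [map_mul, hx, hy]
  | inv x _ hx => rw [map_inv, hx]

theorem psuAut_injective (hperf : commutator ↥(Cfsg.SU n F q) = ⊤) :
    Function.Injective (psuAut : MulAut ↥(Cfsg.SU n F q) →* MulAut (Cfsg.PSU n F q)) := by
  rw [injective_iff_map_eq_one]
  intro e he
  ext s : 1
  refine aut_fix_of_perfect hperf e (fun t => ?_) s
  have h1 := DFunLike.congr_fun he (QuotientGroup.mk t : Cfsg.PSU n F q)
  have h2 : (QuotientGroup.mk (e t) : Cfsg.PSU n F q) = QuotientGroup.mk t := h1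
  rw [QuotientGroup.eq] at h2
  have h3 := (Subgroup.center ↥(Cfsg.SU n F q)).inv_mem h2
  have h4 := (inferInstance : (Subgroup.center ↥(Cfsg.SU n F q)).Normal).conj_mem _ h3 (e t)
  have h5 : e t * t⁻¹ = e t * ((e t)⁻¹ * t)⁻¹ * (e t)⁻¹ := by group
  rw [h5]
  exact h4

theorem utransv_map (τ : RingAut F) (v : Fin n → F) (c : F) :
    (Cfsg.unitaryTransvection n q v c).map τ =
      Cfsg.unitaryTransvection n q (fun i => τ (v i)) (τ c) := by
  ext i j
  simp only [Cfsg.unitaryTransvection, Matrix.map_apply, Matrix.add_apply, Matrix.smul_apply,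
    Matrix.vecMulVec_apply, smul_eq_mul, map_add, map_mul, map_pow, Matrix.one_apply]
  split_ifs <;> simp

theorem exists_third (hn : 3 ≤ n) (i j : Fin n) : ∃ k : Fin n, k ≠ i ∧ k ≠ j := by
  by_cases h0 : (i : ℕ) ≠ 0 ∧ (j : ℕ) ≠ 0
  · exact ⟨⟨0, by omega⟩, fun h => h0.1 (by rw [← h]), fun h => h0.2 (by rw [← h])⟩
  · by_cases h1 : (i : ℕ) ≠ 1 ∧ (j : ℕ) ≠ 1
    · exact ⟨⟨1, by omega⟩, fun h => h1.1 (by rw [← h]), fun h => h1.2 (by rw [← h])⟩
    · refine ⟨⟨2, by omega⟩, fun h => ?_, fun h => ?_⟩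
      · have h2 : (i : ℕ) = 2 := by rw [← h]
        omega
      · have h2 : (j : ℕ) = 2 := by rw [← h]
        omega

section finite

variable [Fintype F]

theorem mem_GUs_iff (hF : Fintype.card F = q ^ 2) (x : GLn) :
    x ∈ GUs n F q ↔
      ∃ e : Fˣ, (x : Mx)ᵀ * (x : Mx).map (frobQ hF) = (e : F) • (1 : Mx) := by
  classical
  have hq : q ≠ 0 := by have := two_le_q hF; omega
  constructor
  · rintro ⟨e, he⟩
    refine ⟨e, ?_⟩
    ext i j
    have h := he (Pi.single i 1) (Pi.single j 1)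
    rw [Matrix.mulVec_single_one, Matrix.mulVec_single_one, herm_single_right hq, herm_def] at h
    rw [Matrix.mul_apply, Matrix.smul_apply, Matrix.one_apply, smul_eq_mul]
    simp only [Matrix.transpose_apply, Matrix.map_apply, frobQ_apply]
    simp only [Matrix.col_apply] at h
    rw [h, Pi.single_apply]
    by_cases hij : i = j
    · subst hij
      simp
    · simp [hij, Ne.symm hij]
  · rintro ⟨e, he⟩
    refine ⟨e, fun u v => ?_⟩
    rw [herm_mulVec_gram hF]
    have h1 : (x : Mx)ᵀ * (x : Mx).map (sigmaQ hF) = (e : F) • (1 : Mx) := he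
    rw [h1, Matrix.smul_mulVec, Matrix.one_mulVec, dotProduct_smul, smul_eq_mul]
    rfl

theorem mem_GU_iff (hF : Fintype.card F = q ^ 2) (x : GLn) :
    x ∈ Cfsg.GU n F q ↔ (x : Mx)ᵀ * (x : Mx).map (frobQ hF) = 1 :=
  Cfsg.Agent.Lib.Helper43.FieldAut.mem_GU_iff hF (frobQ hF) (frobQ_apply hF) x

theorem map_mem_GU (τ : RingAut F) (x : GLn) (hx : x ∈ Cfsg.GU n F q) :
    Matrix.GeneralLinearGroup.map (τ : F →+* F) x ∈ Cfsg.GU n F q := by
  have h : IsHermIso n F q ((x : Mx).map τ) := isHermIso_map τ _ hx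
  exact h

theorem cU_eq_one_iff (hF : Fintype.card F = q ^ 2) (hn : 3 ≤ n) (h32 : ¬ (n = 3 ∧ q = 2))
    (x : ↥(GUs n F q)) :
    (cU x : MulAut (Cfsg.PSU n F q)) = 1 ↔
      ∃ c : Fˣ, ((x : GLn) : Mx) = (c : F) • (1 : Mx) := by
  haveI : Nonempty (Fin n) := ⟨⟨0, by omega⟩⟩
  constructor
  · intro h
    have hperf := Cfsg.Agent.Lib.Helper13.su_commutator_eq_top (F := F) hF hn h32
    have h1 : uAut x = 1 := psuAut_injective hperf (by rw [map_one]; exact h)
    have hZ : ∀ M : Mx, IsHermIso n F q M → M.det = 1 →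
        M * ((x : GLn) : Mx) = ((x : GLn) : Mx) * M := by
      intro M hM hdet
      have h2 := congrArg (fun s : ↥(Cfsg.SU n F q) => ((s : SLn) : Mx))
        (DFunLike.congr_fun h1 (⟨⟨M, hdet⟩, hM⟩ : ↥(Cfsg.SU n F q)))
      have h3 : ((x : GLn) : Mx) * M * (((x : GLn)⁻¹ : GLn) : Mx) = M := h2
      calc M * ((x : GLn) : Mx)
          = ((x : GLn) : Mx) * M * (((x : GLn)⁻¹ : GLn) : Mx) * ((x : GLn) : Mx) := by rw [h3]
        _ = ((x : GLn) : Mx) * M := by rw [Matrix.mul_assoc, Units.inv_mul, Matrix.mul_one]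
    have hsc := central_scalar hF (by omega : 1 ≤ n) ((x : GLn) : Mx) hZ
    have hc0 : ((x : GLn) : Mx) ⟨0, by omega⟩ ⟨0, by omega⟩ ≠ 0 := by
      intro h0
      rw [h0, zero_smul] at hsc
      exact (x : GLn).ne_zero hsc
    exact ⟨Units.mk0 _ hc0, hsc⟩
  · rintro ⟨c, hc⟩
    exact cU_of_scalar x c hc

theorem cU_eq_iff (hF : Fintype.card F = q ^ 2) (hn : 3 ≤ n) (h32 : ¬ (n = 3 ∧ q = 2))
    (a b : ↥(GUs n F q)) :
    (cU a : MulAut (Cfsg.PSU n F q)) = cU b ↔
      ∃ c : Fˣ, ((a : GLn) : Mx) = (c : F) • ((b : GLn) : Mx) := by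
  have e : (cU a : MulAut (Cfsg.PSU n F q)) = cU b ↔
      (cU (a * b⁻¹) : MulAut (Cfsg.PSU n F q)) = 1 := by
    rw [map_mul, map_inv, mul_inv_eq_one]
  rw [e, cU_eq_one_iff hF hn h32]
  refine exists_congr fun c => ?_
  show ((a : GLn) : Mx) * (((b : GLn)⁻¹ : GLn) : Mx) = _ ↔ _
  constructor
  · intro h
    calc ((a : GLn) : Mx)
        = ((a : GLn) : Mx) * (((b : GLn)⁻¹ : GLn) : Mx) * ((b : GLn) : Mx) := by
          rw [Matrix.mul_assoc, Units.inv_mul, Matrix.mul_one]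
      _ = _ := by rw [h, Matrix.smul_mul, Matrix.one_mul]
  · intro h
    rw [h, Matrix.smul_mul, Units.mul_inv]

/-- If a field automorphism acts on `SU_n` as conjugation by a unitary matrix, it fixes the
fixed field of the `q`-power map. -/
theorem fix_of_fAutU_eq (hF : Fintype.card F = q ^ 2) (hn : 2 ≤ n) (τ : RingAut F) (g : GLn)
    (hg : g ∈ Cfsg.GU n F q)
    (h : (fAutU τ : MulAut ↥(Cfsg.SU n F q)) = uAut (ofGU g hg)) (a : F) (ha : a ^ q = a) :
    τ a = a := by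
  obtain ⟨v, hv0, hv⟩ := Cfsg.Agent.Lib.Helper13.exists_isotropic_ne_zero (n := n) hF hn
  obtain ⟨c, hc0, hc⟩ := exists_skew hF
  have key : ∀ b : F, b ^ q = -b →
      τ b • Matrix.vecMulVec (fun i => τ (v i)) (fun j => τ (v j) ^ q) =
        b • Matrix.vecMulVec ((g : Mx) *ᵥ v) (fun j => ((g : Mx) *ᵥ v) j ^ q) := by
    intro b hb
    have h1 := congrArg (fun s : ↥(Cfsg.SU n F q) => ((s : SLn) : Mx))
      (DFunLike.congr_fun h (Cfsg.Agent.Lib.Helper13.suMk (Cfsg.unitaryTransvection n q v b)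
        (Cfsg.Agent.Lib.Helper13.det_utransv v b hv)
        (Cfsg.Agent.Lib.Helper13.isHermIso_utransv hF v b hv hb)))
    have h2 : (Cfsg.unitaryTransvection n q v b).map τ =
        (g : Mx) * Cfsg.unitaryTransvection n q v b * ((g⁻¹ : GLn) : Mx) := h1
    have hg' : IsHermIso n F q (g : Mx) := hg
    rw [utransv_map, Cfsg.Agent.Lib.Helper13.utransv_conj hg' v b, Matrix.mul_assoc,
      Units.mul_inv, Matrix.mul_one] at h2
    unfold Cfsg.unitaryTransvection at h2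
    exact add_left_cancel h2
  have k1 := key c hc
  have k2 := key (a * c) (by rw [mul_pow, ha, hc, mul_neg])
  set R := Matrix.vecMulVec (fun i => τ (v i)) (fun j => τ (v j) ^ q) with hR
  have k3 : (τ a * τ c) • R = a • (τ c • R) := by
    rw [k1, ← mul_smul, ← map_mul]
    exact k2
  have k4 : ((τ a - a) * τ c) • R = 0 := by
    rw [sub_mul, sub_smul, k3, mul_smul, sub_self]
  have hR0 : R ≠ 0 := by
    obtain ⟨i, hi⟩ : ∃ i, v i ≠ 0 := by
      by_contra hcon
      push Not at hcon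
      exact hv0 (funext hcon)
    intro h0
    have h1 := congrFun (congrFun h0 i) i
    rw [hR, Matrix.vecMulVec_apply] at h1
    have h2 : τ (v i) ≠ 0 := (map_ne_zero τ).mpr hi
    exact mul_ne_zero h2 (pow_ne_zero _ h2) h1
  rcases smul_eq_zero.mp k4 with h1 | h1
  · rcases mul_eq_zero.mp h1 with h2 | h2
    · exact sub_eq_zero.mp h2
    · exact absurd h2 ((map_ne_zero τ).mpr hc0)
  · exact absurd h1 hR0

/-- The `q`-power map does not act on `SU_n` (`n ≥ 3`) as conjugation by a similitude. -/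
theorem fAutU_frob_ne (hF : Fintype.card F = q ^ 2) (hn : 3 ≤ n) (y : ↥(GUs n F q)) :
    (fAutU (frobQ hF) : MulAut ↥(Cfsg.SU n F q)) ≠ uAut y := by
  classical
  haveI : Nonempty (Fin n) := ⟨⟨0, by omega⟩⟩
  intro h
  obtain ⟨c, hc, hcc⟩ := exists_norm_one_sq_ne_one hF
  have hq := two_le_q hF
  have hc0 : c ≠ 0 := by
    rintro rfl
    rw [zero_pow (by omega)] at hc
    exact zero_ne_one hc
  have hcq : c ^ q = c⁻¹ := by
    apply eq_inv_of_mul_eq_one_left
    rw [← pow_succ]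
    exact hc
  have hcinv : c⁻¹ ^ (q + 1) = 1 := by rw [inv_pow, hc, inv_one]
  have hc1 : c⁻¹ ≠ 1 := by
    intro h1
    apply hcc
    rw [h1]
    exact inv_eq_one.mp h1
  have hy0 : ((y : GLn) : Mx) = 0 := by
    ext i j
    obtain ⟨k, hki, hkj⟩ := exists_third hn i j
    have hd : IsHermIso n F q (diagAt i c * diagAt k c⁻¹) :=
      isHermIso_mul (isHermIso_diagAt i c hc) (isHermIso_diagAt k c⁻¹ hcinv)
    have hdet : (diagAt i c * diagAt k c⁻¹ : Mx).det = 1 := by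
      rw [Matrix.det_mul, det_diagAt, det_diagAt, mul_inv_cancel₀ hc0]
    have h1 := congrArg (fun s : ↥(Cfsg.SU n F q) => ((s : SLn) : Mx))
      (DFunLike.congr_fun h (⟨⟨_, hdet⟩, hd⟩ : ↥(Cfsg.SU n F q)))
    have h2 : (diagAt i c * diagAt k c⁻¹ : Mx).map (frobQ hF) =
        ((y : GLn) : Mx) * (diagAt i c * diagAt k c⁻¹) * (((y : GLn)⁻¹ : GLn) : Mx) := h1
    have h3 : (diagAt i c * diagAt k c⁻¹ : Mx).map (frobQ hF) * ((y : GLn) : Mx) =
        ((y : GLn) : Mx) * (diagAt i c * diagAt k c⁻¹) := by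
      rw [h2, Matrix.mul_assoc, Units.inv_mul, Matrix.mul_one]
    have h4 := congrFun (congrFun h3 i) j
    simp only [diagAt, Matrix.diagonal_mul_diagonal] at h4
    rw [Matrix.diagonal_map (map_zero _), Matrix.diagonal_mul, Matrix.mul_diagonal] at h4
    simp only [Function.comp_apply, frobQ_apply] at h4
    rw [Function.update_self, Function.update_of_ne (Ne.symm hki),
      Function.update_of_ne (Ne.symm hkj), mul_one, mul_one, hcq] at h4
    show ((y : GLn) : Mx) i j = 0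
    by_cases hij : j = i
    · subst hij
      rw [Function.update_self] at h4
      have h5 : (c⁻¹ - c) * ((y : GLn) : Mx) j j = 0 := by linear_combination h4
      rcases mul_eq_zero.mp h5 with h6 | h6
      · exact absurd (sub_eq_zero.mp h6).symm hcc
      · exact h6
    · rw [Function.update_of_ne hij, mul_one] at h4
      have h5 : (c⁻¹ - 1) * ((y : GLn) : Mx) i j = 0 := by linear_combination h4
      rcases mul_eq_zero.mp h5 with h6 | h6
      · exact absurd (sub_eq_zero.mp h6) hc1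
      · exact h6
  exact (y : GLn).ne_zero hy0

theorem sq_eq_one_of_fix (hF : Fintype.card F = q ^ 2) (τ : RingAut F)
    (h : ∀ a : F, a ^ q = a → τ a = a) : τ * τ = 1 := by
  ext θ
  show τ (τ θ) = θ
  have hs : τ (θ + θ ^ q) = θ + θ ^ q := h _ (by rw [conj_add hF, conj_conj hF, add_comm])
  have hp : τ (θ * θ ^ q) = θ * θ ^ q := h _ (by rw [mul_pow, conj_conj hF, mul_comm])
  rw [map_add] at hs
  rw [map_mul] at hp
  have h0 : (τ θ - θ) * (τ θ - θ ^ q) = 0 := by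
    linear_combination (τ θ) * hs - hp
  rcases mul_eq_zero.mp h0 with h1 | h1
  · have h2 : τ θ = θ := sub_eq_zero.mp h1
    rw [h2, h2]
  · have h2 : τ θ = θ ^ q := sub_eq_zero.mp h1
    rw [h2]
    linear_combination hs - h2

theorem orderOf_frobQ (hF : Fintype.card F = q ^ 2) : orderOf (frobQ hF) = 2 :=
  orderOf_eq_prime (by rw [pow_two]; exact frobQ_sq hF) (frobQ_ne_one hF)

/-- In a graph automorphism of order two, the field automorphism is the `q`-power map. -/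
theorem sigma_eq_frob (hF : Fintype.card F = q ^ 2) (hn : 3 ≤ n) (h32 : ¬ (n = 3 ∧ q = 2))
    (σ : RingAut F) (hσ : Even (orderOf σ)) (g : GLn) (hg : g ∈ Cfsg.GU n F q)
    (h : (cU (ofGU g hg) * fU σ : MulAut (Cfsg.PSU n F q)) ^ 2 = 1) : σ = frobQ hF := by
  have hperf := Cfsg.Agent.Lib.Helper13.su_commutator_eq_top (F := F) hF hn h32
  obtain ⟨p, k, hp, -, hqk⟩ := q_prime_pow hF
  haveI : Fact p.Prime := ⟨hp⟩
  have hF' : Fintype.card F = p ^ (k * 2) := by rw [hF, hqk, pow_mul]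
  rw [sq_cU_fU] at h
  set w : GLn := (g * Matrix.GeneralLinearGroup.map (σ : F →+* F) g)⁻¹ with hw
  have hwU : w ∈ Cfsg.GU n F q :=
    (Cfsg.GU n F q).inv_mem ((Cfsg.GU n F q).mul_mem hg (map_mem_GU σ g hg))
  have h1 : (fU (σ * σ) : MulAut (Cfsg.PSU n F q)) = cU (ofGU w hwU) := by
    have h2 : ofGU w hwU = (ofGU g hg * mapU σ (ofGU g hg))⁻¹ := Subtype.ext rfl
    rw [h2, map_inv]
    exact eq_inv_of_mul_eq_one_right h
  have h3 : (fAutU (σ * σ) : MulAut ↥(Cfsg.SU n F q)) = uAut (ofGU w hwU) :=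
    psuAut_injective hperf h1
  have h4 : (σ * σ) * (σ * σ) = 1 :=
    sq_eq_one_of_fix hF _ (fix_of_fAutU_eq hF (by omega) _ w hwU h3)
  have hσ1 : σ ≠ 1 := by
    rintro rfl
    rw [orderOf_one] at hσ
    exact absurd hσ (by decide)
  by_cases hτ : σ * σ = 1
  · exact involution_unique hF' σ (frobQ hF) hσ1 hτ (frobQ_ne_one hF) (frobQ_sq hF)
  · exfalso
    have h5 := involution_unique hF' (σ * σ) (frobQ hF) hτ h4 (frobQ_ne_one hF) (frobQ_sq hF)
    rw [h5] at h3
    exact fAutU_frob_ne hF hn _ h3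

theorem symm_or_skew_of (g : GLn) (M : GLn) (hg : (g : Mx)ᵀ * (M : Mx) = 1) (c : Fˣ)
    (hc : (g : Mx) * (M : Mx) = (c : F) • (1 : Mx)) :
    (g : Mx)ᵀ = (g : Mx) ∨ (g : Mx)ᵀ = -(g : Mx) := by
  rcases isEmpty_or_nonempty (Fin n) with he | hne
  · left
    exact Subsingleton.elim _ _
  have hM : (M : Mx) * ((M⁻¹ : GLn) : Mx) = 1 := Units.mul_inv M
  have e1 : (g : Mx) = (c : F) • ((M⁻¹ : GLn) : Mx) := by
    calc (g : Mx) = (g : Mx) * (M : Mx) * ((M⁻¹ : GLn) : Mx) := by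
          rw [Matrix.mul_assoc, hM, Matrix.mul_one]
      _ = _ := by rw [hc, Matrix.smul_mul, Matrix.one_mul]
  have e2 : (g : Mx)ᵀ = ((M⁻¹ : GLn) : Mx) := by
    calc (g : Mx)ᵀ = (g : Mx)ᵀ * (M : Mx) * ((M⁻¹ : GLn) : Mx) := by
          rw [Matrix.mul_assoc, hM, Matrix.mul_one]
      _ = _ := by rw [hg, Matrix.one_mul]
  have hc' : (g : Mx) = (c : F) • (g : Mx)ᵀ := by
    rw [e2]
    exact e1
  have h3 : (g : Mx)ᵀ = (c : F) • (g : Mx) := by
    conv_lhs => rw [hc']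
    rw [Matrix.transpose_smul, Matrix.transpose_transpose]
  have h4 : ((c : F) * c - 1) • (g : Mx) = 0 := by
    rw [sub_smul, one_smul, mul_smul, ← h3, ← hc', sub_self]
  have h5 : ((c : F) - 1) * ((c : F) + 1) = 0 := by
    rcases smul_eq_zero.mp h4 with h | h
    · linear_combination h
    · exact absurd h g.ne_zero
  rcases mul_eq_zero.mp h5 with h | h
  · left
    rw [h3, sub_eq_zero.mp h, one_smul]
  · right
    rw [h3, eq_neg_of_add_eq_zero_left h, neg_smul, one_smul]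

theorem exists_GU_smul (hF : Fintype.card F = q ^ 2) (hn : 1 ≤ n) (x : ↥(GUs n F q)) :
    ∃ (g : GLn) (hg : g ∈ Cfsg.GU n F q) (d : Fˣ),
      ((x : GLn) : Mx) = (d : F) • (g : Mx) := by
  obtain ⟨e, he⟩ := (mem_GUs_iff hF (x : GLn)).mp x.2
  have hq := two_le_q hF
  have hfix : (e : F) ^ q = e := by
    have h00 := congrFun (congrFun he ⟨0, hn⟩) ⟨0, hn⟩
    rw [Matrix.mul_apply, Matrix.smul_apply, Matrix.one_apply_eq, smul_eq_mul, mul_one] at h00
    simp only [Matrix.transpose_apply, Matrix.map_apply, frobQ_apply] at h00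
    rw [← h00, conj_sum hF]
    refine Finset.sum_congr rfl fun k _ => ?_
    rw [mul_pow, conj_conj hF, mul_comm]
  obtain ⟨d, hd⟩ := Cfsg.Agent.Lib.Helper44.exists_norm_eq hF (e : F) e.ne_zero hfix
  have hd0 : d ≠ 0 := by
    rintro rfl
    rw [zero_pow (by omega)] at hd
    exact e.ne_zero hd.symm
  refine ⟨Matrix.GeneralLinearGroup.scalar (Fin n) (Units.mk0 d hd0)⁻¹ * (x : GLn), ?_,
    Units.mk0 d hd0, ?_⟩
  · rw [mem_GU_iff hF, scalar_mul_coe', Units.val_inv_eq_inv_val, Units.val_mk0]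
    have h1 : (d⁻¹ • ((x : GLn) : Mx))ᵀ * (d⁻¹ • ((x : GLn) : Mx)).map (frobQ hF) =
        d⁻¹ ^ (q + 1) • (((x : GLn) : Mx)ᵀ * ((x : GLn) : Mx).map (frobQ hF)) :=
      gram_smul hF d⁻¹ ((x : GLn) : Mx)
    rw [h1, he, smul_smul, inv_pow, hd, inv_mul_cancel₀ e.ne_zero, one_smul]
  · rw [scalar_mul_coe', smul_smul, Units.val_inv_eq_inv_val, Units.val_mk0,
      mul_inv_cancel₀ hd0, one_smul]

theorem inndiag_eq (hF : Fintype.card F = q ^ 2) (hn : 1 ≤ n) :
    Cfsg.inndiagPSU n F q = (cU : ↥(GUs n F q) →* MulAut (Cfsg.PSU n F q)).range := by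
  have h : {β : MulAut (Cfsg.PSU n F q) | Cfsg.IsInnerDiagonalAutPSU β} =
      ((cU : ↥(GUs n F q) →* MulAut (Cfsg.PSU n F q)).range : Set (MulAut (Cfsg.PSU n F q))) := by
    ext β
    rw [Set.mem_setOf_eq, innerDiag_iff]
    constructor
    · rintro ⟨g, hg, rfl⟩
      exact ⟨_, rfl⟩
    · rintro ⟨x, rfl⟩
      obtain ⟨g, hg, d, hd⟩ := exists_GU_smul hF hn x
      exact ⟨g, hg, cU_eq_of_smul x (ofGU g hg) d hd⟩
  show Subgroup.closure {β : MulAut (Cfsg.PSU n F q) | Cfsg.IsInnerDiagonalAutPSU β} = _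
  rw [h, Subgroup.closure_eq]

/-- The graph automorphisms of order two of `PSU_n(q)`. -/
theorem graph_iff (hF : Fintype.card F = q ^ 2) (hn : 3 ≤ n) (h32 : ¬ (n = 3 ∧ q = 2))
    (γ : MulAut (Cfsg.PSU n F q)) :
    (Cfsg.IsGraphAutClassPSU γ ∧ orderOf γ = 2) ↔
      ∃ (g : GLn) (hg : g ∈ Cfsg.GU n F q),
        ((g : Mx)ᵀ = (g : Mx) ∨ (g : Mx)ᵀ = -(g : Mx)) ∧
          γ = cU (ofGU g hg) * fU (frobQ hF) := by
  have hperf := Cfsg.Agent.Lib.Helper13.su_commutator_eq_top (F := F) hF hn h32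
  constructor
  · rintro ⟨⟨-, δ, φ, σ, hσ, hδ, hφ, rfl⟩, ho⟩
    obtain ⟨g, hg, rfl⟩ := (innerDiag_iff δ).mp hδ
    rw [fieldAut_iff] at hφ
    subst hφ
    have h2 : (cU (ofGU g hg) * fU σ : MulAut (Cfsg.PSU n F q)) ^ 2 = 1 := by
      rw [← ho]
      exact pow_orderOf_eq_one _
    have hσ' := sigma_eq_frob hF hn h32 σ hσ g hg h2
    subst hσ'
    refine ⟨g, hg, ?_, rfl⟩
    rw [sq_cU_fU, frobQ_sq, map_one, mul_one, cU_eq_one_iff hF hn h32] at h2
    obtain ⟨c, hc⟩ := h2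
    have hc' : (g : Mx) * ((Matrix.GeneralLinearGroup.map
        ((frobQ hF : RingAut F) : F →+* F) g : GLn) : Mx) = (c : F) • (1 : Mx) := hc
    have hg' := (mem_GU_iff hF g).mp hg
    exact symm_or_skew_of g (Matrix.GeneralLinearGroup.map ((frobQ hF : RingAut F) : F →+* F) g)
      (by rw [glmap_coe]; exact hg') c hc'
  · rintro ⟨g, hg, hs, rfl⟩
    have hg' := (mem_GU_iff hF g).mp hg
    have hsq : (cU (ofGU g hg) * fU (frobQ hF) : MulAut (Cfsg.PSU n F q)) ^ 2 = 1 := by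
      rw [sq_cU_fU, frobQ_sq, map_one, mul_one]
      obtain ⟨ε, hgε⟩ : ∃ ε : F, (g : Mx) = ε • (g : Mx)ᵀ := by
        rcases hs with hs | hs
        · exact ⟨1, by rw [one_smul, hs]⟩
        · exact ⟨-1, by rw [hs]; simp⟩
      apply cU_of_scalar _ ε
      show (g : Mx) * ((Matrix.GeneralLinearGroup.map
        ((frobQ hF : RingAut F) : F →+* F) g : GLn) : Mx) = _
      rw [glmap_coe]
      calc (g : Mx) * (g : Mx).map (frobQ hF)
          = (ε • (g : Mx)ᵀ) * (g : Mx).map (frobQ hF) := by rw [← hgε]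
        _ = ε • (1 : Mx) := by rw [Matrix.smul_mul, hg']
    refine ⟨⟨hn, cU (ofGU g hg), fU (frobQ hF), frobQ hF, ?_,
      (innerDiag_iff _).mpr ⟨g, hg, rfl⟩, (fieldAut_iff _ _).mpr rfl, rfl⟩, ?_⟩
    · rw [orderOf_frobQ hF]
      exact ⟨1, rfl⟩
    · refine orderOf_eq_prime hsq ?_
      intro h1
      have h3 : (fU (frobQ hF) : MulAut (Cfsg.PSU n F q)) = cU (ofGU g hg)⁻¹ := by
        rw [map_inv]
        exact eq_inv_of_mul_eq_one_right h1
      exact fAutU_frob_ne hF hn _ (psuAut_injective hperf h3)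

theorem conj_iff (hF : Fintype.card F = q ^ 2) (hn : 3 ≤ n) (h32 : ¬ (n = 3 ∧ q = 2))
    (x x' : ↥(GUs n F q)) :
    Cfsg.IsConjUnder (Cfsg.inndiagPSU n F q)
        (cU x * fU (frobQ hF) : MulAut (Cfsg.PSU n F q)) (cU x' * fU (frobQ hF)) ↔
      ∃ (h : ↥(GUs n F q)) (c : Fˣ), ((x' : GLn) : Mx) =
        (c : F) • (((h : GLn) : Mx) * ((x : GLn) : Mx) *
          ((((h : GLn)⁻¹ : GLn) : Mx).map (frobQ hF))) := by
  constructor
  · rintro ⟨y, hy, he⟩
    rw [inndiag_eq hF (by omega)] at hy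
    obtain ⟨h, rfl⟩ := hy
    rw [conj_cU_fU, mul_left_inj, cU_eq_iff hF hn h32] at he
    obtain ⟨c, hc⟩ := he
    rw [conj_coe] at hc
    exact ⟨h, c, hc⟩
  · rintro ⟨h, c, hc⟩
    refine ⟨cU h, by rw [inndiag_eq hF (by omega)]; exact ⟨h, rfl⟩, ?_⟩
    rw [conj_cU_fU, mul_left_inj, cU_eq_iff hF hn h32, conj_coe]
    exact ⟨c, hc⟩

theorem mem_cent_iff (hF : Fintype.card F = q ^ 2) (hn : 3 ≤ n) (h32 : ¬ (n = 3 ∧ q = 2))
    (x h : ↥(GUs n F q)) :
    (cU h : MulAut (Cfsg.PSU n F q)) ∈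
        Subgroup.centralizer {(cU x * fU (frobQ hF) : MulAut (Cfsg.PSU n F q))} ↔
      ∃ c : Fˣ, ((h : GLn) : Mx) * ((x : GLn) : Mx) *
        ((((h : GLn)⁻¹ : GLn) : Mx).map (frobQ hF)) = (c : F) • ((x : GLn) : Mx) := by
  rw [Subgroup.mem_centralizer_iff]
  have e : (∀ z ∈ ({(cU x * fU (frobQ hF) : MulAut (Cfsg.PSU n F q))} :
        Set (MulAut (Cfsg.PSU n F q))), z * cU h = cU h * z) ↔
      cU (h * x * mapU (frobQ hF) h⁻¹) = (cU x : MulAut (Cfsg.PSU n F q)) := by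
    constructor
    · intro hc
      have h1 := hc _ rfl
      have h3 : (cU h * (cU x * fU (frobQ hF)) * (cU h)⁻¹ : MulAut (Cfsg.PSU n F q)) =
          cU x * fU (frobQ hF) := mul_inv_eq_iff_eq_mul.mpr h1.symm
      rw [conj_cU_fU] at h3
      exact mul_right_cancel h3
    · intro hc z hz
      rw [Set.mem_singleton_iff] at hz
      subst hz
      have h2 := conj_cU_fU (frobQ hF) h x
      rw [hc] at h2
      exact (mul_inv_eq_iff_eq_mul.mp h2).symm
  rw [e, cU_eq_iff hF hn h32]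
  refine exists_congr fun c => ?_
  rw [conj_coe]

end finite

end Cfsg.Agent.Lib.Helper8.PSUAut
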