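import Mathlib
import Cfsg.Agent.Lib.Helper8.GraphInvCore

/-!
# Similarities commuting with a reflection-type involution

Linear algebra for the splitting of graph involutions of the minus-type orthogonal groups: the
determinant of an involution, the determinant of a matrix with non-square scalar square, the
multiplier of a similarity of an odd-dimensional nondegenerate space, and the consequence: in
dimension `2k` with `k` even, a similarity commuting up to a scalar with a similarity `A` with
`A²` scalar and `det A = -c^k` has square multiplier.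
-/

set_option autoImplicit false

namespace Cfsg.Agent.Lib.Helper8.GraphInvOdd

open Matrix Module Polynomial Cfsg.Agent.Lib.Helper14 Cfsg.Agent.Lib.Helper44
open Cfsg.Agent.Lib.Helper8.GraphInvCore

section linalg

variable {F : Type*} [Field F] {V : Type*} [AddCommGroup V] [Module F V] [FiniteDimensional F V]

/-- The determinant of an involution, and the dimensions of its eigenspaces. -/
theorem det_involution (h2 : (2 : F) ≠ 0) (f : V →ₗ[F] V) (hf : ∀ x, f (f x) = x) :
    LinearMap.det f = (-1) ^ finrank F (LinearMap.ker (f + LinearMap.id)) ∧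
    finrank F (LinearMap.ker (f - LinearMap.id)) + finrank F (LinearMap.ker (f + LinearMap.id)) =
      finrank F V := by
  obtain ⟨p, hp⟩ : ∃ p : Submodule F V, p = LinearMap.ker (f - LinearMap.id) := ⟨_, rfl⟩
  obtain ⟨q, hq⟩ : ∃ q : Submodule F V, q = LinearMap.ker (f + LinearMap.id) := ⟨_, rfl⟩
  rw [← hp, ← hq]
  have hpm : ∀ x, x ∈ p ↔ f x = x := by
    intro x
    rw [hp, LinearMap.mem_ker, LinearMap.sub_apply, LinearMap.id_apply, sub_eq_zero]
  have hqm : ∀ x, x ∈ q ↔ f x = -x := by
    intro x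
    rw [hq, LinearMap.mem_ker, LinearMap.add_apply, LinearMap.id_apply, add_eq_zero_iff_eq_neg]
  have hpq : IsCompl p q := by
    refine IsCompl.of_eq ?_ ?_
    · rw [Submodule.eq_bot_iff]
      intro x hx
      obtain ⟨h1, h3⟩ := Submodule.mem_inf.mp hx
      rw [hpm] at h1
      rw [hqm] at h3
      have h4 : (2 : F) • x = 0 := by
        rw [two_smul]
        nth_rewrite 1 [← h1]
        rw [h3, neg_add_cancel]
      rcases smul_eq_zero.mp h4 with h5 | h5
      · exact absurd h5 h2
      · exact h5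
    · rw [Submodule.eq_top_iff']
      intro x
      rw [Submodule.mem_sup]
      refine ⟨(2 : F)⁻¹ • (x + f x), ?_, (2 : F)⁻¹ • (x - f x), ?_, ?_⟩
      · rw [hpm, map_smul, map_add, hf, add_comm]
      · rw [hqm, map_smul, map_sub, hf, ← smul_neg, neg_sub]
      · rw [← smul_add, add_add_sub_cancel, ← two_smul F x, smul_smul, inv_mul_cancel₀ h2,
          one_smul]
  refine ⟨?_, Submodule.finrank_add_eq_of_isCompl hpq⟩
  obtain ⟨e, he⟩ : ∃ e : (↥p × ↥q) ≃ₗ[F] V, e = Submodule.prodEquivOfIsCompl p q hpq := ⟨_, rfl⟩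
  have hconj : f = (e : (↥p × ↥q) →ₗ[F] V) ∘ₗ
      (LinearMap.prodMap LinearMap.id ((-1 : F) • LinearMap.id)) ∘ₗ
      (e.symm : V →ₗ[F] (↥p × ↥q)) := by
    apply LinearMap.ext
    intro x
    obtain ⟨⟨y, z⟩, rfl⟩ := e.surjective x
    simp only [LinearMap.comp_apply, LinearEquiv.coe_coe, LinearEquiv.symm_apply_apply,
      LinearMap.prodMap_apply, LinearMap.id_apply, LinearMap.smul_apply]
    rw [he, Submodule.coe_prodEquivOfIsCompl', Submodule.coe_prodEquivOfIsCompl', map_add,
      (hpm y).mp y.2, (hqm z).mp z.2]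
    simp
  rw [hconj, LinearMap.det_conj, LinearMap.det_prodMap, LinearMap.det_id, one_mul,
    LinearMap.det_smul, LinearMap.det_id, mul_one]

/-- A similarity of a nondegenerate bilinear space of odd dimension has square multiplier. -/
theorem isSquare_mult_of_odd_finrank (B : LinearMap.BilinForm F V) (hB : B.Nondegenerate)
    (f : V →ₗ[F] V) (μ : F) (hμ : μ ≠ 0) (hf : ∀ x y, B (f x) (f y) = μ * B x y)
    (hodd : Odd (finrank F V)) : IsSquare μ := by
  classical
  obtain ⟨b, -⟩ : ∃ b : Basis (Fin (finrank F V)) F V, b = Module.finBasis F V := ⟨_, rfl⟩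
  have hcomp : B.comp f f = μ • B := by
    refine LinearMap.ext fun x => LinearMap.ext fun y => ?_
    rw [LinearMap.BilinForm.comp_apply, LinearMap.smul_apply, LinearMap.smul_apply, smul_eq_mul]
    exact hf x y
  have hM := LinearMap.BilinForm.toMatrix_comp b b B f f
  rw [hcomp, map_smul] at hM
  have hdet := congrArg Matrix.det hM
  rw [Matrix.det_smul, Matrix.det_mul, Matrix.det_mul, Matrix.det_transpose,
    Fintype.card_fin] at hdet
  have hMdet : (LinearMap.BilinForm.toMatrix b B).det ≠ 0 :=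
    (LinearMap.BilinForm.nondegenerate_iff_det_ne_zero b).mp hB
  obtain ⟨j, hj⟩ := hodd
  have hpow : μ ^ finrank F V = μ ^ (2 * j + 1) := by rw [hj]
  rw [hpow] at hdet
  have h3 : μ ^ (2 * j + 1) = (LinearMap.toMatrix b b f).det ^ 2 := by
    apply mul_right_cancel₀ hMdet
    rw [hdet]
    ring
  refine ⟨(LinearMap.toMatrix b b f).det / μ ^ j, ?_⟩
  have hμj : μ ^ j ≠ 0 := pow_ne_zero _ hμ
  field_simp
  rw [← h3]
  ring

end linalg

section charp

variable {ι : Type} [Fintype ι] [DecidableEq ι] {F : Type*} [Field F]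

/-- A matrix of size `2k` whose square is a non-square scalar `c` has determinant `(-c)^k`. -/
theorem det_of_sq_nonsquare (k : ℕ) (hk : Fintype.card ι = 2 * k) (A : Matrix ι ι F) (c : F)
    (hc : ¬ IsSquare c) (hsq : A * A = c • (1 : Matrix ι ι F)) : A.det = (-c) ^ k := by
  obtain ⟨A', hA'⟩ : ∃ A' : Matrix ι ι F[X], A' = A.map C := ⟨_, rfl⟩
  have e1 : charmatrix A = (X : F[X]) • (1 : Matrix ι ι F[X]) - A' := by
    rw [hA', Matrix.smul_one_eq_diagonal]
    rfl
  have hmapmul : ∀ B D : Matrix ι ι F, (B * D).map C = B.map C * D.map C := fun B D =>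
    Matrix.map_mul (f := (C : F →+* F[X]))
  have hb : ((X : F[X]) • (1 : Matrix ι ι F[X]) - A') * ((X : F[X]) • (1 : Matrix ι ι F[X]) + A') =
      ((X : F[X]) ^ 2 - C c) • (1 : Matrix ι ι F[X]) := by
    have h1 : A' * A' = (C c : F[X]) • (1 : Matrix ι ι F[X]) := by
      rw [hA', ← hmapmul, hsq]
      ext i j
      by_cases hij : i = j
      · subst hij
        simp
      · simp [hij]
    rw [Matrix.sub_mul, Matrix.mul_add, Matrix.mul_add, h1, smul_mul_assoc, Matrix.one_mul,
      smul_mul_assoc, Matrix.one_mul, mul_smul_comm, Matrix.mul_one, smul_smul, sub_smul,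
      ← pow_two]
    abel
  have hdvd : A.charpoly ∣ ((X : F[X]) ^ 2 - C c) ^ (2 * k) := by
    have h1 := congrArg Matrix.det hb
    rw [Matrix.det_mul, Matrix.det_smul, Matrix.det_one, mul_one, hk, ← e1] at h1
    exact Dvd.intro _ h1
  have hirr : Irreducible ((X : F[X]) ^ 2 - C c) := by
    rw [X_pow_sub_C_irreducible_iff_of_prime Nat.prime_two]
    intro b hb'
    exact hc ⟨b, by rw [← hb', pow_two]⟩
  obtain ⟨i, -, hassoc⟩ := (dvd_prime_pow hirr.prime _).mp hdvd
  have hmon : (((X : F[X]) ^ 2 - C c) ^ i).Monic := (monic_X_pow_sub_C c (by norm_num)).pow i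
  have hPeq : A.charpoly = ((X : F[X]) ^ 2 - C c) ^ i :=
    eq_of_monic_of_associated (Matrix.charpoly_monic A) hmon hassoc
  have hik : i = k := by
    have h1 := congrArg natDegree hPeq
    rw [Matrix.charpoly_natDegree_eq_dim, hk, natDegree_pow,
      natDegree_X_pow_sub_C] at h1
    omega
  rw [Matrix.det_eq_sign_charpoly_coeff, hPeq, hik, hk, coeff_zero_eq_eval_zero]
  simp only [eval_pow, eval_sub, eval_X, eval_C]
  rw [pow_mul]
  simp

end charp

section core

variable {ι : Type} [Fintype ι] [DecidableEq ι] {F : Type*} [Field F]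

set_option maxHeartbeats 1600000 in
/-- In dimension `2k` with `k` even: a similarity `T` commuting up to a scalar with a similarity
`A` with `A²` scalar and `det A = -c^k` has square multiplier. -/
theorem isSquare_mult_of_comm (Q : QuadraticForm F (ι → F))
    (hQ : (QuadraticMap.polarBilin Q).Nondegenerate) (h2 : (2 : F) ≠ 0) (k : ℕ)
    (hk : Fintype.card ι = 2 * k) (hkev : Even k) (hk1 : 1 ≤ k)
    (A : Matrix ι ι F) (c : F) (hc : c ≠ 0) (hA : ∀ x, Q (A *ᵥ x) = c * Q x) (lam : F)
    (hsq : A * A = lam • (1 : Matrix ι ι F)) (hdet : A.det = -c ^ k)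
    (T : Matrix ι ι F) (μ : F) (hμ : μ ≠ 0) (hT : ∀ x, Q (T *ᵥ x) = μ * Q x) (ε : F)
    (hTA : T * A = ε • (A * T)) : IsSquare μ := by
  obtain ⟨v, hv⟩ := exists_quad_ne_zero Q hQ
    (by rw [Module.finrank_fintype_fun_eq_card, hk]; omega)
  have hlam : lam = c ∨ lam = -c := by
    have h1 : Q (A *ᵥ (A *ᵥ v)) = c * (c * Q v) := by rw [hA, hA]
    rw [sq_mulVec hsq, QuadraticMap.map_smul, smul_eq_mul] at h1
    have h3 : (lam - c) * (lam + c) = 0 := by
      have h4 : (lam * lam - c * c) * Q v = 0 := by linear_combination h1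
      rcases mul_eq_zero.mp h4 with h | h
      · linear_combination h
      · exact absurd h hv
    rcases mul_eq_zero.mp h3 with h | h
    · left
      exact sub_eq_zero.mp h
    · right
      exact eq_neg_of_add_eq_zero_left h
  have hck : c ^ k ≠ 0 := pow_ne_zero _ hc
  have h2ck : ∀ d : F, -c ^ k = d → d = c ^ k → False := by
    intro d h3 h4
    rw [h4] at h3
    have h5 : (2 : F) * c ^ k = 0 := by linear_combination -h3
    rcases mul_eq_zero.mp h5 with h6 | h6
    · exact h2 h6
    · exact hck h6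
  have hlamc : lam = c := by
    rcases hlam with h | h
    · exact h
    · exfalso
      rw [h] at hsq
      have h3 := det_of_sq_neg (Q := Q) hQ k hk h2 A c hc hA hsq
      rw [hdet] at h3
      exact h2ck _ h3 rfl
  rw [hlamc] at hsq
  have hcsq : IsSquare c := by
    by_contra hns
    have h3 := det_of_sq_nonsquare k hk A c hns hsq
    rw [hdet] at h3
    obtain ⟨j, hj⟩ := hkev
    have h4 : (-c) ^ k = c ^ k := by
      rw [hj, ← two_mul, pow_mul, pow_mul, neg_sq]
    exact h2ck _ h3 h4
  obtain ⟨ν, hν⟩ := hcsq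
  have hν0 : ν ≠ 0 := by
    rintro rfl
    exact hc (by rw [hν, mul_zero])
  obtain ⟨A', hA'⟩ : ∃ A' : Matrix ι ι F, A' = ν⁻¹ • A := ⟨_, rfl⟩
  have hA'sq : A' * A' = 1 := by
    rw [hA', Matrix.smul_mul, Matrix.mul_smul, hsq, smul_smul, smul_smul, hν]
    have h3 : ν⁻¹ * ν⁻¹ * (ν * ν) = 1 := by
      field_simp
    rw [h3, one_smul]
  have hA'Q : ∀ x, Q (A' *ᵥ x) = Q x := by
    intro x
    rw [hA', Matrix.smul_mulVec, QuadraticMap.map_smul, hA, hν, smul_eq_mul]
    field_simp
  have hA'det : A'.det = -1 := by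
    rw [hA', Matrix.det_smul, hdet, hk, hν]
    have h3 : ν⁻¹ ^ (2 * k) * (ν * ν) ^ k = 1 := by
      rw [← pow_two, ← pow_mul, ← mul_pow, inv_mul_cancel₀ hν0, one_pow]
    linear_combination -h3
  have hTA' : T * A' = ε • (A' * T) := by
    rw [hA', Matrix.mul_smul, hTA, Matrix.smul_mul, smul_comm]
  have hT0 : T ≠ 0 := by
    rintro rfl
    have h3 := hT v
    rw [Matrix.zero_mulVec, map_zero] at h3
    exact mul_ne_zero hμ hv h3.symm
  have hε : ε = 1 ∨ ε = -1 := by
    have h1 : T = (ε * ε) • T := by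
      calc T = T * (A' * A') := by rw [hA'sq, Matrix.mul_one]
        _ = (T * A') * A' := by rw [Matrix.mul_assoc]
        _ = ε • (A' * (T * A')) := by rw [hTA', Matrix.smul_mul, Matrix.mul_assoc, ← hTA']
        _ = (ε * ε) • T := by
            rw [hTA', Matrix.mul_smul, ← Matrix.mul_assoc, hA'sq, Matrix.one_mul, smul_smul]
    have h3 : (ε * ε - 1) • T = 0 := by
      rw [sub_smul, one_smul, ← h1, sub_self]
    rcases smul_eq_zero.mp h3 with h | h
    · have h4 : (ε - 1) * (ε + 1) = 0 := by linear_combination h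
      rcases mul_eq_zero.mp h4 with h' | h'
      · left
        exact sub_eq_zero.mp h'
      · right
        exact eq_neg_of_add_eq_zero_left h'
    · exact absurd h hT0
  have hpolA' : ∀ x y, QuadraticMap.polar ⇑Q (A' *ᵥ x) (A' *ᵥ y) = QuadraticMap.polar ⇑Q x y := by
    intro x y
    have h3 := polar_sim (Q := Q) (c := 1) (A := A') (fun x => by rw [one_mul]; exact hA'Q x) x y
    rw [one_mul] at h3
    exact h3
  have hpolT : ∀ x y, QuadraticMap.polar ⇑Q (T *ᵥ x) (T *ᵥ y) = μ * QuadraticMap.polar ⇑Q x y :=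
    polar_sim (Q := Q) hT
  obtain ⟨f, hf⟩ : ∃ f : (ι → F) →ₗ[F] (ι → F), f = Matrix.toLin' A' := ⟨_, rfl⟩
  obtain ⟨t, ht⟩ : ∃ t : (ι → F) →ₗ[F] (ι → F), t = Matrix.toLin' T := ⟨_, rfl⟩
  have hfA : ∀ x, f x = A' *ᵥ x := fun x => by rw [hf, Matrix.toLin'_apply]
  have htT : ∀ x, t x = T *ᵥ x := fun x => by rw [ht, Matrix.toLin'_apply]
  have hff : ∀ x, f (f x) = x := by
    intro x
    rw [hfA, hfA, Matrix.mulVec_mulVec, hA'sq, Matrix.one_mulVec]
  obtain ⟨hdetf, hdim⟩ := det_involution h2 f hff
  obtain ⟨p, hp⟩ : ∃ p : Submodule F (ι → F), p = LinearMap.ker (f - LinearMap.id) := ⟨_, rfl⟩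
  obtain ⟨q, hq⟩ : ∃ q : Submodule F (ι → F), q = LinearMap.ker (f + LinearMap.id) := ⟨_, rfl⟩
  rw [← hp, ← hq] at hdim
  rw [← hq] at hdetf
  have hpm : ∀ x, x ∈ p ↔ f x = x := by
    intro x
    rw [hp, LinearMap.mem_ker, LinearMap.sub_apply, LinearMap.id_apply, sub_eq_zero]
  have hqm : ∀ x, x ∈ q ↔ f x = -x := by
    intro x
    rw [hq, LinearMap.mem_ker, LinearMap.add_apply, LinearMap.id_apply, add_eq_zero_iff_eq_neg]
  have hqodd : Odd (finrank F ↥q) := by
    by_contra hcon
    rw [Nat.not_odd_iff_even] at hcon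
    rw [hf, LinearMap.det_toLin', hA'det, hcon.neg_one_pow] at hdetf
    apply h2
    linear_combination -hdetf
  rw [Module.finrank_fintype_fun_eq_card, hk] at hdim
  have htinj : Function.Injective t := by
    rw [injective_iff_map_eq_zero]
    intro x hx
    rw [htT] at hx
    apply hQ.1 x
    intro y
    show QuadraticMap.polar ⇑Q x y = 0
    have h3 := hpolT x y
    rw [hx] at h3
    have h4 : QuadraticMap.polar ⇑Q 0 (T *ᵥ y) = 0 := by simp [QuadraticMap.polar]
    rw [h4] at h3
    rcases mul_eq_zero.mp h3.symm with h | h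
    · exact absurd h hμ
    · exact h
  rcases hε with hε1 | hε1
  · -- `T` commutes with the involution
    have hcomm : ∀ x, f (t x) = t (f x) := by
      intro x
      rw [hfA, htT, htT, hfA, Matrix.mulVec_mulVec, Matrix.mulVec_mulVec, hTA', hε1, one_smul]
    have hinv : ∀ x ∈ q, t x ∈ q := by
      intro x hx
      rw [hqm] at hx ⊢
      rw [hcomm x, hx, map_neg]
    obtain ⟨Bq, hBq⟩ : ∃ Bq : LinearMap.BilinForm F ↥q,
        Bq = LinearMap.BilinForm.restrict (QuadraticMap.polarBilin Q) q := ⟨_, rfl⟩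
    have hBqa : ∀ x y : ↥q, Bq x y = QuadraticMap.polar ⇑Q (x : ι → F) (y : ι → F) := by
      intro x y
      rw [hBq]
      rfl
    have key : ∀ x : ↥q, (∀ y : ↥q, Bq x y = 0) → x = 0 := by
      intro x hx
      apply Subtype.ext
      apply hQ.1 (x : ι → F)
      intro w
      show QuadraticMap.polar ⇑Q (x : ι → F) w = 0
      have hxq : f (x : ι → F) = -(x : ι → F) := (hqm x).mp x.2
      have h5 : QuadraticMap.polar ⇑Q (x : ι → F) (f w) = -QuadraticMap.polar ⇑Q (x : ι → F) w := by
        have h6 := hpolA' (x : ι → F) (f w)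
        rw [← hfA, ← hfA, hff, hxq, QuadraticMap.polar_neg_left] at h6
        exact h6.symm
      have hwq : w - f w ∈ q := by
        rw [hqm, map_sub, hff, neg_sub]
      have h7 := hx ⟨w - f w, hwq⟩
      rw [hBqa] at h7
      have h8 : QuadraticMap.polar ⇑Q (x : ι → F) (w - f w) =
          2 * QuadraticMap.polar ⇑Q (x : ι → F) w := by
        rw [sub_eq_add_neg, QuadraticMap.polar_add_right, QuadraticMap.polar_neg_right, h5]
        ring
      rw [h8] at h7
      rcases mul_eq_zero.mp h7 with h | h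
      · exact absurd h h2
      · exact h
    have hBnd : Bq.Nondegenerate := by
      refine ⟨key, ?_⟩
      intro y hy
      apply key y
      intro x
      rw [hBqa, QuadraticMap.polar_comm, ← hBqa]
      exact hy x
    refine isSquare_mult_of_odd_finrank Bq hBnd (t.restrict hinv) μ hμ ?_ hqodd
    intro x y
    rw [hBqa, hBqa, LinearMap.coe_restrict_apply, LinearMap.coe_restrict_apply, htT, htT]
    exact hpolT _ _
  · -- `T` anticommutes with the involution: the eigenspaces have equal dimension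
    exfalso
    have hanti : ∀ x, f (t x) = -(t (f x)) := by
      intro x
      have hAT : A' * T = -(T * A') := by
        rw [hTA', hε1, neg_one_smul, neg_neg]
      rw [hfA, htT, htT, hfA, Matrix.mulVec_mulVec, Matrix.mulVec_mulVec, hAT, Matrix.neg_mulVec]
    have h1 : finrank F ↥q ≤ finrank F ↥p := by
      rw [(Submodule.equivMapOfInjective t htinj q).finrank_eq]
      apply Submodule.finrank_mono
      rintro _ ⟨x, hx, rfl⟩
      have hx' := (hqm x).mp hx
      rw [hpm, hanti, hx', map_neg, neg_neg]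
    have h3 : finrank F ↥p ≤ finrank F ↥q := by
      rw [(Submodule.equivMapOfInjective t htinj p).finrank_eq]
      apply Submodule.finrank_mono
      rintro _ ⟨x, hx, rfl⟩
      have hx' := (hpm x).mp hx
      rw [hqm, hanti, hx']
    have h4 : finrank F ↥q = k := by omega
    rw [h4] at hqodd
    exact (Nat.not_even_iff_odd.mpr hqodd) hkev

end core

end Cfsg.Agent.Lib.Helper8.GraphInvOdd
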