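import Mathlib
import Cfsg.Agent.Lib.Helper8.GraphInvSplit
import Cfsg.Agent.Lib.Helper8.GraphInvOdd
import Cfsg.Agent.Lib.Helper8.GraphInvSemi
import Cfsg.Agent.Lib.Helper44.MinusInnDiag

/-!
# Splitting of the class of an involutory graph automorphism of `PΩ⁻`

The minus-type analogue of `GraphInvSplit`: an involution in the image of the semisimilarity
group outside `Inndiag` is induced by a similarity with `det = -μ^(m+1)`; its `Inndiag`-class is
one or two classes under the inner automorphisms, and two unless `m` is even and `q ≡ 1 (mod 4)`.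
-/

set_option autoImplicit false

namespace Cfsg.Agent.Lib.Helper8.GraphInvMinus

open Matrix Module Cfsg.Agent.Lib.Helper14 Cfsg.Agent.Lib.Helper44
open Cfsg.Agent.Lib.Helper8.GraphInvCore Cfsg.Agent.Lib.Helper8.GraphInvSplit
open Cfsg.Agent.Lib.Helper8.GraphInvOdd Cfsg.Agent.Lib.Helper8.GraphInvSemi

section glue

variable {ι : Type} [Fintype ι] [DecidableEq ι] {F : Type*} [Field F]

/-- The image of a similarity under `simAut` is induced by it. -/
theorem induced_of_simAut (Qf : (ι → F) → F)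
    (g : ↥(Cfsg.Geo.quadSimilarityGroup (F := F) Qf)) :
    Cfsg.IsInducedBySemilinearPOmega Qf (g : GL ι F) (RingEquiv.refl F) (simAut Qf g) := by
  intro s s' hs'
  rw [simAut_mk]
  congr 1
  apply Subtype.ext
  apply isom_ext
  rw [hs', simConj_coe, map_refl_eq]

variable [Fintype F]

set_option maxHeartbeats 1000000 in
/-- In dimension `2k` with `k` even and `-1 ∉ Ω`: the centralizer in the inner-diagonal group of
an involutory automorphism induced by a similarity with `det = -μ^k` consists of inner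
automorphisms. -/
theorem centralizer_le_inn (hodd : Odd (Fintype.card F)) (Q : QuadraticForm F (ι → F))
    (hQ : (QuadraticMap.polarBilin Q).Nondegenerate) (Qf : (ι → F) → F) (hQf : ⇑Q = Qf)
    (E : Submodule F (ι → F)) (hE : 3 ≤ finrank F E) (hE0 : ∀ x ∈ E, Q x = 0)
    (k : ℕ) (hk : Fintype.card ι = 2 * k) (hkev : Even k)
    (P : Matrix ι ι F → Prop)
    (hP : ∀ (g : GL ι F) (c : F), c ≠ 0 → (∀ x, Qf ((g : Matrix ι ι F) *ᵥ x) = c * Qf x) →
      (P (g : Matrix ι ι F) ↔ (g : Matrix ι ι F).det = c ^ k))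
    (D : Subgroup (MulAut (Cfsg.POmega F Qf)))
    (hD : D = Subgroup.closure {β : MulAut (Cfsg.POmega F Qf) | ∃ g : GL ι F,
        g ∈ Cfsg.Geo.quadSimilarityGroup (F := F) Qf ∧ P (g : Matrix ι ι F) ∧
        Cfsg.IsInducedBySemilinearPOmega Qf g (RingEquiv.refl F) β})
    (hneg : ¬ ∃ g : ↥(Cfsg.isometryGroup F Qf), g ∈ Cfsg.Omega F Qf ∧
      ((g : GL ι F) : Matrix ι ι F) = -1)
    (γ : MulAut (Cfsg.POmega F Qf))
    (g : GL ι F) (hg : g ∈ Cfsg.Geo.quadSimilarityGroup (F := F) Qf)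
    (hgP : ¬ P (g : Matrix ι ι F))
    (hind : Cfsg.IsInducedBySemilinearPOmega Qf g (RingEquiv.refl F) γ)
    (hγ2 : γ * γ = 1) :
    D ⊓ Subgroup.centralizer {γ} ≤ Cfsg.Inn (Cfsg.POmega F Qf) := by
  subst hQf
  have h2 : (2 : F) ≠ 0 := two_ne_zero_of_card_odd hodd
  have hk1 : 1 ≤ k := by
    have h1 := two_mul_finrank_le_of_ts hQ hE0
    rw [Module.finrank_fintype_fun_eq_card] at h1
    omega
  have hne : ∃ v, Q v ≠ 0 := exists_quad_ne_zero Q hQ
    (by rw [Module.finrank_fintype_fun_eq_card, hk]; omega)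
  have hDeq : D = diagAut h2 Q hQ hne k hk := by
    rw [hD]
    exact closure_pred_eq_diagAut h2 Q hQ hne k hk P hP
  obtain ⟨g', hg'⟩ : ∃ g' : ↥(Cfsg.Geo.quadSimilarityGroup (F := F) ⇑Q), g' = ⟨g, hg⟩ :=
    ⟨_, rfl⟩
  have hg'coe : (g' : GL ι F) = g := by rw [hg']
  have hγ : γ = simAut ⇑Q g' := by
    rw [hg']
    exact induced_eq_simAut _ g hg γ hind
  have hgspec : ∀ v, Q ((g : Matrix ι ι F) *ᵥ v) = (simMult ⇑Q g' : F) * Q v := by
    intro v
    have h3 := simMult_spec ⇑Q g' v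
    rw [hg'coe] at h3
    exact h3
  have hgk : g' ∉ detKer h2 Q hQ hne k hk := by
    rw [mem_detKer_iff, hg'coe]
    intro h
    exact hgP ((hP g (simMult ⇑Q g') (simMult ⇑Q g').ne_zero hgspec).mpr h)
  have hdet : (g : Matrix ι ι F).det = -(simMult ⇑Q g' : F) ^ k := by
    rcases sim_det_cases Q hQ k hk g' with h | h
    · exact absurd ((mem_detKer_iff h2 Q hQ hne k hk g').mpr h) hgk
    · rw [← hg'coe]
      exact h
  have hsq1 : simAut ⇑Q (g' * g') = 1 := by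
    rw [map_mul, ← hγ]
    exact hγ2
  obtain ⟨lam, -, hlam⟩ := scalar_of_simAut_eq_one Q hQ E hE hE0 (g' * g') hsq1
  have hsq : (g : Matrix ι ι F) * (g : Matrix ι ι F) = lam • (1 : Matrix ι ι F) := by
    rw [← hlam, Subgroup.coe_mul, Units.val_mul, hg'coe]
  intro t ht
  obtain ⟨htD, htc⟩ := Subgroup.mem_inf.mp ht
  rw [hDeq] at htD
  obtain ⟨t', ht'k, rfl⟩ := htD
  rw [Subgroup.mem_centralizer_singleton_iff] at htc
  have hcomm1 : simAut ⇑Q (t' * g' * t'⁻¹ * g'⁻¹) = 1 := by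
    rw [map_mul, map_mul, map_mul, map_inv, map_inv, ← hγ, htc]
    group
  obtain ⟨ε, -, hε⟩ := scalar_of_simAut_eq_one Q hQ E hE hE0 _ hcomm1
  have hTA : ((t' : GL ι F) : Matrix ι ι F) * (g : Matrix ι ι F) =
      ε • ((g : Matrix ι ι F) * ((t' : GL ι F) : Matrix ι ι F)) := by
    have h3 : (t' : GL ι F) * g =
        ((t' * g' * t'⁻¹ * g'⁻¹ : ↥(Cfsg.Geo.quadSimilarityGroup (F := F) ⇑Q)) : GL ι F) * g *
          (t' : GL ι F) := by
      simp only [Subgroup.coe_mul, Subgroup.coe_inv, hg'coe]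
      group
    have h4 := congrArg (fun u : GL ι F => (u : Matrix ι ι F)) h3
    simp only [Units.val_mul] at h4
    rw [h4, hε, Matrix.smul_mul, Matrix.one_mul, Matrix.smul_mul]
  have hsqμ : IsSquare (simMult ⇑Q t' : F) :=
    isSquare_mult_of_comm Q hQ h2 k hk hkev hk1 (g : Matrix ι ι F) (simMult ⇑Q g' : F)
      (simMult ⇑Q g').ne_zero hgspec lam hsq hdet ((t' : GL ι F) : Matrix ι ι F)
      (simMult ⇑Q t' : F) (simMult ⇑Q t').ne_zero (simMult_spec ⇑Q t') ε hTA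
  have hchar : simChar h2 Q hQ hne k hk t' = 1 := by
    rw [simChar_eq_one_iff]
    exact ⟨hsqμ, (mem_detKer_iff h2 Q hQ hne k hk t').mp ht'k⟩
  have hpso : simAut ⇑Q t' ∈ Cfsg.psoAut F ⇑Q :=
    (simChar_eq_one_iff_mem_psoAut h2 Q hQ hne E hE hE0 k hk t').mp hchar
  have hrel1 : (Cfsg.Inn (Cfsg.POmega F ⇑Q)).relIndex (Cfsg.psoAut F ⇑Q) = 1 :=
    (relIndex_inn_psoAut h2 Q hQ E hE hE0 ⟨k, by rw [hk]; ring⟩).2 hneg
  exact Subgroup.relIndex_eq_one.mp hrel1 hpso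

end glue

section minus

universe u

variable {F : Type u} [Field F] [Fintype F]

set_option maxHeartbeats 1600000 in
/-- The class of an involutory graph automorphism of `PΩ⁻_{2m+2}(q)`, `q` odd, `m ≥ 3`, under
`Inndiag` is one or two classes under the inner automorphisms, and two unless `m` is even and
`q ≡ 1 (mod 4)`. -/
theorem minus_graph_split (hodd : Odd (Fintype.card F)) {m : ℕ} (hm : 3 ≤ m) (a b : F)
    (hab : ∀ z₁ z₂ : F, z₁ ^ 2 + a * z₁ * z₂ + b * z₂ ^ 2 = 0 → z₁ = 0 ∧ z₂ = 0)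
    (γ : MulAut (Cfsg.POmega F (Cfsg.quadFormMinus m F a b)))
    (hγ : Cfsg.IsGraphAutClassPOmegaMinus m a b γ) (hγ2 : orderOf γ = 2) :
    (Cfsg.splitClassCount (Cfsg.inndiagPOmegaMinus m F a b)
        (Cfsg.Inn (Cfsg.POmega F (Cfsg.quadFormMinus m F a b))) γ = 1 ∨
      Cfsg.splitClassCount (Cfsg.inndiagPOmegaMinus m F a b)
        (Cfsg.Inn (Cfsg.POmega F (Cfsg.quadFormMinus m F a b))) γ = 2) ∧
    (¬ (Even m ∧ Fintype.card F % 4 = 1) →
      Cfsg.splitClassCount (Cfsg.inndiagPOmegaMinus m F a b)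
        (Cfsg.Inn (Cfsg.POmega F (Cfsg.quadFormMinus m F a b))) γ = 2) := by
  have h2 : (2 : F) ≠ 0 := two_ne_zero_of_card_odd hodd
  obtain ⟨E, hE, hE0⟩ := minus_ts_three (F := F) m hm a b
  have hP : ∀ (g : GL ((Fin m ⊕ Fin m) ⊕ Fin 2) F) (c : F), c ≠ 0 →
      (∀ x, Cfsg.quadFormMinus m F a b
        ((g : Matrix ((Fin m ⊕ Fin m) ⊕ Fin 2) ((Fin m ⊕ Fin m) ⊕ Fin 2) F) *ᵥ x) =
        c * Cfsg.quadFormMinus m F a b x) →
      (Cfsg.PreservesSingularClassesMinus m a b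
          (g : Matrix ((Fin m ⊕ Fin m) ⊕ Fin 2) ((Fin m ⊕ Fin m) ⊕ Fin 2) F) ↔
        (g : Matrix ((Fin m ⊕ Fin m) ⊕ Fin 2) ((Fin m ⊕ Fin m) ⊕ Fin 2) F).det = c ^ (m + 1)) := by
    intro g c hc hg
    exact minus_preserves_iff h2 m a b hab _ c hc
      ((Matrix.isUnit_iff_isUnit_det _).mp (Units.isUnit g)) hg
  have hIG : Cfsg.Inn (Cfsg.POmega F (Cfsg.quadFormMinus m F a b)) ≤
      Cfsg.inndiagPOmegaMinus m F a b :=
    inn_le_closure h2 (minusQF m F a b) (minusQF_nondegenerate m F h2 a b hab) _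
      (minusQF_coe m F a b) (m + 1) (minus_card m) (by omega)
      (Cfsg.PreservesSingularClassesMinus m a b) hP (Cfsg.inndiagPOmegaMinus m F a b) rfl
  rw [Cfsg.Agent.Lib.Helper43.FieldAut.splitClassCount_eq _ _ hIG]
  obtain ⟨hγΓ, hγG, -⟩ := hγ
  have hγ2' : γ * γ = 1 := by
    have h3 := pow_orderOf_eq_one γ
    rw [hγ2, pow_two] at h3
    exact h3
  obtain ⟨g', hγeq⟩ := minus_invol_sim hodd m hm a b hab γ hγΓ hγ2'
  have hind := induced_of_simAut (Cfsg.quadFormMinus m F a b) g'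
  rw [← hγeq] at hind
  have hgP : ¬ Cfsg.PreservesSingularClassesMinus m a b
      ((g' : GL ((Fin m ⊕ Fin m) ⊕ Fin 2) F) :
        Matrix ((Fin m ⊕ Fin m) ⊕ Fin 2) ((Fin m ⊕ Fin m) ⊕ Fin 2) F) := by
    intro hPg
    apply hγG
    exact Subgroup.subset_closure ⟨(g' : GL ((Fin m ⊕ Fin m) ⊕ Fin 2) F), g'.2, hPg, hind⟩
  obtain ⟨c1, c2⟩ := minus_inndiag_inn hodd m hm a b hab
  by_cases hcase : Even m ∧ Fintype.card F % 4 = 3
  · obtain ⟨Φ, hΦs, hΦk⟩ := minus_pgo_inn_dihedral hodd m hm a b hab hcase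
    have hneg := (minus_neg_one_iff hodd m a b hab).mpr hcase
    obtain ⟨φ, hφs, hφk⟩ := c1 hcase
    have h4 : (Cfsg.Inn (Cfsg.POmega F (Cfsg.quadFormMinus m F a b))).relIndex
        (Cfsg.inndiagPOmegaMinus m F a b) = 4 := by
      rw [relIndex_of_hom _ _ φ hφs hφk, Nat.card_eq_fintype_card]
      rfl
    have hmain := graph_split_generic hodd (minusQF m F a b)
      (minusQF_nondegenerate m F h2 a b hab) _ (minusQF_coe m F a b) E hE hE0 (m + 1)
      (minus_card m) (by omega) (Cfsg.PreservesSingularClassesMinus m a b) hP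
      (Cfsg.inndiagPOmegaMinus m F a b) rfl hneg Φ hΦs hΦk h4 (comm_mem_of_hom _ _ φ hφk) γ
      (g' : GL ((Fin m ⊕ Fin m) ⊕ Fin 2) F) g'.2 hgP hind hγ2'
    exact ⟨Or.inr hmain, fun _ => hmain⟩
  · obtain ⟨φ, hφs, hφk⟩ := c2 hcase
    have hrel : (Cfsg.Inn (Cfsg.POmega F (Cfsg.quadFormMinus m F a b))).relIndex
        (Cfsg.inndiagPOmegaMinus m F a b) = 2 := by
      rw [relIndex_of_hom _ _ φ hφs hφk, Nat.card_eq_fintype_card]
      rfl
    refine ⟨relIndex_one_or_two _ _ hIG hrel γ, ?_⟩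
    intro hcase2
    have hmodd : Odd m := by
      by_contra hcon
      rw [Nat.not_odd_iff_even] at hcon
      have h4 := Nat.odd_iff.mp hodd
      have h5 : Fintype.card F % 4 = 1 ∨ Fintype.card F % 4 = 3 := by omega
      rcases h5 with h | h
      · exact hcase2 ⟨hcon, h⟩
      · exact hcase ⟨hcon, h⟩
    have hkev : Even (m + 1) := hmodd.add_one
    have hneg : ¬ ∃ g : ↥(Cfsg.isometryGroup F (Cfsg.quadFormMinus m F a b)),
        g ∈ Cfsg.Omega F (Cfsg.quadFormMinus m F a b) ∧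
        ((g : GL ((Fin m ⊕ Fin m) ⊕ Fin 2) F) :
          Matrix ((Fin m ⊕ Fin m) ⊕ Fin 2) ((Fin m ⊕ Fin m) ⊕ Fin 2) F) = -1 :=
      fun hex => hcase ((minus_neg_one_iff hodd m a b hab).mp hex)
    have hcent := centralizer_le_inn hodd (minusQF m F a b)
      (minusQF_nondegenerate m F h2 a b hab) _ (minusQF_coe m F a b) E hE hE0 (m + 1)
      (minus_card m) hkev (Cfsg.PreservesSingularClassesMinus m a b) hP
      (Cfsg.inndiagPOmegaMinus m F a b) rfl hneg γ
      (g' : GL ((Fin m ⊕ Fin m) ⊕ Fin 2) F) g'.2 hgP hind hγ2'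
    rw [sup_eq_left.mpr hcent]
    exact hrel

end minus

end Cfsg.Agent.Lib.Helper8.GraphInvMinus
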