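import Mathlib
import Cfsg.Agent.Lib.Helper8.GraphAutOdd
import Cfsg.Agent.S0304

set_option autoImplicit false

/-!
# Involutory graph automorphisms of `PSL_n(F)`, `n` odd
-/

namespace Cfsg.Agent.Lib.Helper8.GraphAutOddDim

open Matrix Cfsg.Agent.Lib.Helper43.AutPSLn Cfsg.Agent.Lib.Helper43.FieldAut
  Cfsg.Agent.Lib.Helper8.GraphAut Cfsg.Agent.Lib.Helper8.GraphAutOdd

section pgo

variable {ι : Type} [Fintype ι] [DecidableEq ι] {F : Type*} [Field F]

/-- In characteristic two over a finite field, the projective similarity group of a function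
homogeneous of degree two is its isometry group. -/
theorem pgo_equiv_isometry [Finite F] (h2 : (2 : F) = 0) (Q : (ι → F) → F)
    (hQ : ∀ (c : F) (v : ι → F), Q (c • v) = c * c * Q v) (hQ0 : ∃ v, Q v ≠ 0) :
    Nonempty (↥(Cfsg.isometryGroup F Q) ≃* Cfsg.PGO F Q) := by
  have hle : Cfsg.isometryGroup F Q ≤ Cfsg.Geo.quadSimilarityGroup (F := F) Q := fun k hk =>
    ⟨1, fun v => by rw [Units.val_one, one_mul]; exact hk v v⟩
  let φ : ↥(Cfsg.isometryGroup F Q) →* Cfsg.PGO F Q :=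
    (QuotientGroup.mk' _).comp (Subgroup.inclusion hle)
  have hinj : Function.Injective φ := by
    rw [injective_iff_map_eq_one]
    intro k hk
    have h1 : Subgroup.inclusion hle k ∈
        (Cfsg.Geo.scalars ι F).subgroupOf (Cfsg.Geo.quadSimilarityGroup (F := F) Q) :=
      (QuotientGroup.eq_one_iff _).mp hk
    rw [Subgroup.mem_subgroupOf] at h1
    have h3 : (k : GL ι F) ∈ Cfsg.Geo.scalars ι F := h1
    rw [Cfsg.Geo.mem_scalars_iff] at h3
    obtain ⟨d, hd⟩ := h3
    obtain ⟨v, hv⟩ := hQ0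
    have h4 : Q (((k : GL ι F) : Matrix ι ι F) *ᵥ v) = Q v := k.2 v v
    rw [hd, Matrix.smul_mulVec, Matrix.one_mulVec, hQ] at h4
    have h5 : (d : F) * d = 1 * 1 := by
      rw [one_mul]
      have h6 : ((d : F) * d - 1) * Q v = 0 := by linear_combination h4
      rcases mul_eq_zero.mp h6 with h | h
      · exact sub_eq_zero.mp h
      · exact absurd h hv
    have h7 : (d : F) = 1 := SpInvCent.sq_inj_char2 h2 h5
    apply Subtype.ext
    apply Units.ext
    rw [hd, h7, one_smul]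
    rfl
  have hsurj : Function.Surjective φ := by
    intro x
    obtain ⟨⟨k, hk⟩, rfl⟩ := QuotientGroup.mk_surjective x
    obtain ⟨c, hc⟩ := hk
    obtain ⟨d, hd⟩ := SympInv.exists_sqrt_char2 h2 (c : F)
    have hd0 : d ≠ 0 := by
      rintro rfl
      rw [mul_zero] at hd
      exact c.ne_zero hd.symm
    obtain ⟨S, hS⟩ : ∃ S : GL ι F, (S : Matrix ι ι F) = d⁻¹ • (1 : Matrix ι ι F) :=
      ⟨Matrix.GeneralLinearGroup.scalar ι (Units.mk0 d hd0)⁻¹, by
        rw [Matrix.GeneralLinearGroup.coe_scalar, Matrix.scalar_apply,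
          Matrix.smul_one_eq_diagonal, Units.val_inv_eq_inv_val, Units.val_mk0]⟩
    have hSs : S ∈ Cfsg.Geo.scalars ι F := by
      rw [Cfsg.Geo.mem_scalars_iff]
      exact ⟨(Units.mk0 d hd0)⁻¹, by rw [hS, Units.val_inv_eq_inv_val, Units.val_mk0]⟩
    have hk' : k * S ∈ Cfsg.isometryGroup F Q := by
      intro u _
      show Q (((k * S : GL ι F) : Matrix ι ι F) *ᵥ u) = Q u
      rw [Units.val_mul, ← Matrix.mulVec_mulVec, hS, Matrix.smul_mulVec, Matrix.one_mulVec,
        Matrix.mulVec_smul, hQ, hc, ← hd]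
      field_simp
    refine ⟨⟨k * S, hk'⟩, ?_⟩
    show (QuotientGroup.mk (Subgroup.inclusion hle ⟨k * S, hk'⟩) : Cfsg.PGO F Q) =
      QuotientGroup.mk ⟨k, ⟨c, hc⟩⟩
    rw [eq_comm, QuotientGroup.eq, Subgroup.mem_subgroupOf]
    show k⁻¹ * (k * S) ∈ Cfsg.Geo.scalars ι F
    rw [inv_mul_cancel_left]
    exact hSs
  exact ⟨MulEquiv.ofBijective φ ⟨hinj, hsurj⟩⟩

end pgo

section oddmodel

variable {n m : ℕ} {F : Type*} [Field F]

local notation "Mx" => Matrix (Fin n) (Fin n) F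
local notation "PSLn" => Matrix.ProjectiveSpecialLinearGroup (Fin n) F
local notation "GLn" => GL (Fin n) F

theorem neg_J_char2 (h2 : (2 : F) = 0) : -Matrix.J (Fin m) F = Matrix.J (Fin m) F := by
  rw [neg_eq_iff_add_eq_zero, ← two_smul F, h2, zero_smul]

theorem oddModel_transpose (h2 : (2 : F) = 0) :
    (SpInvCent.oddModel m (F := F))ᵀ = SpInvCent.oddModel m := by
  unfold SpInvCent.oddModel
  rw [Matrix.fromBlocks_transpose, Matrix.J_transpose, neg_J_char2 h2]
  simp

theorem det_oddModel_ne : (SpInvCent.oddModel m (F := F)).det ≠ 0 := by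
  unfold SpInvCent.oddModel
  rw [Matrix.det_fromBlocks_zero₂₁, Matrix.det_one, mul_one]
  intro h
  have := Matrix.J_det_mul_J_det (l := Fin m) (R := F)
  rw [h, mul_zero] at this
  exact zero_ne_one this

theorem isoG_oddModel_equiv (h2 : (2 : F) = 0) (e : Fin n ≃ (Fin m ⊕ Fin m) ⊕ Unit) :
    Nonempty (↥(Matrix.symplecticGroup (Fin m) F) ≃*
      ↥(isoG (gI e (SpInvCent.oddModel m (F := F)) det_oddModel_ne))) := by
  have hdet : ∀ P : ↥(Matrix.symplecticGroup (Fin m) F),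
      (Matrix.fromBlocks (P : Matrix (Fin m ⊕ Fin m) (Fin m ⊕ Fin m) F) 0 0
        (1 : Matrix Unit Unit F)).det ≠ 0 := by
    intro P
    rw [Matrix.det_fromBlocks_zero₂₁, Matrix.det_one, mul_one]
    exact (SymplecticGroup.symplectic_det P.2).ne_zero
  have hmem : ∀ P : ↥(Matrix.symplecticGroup (Fin m) F),
      gI e (Matrix.fromBlocks (P : Matrix (Fin m ⊕ Fin m) (Fin m ⊕ Fin m) F) 0 0
        (1 : Matrix Unit Unit F)) (hdet P) ∈
        isoG (gI e (SpInvCent.oddModel m (F := F)) det_oddModel_ne) := by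
    intro P
    rw [mem_isoG, gI_coe, gI_coe, Matrix.transpose_submatrix, ← subI_mul, ← subI_mul]
    congr 1
    unfold SpInvCent.oddModel
    rw [Matrix.fromBlocks_transpose, Matrix.fromBlocks_multiply, Matrix.fromBlocks_multiply]
    simp only [Matrix.mul_zero, Matrix.zero_mul, add_zero, zero_add, Matrix.mul_one,
      Matrix.transpose_zero, Matrix.transpose_one]
    rw [SymplecticGroup.mem_iff.mp P.2]
  let f : ↥(Matrix.symplecticGroup (Fin m) F) →*
      ↥(isoG (gI e (SpInvCent.oddModel m (F := F)) det_oddModel_ne)) :=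
    { toFun := fun P => ⟨_, hmem P⟩
      map_one' := by
        apply Subtype.ext
        apply Units.ext
        show (Matrix.fromBlocks ((1 : ↥(Matrix.symplecticGroup (Fin m) F)) :
          Matrix (Fin m ⊕ Fin m) (Fin m ⊕ Fin m) F) 0 0 (1 : Matrix Unit Unit F)).submatrix e e = 1
        have h1 : ((1 : ↥(Matrix.symplecticGroup (Fin m) F)) :
            Matrix (Fin m ⊕ Fin m) (Fin m ⊕ Fin m) F) = 1 := rfl
        rw [h1, Matrix.fromBlocks_one, Matrix.submatrix_one_equiv]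
      map_mul' := fun P P' => by
        apply Subtype.ext
        apply Units.ext
        show (Matrix.fromBlocks ((P * P' : ↥(Matrix.symplecticGroup (Fin m) F)) :
            Matrix (Fin m ⊕ Fin m) (Fin m ⊕ Fin m) F) 0 0 (1 : Matrix Unit Unit F)).submatrix e e =
          (Matrix.fromBlocks (P : Matrix (Fin m ⊕ Fin m) (Fin m ⊕ Fin m) F) 0 0
            (1 : Matrix Unit Unit F)).submatrix e e *
          (Matrix.fromBlocks (P' : Matrix (Fin m ⊕ Fin m) (Fin m ⊕ Fin m) F) 0 0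
            (1 : Matrix Unit Unit F)).submatrix e e
        have h1 : ((P * P' : ↥(Matrix.symplecticGroup (Fin m) F)) :
            Matrix (Fin m ⊕ Fin m) (Fin m ⊕ Fin m) F) =
            (P : Matrix (Fin m ⊕ Fin m) (Fin m ⊕ Fin m) F) *
              (P' : Matrix (Fin m ⊕ Fin m) (Fin m ⊕ Fin m) F) := rfl
        rw [h1, ← subI_mul, Matrix.fromBlocks_multiply]
        simp }
  have hinj : Function.Injective f := by
    intro P P' hPP
    have h1 : (Matrix.fromBlocks (P : Matrix (Fin m ⊕ Fin m) (Fin m ⊕ Fin m) F) 0 0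
        (1 : Matrix Unit Unit F)).submatrix e e =
        (Matrix.fromBlocks (P' : Matrix (Fin m ⊕ Fin m) (Fin m ⊕ Fin m) F) 0 0
          (1 : Matrix Unit Unit F)).submatrix e e := by
      have h0 : ((f P).1 : Mx) = ((f P').1 : Mx) := by rw [hPP]
      exact h0
    have h3 := subI_inj e _ _ h1
    rw [Matrix.fromBlocks_inj] at h3
    exact Subtype.ext h3.1
  have hsurj : Function.Surjective f := by
    rintro ⟨h, hh⟩
    rw [mem_isoG, gI_coe] at hh
    obtain ⟨c, hc⟩ : ∃ c : Matrix ((Fin m ⊕ Fin m) ⊕ Unit) ((Fin m ⊕ Fin m) ⊕ Unit) F,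
        c = ((h : Mx).submatrix e.symm e.symm)ᵀ := ⟨_, rfl⟩
    have hcc : cᵀ * SpInvCent.oddModel m * c = SpInvCent.oddModel m := by
      have h1 := congrArg (fun M : Mx => M.submatrix e.symm e.symm) hh
      simp only [Matrix.submatrix_submatrix, Equiv.self_comp_symm, Matrix.submatrix_id_id] at h1
      rw [← Matrix.submatrix_mul_equiv _ _ e.symm e.symm e.symm,
        ← Matrix.submatrix_mul_equiv _ _ e.symm e.symm e.symm, Matrix.submatrix_submatrix,
        Equiv.self_comp_symm, Matrix.submatrix_id_id] at h1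
      rw [hc, Matrix.transpose_transpose, Matrix.transpose_submatrix]
      exact h1
    have hcb := hcc
    rw [← Matrix.fromBlocks_toBlocks c] at hcb
    obtain ⟨h11, h12, h21, h22⟩ := SpInvCent.oddModel_blocks m h2 _ _ _ _ hcb
    have hP : c.toBlocks₁₁ᵀ ∈ Matrix.symplecticGroup (Fin m) F := by
      rw [SymplecticGroup.mem_iff, Matrix.transpose_transpose]
      exact h11
    refine ⟨⟨c.toBlocks₁₁ᵀ, hP⟩, ?_⟩
    apply Subtype.ext
    apply Units.ext
    show (Matrix.fromBlocks c.toBlocks₁₁ᵀ 0 0 (1 : Matrix Unit Unit F)).submatrix e e = (h : Mx)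
    have h5 : Matrix.fromBlocks c.toBlocks₁₁ᵀ 0 0 (1 : Matrix Unit Unit F) = cᵀ := by
      conv_rhs => rw [← Matrix.fromBlocks_toBlocks c, h12, h21, h22]
      rw [Matrix.fromBlocks_transpose]
      simp
    rw [h5, hc, Matrix.transpose_transpose, Matrix.submatrix_submatrix, Equiv.symm_comp_self,
      Matrix.submatrix_id_id]
  exact ⟨MulEquiv.ofBijective f ⟨hinj, hsurj⟩⟩

end oddmodel


section main

variable {n : ℕ} {F : Type*} [Field F] [Fintype F]

local notation "Mx" => Matrix (Fin n) (Fin n) F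
local notation "PSLn" => Matrix.ProjectiveSpecialLinearGroup (Fin n) F
local notation "GLn" => GL (Fin n) F

theorem nonalt_of_odd (hn : Odd n) (k : GLn) : ¬ ∀ x, Matrix.toBilin' (k : Mx) x x = 0 := by
  intro ha
  have hN : (Matrix.toBilin' (k : Mx)).Nondegenerate :=
    LinearMap.BilinForm.nondegenerate_toBilin'_iff_det_ne_zero.mpr
      ((Matrix.isUnit_iff_isUnit_det _).mp k.isUnit).ne_zero
  have h1 := SympInv.even_finrank_of_alt_nondeg (Matrix.toBilin' (k : Mx)) ha hN
  rw [Module.finrank_fin_fun] at h1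
  exact (Nat.not_even_iff_odd.mpr hn) h1

theorem quadFormOdd_smul (m : ℕ) (c : F) (v : Unit ⊕ (Fin m ⊕ Fin m) → F) :
    Cfsg.quadFormOdd m F (c • v) = c * c * Cfsg.quadFormOdd m F v := by
  unfold Cfsg.quadFormOdd
  simp only [Pi.smul_apply, smul_eq_mul, mul_add, Finset.mul_sum]
  congr 1
  · ring
  · exact Finset.sum_congr rfl fun i _ => by ring

/-- Involutory graph automorphisms of `PSL_n(F)`, `n = 2m + 1 ≥ 3`, `F` finite: one class
under the inner-diagonal group, with centraliser the projective conformal orthogonal group. -/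
theorem graph_odd_dim {m : ℕ} (hn : 3 ≤ n) (hnm : n = 2 * m + 1) (γ γ' : MulAut PSLn)
    (hγ : Cfsg.IsGraphAutClassPSL γ) (hγ2 : orderOf γ = 2)
    (hγ' : Cfsg.IsGraphAutClassPSL γ') (hγ'2 : orderOf γ' = 2) :
    Nonempty (↥(Cfsg.inndiagPSL n F ⊓ Subgroup.centralizer {γ}) ≃*
      Cfsg.PGO F (Cfsg.quadFormOdd m F)) ∧
      Cfsg.IsConjUnder (Cfsg.inndiagPSL n F) γ γ' := by
  have hn2 : 2 ≤ n := by omega
  have hodd : Odd n := ⟨m, hnm⟩
  have core : ∃ γ₀ : MulAut PSLn,
      Nonempty (↥(Cfsg.inndiagPSL n F ⊓ Subgroup.centralizer {γ₀}) ≃*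
        Cfsg.PGO F (Cfsg.quadFormOdd m F)) ∧
      ∀ δ : MulAut PSLn, Cfsg.IsGraphAutClassPSL δ → orderOf δ = 2 →
        Cfsg.IsConjUnder (Cfsg.inndiagPSL n F) γ₀ δ := by
    by_cases h2 : (2 : F) = 0
    · haveI : CharP F 2 := ringChar.of_eq (CharP.ringChar_of_prime_eq_zero Nat.prime_two h2)
      obtain ⟨e⟩ : Nonempty (Fin n ≃ (Fin m ⊕ Fin m) ⊕ Unit) :=
        ⟨(finCongr (by omega : n = (m + m) + 1)).trans
          (finSumFinEquiv.symm.trans (Equiv.sumCongr finSumFinEquiv.symm finOneEquiv))⟩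
      obtain ⟨g₀, hg₀⟩ : ∃ g₀ : GLn,
          g₀ = gI e (SpInvCent.oddModel m (F := F)) det_oddModel_ne := ⟨_, rfl⟩
      have hs₀ : (g₀ : Mx)ᵀ = (g₀ : Mx) := by
        rw [hg₀, gI_coe, Matrix.transpose_submatrix, oddModel_transpose h2]
      refine ⟨cG g₀ * iG, ?_, ?_⟩
      · obtain ⟨f1⟩ := cent_equiv hn2 h2 g₀
        obtain ⟨f2⟩ := isoG_oddModel_equiv (n := n) h2 e
        rw [← hg₀] at f2
        obtain ⟨f3⟩ := Cfsg.Agent.S0304.result (F := F) m
        obtain ⟨f4⟩ := pgo_equiv_isometry h2 (Cfsg.quadFormOdd m F) (quadFormOdd_smul m)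
          ⟨Pi.single (Sum.inl ()) 1, by unfold Cfsg.quadFormOdd; simp⟩
        exact ⟨f1.trans (f2.symm.trans (f3.symm.trans f4))⟩
      · intro δ hδ hδ2
        obtain ⟨_, g, rfl⟩ := (graph_iff δ).mp hδ
        have hs := (orderOf_eq_two_iff hn h2 g).mp hδ2
        obtain ⟨h, hh⟩ := congr_of_type h2 g₀ g hs₀ hs
          ⟨fun h => absurd h (nonalt_of_odd hodd g₀), fun h => absurd h (nonalt_of_odd hodd g)⟩
        exact (conj_iff hn2 g₀ g).mpr ⟨h, 1, by rw [Units.val_one, one_smul]; exact hh⟩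
    · obtain ⟨e⟩ : Nonempty (Fin n ≃ Unit ⊕ (Fin m ⊕ Fin m)) :=
        ⟨(finCongr (by omega : n = 1 + (m + m))).trans
          (finSumFinEquiv.symm.trans (Equiv.sumCongr finOneEquiv finSumFinEquiv.symm))⟩
      have hd : (gramOdd m : Matrix (Unit ⊕ (Fin m ⊕ Fin m)) (Unit ⊕ (Fin m ⊕ Fin m)) F).det ≠ 0 := by
        rw [det_gramOdd, det_gramPlus]
        exact mul_ne_zero (mul_ne_zero (pow_ne_zero _ (inv_ne_zero h2))
          (pow_ne_zero _ (inv_ne_zero h2))) (pow_ne_zero _ (neg_ne_zero.mpr one_ne_zero))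
      obtain ⟨g₀, hg₀⟩ : ∃ g₀ : GLn, g₀ = gI e (gramOdd m)⁻¹ (det_inv_ne_zero _ hd) := ⟨_, rfl⟩
      have hs₀ : (g₀ : Mx)ᵀ = (g₀ : Mx) := by
        rw [hg₀, gI_coe, Matrix.transpose_submatrix, Matrix.transpose_nonsing_inv, gramOdd_symm]
      refine ⟨cG g₀ * iG, ?_, ?_⟩
      · rw [hg₀]
        exact cent_equiv_projQuot e hn2 (gramOdd m) hd _
          (mem_quadSim_iff h2 _ (gramOdd_symm m) _ (toBilin'_gramOdd m h2))
      · intro δ hδ hδ2
        obtain ⟨_, g, rfl⟩ := (graph_iff δ).mp hδ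
        have hs : (g : Mx)ᵀ = (g : Mx) := by
          rcases (orderOf_eq_two_iff' hn g).mp hδ2 with hs | hs
          · exact hs
          · exfalso
            have h1 := congrArg Matrix.det hs
            rw [Matrix.det_transpose, Matrix.det_neg, Fintype.card_fin, hodd.neg_one_pow] at h1
            have h3 : (2 : F) * (g : Mx).det = 0 := by linear_combination h1
            rcases mul_eq_zero.mp h3 with h | h
            · exact h2 h
            · exact ((Matrix.isUnit_iff_isUnit_det _).mp g.isUnit).ne_zero h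
        exact (conj_iff hn2 g₀ g).mpr (sim_odd h2 hodd g₀ g hs₀ hs)
  obtain ⟨γ₀, ⟨f0⟩, hall⟩ := core
  have h1 := hall γ hγ hγ2
  have h1' := hall γ' hγ' hγ'2
  refine ⟨?_, isConjUnder_trans _ (isConjUnder_symm _ h1) h1'⟩
  obtain ⟨f⟩ := cent_conj_equiv _ _ _ h1
  exact ⟨f.symm.trans f0⟩

end main

end Cfsg.Agent.Lib.Helper8.GraphAutOddDim
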