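import Mathlib
import Cfsg.Agent.Lib.Helper8.GraphAutOddDim
import Cfsg.Agent.Lib.Helper43.FieldAut.Count
import Cfsg.Agent.Lib.Helper43.AutPSp.Auts
import Cfsg.Agent.Lib.Helper40.SympOrder
import Cfsg.Agent.Lib.Helper45.OrthOrder
import Cfsg.Agent.S0288

set_option autoImplicit false

/-!
# Splitting of the classes of involutory graph automorphisms of `PSL_n(F)`

The class of `cG g * iG` under the inner-diagonal group splits into as many classes under the
inner group as the index of `(Fˣ)ⁿ · det (Sim g)` in `Fˣ`, where `Sim g` is the group of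
similitudes `h g hᵀ = c g`.
-/

namespace Cfsg.Agent.Lib.Helper8.GraphSplit

open Matrix Cfsg.Agent.Lib.Helper43.AutPSLn Cfsg.Agent.Lib.Helper43.FieldAut
  Cfsg.Agent.Lib.Helper8.GraphAut

open scoped Pointwise

section general

variable {n : ℕ} {F : Type*} [Field F]

local notation "Mx" => Matrix (Fin n) (Fin n) F
local notation "SLn" => Matrix.SpecialLinearGroup (Fin n) F
local notation "PSLn" => Matrix.ProjectiveSpecialLinearGroup (Fin n) F
local notation "GLn" => GL (Fin n) F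

/-- Generalisation of `comap_sup_eq`: any subgroup of `GL_n` in place of the subfield group. -/
theorem comap_sup_map (hn : 2 ≤ n) (S : Subgroup GLn) :
    (Cfsg.Inn PSLn ⊔ S.map (cG : GLn →* MulAut PSLn)).comap (cG : GLn →* MulAut PSLn) =
      ((powMonoidHom n : Fˣ →* Fˣ).range ⊔
        S.map (Matrix.GeneralLinearGroup.det : GLn →* Fˣ)).comap
        (Matrix.GeneralLinearGroup.det : GLn →* Fˣ) := by
  ext g
  rw [Subgroup.mem_comap, Subgroup.mem_comap]
  constructor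
  · intro hmem
    have hmem' : (cG g : MulAut PSLn) ∈ ((Cfsg.Inn PSLn : Subgroup (MulAut PSLn)) :
        Set (MulAut PSLn)) * ((S.map (cG : GLn →* MulAut PSLn) :
          Subgroup (MulAut PSLn)) : Set (MulAut PSLn)) := by
      rw [← Subgroup.normal_mul]
      exact hmem
    obtain ⟨_, ⟨y, rfl⟩, _, ⟨u, hu, rfl⟩, e⟩ := hmem'
    obtain ⟨s, rfl⟩ := pmn_surjective y
    have e1 : (MulAut.conj (pmn s) : MulAut PSLn) = cG (Matrix.SpecialLinearGroup.toGL s) :=
      (cG_toGL s).symm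
    have e : (MulAut.conj (pmn s) : MulAut PSLn) * cG u = cG g := e
    rw [e1, ← map_mul] at e
    have h1 : (cG (g⁻¹ * (Matrix.SpecialLinearGroup.toGL s * u)) : MulAut PSLn) = 1 := by
      rw [map_mul cG, e, map_inv, inv_mul_cancel]
    obtain ⟨c, hc⟩ := exists_scalar_of_cG_eq_one hn _ h1
    have h2 : Matrix.SpecialLinearGroup.toGL s * u =
        g * Matrix.GeneralLinearGroup.scalar (Fin n) c := by
      rw [← hc, mul_inv_cancel_left]
    have h3 := congrArg (Matrix.GeneralLinearGroup.det : GLn →* Fˣ) h2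
    rw [map_mul, map_mul, Matrix.GeneralLinearGroup.det_scalar, Fintype.card_fin] at h3
    have h4 : Matrix.GeneralLinearGroup.det (Matrix.SpecialLinearGroup.toGL s) = 1 := by
      apply Units.ext
      rw [Matrix.GeneralLinearGroup.val_det_apply]
      exact s.2
    rw [h4, one_mul] at h3
    rw [Subgroup.mem_sup]
    refine ⟨(c⁻¹) ^ n, ⟨c⁻¹, rfl⟩, _, ⟨u, hu, rfl⟩, ?_⟩
    rw [h3, inv_pow, mul_comm, mul_assoc, mul_inv_cancel, mul_one]
  · intro hmem
    rw [Subgroup.mem_sup] at hmem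
    obtain ⟨_, ⟨a, rfl⟩, _, ⟨u, hu, rfl⟩, e⟩ := hmem
    have e' : a ^ n * Matrix.GeneralLinearGroup.det u =
        Matrix.GeneralLinearGroup.det g := e
    set g₁ : GLn := g * (Matrix.GeneralLinearGroup.scalar (Fin n) a)⁻¹ * u⁻¹ with hg₁
    have hdet : Matrix.GeneralLinearGroup.det g₁ = 1 := by
      rw [hg₁, map_mul, map_mul, map_inv, map_inv, Matrix.GeneralLinearGroup.det_scalar,
        Fintype.card_fin, ← e', mul_comm (a ^ n), mul_inv_cancel_right, mul_inv_cancel]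
    have hdet' : (g₁ : Mx).det = 1 := by
      rw [← Matrix.GeneralLinearGroup.val_det_apply, hdet, Units.val_one]
    obtain ⟨s₁, hs₁⟩ : ∃ s₁ : SLn, Matrix.SpecialLinearGroup.toGL s₁ = g₁ :=
      ⟨⟨(g₁ : Mx), hdet'⟩, Units.ext rfl⟩
    have hg : g = g₁ * u * Matrix.GeneralLinearGroup.scalar (Fin n) a := by
      rw [hg₁]
      group
    have hcg : (cG g₁ : MulAut PSLn) = MulAut.conj (pmn s₁) := by
      rw [← hs₁]
      exact cG_toGL s₁
    rw [hg, map_mul, map_mul, cG_scalar, mul_one, hcg]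
    exact Subgroup.mul_mem_sup ⟨_, rfl⟩ ⟨u, hu, rfl⟩

/-- The group of similitudes `{h | h g hᵀ = c g}` of a matrix `g`. -/
def simG (g : GLn) : Subgroup GLn :=
  (Subgroup.centralizer {(cG g * iG : MulAut PSLn)}).comap (cG : GLn →* MulAut PSLn)

theorem mem_simG (hn : 2 ≤ n) (g h : GLn) :
    h ∈ simG g ↔ ∃ c : Fˣ, (h : Mx) * (g : Mx) * (h : Mx)ᵀ = (c : F) • (g : Mx) :=
  mem_cent_iff hn g h

/-- The number of inner classes in the inner-diagonal class of `cG g * iG`. -/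
theorem splitCount_eq (hn : 2 ≤ n) (g : GLn) :
    Cfsg.splitClassCount (Cfsg.inndiagPSL n F) (Cfsg.Inn PSLn) (cG g * iG : MulAut PSLn) =
      ((powMonoidHom n : Fˣ →* Fˣ).range ⊔
        (simG g).map (Matrix.GeneralLinearGroup.det : GLn →* Fˣ)).index := by
  haveI : Nonempty (Fin n) := ⟨⟨0, by omega⟩⟩
  rw [inndiag_eq, splitClassCount_eq _ _ inn_le_range_cG]
  have h1 : (cG : GLn →* MulAut PSLn).range ⊓
      Subgroup.centralizer {(cG g * iG : MulAut PSLn)} = (simG g).map cG := by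
    unfold simG
    rw [Subgroup.map_comap_eq]
  rw [h1, ← Subgroup.index_comap, comap_sup_map hn,
    Subgroup.index_comap_of_surjective _ Matrix.GeneralLinearGroup.det_surjective]

theorem simG_map_det_le (hn : 2 ≤ n) (g g₁ P : GLn)
    (hP : (g : Mx) = (P : Mx) * (g₁ : Mx) * (P : Mx)ᵀ) :
    (simG g).map (Matrix.GeneralLinearGroup.det : GLn →* Fˣ) ≤
      (simG g₁).map (Matrix.GeneralLinearGroup.det : GLn →* Fˣ) := by
  rintro _ ⟨h, hh, rfl⟩
  obtain ⟨c, hc⟩ := (mem_simG hn g h).mp hh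
  have hPi : ((P⁻¹ : GLn) : Mx) * (P : Mx) = 1 := by
    rw [← Units.val_mul, inv_mul_cancel]
    rfl
  have hPi' : (P : Mx)ᵀ * ((P⁻¹ : GLn) : Mx)ᵀ = 1 := by
    rw [← Matrix.transpose_mul, hPi, Matrix.transpose_one]
  refine ⟨P⁻¹ * h * P, (mem_simG hn g₁ _).mpr ⟨c, ?_⟩, ?_⟩
  · rw [Units.val_mul, Units.val_mul, Matrix.transpose_mul, Matrix.transpose_mul]
    calc ((P⁻¹ : GLn) : Mx) * (h : Mx) * (P : Mx) * (g₁ : Mx) *
          ((P : Mx)ᵀ * ((h : Mx)ᵀ * ((P⁻¹ : GLn) : Mx)ᵀ))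
        = ((P⁻¹ : GLn) : Mx) * ((h : Mx) * ((P : Mx) * (g₁ : Mx) * (P : Mx)ᵀ) * (h : Mx)ᵀ) *
            ((P⁻¹ : GLn) : Mx)ᵀ := by simp only [Matrix.mul_assoc]
      _ = ((P⁻¹ : GLn) : Mx) * ((c : F) • ((P : Mx) * (g₁ : Mx) * (P : Mx)ᵀ)) *
            ((P⁻¹ : GLn) : Mx)ᵀ := by rw [← hP, hc]
      _ = (c : F) • ((((P⁻¹ : GLn) : Mx) * (P : Mx)) * (g₁ : Mx) *
            ((P : Mx)ᵀ * ((P⁻¹ : GLn) : Mx)ᵀ)) := by
          simp only [Matrix.mul_smul, Matrix.smul_mul, Matrix.mul_assoc]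
      _ = (c : F) • (g₁ : Mx) := by rw [hPi, hPi', Matrix.one_mul, Matrix.mul_one]
  · rw [map_mul, map_mul, map_inv, mul_comm, mul_inv_cancel_left]

theorem simG_map_det_congr (hn : 2 ≤ n) (g g₁ P : GLn)
    (hP : (g : Mx) = (P : Mx) * (g₁ : Mx) * (P : Mx)ᵀ) :
    (simG g).map (Matrix.GeneralLinearGroup.det : GLn →* Fˣ) =
      (simG g₁).map (Matrix.GeneralLinearGroup.det : GLn →* Fˣ) := by
  refine le_antisymm (simG_map_det_le hn g g₁ P hP) (simG_map_det_le hn g₁ g P⁻¹ ?_)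
  have hPi : ((P⁻¹ : GLn) : Mx) * (P : Mx) = 1 := by
    rw [← Units.val_mul, inv_mul_cancel]
    rfl
  have hPi' : (P : Mx)ᵀ * ((P⁻¹ : GLn) : Mx)ᵀ = 1 := by
    rw [← Matrix.transpose_mul, hPi, Matrix.transpose_one]
  rw [hP]
  calc (g₁ : Mx) = (((P⁻¹ : GLn) : Mx) * (P : Mx)) * (g₁ : Mx) *
        ((P : Mx)ᵀ * ((P⁻¹ : GLn) : Mx)ᵀ) := by rw [hPi, hPi', Matrix.one_mul, Matrix.mul_one]
    _ = _ := by simp only [Matrix.mul_assoc]

/-- `det(h)² = cⁿ` for a similitude. -/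
theorem det_sq_of_sim (g h : GLn) (c : Fˣ)
    (hc : (h : Mx) * (g : Mx) * (h : Mx)ᵀ = (c : F) • (g : Mx)) :
    (Matrix.GeneralLinearGroup.det h) ^ 2 = c ^ n := by
  have hg : (g : Mx).det ≠ 0 := ((Matrix.isUnit_iff_isUnit_det _).mp g.isUnit).ne_zero
  have h1 := congrArg Matrix.det hc
  rw [Matrix.det_mul, Matrix.det_mul, Matrix.det_transpose, Matrix.det_smul,
    Fintype.card_fin] at h1
  apply Units.ext
  rw [Units.val_pow_eq_pow_val, Units.val_pow_eq_pow_val,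
    Matrix.GeneralLinearGroup.val_det_apply]
  apply mul_right_cancel₀ hg
  linear_combination h1

/-- Odd dimension: the determinants of similitudes are `n`-th powers. -/
theorem det_mem_odd (hn : 2 ≤ n) (hodd : Odd n) (g : GLn) :
    (simG g).map (Matrix.GeneralLinearGroup.det : GLn →* Fˣ) ≤
      (powMonoidHom n : Fˣ →* Fˣ).range := by
  rintro _ ⟨h, hh, rfl⟩
  obtain ⟨c, hc⟩ := (mem_simG hn g h).mp hh
  have h1 := det_sq_of_sim g h c hc
  obtain ⟨k, hk⟩ := hodd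
  refine ⟨Matrix.GeneralLinearGroup.det h * (c ^ k)⁻¹, ?_⟩
  show (Matrix.GeneralLinearGroup.det h * (c ^ k)⁻¹) ^ n = _
  have h2 : (Matrix.GeneralLinearGroup.det h * (c ^ k)⁻¹) ^ 2 = c := by
    calc (Matrix.GeneralLinearGroup.det h * (c ^ k)⁻¹) ^ 2
        = Matrix.GeneralLinearGroup.det h ^ 2 * ((c ^ k) ^ 2)⁻¹ := by rw [mul_pow, inv_pow]
      _ = c ^ (2 * k + 1) * (c ^ (2 * k))⁻¹ := by rw [h1, hk, ← pow_mul, mul_comm k 2]
      _ = c := by rw [pow_succ, mul_comm, ← mul_assoc, inv_mul_cancel, one_mul]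
  obtain ⟨D, hD⟩ : ∃ D : Fˣ, D = Matrix.GeneralLinearGroup.det h := ⟨_, rfl⟩
  rw [← hD] at h2 ⊢
  rw [hk, pow_succ, pow_mul, h2, mul_comm (c ^ k), mul_assoc, inv_mul_cancel, mul_one]

/-- Characteristic two: the determinants of similitudes are `n`-th powers. -/
theorem det_mem_char2 [Finite F] (hn : 2 ≤ n) (h2 : (2 : F) = 0) (g : GLn) :
    (simG g).map (Matrix.GeneralLinearGroup.det : GLn →* Fˣ) ≤
      (powMonoidHom n : Fˣ →* Fˣ).range := by
  rintro _ ⟨h, hh, rfl⟩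
  obtain ⟨c, hc⟩ := (mem_simG hn g h).mp hh
  have h1 := det_sq_of_sim g h c hc
  obtain ⟨d, hd⟩ := SympInv.exists_sqrt_char2 h2 (c : F)
  have hd0 : d ≠ 0 := by
    rintro rfl
    rw [mul_zero] at hd
    exact c.ne_zero hd.symm
  refine ⟨Units.mk0 d hd0, ?_⟩
  apply Units.ext
  show ((Units.mk0 d hd0 ^ n : Fˣ) : F) = _
  rw [Units.val_pow_eq_pow_val, Units.val_mk0, Matrix.GeneralLinearGroup.val_det_apply]
  have h3 : (h : Mx).det ^ 2 = (d ^ n) ^ 2 := by
    have h4 := congrArg (fun u : Fˣ => (u : F)) h1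
    simp only [Units.val_pow_eq_pow_val, Matrix.GeneralLinearGroup.val_det_apply] at h4
    rw [h4, ← hd] 
    ring
  have h5 : ((h : Mx).det - d ^ n) ^ 2 = 0 := by
    linear_combination h3 + ((d ^ n) ^ 2 - (h : Mx).det * d ^ n) * h2
  have h6 := pow_eq_zero_iff (two_ne_zero) |>.mp h5
  exact (sub_eq_zero.mp h6).symm

end general

section symplectic

variable {F : Type*} [Field F] {m : ℕ}

local notation "Kx" => Matrix (Fin m ⊕ Fin m) (Fin m ⊕ Fin m) F

/-- The standard similitude of multiplier `c`. -/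
def dJ (m : ℕ) (c : F) : Matrix (Fin m ⊕ Fin m) (Fin m ⊕ Fin m) F :=
  Matrix.fromBlocks (c • (1 : Matrix (Fin m) (Fin m) F)) 0 0 1

theorem dJ_sim (c : F) :
    dJ m c * Matrix.J (Fin m) F * (dJ m c)ᵀ = c • Matrix.J (Fin m) F := by
  rw [dJ, Matrix.J, Matrix.fromBlocks_transpose, Matrix.fromBlocks_multiply,
    Matrix.fromBlocks_multiply, Matrix.fromBlocks_smul]
  simp

theorem det_dJ (c : F) : (dJ m c).det = c ^ m := by
  rw [dJ, Matrix.det_fromBlocks_zero₂₁, Matrix.det_smul, Matrix.det_one,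
    Fintype.card_fin, mul_one, mul_one]

/-- The Pfaffian identity for similitudes of the standard alternating form. -/
theorem J_sim_det (K : Kx) (c : F) (hc : c ≠ 0)
    (h : K * Matrix.J (Fin m) F * Kᵀ = c • Matrix.J (Fin m) F) : K.det = c ^ m := by
  have hmem : dJ m c⁻¹ * K ∈ Matrix.symplecticGroup (Fin m) F := by
    rw [SymplecticGroup.mem_iff, Matrix.transpose_mul]
    calc dJ m c⁻¹ * K * Matrix.J (Fin m) F * (Kᵀ * (dJ m c⁻¹)ᵀ)
        = dJ m c⁻¹ * (K * Matrix.J (Fin m) F * Kᵀ) * (dJ m c⁻¹)ᵀ := by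
          simp only [Matrix.mul_assoc]
      _ = c • (dJ m c⁻¹ * Matrix.J (Fin m) F * (dJ m c⁻¹)ᵀ) := by
          rw [h]
          simp only [Matrix.mul_smul, Matrix.smul_mul]
      _ = Matrix.J (Fin m) F := by rw [dJ_sim, smul_smul, mul_inv_cancel₀ hc, one_smul]
  have hdet := SymplecticGroup.det_eq_one hmem
  rw [Matrix.det_mul, det_dJ] at hdet
  calc K.det = c ^ m * (c⁻¹ ^ m * K.det) := by
        rw [← mul_assoc, ← mul_pow, mul_inv_cancel₀ hc, one_pow, one_mul]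
    _ = c ^ m := by rw [hdet, mul_one]

theorem J_det_ne (m : ℕ) : (Matrix.J (Fin m) F).det ≠ 0 := by
  intro h
  have := Matrix.J_det_mul_J_det (l := Fin m) (R := F)
  rw [h, mul_zero] at this
  exact zero_ne_one this

end symplectic

section skew

variable {n : ℕ} {F : Type*} [Field F]

local notation "Mx" => Matrix (Fin n) (Fin n) F
local notation "GLn" => GL (Fin n) F

/-- Skew case: the determinants of the similitudes are the `m`-th powers, `n = 2m`. -/
theorem det_skew (h2 : (2 : F) ≠ 0) {m : ℕ} (hnm : n = 2 * m) (hn : 2 ≤ n) (g : GLn)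
    (hg : (g : Mx)ᵀ = -(g : Mx)) :
    (simG g).map (Matrix.GeneralLinearGroup.det : GLn →* Fˣ) =
      (powMonoidHom m : Fˣ →* Fˣ).range := by
  obtain ⟨e⟩ : Nonempty (Fin n ≃ Fin m ⊕ Fin m) :=
    ⟨(finCongr (by omega : n = m + m)).trans finSumFinEquiv.symm⟩
  obtain ⟨g₁, hg₁⟩ : ∃ g₁ : GLn, g₁ = GraphAutOdd.gI e (Matrix.J (Fin m) F) (J_det_ne m) :=
    ⟨_, rfl⟩
  have hc₁ : (g₁ : Mx) = (Matrix.J (Fin m) F).submatrix e e := by
    rw [hg₁, GraphAutOdd.gI_coe]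
  have hs₁ : (g₁ : Mx)ᵀ = -(g₁ : Mx) := by
    rw [hc₁, Matrix.transpose_submatrix, Matrix.J_transpose]
    rfl
  obtain ⟨P, hP⟩ := GraphAutOdd.congr_of_alt g₁ g (GraphAutOdd.alt_of_skew h2 _ hs₁)
    (GraphAutOdd.alt_of_skew h2 _ hg)
  rw [simG_map_det_congr hn g g₁ P hP]
  ext x
  constructor
  · rintro ⟨h, hh, rfl⟩
    obtain ⟨c, hc⟩ := (mem_simG hn g₁ h).mp hh
    obtain ⟨K', hK'⟩ : ∃ K' : Matrix (Fin m ⊕ Fin m) (Fin m ⊕ Fin m) F,
        K' = (h : Mx).submatrix e.symm e.symm := ⟨_, rfl⟩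
    have hh' : (h : Mx) = K'.submatrix e e := by
      rw [hK']
      simp
    rw [hh', hc₁, Matrix.transpose_submatrix, ← GraphAutOdd.subI_mul, ← GraphAutOdd.subI_mul,
      ← GraphAutOdd.subI_smul] at hc
    have hK := GraphAutOdd.subI_inj e _ _ hc
    refine ⟨c, ?_⟩
    apply Units.ext
    show ((c ^ m : Fˣ) : F) = ((Matrix.GeneralLinearGroup.det h : Fˣ) : F)
    rw [Units.val_pow_eq_pow_val, Matrix.GeneralLinearGroup.val_det_apply, hh',
      Matrix.det_submatrix_equiv_self, J_sim_det K' c c.ne_zero hK]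
  · rintro ⟨c, rfl⟩
    have hd : (dJ m (c : F)).det ≠ 0 := by
      rw [det_dJ]
      exact pow_ne_zero _ c.ne_zero
    refine ⟨GraphAutOdd.gI e (dJ m (c : F)) hd, (mem_simG hn g₁ _).mpr ⟨c, ?_⟩, ?_⟩
    · rw [hc₁, GraphAutOdd.gI_coe, Matrix.transpose_submatrix, ← GraphAutOdd.subI_mul,
        ← GraphAutOdd.subI_mul, dJ_sim, GraphAutOdd.subI_smul]
    · apply Units.ext
      show ((Matrix.GeneralLinearGroup.det (GraphAutOdd.gI e (dJ m (c : F)) hd) : Fˣ) : F) =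
        ((c ^ m : Fˣ) : F)
      rw [Matrix.GeneralLinearGroup.val_det_apply, GraphAutOdd.gI_coe,
        Matrix.det_submatrix_equiv_self, det_dJ, Units.val_pow_eq_pow_val]

end skew

section symm

variable {n : ℕ} {F : Type*} [Field F]

local notation "Mx" => Matrix (Fin n) (Fin n) F
local notation "GLn" => GL (Fin n) F

/-- `det h = ± c^m` for a similitude in dimension `n = 2m`. -/
theorem det_pm_of_sim {m : ℕ} (hnm : n = 2 * m) (g h : GLn) (c : Fˣ)
    (hc : (h : Mx) * (g : Mx) * (h : Mx)ᵀ = (c : F) • (g : Mx)) :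
    Matrix.GeneralLinearGroup.det h = c ^ m ∨ Matrix.GeneralLinearGroup.det h = -c ^ m := by
  have h1 := det_sq_of_sim g h c hc
  obtain ⟨D, hD⟩ : ∃ D : Fˣ, D = Matrix.GeneralLinearGroup.det h := ⟨_, rfl⟩
  rw [← hD] at h1 ⊢
  have hp : c ^ n = c ^ m * c ^ m := by rw [hnm, two_mul, pow_add]
  rw [hp] at h1
  have h3 : ((D : F) - (c : F) ^ m) * ((D : F) + (c : F) ^ m) = 0 := by
    have h4 := congrArg (fun u : Fˣ => (u : F)) h1
    simp only [Units.val_pow_eq_pow_val, Units.val_mul] at h4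
    linear_combination h4
  rcases mul_eq_zero.mp h3 with h | h
  · left
    apply Units.ext
    rw [Units.val_pow_eq_pow_val]
    exact sub_eq_zero.mp h
  · right
    apply Units.ext
    rw [Units.val_neg, Units.val_pow_eq_pow_val]
    exact eq_neg_of_add_eq_zero_left h

/-- A symmetric invertible matrix has an isometry of determinant `-1`. -/
theorem neg_one_mem_symm [Fintype F] (h2 : (2 : F) ≠ 0) (hn : 2 ≤ n) (g : GLn)
    (hg : (g : Mx)ᵀ = (g : Mx)) :
    (-1 : Fˣ) ∈ (simG g).map (Matrix.GeneralLinearGroup.det : GLn →* Fˣ) := by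
  have hdet : (g : Mx).det ≠ 0 := ((Matrix.isUnit_iff_isUnit_det _).mp g.isUnit).ne_zero
  obtain ⟨i₀, hi₀⟩ : ∃ i₀ : Fin n, i₀ = ⟨0, by omega⟩ := ⟨_, rfl⟩
  obtain ⟨d, hd⟩ : ∃ d : Fin n → F, d = fun i => if i = i₀ then (g : Mx).det else 1 := ⟨_, rfl⟩
  have hdd : (Matrix.diagonal d).det = (g : Mx).det := by
    rw [Matrix.det_diagonal, hd]
    simp [Finset.prod_ite_eq']
  obtain ⟨g', hg'⟩ : ∃ g' : GLn, (g' : Mx) = Matrix.diagonal d :=
    ⟨Matrix.GeneralLinearGroup.mkOfDetNeZero (Matrix.diagonal d) (by rw [hdd]; exact hdet), rfl⟩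
  have hs' : (g' : Mx)ᵀ = (g' : Mx) := by rw [hg', Matrix.diagonal_transpose]
  obtain ⟨P, hP⟩ := (GraphAutOdd.congr_iff_isSquare h2 g' g hs' hg).mpr
    ⟨(g : Mx).det, by rw [hg', hdd]⟩
  rw [simG_map_det_congr hn g g' P hP]
  obtain ⟨e, he⟩ : ∃ e : Fin n → F, e = fun i => if i = i₀ then -1 else 1 := ⟨_, rfl⟩
  have hed : (Matrix.diagonal e).det = -1 := by
    rw [Matrix.det_diagonal, he]
    simp [Finset.prod_ite_eq']
  obtain ⟨h, hh⟩ : ∃ h : GLn, (h : Mx) = Matrix.diagonal e :=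
    ⟨Matrix.GeneralLinearGroup.mkOfDetNeZero (Matrix.diagonal e) (by rw [hed]; simp), rfl⟩
  refine ⟨h, (mem_simG hn g' _).mpr ⟨1, ?_⟩, ?_⟩
  · rw [hh, hg', Matrix.diagonal_transpose, Matrix.diagonal_mul_diagonal,
      Matrix.diagonal_mul_diagonal, Units.val_one, one_smul]
    congr 1
    ext i
    by_cases hi : i = i₀ <;> simp [he, hi]
  · apply Units.ext
    show ((Matrix.GeneralLinearGroup.det h : Fˣ) : F) = ((-1 : Fˣ) : F)
    rw [Matrix.GeneralLinearGroup.val_det_apply, hh, hed, Units.val_neg, Units.val_one]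

/-- Symmetric case: the determinants of the similitudes are `± m`-th powers, `n = 2m`. -/
theorem det_symm [Fintype F] (h2 : (2 : F) ≠ 0) {m : ℕ} (hnm : n = 2 * m) (hn : 2 ≤ n) (g : GLn)
    (hg : (g : Mx)ᵀ = (g : Mx)) :
    (simG g).map (Matrix.GeneralLinearGroup.det : GLn →* Fˣ) =
      Subgroup.zpowers (-1 : Fˣ) ⊔ (powMonoidHom m : Fˣ →* Fˣ).range := by
  have hneg := neg_one_mem_symm h2 hn g hg
  apply le_antisymm
  · rintro _ ⟨h, hh, rfl⟩
    obtain ⟨c, hc⟩ := (mem_simG hn g h).mp hh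
    rcases det_pm_of_sim hnm g h c hc with h1 | h1
    · rw [h1]
      exact Subgroup.mem_sup_right ⟨c, rfl⟩
    · have h5 : -c ^ m = (-1) * c ^ m := (neg_one_mul _).symm
      rw [h1, h5]
      have hc' : c ^ m ∈ (powMonoidHom m : Fˣ →* Fˣ).range := ⟨c, rfl⟩
      exact Subgroup.mul_mem_sup (Subgroup.mem_zpowers _) hc'
  · rw [sup_le_iff]
    refine ⟨(Subgroup.zpowers_le).mpr hneg, ?_⟩
    rintro _ ⟨c, rfl⟩
    obtain ⟨g', hg'⟩ : ∃ g' : GLn, g' = Matrix.GeneralLinearGroup.scalar (Fin n) c * g :=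
      ⟨_, rfl⟩
    have hg'c : (g' : Mx) = (c : F) • (g : Mx) := by rw [hg', GraphAut.scalar_mul_coe]
    have hs' : (g' : Mx)ᵀ = (g' : Mx) := by rw [hg'c, Matrix.transpose_smul, hg]
    have hp : (c : F) ^ n = (c : F) ^ m * (c : F) ^ m := by rw [hnm, two_mul, pow_add]
    obtain ⟨h, hh⟩ := (GraphAutOdd.congr_iff_isSquare h2 g g' hg hs').mpr
      ⟨(c : F) ^ m * (g : Mx).det, by
        rw [hg'c, Matrix.det_smul, Fintype.card_fin, hp]
        ring⟩
    have hsim' : (h : Mx) * (g : Mx) * (h : Mx)ᵀ = (c : F) • (g : Mx) := by rw [← hh, hg'c]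
    have hsim : h ∈ simG g := (mem_simG hn g h).mpr ⟨c, hsim'⟩
    rcases det_pm_of_sim hnm g h c hsim' with h1 | h1
    · show c ^ m ∈ _
      rw [← h1]
      exact ⟨h, hsim, rfl⟩
    · have h5 : c ^ m = (-1) * Matrix.GeneralLinearGroup.det h := by
        rw [h1]
        simp
      show c ^ m ∈ _
      rw [h5]
      exact Subgroup.mul_mem _ hneg (Subgroup.mem_map_of_mem _ hsim)

end symm

section index

variable {F : Type*} [Field F] [Fintype F]

theorem index_pow (a : ℕ) :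
    (powMonoidHom a : Fˣ →* Fˣ).range.index = Nat.gcd (Fintype.card F - 1) a := by
  rw [IsCyclic.index_powMonoidHom_range, Nat.card_units, Nat.card_eq_fintype_card]

theorem zpowers_neg_one (h2 : (2 : F) ≠ 0) :
    Subgroup.zpowers (-1 : Fˣ) = (powMonoidHom (Fintype.card F / 2) : Fˣ →* Fˣ).range := by
  have hch : ringChar F ≠ 2 := GraphAutOdd.ringChar_ne_two h2
  apply le_antisymm
  · rw [Subgroup.zpowers_le]
    obtain ⟨ε, hε⟩ := FiniteField.exists_nonsquare hch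
    have hε0 : ε ≠ 0 := by
      rintro rfl
      exact hε ⟨0, by simp⟩
    refine ⟨Units.mk0 ε hε0, ?_⟩
    apply Units.ext
    show ((Units.mk0 ε hε0 ^ (Fintype.card F / 2) : Fˣ) : F) = ((-1 : Fˣ) : F)
    rw [Units.val_pow_eq_pow_val, Units.val_mk0, Units.val_neg, Units.val_one]
    rcases FiniteField.pow_dichotomy hch hε0 with h | h
    · exact absurd ((FiniteField.isSquare_iff hch hε0).mpr h) hε
    · exact h
  · rintro _ ⟨x, rfl⟩
    show x ^ (Fintype.card F / 2) ∈ _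
    rcases FiniteField.pow_dichotomy hch x.ne_zero with h | h
    · have h1 : x ^ (Fintype.card F / 2) = 1 :=
        Units.ext (by rw [Units.val_pow_eq_pow_val, h, Units.val_one])
      rw [h1]
      exact Subgroup.one_mem _
    · have h1 : x ^ (Fintype.card F / 2) = -1 :=
        Units.ext (by rw [Units.val_pow_eq_pow_val, h, Units.val_neg, Units.val_one])
      rw [h1]
      exact Subgroup.mem_zpowers _

theorem pow_range_le_of_dvd {G : Type*} [CommGroup G] {a b : ℕ} (h : a ∣ b) :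
    (powMonoidHom b : G →* G).range ≤ (powMonoidHom a : G →* G).range := by
  rintro _ ⟨x, rfl⟩
  obtain ⟨k, rfl⟩ := h
  exact ⟨x ^ k, by show (x ^ k) ^ a = x ^ (a * k); rw [← pow_mul, mul_comm]⟩

theorem index_symm (h2 : (2 : F) ≠ 0) (m : ℕ) :
    ((powMonoidHom (2 * m) : Fˣ →* Fˣ).range ⊔
      (Subgroup.zpowers (-1 : Fˣ) ⊔ (powMonoidHom m : Fˣ →* Fˣ).range)).index =
      Nat.gcd (2 * m) (Fintype.card F - 1) / 2 := by
  have hle : (powMonoidHom (2 * m) : Fˣ →* Fˣ).range ≤ (powMonoidHom m : Fˣ →* Fˣ).range :=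
    pow_range_le_of_dvd (dvd_mul_left m 2)
  rw [sup_eq_right.mpr (le_trans hle le_sup_right), zpowers_neg_one h2, pow_range_sup, index_pow]
  have hodd : Fintype.card F % 2 = 1 :=
    FiniteField.odd_card_of_char_ne_two (GraphAutOdd.ringChar_ne_two h2)
  obtain ⟨k, hk⟩ : ∃ k, k = Fintype.card F / 2 := ⟨_, rfl⟩
  have e1 : Fintype.card F / 2 = k := by omega
  have e2 : Fintype.card F - 1 = 2 * k := by omega
  rw [e1, e2, Nat.gcd_mul_left, Nat.mul_div_cancel_left _ (by norm_num : 0 < 2), Nat.gcd_comm k m]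
  exact Nat.gcd_eq_right (dvd_trans (Nat.gcd_dvd_right m k) (dvd_mul_left k 2))

theorem index_skew (m : ℕ) :
    ((powMonoidHom (2 * m) : Fˣ →* Fˣ).range ⊔ (powMonoidHom m : Fˣ →* Fˣ).range).index =
      Nat.gcd m (Fintype.card F - 1) := by
  rw [sup_eq_right.mpr (pow_range_le_of_dvd (dvd_mul_left m 2)), index_pow, Nat.gcd_comm]

theorem index_le (n : ℕ) (D : Subgroup Fˣ) (hD : D ≤ (powMonoidHom n : Fˣ →* Fˣ).range) :
    ((powMonoidHom n : Fˣ →* Fˣ).range ⊔ D).index = Nat.gcd n (Fintype.card F - 1) := by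
  rw [sup_eq_left.mpr hD, index_pow, Nat.gcd_comm]

end index

section types

/-- If every `p`-element of `H` lies in `K`, the `p`-part of `|H|` divides `|K|`. -/
theorem pow_dvd_of_pelems {X : Type*} [Group X] (H K : Subgroup X) [Finite H] (p : ℕ)
    [Fact p.Prime] (hHK : ∀ x ∈ H, (∃ j : ℕ, x ^ (p ^ j) = 1) → x ∈ K) (k : ℕ)
    (hk : p ^ k ∣ Nat.card H) : p ^ k ∣ Nat.card K := by
  obtain ⟨P⟩ : Nonempty (Sylow p H) := inferInstance
  have h1 : Nat.card P = p ^ (Nat.card H).factorization p := Sylow.card_eq_multiplicity P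
  have h2 : k ≤ (Nat.card H).factorization p :=
    (Nat.Prime.pow_dvd_iff_le_factorization Fact.out Nat.card_pos.ne').mp hk
  have h3 : (P : Subgroup H).map H.subtype ≤ K := by
    rintro _ ⟨x, hx, rfl⟩
    obtain ⟨j, hj⟩ := P.isPGroup' ⟨x, hx⟩
    refine hHK _ x.2 ⟨j, ?_⟩
    have h4 := congrArg (fun y : (P : Subgroup H) => ((y : H) : X)) hj
    simpa using h4
  have h4 : Nat.card ((P : Subgroup H).map H.subtype) = Nat.card P :=
    Nat.card_congr
      ((Subgroup.equivMapOfInjective _ _ H.subtype_injective).symm.toEquiv)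
  calc p ^ k ∣ p ^ (Nat.card H).factorization p := pow_dvd_pow p h2
    _ = Nat.card ((P : Subgroup H).map H.subtype) := by rw [h4, h1]
    _ ∣ Nat.card K := Subgroup.card_dvd_of_le h3

variable {ι : Type} [Fintype ι] [DecidableEq ι] {F : Type*} [Field F]

/-- A similarity of `p`-power order, `p` the characteristic, is an isometry. -/
theorem quadSim_pelem (p : ℕ) [Fact p.Prime] [CharP F p] (Q : (ι → F) → F) (h : GL ι F)
    (hh : h ∈ Cfsg.Geo.quadSimilarityGroup (F := F) Q) (j : ℕ) (hj : h ^ (p ^ j) = 1) :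
    h ∈ Cfsg.isometryGroup F Q := by
  obtain ⟨c, hc⟩ := hh
  have hpow : ∀ (i : ℕ) (v : ι → F),
      Q (((h ^ i : GL ι F) : Matrix ι ι F) *ᵥ v) = (c : F) ^ i * Q v := by
    intro i
    induction i with
    | zero => intro v; simp
    | succ i ih =>
      intro v
      rw [pow_succ', Units.val_mul, ← Matrix.mulVec_mulVec, hc, ih, pow_succ']
      ring
  by_cases hQ : ∀ v, Q v = 0
  · intro u v
    show Q (((h : GL ι F) : Matrix ι ι F) *ᵥ u) = Q u
    rw [hQ, hQ]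
  · push Not at hQ
    obtain ⟨v₀, hv₀⟩ := hQ
    have h1 := hpow (p ^ j) v₀
    rw [hj, Units.val_one, Matrix.one_mulVec] at h1
    have h2 : (c : F) ^ (p ^ j) = 1 := by
      have h3 : ((c : F) ^ (p ^ j) - 1) * Q v₀ = 0 := by linear_combination -h1
      rcases mul_eq_zero.mp h3 with h | h
      · exact sub_eq_zero.mp h
      · exact absurd h hv₀
    have h3 : (c : F) = 1 := by
      have h4 : ((c : F) - 1) ^ (p ^ j) = 0 := by
        rw [sub_pow_char_pow, one_pow, h2, sub_self]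
      exact sub_eq_zero.mp (pow_eq_zero_iff (pow_ne_zero _ (Fact.out : p.Prime).ne_zero) |>.mp h4)
    intro u v
    show Q (((h : GL ι F) : Matrix ι ι F) *ᵥ u) = Q u
    rw [hc, h3, one_mul]

/-- The order of a subgroup of `GL` is the order of its projective quotient times a divisor of
`q - 1`. -/
theorem card_projQuot [Fintype F] (H : Subgroup (GL ι F)) :
    ∃ t, t ∣ Fintype.card F - 1 ∧ Nat.card H = Nat.card (Cfsg.projQuot H) * t := by
  refine ⟨Nat.card ((Cfsg.Geo.scalars ι F).subgroupOf H), ?_,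
    Subgroup.card_eq_card_quotient_mul_card_subgroup _⟩
  have h1 : Nat.card ((Cfsg.Geo.scalars ι F).subgroupOf H) ∣ Nat.card (Cfsg.Geo.scalars ι F) := by
    let f : ↥((Cfsg.Geo.scalars ι F).subgroupOf H) →* ↥(Cfsg.Geo.scalars ι F) :=
      (H.subtype.comp ((Cfsg.Geo.scalars ι F).subgroupOf H).subtype).codRestrict _
        (fun x => x.2)
    refine Subgroup.card_dvd_of_injective f ?_
    intro x y hxy
    have h2 := congrArg (fun z : ↥(Cfsg.Geo.scalars ι F) => (z : GL ι F)) hxy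
    exact Subtype.ext (Subtype.ext h2)
  have h2 : Nat.card (Cfsg.Geo.scalars ι F) ∣ Fintype.card F - 1 := by
    have h3 : Nat.card (Cfsg.Geo.scalars ι F) ∣ Nat.card Fˣ := Subgroup.card_range_dvd _
    rw [Nat.card_units, Nat.card_eq_fintype_card (α := F)] at h3
    exact h3
  exact dvd_trans h1 h2

theorem coprime_pow_sub_one (q j : ℕ) (hj : 1 ≤ j) (hq : 1 ≤ q) : Nat.Coprime q (q ^ j - 1) := by
  have h1 : q ∣ q ^ j := dvd_pow_self q (by omega)
  have h2 : 1 ≤ q ^ j := Nat.one_le_pow _ _ hq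
  obtain ⟨a, ha⟩ : ∃ a, q ^ j = a + 1 := ⟨q ^ j - 1, by omega⟩
  have h3 : Nat.Coprime (q ^ j) (q ^ j - 1) := by
    rw [ha, Nat.add_sub_cancel]
    exact (Nat.coprime_self_add_right.mpr (Nat.coprime_one_right a)).symm
  exact Nat.Coprime.coprime_dvd_left h1 h3

theorem coprime_pow_add_one (q j : ℕ) (hj : 1 ≤ j) : Nat.Coprime q (q ^ j + 1) := by
  have h1 : q ∣ q ^ j := dvd_pow_self q (by omega)
  have h3 : Nat.Coprime (q ^ j) (q ^ j + 1) :=
    Nat.coprime_self_add_right.mpr (Nat.coprime_one_right _)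
  exact Nat.Coprime.coprime_dvd_left h1 h3

/-- Odd `q`: a projective conformal orthogonal group whose isometry group has order
`2 q^(m(m-1)) N` with `N` prime to `q` is not isomorphic to `PGSp_{2m}(q)`. -/
theorem not_pgo_equiv_pgsp [Fintype F] (hodd : Odd (Fintype.card F)) {m : ℕ} (hm : 1 ≤ m)
    (Q : (ι → F) → F) (N : ℕ)
    (hN : Nat.card (Cfsg.isometryGroup F Q) = 2 * Fintype.card F ^ (m * (m - 1)) * N)
    (hcop : Nat.Coprime (Fintype.card F) N) :
    ¬ Nonempty (Cfsg.PGO F Q ≃* Cfsg.PGSp m F) := by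
  rintro ⟨e⟩
  obtain ⟨p, hp⟩ := CharP.exists F
  haveI : Fact p.Prime := ⟨CharP.char_is_prime F p⟩
  obtain ⟨k, -, hk⟩ := FiniteField.card F p
  have hq1 : 1 < Fintype.card F := Fintype.one_lt_card
  obtain ⟨t, ht, hcard⟩ := card_projQuot (Cfsg.GSp m F)
  have hSp : Fintype.card F ^ (m ^ 2) ∣ Nat.card (Cfsg.GSp m F) := by
    have h1 := Subgroup.card_dvd_of_injective
      (Cfsg.Agent.Lib.Helper43.AutPSp.toGSp (m := m) (F := F)) (by
        intro x y hxy
        have h2 := congrArg (fun z : ↥(Cfsg.GSp m F) =>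
          ((z : GL (Fin m ⊕ Fin m) F) : Matrix (Fin m ⊕ Fin m) (Fin m ⊕ Fin m) F)) hxy
        exact Subtype.ext h2)
    rw [Cfsg.Agent.Lib.Helper40.card_symplecticGroup] at h1
    exact dvd_trans (dvd_mul_right _ _) h1
  obtain ⟨t', -, hcard'⟩ := card_projQuot (Cfsg.Geo.quadSimilarityGroup (F := F) Q)
  obtain ⟨q, hq⟩ : ∃ q, Fintype.card F = q := ⟨_, rfl⟩
  rw [hq] at hodd hN hcop hq1 ht hSp hk
  have hqt : Nat.Coprime (q ^ (m ^ 2)) t := by
    apply Nat.Coprime.pow_left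
    exact Nat.Coprime.coprime_dvd_right ht (by
      have := coprime_pow_sub_one q 1 le_rfl (by omega)
      rwa [pow_one] at this)
  have h1 : q ^ (m ^ 2) ∣ Nat.card (Cfsg.PGSp m F) := by
    rw [hcard] at hSp
    exact hqt.dvd_of_dvd_mul_right hSp
  rw [← Nat.card_congr e.toEquiv] at h1
  have h2 : q ^ (m ^ 2) ∣ Nat.card (Cfsg.Geo.quadSimilarityGroup (F := F) Q) := by
    rw [hcard']
    exact dvd_trans h1 (dvd_mul_right _ _)
  have h3 : q ^ (m ^ 2) ∣ Nat.card (Cfsg.isometryGroup F Q) := by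
    rw [hk, ← pow_mul] at h2 ⊢
    exact pow_dvd_of_pelems _ _ p (fun x hx ⟨j, hj⟩ => quadSim_pelem p Q x hx j hj) _ h2
  rw [hN] at h3
  have h4 : m ^ 2 = m * (m - 1) + m := by
    obtain ⟨r, rfl⟩ : ∃ r, m = r + 1 := ⟨m - 1, by omega⟩
    simp only [Nat.add_sub_cancel]
    ring
  have h5 : q ^ m ∣ 2 * N := by
    rw [h4, pow_add] at h3
    have h6 : 2 * q ^ (m * (m - 1)) * N = q ^ (m * (m - 1)) * (2 * N) := by ring
    rw [h6] at h3
    exact Nat.dvd_of_mul_dvd_mul_left (pow_pos (by omega) _) h3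
  have h6 : q ∣ 2 * N := dvd_trans (dvd_pow_self q (by omega)) h5
  have h7 : Nat.Coprime q (2 * N) := Nat.Coprime.mul_right (Nat.coprime_two_right.mpr hodd) hcop
  have h8 := Nat.Coprime.eq_one_of_dvd h7 h6
  omega

end types

section final

variable {n : ℕ} {F : Type*} [Field F] [Fintype F]

local notation "Mx" => Matrix (Fin n) (Fin n) F
local notation "PSLn" => Matrix.ProjectiveSpecialLinearGroup (Fin n) F
local notation "GLn" => GL (Fin n) F

/-- Skew type: the centraliser is `PGSp`. -/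
theorem type_skew (h2 : (2 : F) ≠ 0) {m : ℕ} (hm : 2 ≤ m) (hnm : n = 2 * m) (g : GLn)
    (hg : (g : Mx)ᵀ = -(g : Mx)) :
    Nonempty (↥(Cfsg.inndiagPSL n F ⊓ Subgroup.centralizer {(cG g * iG : MulAut PSLn)}) ≃*
      Cfsg.PGSp m F) := by
  obtain ⟨g₁, g₂, g₃, a, b, s, hab, hs₁, hs₂, hs₃, hs0, hdet, hns, hc₁, hc₂, hc₃⟩ :=
    GraphAutOdd.std_reps (n := n) h2 hm hnm
  obtain ⟨h, hh⟩ := GraphAutOdd.congr_of_alt g₁ g (GraphAutOdd.alt_of_skew h2 _ hs₁)
    (GraphAutOdd.alt_of_skew h2 _ hg)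
  have hconj : Cfsg.IsConjUnder (Cfsg.inndiagPSL n F) (cG g₁ * iG : MulAut PSLn) (cG g * iG) :=
    (conj_iff (by omega) g₁ g).mpr ⟨h, 1, by rw [Units.val_one, one_smul]; exact hh⟩
  obtain ⟨e1⟩ := GraphAutOdd.cent_conj_equiv _ _ _ hconj
  obtain ⟨e2⟩ := hc₁
  exact ⟨e1.symm.trans e2⟩

/-- Symmetric type: the centraliser is not `PGSp`. -/
theorem type_symm (hodd : Odd (Fintype.card F)) {m : ℕ} (hm : 2 ≤ m) (hnm : n = 2 * m) (g : GLn)
    (hg : (g : Mx)ᵀ = (g : Mx)) :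
    ¬ Nonempty (↥(Cfsg.inndiagPSL n F ⊓ Subgroup.centralizer {(cG g * iG : MulAut PSLn)}) ≃*
      Cfsg.PGSp m F) := by
  have h2 : (2 : F) ≠ 0 := GraphAutOdd.two_ne_zero_of_odd hodd
  have hev : Even n := ⟨m, by omega⟩
  have hq1 : 1 ≤ Fintype.card F := Fintype.card_pos
  obtain ⟨g₁, g₂, g₃, a, b, s, hab, hs₁, hs₂, hs₃, hs0, hdet, hns, hc₁, hc₂, hc₃⟩ :=
    GraphAutOdd.std_reps (n := n) h2 hm hnm
  have hdet' : ∀ k : GLn, (k : Mx).det ≠ 0 := fun k =>
    ((Matrix.isUnit_iff_isUnit_det _).mp k.isUnit).ne_zero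
  rintro ⟨e⟩
  by_cases hsq : IsSquare ((g₂ : Mx).det * (g : Mx).det)
  · have hconj : Cfsg.IsConjUnder (Cfsg.inndiagPSL n F) (cG g₂ * iG : MulAut PSLn)
        (cG g * iG) :=
      (conj_iff (by omega) g₂ g).mpr ((GraphAutOdd.sim_iff_even h2 hev g₂ g hs₂ hg).mpr hsq)
    obtain ⟨e1⟩ := GraphAutOdd.cent_conj_equiv _ _ _ hconj
    obtain ⟨e2⟩ := hc₂
    refine not_pgo_equiv_pgsp hodd (by omega : 1 ≤ m) (Cfsg.quadFormPlus m F)
      ((Fintype.card F ^ m - 1) *
        ∏ i ∈ Finset.range (m - 1), (Fintype.card F ^ (2 * (i + 1)) - 1)) ?_ ?_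
      ⟨e2.symm.trans (e1.trans e)⟩
    · rw [Cfsg.Agent.Lib.Helper45.card_GO_plus rfl m (by omega), mul_assoc]
    · exact Nat.Coprime.mul_right (coprime_pow_sub_one _ m (by omega) hq1)
        (Nat.Coprime.prod_right fun i _ => coprime_pow_sub_one _ _ (by omega) hq1)
  · have h5 : IsSquare ((g₃ : Mx).det * (g : Mx).det) := by
      have h6 := GraphAutOdd.nonsq_mul_nonsq h2 hns hsq
      have h7 : (g₂ : Mx).det * (g₃ : Mx).det * ((g₂ : Mx).det * (g : Mx).det) =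
          (g₂ : Mx).det * (g₂ : Mx).det * ((g₃ : Mx).det * (g : Mx).det) := by ring
      rw [h7] at h6
      exact GraphAutOdd.isSquare_of_sq_mul (hdet' g₂) h6
    have hconj : Cfsg.IsConjUnder (Cfsg.inndiagPSL n F) (cG g₃ * iG : MulAut PSLn)
        (cG g * iG) :=
      (conj_iff (by omega) g₃ g).mpr ((GraphAutOdd.sim_iff_even h2 hev g₃ g hs₃ hg).mpr h5)
    obtain ⟨e1⟩ := GraphAutOdd.cent_conj_equiv _ _ _ hconj
    obtain ⟨e2⟩ := hc₃
    refine not_pgo_equiv_pgsp hodd (by omega : 1 ≤ m) (Cfsg.quadFormMinus (m - 1) F a b)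
      ((Fintype.card F ^ m + 1) *
        ∏ i ∈ Finset.range (m - 1), (Fintype.card F ^ (2 * (i + 1)) - 1)) ?_ ?_
      ⟨e2.symm.trans (e1.trans e)⟩
    · rw [Cfsg.Agent.S0288.result rfl m (by omega) a b hab, mul_assoc]
    · exact Nat.Coprime.mul_right (coprime_pow_add_one _ m (by omega))
        (Nat.Coprime.prod_right fun i _ => coprime_pow_sub_one _ _ (by omega) hq1)

end final

end Cfsg.Agent.Lib.Helper8.GraphSplit
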