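import Mathlib
import Cfsg.Agent.Lib.Helper8.PSUAut
import Cfsg.Agent.Lib.Helper8.GraphAutOddDim

set_option autoImplicit false

/-!
# Involutory graph automorphisms of `PSU_n(q)` by descent to `PSL_n(q)`

The classes of involutory graph automorphisms of `PSU_n(q)` under the inner-diagonal group, and
their centralisers, correspond to those of `PSL_n(q)` (over the fixed field of the `q`-power
map).
-/

namespace Cfsg.Agent.Lib.Helper8.PSUGraph

open Matrix Cfsg.Agent.Lib.Helper43.AutPSLn Cfsg.Agent.Lib.Helper43.FieldAut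
  Cfsg.Agent.Lib.Helper45

section proj

variable {n : ℕ} {K : Type*} [Field K]

/-- The projection to `PGL_n`. -/
def pr : GL (Fin n) K →* GL (Fin n) K ⧸ Subgroup.center (GL (Fin n) K) :=
  QuotientGroup.mk' _

theorem mul_scalar_coe (c : Kˣ) (g : GL (Fin n) K) :
    ((g * Matrix.GeneralLinearGroup.scalar (Fin n) c : GL (Fin n) K) :
      Matrix (Fin n) (Fin n) K) = (c : K) • (g : Matrix (Fin n) (Fin n) K) := by
  rw [Units.val_mul, Matrix.GeneralLinearGroup.coe_scalar, Matrix.scalar_apply,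
    ← Matrix.smul_eq_mul_diagonal]

theorem pr_eq_iff (x y : GL (Fin n) K) :
    pr x = pr y ↔
      ∃ c : Kˣ, (x : Matrix (Fin n) (Fin n) K) = (c : K) • (y : Matrix (Fin n) (Fin n) K) := by
  show (QuotientGroup.mk x : GL (Fin n) K ⧸ Subgroup.center (GL (Fin n) K)) =
    QuotientGroup.mk y ↔ _
  rw [eq_comm, QuotientGroup.eq, Matrix.GeneralLinearGroup.center_eq_range_scalar]
  constructor
  · rintro ⟨c, hc⟩
    refine ⟨c, ?_⟩
    have h2 : x = y * Matrix.GeneralLinearGroup.scalar (Fin n) c := by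
      rw [hc, mul_inv_cancel_left]
    rw [h2, mul_scalar_coe]
  · rintro ⟨c, hc⟩
    refine ⟨c, ?_⟩
    apply Units.ext
    rw [Units.val_mul, hc, Matrix.mul_smul, Units.inv_mul, Matrix.GeneralLinearGroup.coe_scalar,
      Matrix.scalar_apply, Matrix.smul_one_eq_diagonal]

theorem pr_eq_one_iff (x : GL (Fin n) K) :
    pr x = 1 ↔
      ∃ c : Kˣ, (x : Matrix (Fin n) (Fin n) K) = (c : K) • (1 : Matrix (Fin n) (Fin n) K) := by
  rw [← map_one pr, pr_eq_iff, Units.val_one]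

theorem pr_eq_one_iff_mem (x : GL (Fin n) K) :
    pr x = 1 ↔ x ∈ Subgroup.center (GL (Fin n) K) :=
  QuotientGroup.eq_one_iff x

/-- The inverse-transpose automorphism of `GL_n`. -/
def itH : GL (Fin n) K →* GL (Fin n) K where
  toFun := glInvT
  map_one' := by
    apply Units.ext
    rw [glInvT_coe]
    simp
  map_mul' := fun x y => by
    apply Units.ext
    rw [Units.val_mul, glInvT_coe, glInvT_coe, glInvT_coe, _root_.mul_inv_rev, Units.val_mul,
      Matrix.transpose_mul]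

theorem itH_coe (x : GL (Fin n) K) :
    ((itH x : GL (Fin n) K) : Matrix (Fin n) (Fin n) K) =
      ((x⁻¹ : GL (Fin n) K) : Matrix (Fin n) (Fin n) K)ᵀ := rfl

theorem itH_inv_coe (x : GL (Fin n) K) :
    (((itH x)⁻¹ : GL (Fin n) K) : Matrix (Fin n) (Fin n) K) =
      (x : Matrix (Fin n) (Fin n) K)ᵀ := rfl

theorem itH_itH (x : GL (Fin n) K) : itH (itH x) = x := by
  apply Units.ext
  rw [itH_coe, itH_inv_coe, Matrix.transpose_transpose]

theorem glmap_itH {L : Type*} [Field L] (f : K →+* L) (x : GL (Fin n) K) :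
    Matrix.GeneralLinearGroup.map f (itH x) = itH (Matrix.GeneralLinearGroup.map f x) := by
  apply Units.ext
  ext i j
  rfl

theorem symm_or_skew_of_smul (g : GL (Fin n) K) (c : Kˣ)
    (hc' : (g : Matrix (Fin n) (Fin n) K) = (c : K) • (g : Matrix (Fin n) (Fin n) K)ᵀ) :
    (g : Matrix (Fin n) (Fin n) K)ᵀ = (g : Matrix (Fin n) (Fin n) K) ∨
      (g : Matrix (Fin n) (Fin n) K)ᵀ = -(g : Matrix (Fin n) (Fin n) K) := by
  rcases isEmpty_or_nonempty (Fin n) with he | hne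
  · left
    exact Subsingleton.elim _ _
  have h3 : (g : Matrix (Fin n) (Fin n) K)ᵀ = (c : K) • (g : Matrix (Fin n) (Fin n) K) := by
    conv_lhs => rw [hc']
    rw [Matrix.transpose_smul, Matrix.transpose_transpose]
  have h4 : ((c : K) * c - 1) • (g : Matrix (Fin n) (Fin n) K) = 0 := by
    rw [sub_smul, one_smul, mul_smul, ← h3, ← hc', sub_self]
  have h5 : ((c : K) - 1) * ((c : K) + 1) = 0 := by
    rcases smul_eq_zero.mp h4 with h | h
    · linear_combination h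
    · exact absurd h g.ne_zero
  rcases mul_eq_zero.mp h5 with h | h
  · left
    rw [h3, sub_eq_zero.mp h, one_smul]
  · right
    rw [h3, eq_neg_of_add_eq_zero_left h, neg_smul, one_smul]

theorem symm_or_skew_of_pr (B : GL (Fin n) K) (h : pr B = pr (itH B)⁻¹) :
    (B : Matrix (Fin n) (Fin n) K)ᵀ = (B : Matrix (Fin n) (Fin n) K) ∨
      (B : Matrix (Fin n) (Fin n) K)ᵀ = -(B : Matrix (Fin n) (Fin n) K) := by
  obtain ⟨c, hc⟩ := (pr_eq_iff _ _).mp h
  rw [itH_inv_coe] at hc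
  exact symm_or_skew_of_smul B c hc

theorem pr_symm_of (B : GL (Fin n) K)
    (h : (B : Matrix (Fin n) (Fin n) K)ᵀ = (B : Matrix (Fin n) (Fin n) K) ∨
      (B : Matrix (Fin n) (Fin n) K)ᵀ = -(B : Matrix (Fin n) (Fin n) K)) :
    pr B = pr (itH B)⁻¹ := by
  rw [pr_eq_iff, itH_inv_coe]
  rcases h with h | h
  · exact ⟨1, by rw [h, Units.val_one, one_smul]⟩
  · exact ⟨-1, by rw [h, Units.val_neg, Units.val_one, neg_smul, one_smul, neg_neg]⟩

local notation "PSLn" => Matrix.ProjectiveSpecialLinearGroup (Fin n) K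

theorem psl_conj_iff (hn : 2 ≤ n) (B B' : GL (Fin n) K) :
    Cfsg.IsConjUnder (Cfsg.inndiagPSL n K) (cG B * iG : MulAut PSLn) (cG B' * iG) ↔
      ∃ A : GL (Fin n) K, pr B' = pr (A * B * (itH A)⁻¹) := by
  rw [GraphAut.conj_iff hn]
  refine exists_congr fun A => ?_
  rw [pr_eq_iff]
  refine exists_congr fun c => ?_
  rw [Units.val_mul, Units.val_mul, itH_inv_coe]

theorem psl_cent_iff (hn : 2 ≤ n) (B A : GL (Fin n) K) :
    (cG A : MulAut PSLn) ∈ Subgroup.centralizer {(cG B * iG : MulAut PSLn)} ↔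
      pr (A * B * (itH A)⁻¹) = pr B := by
  rw [GraphAut.mem_cent_iff hn, pr_eq_iff]
  refine exists_congr fun c => ?_
  rw [Units.val_mul, Units.val_mul, itH_inv_coe]

end proj

section unitary

variable {n : ℕ} {F : Type*} [Field F] [Fintype F] {q : ℕ}

local notation "Mx" => Matrix (Fin n) (Fin n) F
local notation "GLn" => GL (Fin n) F

/-- The `q`-power map on `GL_n`. -/
noncomputable def sg (hF : Fintype.card F = q ^ 2) : GL (Fin n) F →* GL (Fin n) F :=
  Matrix.GeneralLinearGroup.map ((frobQ hF : RingAut F) : F →+* F)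

theorem sg_coe (hF : Fintype.card F = q ^ 2) (x : GLn) :
    ((sg hF x : GLn) : Mx) = (x : Mx).map (frobQ hF) := glmap_coe (frobQ hF) x

theorem sg_sg (hF : Fintype.card F = q ^ 2) (x : GLn) : sg hF (sg hF x) = x := by
  apply Units.ext
  rw [sg_coe, sg_coe]
  ext i j
  exact conj_conj hF _

theorem sg_itH (hF : Fintype.card F = q ^ 2) (x : GLn) : sg hF (itH x) = itH (sg hF x) :=
  glmap_itH _ x

theorem mem_GUs_iff_pr (hF : Fintype.card F = q ^ 2) (x : GLn) :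
    x ∈ PSUAut.GUs n F q ↔ pr (sg hF x) = pr (itH x) := by
  rw [PSUAut.mem_GUs_iff hF]
  have e : pr (sg hF x) = pr (itH x) ↔ pr ((itH x)⁻¹ * sg hF x) = 1 := by
    rw [map_mul, map_inv, inv_mul_eq_one, eq_comm]
  rw [e, pr_eq_one_iff, Units.val_mul, itH_inv_coe, sg_coe]

theorem mem_GU_iff_eq (hF : Fintype.card F = q ^ 2) (x : GLn) :
    x ∈ Cfsg.GU n F q ↔ sg hF x = itH x := by
  rw [PSUAut.mem_GU_iff hF]
  have e : sg hF x = itH x ↔ (itH x)⁻¹ * sg hF x = 1 := by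
    rw [inv_mul_eq_one, eq_comm]
  rw [e, Units.ext_iff, Units.val_mul, itH_inv_coe, sg_coe, Units.val_one]

theorem psu_conj_iff (hF : Fintype.card F = q ^ 2) (hn : 3 ≤ n) (h32 : ¬ (n = 3 ∧ q = 2))
    (x x' : ↥(PSUAut.GUs n F q)) :
    Cfsg.IsConjUnder (Cfsg.inndiagPSU n F q)
        (PSUAut.cU x * PSUAut.fU (frobQ hF) : MulAut (Cfsg.PSU n F q))
        (PSUAut.cU x' * PSUAut.fU (frobQ hF)) ↔
      ∃ h : GLn, h ∈ PSUAut.GUs n F q ∧ pr (x' : GLn) = pr (h * (x : GLn) * sg hF h⁻¹) := by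
  rw [PSUAut.conj_iff hF hn h32]
  constructor
  · rintro ⟨h, c, hc⟩
    refine ⟨h.1, h.2, (pr_eq_iff _ _).mpr ⟨c, ?_⟩⟩
    rw [Units.val_mul, Units.val_mul, sg_coe]
    exact hc
  · rintro ⟨h, hh, he⟩
    obtain ⟨c, hc⟩ := (pr_eq_iff _ _).mp he
    rw [Units.val_mul, Units.val_mul, sg_coe] at hc
    exact ⟨⟨h, hh⟩, c, hc⟩

theorem psu_cent_iff (hF : Fintype.card F = q ^ 2) (hn : 3 ≤ n) (h32 : ¬ (n = 3 ∧ q = 2))
    (x h : ↥(PSUAut.GUs n F q)) :
    (PSUAut.cU h : MulAut (Cfsg.PSU n F q)) ∈ Subgroup.centralizer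
        {(PSUAut.cU x * PSUAut.fU (frobQ hF) : MulAut (Cfsg.PSU n F q))} ↔
      pr ((h : GLn) * (x : GLn) * sg hF (h : GLn)⁻¹) = pr (x : GLn) := by
  rw [PSUAut.mem_cent_iff hF hn h32, pr_eq_iff]
  refine exists_congr fun c => ?_
  rw [Units.val_mul, Units.val_mul, sg_coe]

theorem cU_eq_of_pr (x y : ↥(PSUAut.GUs n F q)) (h : pr (x : GLn) = pr (y : GLn)) :
    (PSUAut.cU x : MulAut (Cfsg.PSU n F q)) = PSUAut.cU y := by
  obtain ⟨c, hc⟩ := (pr_eq_iff _ _).mp h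
  exact PSUAut.cU_eq_of_smul x y c hc

end unitary

section homs

variable {n : ℕ} {K : Type*} [Field K] {L : Type*} [Field L]

theorem pr_hom (φ : GL (Fin n) K →* GL (Fin n) L)
    (hφ : ∀ z ∈ Subgroup.center (GL (Fin n) K), φ z ∈ Subgroup.center (GL (Fin n) L))
    (x y : GL (Fin n) K) (h : pr x = pr y) : pr (φ x) = pr (φ y) := by
  have h1 : x⁻¹ * y ∈ Subgroup.center (GL (Fin n) K) := QuotientGroup.eq.mp h
  have h2 := hφ _ h1
  rw [map_mul, map_inv] at h2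
  exact QuotientGroup.eq.mpr h2

theorem pr_map (f : K →+* L) (x y : GL (Fin n) K) (h : pr x = pr y) :
    pr (Matrix.GeneralLinearGroup.map f x) = pr (Matrix.GeneralLinearGroup.map f y) :=
  pr_hom (Matrix.GeneralLinearGroup.map f)
    (fun z hz => Matrix.GeneralLinearGroup.map_center_le f hz) x y h

theorem pr_itH (x y : GL (Fin n) K) (h : pr x = pr y) : pr (itH x) = pr (itH y) := by
  refine pr_hom itH (fun z hz => ?_) x y h
  have h1 : z⁻¹ ∈ Subgroup.center (GL (Fin n) K) := Subgroup.inv_mem _ hz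
  rw [← pr_eq_one_iff_mem, pr_eq_one_iff] at h1 ⊢
  obtain ⟨c, hc⟩ := h1
  exact ⟨c, by rw [itH_coe, hc, Matrix.transpose_smul, Matrix.transpose_one]⟩

/-- Entrywise maps are injective on `PGL_n`. -/
theorem pr_map_inj (hn : 1 ≤ n) (j : K →+* L) (X Y : GL (Fin n) K)
    (h : pr (Matrix.GeneralLinearGroup.map j X) = pr (Matrix.GeneralLinearGroup.map j Y)) :
    pr X = pr Y := by
  haveI : Nonempty (Fin n) := ⟨⟨0, by omega⟩⟩
  obtain ⟨c, hc⟩ := (pr_eq_iff _ _).mp h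
  obtain ⟨i, l, hil⟩ : ∃ i l, (Y : Matrix (Fin n) (Fin n) K) i l ≠ 0 := by
    by_contra hcon
    push Not at hcon
    exact Y.ne_zero (by ext i l; exact hcon i l)
  have hent : ∀ a b, j ((X : Matrix (Fin n) (Fin n) K) a b) =
      (c : L) * j ((Y : Matrix (Fin n) (Fin n) K) a b) := fun a b => by
    have := congrFun (congrFun hc a) b
    exact this
  have hjc : j ((X : Matrix (Fin n) (Fin n) K) i l / (Y : Matrix (Fin n) (Fin n) K) i l) = c := by
    rw [map_div₀, hent i l, mul_div_assoc, div_self ((map_ne_zero j).mpr hil), mul_one]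
  have hc₀0 : (X : Matrix (Fin n) (Fin n) K) i l / (Y : Matrix (Fin n) (Fin n) K) i l ≠ 0 := by
    intro h0
    rw [h0, map_zero] at hjc
    exact c.ne_zero hjc.symm
  rw [pr_eq_iff]
  refine ⟨Units.mk0 _ hc₀0, ?_⟩
  ext a b
  apply j.injective
  rw [Units.val_mk0, Matrix.smul_apply, smul_eq_mul, map_mul, hjc]
  exact hent a b

end homs

section descent

variable {n : ℕ} {F : Type*} [Field F] [Fintype F] {q : ℕ} {F₀ : Type*} [Field F₀]

local notation "Mx" => Matrix (Fin n) (Fin n) F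
local notation "GLn" => GL (Fin n) F

theorem sigmaQ_ne_id (hF : Fintype.card F = q ^ 2) : sigmaQ hF ≠ RingHom.id F := by
  intro h
  apply frobQ_ne_one hF
  ext a
  exact DFunLike.congr_fun h a

theorem pr_sg (hF : Fintype.card F = q ^ 2) (x y : GLn) (h : pr x = pr y) :
    pr (sg hF x) = pr (sg hF y) := pr_map _ x y h

theorem sg_map (hF : Fintype.card F = q ^ 2) (j : F₀ →+* F) (hj : IsFixEmb (frobQ hF) j)
    (A : GL (Fin n) F₀) :
    sg hF (Matrix.GeneralLinearGroup.map j A) = Matrix.GeneralLinearGroup.map j A :=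
  glmap_map_of_fix (frobQ hF) j hj A

/-- Galois descent in `PGL_n`. -/
theorem descent (hF : Fintype.card F = q ^ 2) (hn : 1 ≤ n) (j : F₀ →+* F)
    (hj : IsFixEmb (frobQ hF) j) (z : GLn) (h : pr z = pr (sg hF z)) :
    ∃ A : GL (Fin n) F₀, pr z = pr (Matrix.GeneralLinearGroup.map j A) := by
  haveI : Nonempty (Fin n) := ⟨⟨0, by omega⟩⟩
  obtain ⟨s, hs⟩ := (pr_eq_iff _ _).mp h
  rw [sg_coe] at hs
  have hent : ∀ a b, (z : Mx) a b = (s : F) * ((z : Mx) a b) ^ q := fun a b => by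
    have := congrFun (congrFun hs a) b
    exact this
  obtain ⟨i, l, hil⟩ : ∃ i l, (z : Mx) i l ≠ 0 := by
    by_contra hcon
    push Not at hcon
    exact z.ne_zero (by ext i l; exact hcon i l)
  have hN : (s : F) * (s : F) ^ q = 1 := by
    have h1 := hent i l
    have h2 : ((z : Mx) i l) ^ q = (s : F) ^ q * (z : Mx) i l := by
      conv_lhs => rw [h1]
      rw [mul_pow, conj_conj hF]
    rw [h2, ← mul_assoc] at h1
    have h3 : ((s : F) * (s : F) ^ q - 1) * (z : Mx) i l = 0 := by linear_combination -h1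
    rcases mul_eq_zero.mp h3 with h4 | h4
    · exact sub_eq_zero.mp h4
    · exact absurd h4 hil
  obtain ⟨d, hd0, hd⟩ : ∃ d : F, d ≠ 0 ∧ d ^ q = d * s := by
    obtain ⟨b, hb0, hb⟩ := Cfsg.Agent.Lib.Helper13.hilbert90_involution (sigmaQ hF)
      (sigmaQ_ne_id hF) (conj_conj hF) (s : F)⁻¹ (by
        rw [sigmaQ_apply, inv_pow, ← _root_.mul_inv, hN, inv_one])
    refine ⟨b, hb0, ?_⟩
    rw [sigmaQ_apply] at hb
    have hs0 : (s : F) ≠ 0 := s.ne_zero
    field_simp at hb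
    linear_combination -hb
  set w : GLn := Matrix.GeneralLinearGroup.scalar (Fin n) (Units.mk0 d hd0) * z with hw
  have hwfix : sg hF w = w := by
    apply Units.ext
    rw [sg_coe, hw, PSUAut.scalar_mul_coe', Units.val_mk0]
    ext a b
    simp only [Matrix.map_apply, Matrix.smul_apply, smul_eq_mul, frobQ_apply]
    rw [mul_pow, hd, mul_assoc, ← hent a b]
  obtain ⟨A, hA⟩ := exists_map_of_fixed (frobQ hF) j hj w hwfix
  refine ⟨A, ?_⟩
  rw [hA, pr_eq_iff]
  refine ⟨(Units.mk0 d hd0)⁻¹, ?_⟩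
  rw [hw, PSUAut.scalar_mul_coe', smul_smul, Units.val_inv_eq_inv_val, Units.val_mk0,
    inv_mul_cancel₀ hd0, one_smul]

/-- A symmetric or skew unitary matrix is projectively of the form `k σ(k)⁻¹`. -/
theorem exists_k (hF : Fintype.card F = q ^ 2) (g : GLn) (hg : g ∈ Cfsg.GU n F q)
    (hs : (g : Mx)ᵀ = (g : Mx) ∨ (g : Mx)ᵀ = -(g : Mx)) :
    ∃ k : GLn, pr (g * sg hF k) = pr k := by
  have hq := two_le_q hF
  have hg' := (PSUAut.mem_GU_iff hF g).mp hg
  obtain ⟨ε, hε, hgε⟩ : ∃ ε : F, (ε = 1 ∨ ε = -1) ∧ (g : Mx)ᵀ = ε • (g : Mx) := by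
    rcases hs with hs | hs
    · exact ⟨1, Or.inl rfl, by rw [one_smul, hs]⟩
    · exact ⟨-1, Or.inr rfl, by rw [hs]; simp⟩
  have hεε : ε * ε = 1 := by
    rcases hε with rfl | rfl <;> ring
  have hε0 : ε ≠ 0 := by
    rintro rfl
    simp at hεε
  have hεq : ε ^ q = ε := by
    rcases hε with rfl | rfl
    · exact one_pow q
    · rw [conj_neg hF, one_pow]
  have hgg : (g : Mx) * (g : Mx).map (frobQ hF) = ε • (1 : Mx) := by
    rw [hgε, Matrix.smul_mul] at hg'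
    have h1 := congrArg (fun M : Mx => ε • M) hg'
    simp only [smul_smul, hεε, one_smul] at h1
    exact h1
  obtain ⟨a, ha⟩ := Cfsg.Agent.Lib.Helper44.exists_norm_eq hF ε hε0 hεq
  have ha0 : a ≠ 0 := by
    rintro rfl
    rw [zero_pow (by omega)] at ha
    exact hε0 ha.symm
  set g₁ : Mx := a⁻¹ • (g : Mx) with hg₁
  have hg₁map : g₁.map (frobQ hF) = (a⁻¹) ^ q • (g : Mx).map (frobQ hF) := by
    ext i l
    simp [hg₁, frobQ_apply, mul_pow]
  have h11 : g₁ * g₁.map (frobQ hF) = 1 := by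
    rw [hg₁map, hg₁, Matrix.smul_mul, Matrix.mul_smul, hgg, smul_smul, smul_smul, inv_pow,
      ← _root_.mul_inv, ← pow_succ', ha, inv_mul_cancel₀ hε0, one_smul]
  obtain ⟨k, hk, hk2⟩ := exists_fixed_matrix (frobQ hF) g₁
    (fun i => Nat.rec (1 : Mx) (fun _ M => g₁ * M.map (frobQ hF)) i) 2 rfl (fun i => rfl)
    (by
      show g₁ * (g₁ * (1 : Mx).map (frobQ hF)).map (frobQ hF) = 1
      rw [Matrix.map_one _ (map_zero _) (map_one _), Matrix.mul_one, h11])
    (PSUAut.orderOf_frobQ hF) (by norm_num)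
  refine ⟨hk.unit, ?_⟩
  rw [pr_eq_iff]
  refine ⟨Units.mk0 a ha0, ?_⟩
  rw [Units.val_mul, sg_coe, IsUnit.unit_spec, Units.val_mk0]
  conv_rhs => rw [← hk2]
  rw [hg₁, Matrix.smul_mul, smul_smul, mul_inv_cancel₀ ha0, one_smul]

theorem grp_data {Q : Type*} [Group Q] (S K I IS U : Q) (h1 : U * K = S) (h2 : U * IS = I) :
    S⁻¹ * I = K⁻¹ * IS := by
  subst h1 h2
  group

theorem grp_fwd {Q : Type*} [Group Q] (g g' k k' sk sk' ik ik' jA ijA jB jB' : Q)
    (hD : g * sk = k) (hD' : g' * sk' = k') (hP : sk * jB = ik) (hP' : sk' * jB' = ik')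
    (hS : jB' = jA * jB * ijA⁻¹) :
    sk' * jA * sk⁻¹ = ik' * ijA * ik⁻¹ ∧
      g' = (k' * jA * k⁻¹) * g * (sk' * jA * sk⁻¹)⁻¹ := by
  subst hD hD' hP hP' hS
  constructor <;> group

theorem grp_bwd {Q : Type*} [Group Q] (g g' k k' sk sk' ik ik' h sh ih jB jB' : Q)
    (hD : g * sk = k) (hD' : g' * sk' = k') (hP : sk * jB = ik) (hP' : sk' * jB' = ik')
    (hh : sh = ih) (hc : g' = h * g * sh⁻¹) :
    k'⁻¹ * h * k = sk'⁻¹ * sh * sk ∧
      jB' = (k'⁻¹ * h * k) * jB * (ik'⁻¹ * ih * ik)⁻¹ := by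
  subst hD hD' hP hP' hh hc
  constructor <;> group

theorem sg_scalar_mul_coe (hF : Fintype.card F = q ^ 2) (c : Fˣ) (x : GLn) :
    ((sg hF (Matrix.GeneralLinearGroup.scalar (Fin n) c * x) : GLn) : Mx) =
      (c : F) ^ q • ((sg hF x : GLn) : Mx) := by
  rw [sg_coe, PSUAut.scalar_mul_coe', sg_coe]
  ext a b
  simp [frobQ_apply, mul_pow]

/-- Every symmetric or skew invertible matrix over the fixed field comes from a symmetric or
skew unitary matrix. -/
theorem exists_g (hF : Fintype.card F = q ^ 2) (j : F₀ →+* F)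
    (hj : IsFixEmb (frobQ hF) j) (B : GL (Fin n) F₀)
    (hB : (B : Matrix (Fin n) (Fin n) F₀)ᵀ = (B : Matrix (Fin n) (Fin n) F₀) ∨
      (B : Matrix (Fin n) (Fin n) F₀)ᵀ = -(B : Matrix (Fin n) (Fin n) F₀)) :
    ∃ (g k : GLn), g ∈ Cfsg.GU n F q ∧ ((g : Mx)ᵀ = (g : Mx) ∨ (g : Mx)ᵀ = -(g : Mx)) ∧
      pr (g * sg hF k) = pr k ∧
      pr (sg hF k * Matrix.GeneralLinearGroup.map j B) = pr (itH k) := by
  have hq := two_le_q hF
  set jB : GLn := Matrix.GeneralLinearGroup.map j B with hjB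
  obtain ⟨ε, hε, hBε⟩ : ∃ ε : F, (ε = 1 ∨ ε = -1) ∧ (jB : Mx)ᵀ = ε • (jB : Mx) := by
    rcases hB with hB | hB
    · refine ⟨1, Or.inl rfl, ?_⟩
      rw [one_smul]
      show ((B : Matrix (Fin n) (Fin n) F₀).map j)ᵀ = (B : Matrix (Fin n) (Fin n) F₀).map j
      rw [← Matrix.transpose_map, hB]
    · refine ⟨-1, Or.inr rfl, ?_⟩
      show ((B : Matrix (Fin n) (Fin n) F₀).map j)ᵀ =
        (-1 : F) • (B : Matrix (Fin n) (Fin n) F₀).map j
      rw [← Matrix.transpose_map, hB]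
      ext a b
      simp
  have hεε : ε * ε = 1 := by
    rcases hε with rfl | rfl <;> ring
  have hε0 : ε ≠ 0 := by
    rintro rfl
    simp at hεε
  have hεq : ε ^ q = ε := by
    rcases hε with rfl | rfl
    · exact one_pow q
    · rw [conj_neg hF, one_pow]
  have hBi : ((jB⁻¹ : GLn) : Mx)ᵀ = ε • ((jB⁻¹ : GLn) : Mx) := by
    have h1 : ((jB⁻¹ : GLn) : Mx)ᵀ * (jB : Mx)ᵀ = 1 := by
      rw [← Matrix.transpose_mul, Units.mul_inv, Matrix.transpose_one]
    rw [hBε, Matrix.mul_smul] at h1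
    have h2 : ((jB⁻¹ : GLn) : Mx)ᵀ * (jB : Mx) = ε • (1 : Mx) := by
      have h3 := congrArg (fun M : Mx => ε • M) h1
      simp only [smul_smul, hεε, one_smul] at h3
      exact h3
    calc ((jB⁻¹ : GLn) : Mx)ᵀ = ((jB⁻¹ : GLn) : Mx)ᵀ * (jB : Mx) * ((jB⁻¹ : GLn) : Mx) := by
          rw [Matrix.mul_assoc, Units.mul_inv, Matrix.mul_one]
      _ = _ := by rw [h2, Matrix.smul_mul, Matrix.one_mul]
  have hBfix : ((jB⁻¹ : GLn) : Mx).map (frobQ hF) = ((jB⁻¹ : GLn) : Mx) := by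
    have h1 := sg_map hF j hj B⁻¹
    rw [map_inv] at h1
    have h2 := congrArg (fun u : GLn => (u : Mx)) h1
    simp only [sg_coe] at h2
    exact h2
  obtain ⟨b, hb0, hb⟩ : ∃ b : F, b ≠ 0 ∧ b ^ q = ε * b := by
    rcases hε with rfl | rfl
    · exact ⟨1, one_ne_zero, by simp⟩
    · obtain ⟨i, hi0, hi⟩ := exists_skew hF
      exact ⟨i, hi0, by rw [hi]; ring⟩
  set A' : Mx := b • ((jB⁻¹ : GLn) : Mx) with hA'
  have hA'unit : IsUnit A' := by
    have h1 : A' = ((Matrix.GeneralLinearGroup.scalar (Fin n) (Units.mk0 b hb0) * jB⁻¹ : GLn) :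
        Mx) := by
      rw [PSUAut.scalar_mul_coe', Units.val_mk0]
    rw [h1]
    exact Units.isUnit _
  have hA'T : A'ᵀ = ε • A' := by
    rw [hA', Matrix.transpose_smul, hBi, smul_comm]
  have hA'H : A'ᵀ.map (frobQ hF) = A' := by
    rw [hA'T, hA']
    ext a c
    simp only [Matrix.map_apply, Matrix.smul_apply, smul_eq_mul, frobQ_apply]
    have h1 := congrFun (congrFun hBfix a) c
    simp only [Matrix.map_apply, frobQ_apply] at h1
    rw [mul_pow, mul_pow, hεq, hb, h1]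
    linear_combination (b * ((jB⁻¹ : GLn) : Mx) a c) * hεε
  obtain ⟨h, hh, hhA⟩ := exists_herm_factor (frobQ hF) (frobQ_ne_one hF) (frobQ_sq hF) A'
    hA'unit hA'H
  set k : GLn := GraphAut.trG hh.unit with hk
  have hkc : (k : Mx) = hᵀ := by
    rw [hk, GraphAut.trG_coe, IsUnit.unit_spec]
  have hP : (k : Mx)ᵀ * ((sg hF k : GLn) : Mx) = A' := by
    rw [sg_coe, hkc, Matrix.transpose_transpose]
    exact hhA.symm
  have hP2 : (k : Mx)ᵀ * ((sg hF k : GLn) : Mx) =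
      ε • (((sg hF k : GLn) : Mx)ᵀ * (k : Mx)) := by
    have h1 : ((sg hF k : GLn) : Mx)ᵀ * (k : Mx) = A'ᵀ := by
      rw [← hP, Matrix.transpose_mul, Matrix.transpose_transpose]
    rw [h1, hA'T, smul_smul, hεε, one_smul, hP]
  obtain ⟨a, ha⟩ := Cfsg.Agent.Lib.Helper44.exists_norm_eq hF ε hε0 hεq
  have ha0 : a ≠ 0 := by
    rintro rfl
    rw [zero_pow (by omega)] at ha
    exact hε0 ha.symm
  set g : GLn := Matrix.GeneralLinearGroup.scalar (Fin n) (Units.mk0 a ha0) *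
    (k * (sg hF k)⁻¹) with hgdef
  have hgc : (g : Mx) = a • ((k : Mx) * (((sg hF k)⁻¹ : GLn) : Mx)) := by
    rw [hgdef, PSUAut.scalar_mul_coe', Units.val_mk0, Units.val_mul]
  have hsgc : ((sg hF g : GLn) : Mx) = a ^ q • (((sg hF k : GLn) : Mx) * ((k⁻¹ : GLn) : Mx)) := by
    rw [hgdef, sg_scalar_mul_coe, Units.val_mk0, map_mul, map_inv, sg_sg, Units.val_mul]
  have hSi : ((((sg hF k)⁻¹ : GLn) : Mx))ᵀ * (((sg hF k : GLn) : Mx))ᵀ = 1 := by
    rw [← Matrix.transpose_mul, Units.mul_inv, Matrix.transpose_one]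
  have hunit : (g : Mx)ᵀ * ((sg hF g : GLn) : Mx) = 1 := by
    calc (g : Mx)ᵀ * ((sg hF g : GLn) : Mx)
        = (a * a ^ q) • ((((sg hF k)⁻¹ : GLn) : Mx)ᵀ * ((k : Mx)ᵀ * ((sg hF k : GLn) : Mx)) *
            ((k⁻¹ : GLn) : Mx)) := by
          rw [hgc, hsgc, Matrix.transpose_smul, Matrix.transpose_mul, Matrix.smul_mul,
            Matrix.mul_smul, smul_smul]
          simp only [Matrix.mul_assoc]
      _ = (a * a ^ q * ε) • (((((sg hF k)⁻¹ : GLn) : Mx)ᵀ * ((sg hF k : GLn) : Mx)ᵀ) *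
            ((k : Mx) * ((k⁻¹ : GLn) : Mx))) := by
          rw [hP2, Matrix.mul_smul, Matrix.smul_mul, smul_smul]
          simp only [Matrix.mul_assoc]
      _ = 1 := by
          rw [hSi, Units.mul_inv, Matrix.one_mul, ← pow_succ', ha, hεε, one_smul]
  have hgg : (g : Mx) * ((sg hF g : GLn) : Mx) = ((Units.mk0 ε hε0 : Fˣ) : F) • (1 : Mx) := by
    rw [hgc, hsgc, Matrix.smul_mul, Matrix.mul_smul, smul_smul, Units.val_mk0]
    have h1 : (k : Mx) * (((sg hF k)⁻¹ : GLn) : Mx) * (((sg hF k : GLn) : Mx) *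
        ((k⁻¹ : GLn) : Mx)) = 1 := by
      rw [Matrix.mul_assoc, ← Matrix.mul_assoc (((sg hF k)⁻¹ : GLn) : Mx), Units.inv_mul,
        Matrix.one_mul, Units.mul_inv]
    rw [h1, ← pow_succ', ha]
  refine ⟨g, k, (PSUAut.mem_GU_iff hF g).mpr (by rw [← sg_coe]; exact hunit),
    PSUAut.symm_or_skew_of g (sg hF g) hunit _ hgg, ?_, ?_⟩
  · rw [pr_eq_iff]
    refine ⟨Units.mk0 a ha0, ?_⟩
    have h1 : g * sg hF k = Matrix.GeneralLinearGroup.scalar (Fin n) (Units.mk0 a ha0) * k := by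
      rw [hgdef, mul_assoc, inv_mul_cancel_right]
    rw [h1, PSUAut.scalar_mul_coe']
  · have e1 : pr ((itH k)⁻¹ * (sg hF k * jB)) = (pr (itH k))⁻¹ * pr (sg hF k * jB) := by
      rw [map_mul, map_inv]
    have e : pr (sg hF k * jB) = pr (itH k) ↔ pr ((itH k)⁻¹ * (sg hF k * jB)) = 1 := by
      rw [e1, inv_mul_eq_one, eq_comm]
    rw [e, pr_eq_one_iff]
    refine ⟨Units.mk0 b hb0, ?_⟩
    rw [Units.val_mul, Units.val_mul, itH_inv_coe, ← Matrix.mul_assoc, hP, hA', Matrix.smul_mul,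
      Units.inv_mul, Units.val_mk0]

/-- Every symmetric or skew unitary matrix gives a symmetric or skew invertible matrix over the
fixed field. -/
theorem exists_data (hF : Fintype.card F = q ^ 2) (hn : 1 ≤ n) (j : F₀ →+* F)
    (hj : IsFixEmb (frobQ hF) j) (g : GLn) (hg : g ∈ Cfsg.GU n F q)
    (hs : (g : Mx)ᵀ = (g : Mx) ∨ (g : Mx)ᵀ = -(g : Mx)) :
    ∃ (B : GL (Fin n) F₀) (k : GLn),
      ((B : Matrix (Fin n) (Fin n) F₀)ᵀ = (B : Matrix (Fin n) (Fin n) F₀) ∨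
        (B : Matrix (Fin n) (Fin n) F₀)ᵀ = -(B : Matrix (Fin n) (Fin n) F₀)) ∧
      pr (g * sg hF k) = pr k ∧
      pr (sg hF k * Matrix.GeneralLinearGroup.map j B) = pr (itH k) := by
  obtain ⟨k, hk⟩ := exists_k hF g hg hs
  have hU : sg hF g = itH g := (mem_GU_iff_eq hF g).mp hg
  have h1 : pr (sg hF g) * pr k = pr (sg hF k) := by
    have h := pr_sg hF _ _ hk
    rw [map_mul, sg_sg, map_mul] at h
    exact h
  have h2 : pr (sg hF g) * pr (itH (sg hF k)) = pr (itH k) := by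
    have h := pr_itH _ _ hk
    rw [map_mul, map_mul, ← hU] at h
    exact h
  have key : (pr (sg hF k))⁻¹ * pr (itH k) = (pr k)⁻¹ * pr (itH (sg hF k)) :=
    grp_data _ _ _ _ _ h1 h2
  have hV : pr ((sg hF k)⁻¹ * itH k) = pr (sg hF ((sg hF k)⁻¹ * itH k)) := by
    rw [map_mul (sg hF), map_inv (sg hF), sg_sg, sg_itH, map_mul, map_mul, map_inv, map_inv]
    exact key
  obtain ⟨B, hB⟩ := descent hF hn j hj _ hV
  rw [map_mul, map_inv] at hB
  refine ⟨B, k, ?_, hk, ?_⟩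
  · apply symm_or_skew_of_pr
    apply pr_map_inj hn j
    have h3 : pr (itH (Matrix.GeneralLinearGroup.map j B)) =
        pr (itH ((sg hF k)⁻¹ * itH k)) := by
      apply pr_itH
      rw [map_mul, map_inv]
      exact hB.symm
    rw [map_mul, map_inv, itH_itH, map_mul, map_inv] at h3
    rw [map_inv (Matrix.GeneralLinearGroup.map j), glmap_itH, map_inv, h3, ← hB, key,
      _root_.mul_inv_rev, inv_inv]
  · rw [map_mul, ← hB, mul_inv_cancel_left]

/-- The data linking a unitary matrix `g` and a matrix `B` over the fixed field. -/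
def Data (hF : Fintype.card F = q ^ 2) (j : F₀ →+* F) (g : GLn) (B : GL (Fin n) F₀) : Prop :=
  ∃ k : GLn, pr (g * sg hF k) = pr k ∧
    pr (sg hF k * Matrix.GeneralLinearGroup.map j B) = pr (itH k)

local notation "PSL₀" => Matrix.ProjectiveSpecialLinearGroup (Fin n) F₀

theorem conj_transfer (hF : Fintype.card F = q ^ 2) (hn : 3 ≤ n) (h32 : ¬ (n = 3 ∧ q = 2))
    (j : F₀ →+* F) (hj : IsFixEmb (frobQ hF) j) (g g' : GLn) (hg : g ∈ Cfsg.GU n F q)
    (hg' : g' ∈ Cfsg.GU n F q) (B B' : GL (Fin n) F₀) (hD : Data hF j g B)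
    (hD' : Data hF j g' B') :
    Cfsg.IsConjUnder (Cfsg.inndiagPSU n F q)
        (PSUAut.cU (PSUAut.ofGU g hg) * PSUAut.fU (frobQ hF) : MulAut (Cfsg.PSU n F q))
        (PSUAut.cU (PSUAut.ofGU g' hg') * PSUAut.fU (frobQ hF)) ↔
      Cfsg.IsConjUnder (Cfsg.inndiagPSL n F₀) (cG B * iG : MulAut PSL₀) (cG B' * iG) := by
  obtain ⟨k, hk1, hk2⟩ := hD
  obtain ⟨k', hk1', hk2'⟩ := hD'
  rw [psu_conj_iff hF hn h32, psl_conj_iff (by omega)]
  rw [map_mul] at hk1 hk1' hk2 hk2'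
  constructor
  · rintro ⟨h, hh, hc⟩
    have hh' := (mem_GUs_iff_pr hF h).mp hh
    have hc' : pr g' = pr h * pr g * (pr (sg hF h))⁻¹ := by
      rw [← map_inv, ← map_inv (sg hF), ← map_mul, ← map_mul]
      exact hc
    obtain ⟨e1, e2⟩ := grp_bwd (pr g) (pr g') (pr k) (pr k') (pr (sg hF k)) (pr (sg hF k'))
      (pr (itH k)) (pr (itH k')) (pr h) (pr (sg hF h)) (pr (itH h))
      (pr (Matrix.GeneralLinearGroup.map j B)) (pr (Matrix.GeneralLinearGroup.map j B'))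
      hk1 hk1' hk2 hk2' hh' hc'
    have hz : pr (k'⁻¹ * h * k) = pr (sg hF (k'⁻¹ * h * k)) := by
      rw [map_mul (sg hF), map_mul (sg hF), map_inv (sg hF)]
      simp only [map_mul, map_inv]
      exact e1
    obtain ⟨A, hA⟩ := descent hF (by omega) j hj _ hz
    refine ⟨A, pr_map_inj (by omega) j _ _ ?_⟩
    have hiA : pr (itH (Matrix.GeneralLinearGroup.map j A)) = pr (itH (k'⁻¹ * h * k)) :=
      pr_itH _ _ hA.symm
    rw [map_mul (Matrix.GeneralLinearGroup.map j), map_mul (Matrix.GeneralLinearGroup.map j),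
      map_inv (Matrix.GeneralLinearGroup.map j), glmap_itH, map_mul, map_mul, map_inv, hiA,
      ← hA]
    simp only [map_mul, map_inv]
    exact e2
  · rintro ⟨A, hA⟩
    have hA' := pr_map j _ _ hA
    rw [map_mul (Matrix.GeneralLinearGroup.map j), map_mul (Matrix.GeneralLinearGroup.map j),
      map_inv (Matrix.GeneralLinearGroup.map j), glmap_itH, map_mul, map_mul, map_inv] at hA'
    obtain ⟨e1, e2⟩ := grp_fwd (pr g) (pr g') (pr k) (pr k') (pr (sg hF k)) (pr (sg hF k'))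
      (pr (itH k)) (pr (itH k')) (pr (Matrix.GeneralLinearGroup.map j A))
      (pr (itH (Matrix.GeneralLinearGroup.map j A)))
      (pr (Matrix.GeneralLinearGroup.map j B)) (pr (Matrix.GeneralLinearGroup.map j B'))
      hk1 hk1' hk2 hk2' hA'
    refine ⟨k' * Matrix.GeneralLinearGroup.map j A * k⁻¹, ?_, ?_⟩
    · rw [mem_GUs_iff_pr hF, map_mul (sg hF), map_mul (sg hF), map_inv (sg hF), sg_map hF j hj,
        map_mul itH, map_mul itH, map_inv itH]
      simp only [map_mul, map_inv]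
      exact e1
    · rw [map_inv (sg hF), map_mul (sg hF), map_mul (sg hF), map_inv (sg hF), sg_map hF j hj]
      simp only [map_mul, map_inv]
      exact e2

theorem cent_transfer (hF : Fintype.card F = q ^ 2) (hn : 3 ≤ n) (h32 : ¬ (n = 3 ∧ q = 2))
    (j : F₀ →+* F) (hj : IsFixEmb (frobQ hF) j) (g : GLn) (hg : g ∈ Cfsg.GU n F q)
    (B : GL (Fin n) F₀) (hD : Data hF j g B) :
    Nonempty (↥(Cfsg.inndiagPSU n F q ⊓ Subgroup.centralizer
        {(PSUAut.cU (PSUAut.ofGU g hg) * PSUAut.fU (frobQ hF) : MulAut (Cfsg.PSU n F q))}) ≃*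
      ↥(Cfsg.inndiagPSL n F₀ ⊓ Subgroup.centralizer {(cG B * iG : MulAut PSL₀)})) := by
  obtain ⟨k, hk1, hk2⟩ := hD
  rw [map_mul] at hk1 hk2
  have hn2 : 2 ≤ n := by omega
  have hn1 : 1 ≤ n := by omega
  let H : Subgroup (GL (Fin n) F₀) :=
    (Subgroup.centralizer {(cG B * iG : MulAut PSL₀)}).comap cG
  have hH : ∀ A : GL (Fin n) F₀, A ∈ H ↔ pr (A * B * (itH A)⁻¹) = pr B :=
    fun A => psl_cent_iff hn2 B A
  have hfwd : ∀ A : GL (Fin n) F₀, A ∈ H →
      k * Matrix.GeneralLinearGroup.map j A * k⁻¹ ∈ PSUAut.GUs n F q ∧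
      pr g = pr (k * Matrix.GeneralLinearGroup.map j A * k⁻¹) * pr g *
        (pr (sg hF (k * Matrix.GeneralLinearGroup.map j A * k⁻¹)))⁻¹ := by
    intro A hA
    have hA' := pr_map j _ _ ((hH A).mp hA).symm
    rw [map_mul (Matrix.GeneralLinearGroup.map j), map_mul (Matrix.GeneralLinearGroup.map j),
      map_inv (Matrix.GeneralLinearGroup.map j), glmap_itH, map_mul, map_mul, map_inv] at hA'
    obtain ⟨e1, e2⟩ := grp_fwd (pr g) (pr g) (pr k) (pr k) (pr (sg hF k)) (pr (sg hF k))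
      (pr (itH k)) (pr (itH k)) (pr (Matrix.GeneralLinearGroup.map j A))
      (pr (itH (Matrix.GeneralLinearGroup.map j A)))
      (pr (Matrix.GeneralLinearGroup.map j B)) (pr (Matrix.GeneralLinearGroup.map j B))
      hk1 hk1 hk2 hk2 hA'
    constructor
    · rw [mem_GUs_iff_pr hF, map_mul (sg hF), map_mul (sg hF), map_inv (sg hF), sg_map hF j hj,
        map_mul itH, map_mul itH, map_inv itH]
      simp only [map_mul, map_inv]
      exact e1
    · rw [map_mul (sg hF), map_mul (sg hF), map_inv (sg hF), sg_map hF j hj]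
      simp only [map_mul, map_inv]
      exact e2
  let f : ↥H →* GLn :=
    ((MulAut.conj k).toMonoidHom.comp (Matrix.GeneralLinearGroup.map j)).comp H.subtype
  have hf : ∀ A : ↥H, f A = k * Matrix.GeneralLinearGroup.map j (A : GL (Fin n) F₀) * k⁻¹ :=
    fun A => rfl
  let θ : ↥H →* ↥(PSUAut.GUs n F q) :=
    f.codRestrict _ (fun A => by rw [hf]; exact (hfwd A.1 A.2).1)
  let ψ₂ : ↥H →* MulAut (Cfsg.PSU n F q) := PSUAut.cU.comp θ
  let ψ₁ : ↥H →* MulAut PSL₀ := (cG : GL (Fin n) F₀ →* MulAut PSL₀).comp H.subtype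
  have hr₁ : ψ₁.range =
      Cfsg.inndiagPSL n F₀ ⊓ Subgroup.centralizer {(cG B * iG : MulAut PSL₀)} := by
    ext x
    rw [Subgroup.mem_inf, inndiag_eq]
    constructor
    · rintro ⟨A, rfl⟩
      exact ⟨⟨A.1, rfl⟩, A.2⟩
    · rintro ⟨⟨A, rfl⟩, hx⟩
      exact ⟨⟨A, hx⟩, rfl⟩
  have hr₂ : ψ₂.range = Cfsg.inndiagPSU n F q ⊓ Subgroup.centralizer
      {(PSUAut.cU (PSUAut.ofGU g hg) * PSUAut.fU (frobQ hF) : MulAut (Cfsg.PSU n F q))} := by
    ext x
    rw [Subgroup.mem_inf, PSUAut.inndiag_eq hF hn1]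
    constructor
    · rintro ⟨A, rfl⟩
      refine ⟨⟨θ A, rfl⟩, ?_⟩
      show PSUAut.cU (θ A) ∈ _
      rw [psu_cent_iff hF hn h32]
      have h2 := (hfwd A.1 A.2).2
      show pr (f A * g * sg hF (f A)⁻¹) = pr g
      rw [hf, map_mul, map_mul, map_inv (sg hF), map_inv]
      exact h2.symm
    · rintro ⟨⟨x', rfl⟩, hx⟩
      rw [psu_cent_iff hF hn h32] at hx
      have hx1 : pr (sg hF (x' : GLn)) = pr (itH (x' : GLn)) := (mem_GUs_iff_pr hF _).mp x'.2
      have hx2 : pr g = pr (x' : GLn) * pr g * (pr (sg hF (x' : GLn)))⁻¹ := by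
        rw [← map_inv, ← map_inv (sg hF), ← map_mul, ← map_mul]
        exact hx.symm
      obtain ⟨e1, e2⟩ := grp_bwd (pr g) (pr g) (pr k) (pr k) (pr (sg hF k)) (pr (sg hF k))
        (pr (itH k)) (pr (itH k)) (pr (x' : GLn)) (pr (sg hF (x' : GLn)))
        (pr (itH (x' : GLn))) (pr (Matrix.GeneralLinearGroup.map j B))
        (pr (Matrix.GeneralLinearGroup.map j B)) hk1 hk1 hk2 hk2 hx1 hx2
      have hz : pr (k⁻¹ * (x' : GLn) * k) = pr (sg hF (k⁻¹ * (x' : GLn) * k)) := by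
        rw [map_mul (sg hF), map_mul (sg hF), map_inv (sg hF)]
        simp only [map_mul, map_inv]
        exact e1
      obtain ⟨A, hA⟩ := descent hF hn1 j hj _ hz
      have hiA : pr (itH (Matrix.GeneralLinearGroup.map j A)) =
          pr (itH (k⁻¹ * (x' : GLn) * k)) := pr_itH _ _ hA.symm
      have hAH : A ∈ H := by
        rw [hH]
        apply pr_map_inj hn1 j
        rw [map_mul (Matrix.GeneralLinearGroup.map j), map_mul (Matrix.GeneralLinearGroup.map j),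
          map_inv (Matrix.GeneralLinearGroup.map j), glmap_itH, map_mul, map_mul, map_inv, hiA,
          ← hA]
        simp only [map_mul, map_inv]
        exact e2.symm
      refine ⟨⟨A, hAH⟩, ?_⟩
      show PSUAut.cU (θ ⟨A, hAH⟩) = PSUAut.cU x'
      apply cU_eq_of_pr
      show pr (k * Matrix.GeneralLinearGroup.map j A * k⁻¹) = pr (x' : GLn)
      rw [map_mul, map_mul, ← hA, map_mul, map_mul, map_inv]
      group
  have hker : ψ₂.ker = ψ₁.ker := by
    ext A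
    rw [MonoidHom.mem_ker, MonoidHom.mem_ker]
    show PSUAut.cU (θ A) = 1 ↔ (cG (A : GL (Fin n) F₀) : MulAut PSL₀) = 1
    rw [PSUAut.cU_eq_one_iff hF hn h32, ← pr_eq_one_iff]
    have e1 : (cG (A : GL (Fin n) F₀) : MulAut PSL₀) = 1 ↔ pr (A : GL (Fin n) F₀) = 1 := by
      rw [pr_eq_one_iff_mem, ← cG_ker hn2, MonoidHom.mem_ker]
    rw [e1]
    show pr (k * Matrix.GeneralLinearGroup.map j (A : GL (Fin n) F₀) * k⁻¹) = 1 ↔ _
    rw [map_mul, map_mul, map_inv, conj_eq_one_iff]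
    constructor
    · intro h
      have h2 : pr (Matrix.GeneralLinearGroup.map j (A : GL (Fin n) F₀)) =
          pr (Matrix.GeneralLinearGroup.map j (1 : GL (Fin n) F₀)) := by
        rw [map_one, map_one]
        exact h
      have h3 := pr_map_inj hn1 j _ _ h2
      rw [h3, map_one]
    · intro h
      have h2 := pr_map j _ _ (h.trans (map_one pr).symm)
      rw [h2, map_one, map_one]
  exact ⟨(MulEquiv.subgroupCongr hr₂).symm.trans
    ((QuotientGroup.quotientKerEquivRange ψ₂).symm.trans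
      ((QuotientGroup.quotientMulEquivOfEq hker).trans
        ((QuotientGroup.quotientKerEquivRange ψ₁).trans (MulEquiv.subgroupCongr hr₁))))⟩

/-- An abstract field with `q` elements embeds as the fixed field of the `q`-power map. -/
theorem exists_fixEmb (hF : Fintype.card F = q ^ 2) (F₀ : Type*) [Field F₀] [Fintype F₀]
    (hF₀ : Fintype.card F₀ = q) : ∃ j : F₀ →+* F, IsFixEmb (frobQ hF) j := by
  obtain ⟨p, k, hp, -, hqk⟩ := q_prime_pow hF
  haveI : Fact p.Prime := ⟨hp⟩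
  have hF' : Fintype.card F = p ^ (2 * k) := by rw [hF, hqk, ← pow_mul, mul_comm]
  obtain ⟨-, hc0⟩ := card_fixF_eq hF' (frobQ hF) (by norm_num : 0 < 2) (PSUAut.orderOf_frobQ hF)
  rw [Nat.mul_div_cancel_left k (by norm_num : 0 < 2)] at hc0
  haveI : Fintype (fixF (frobQ hF)) := Fintype.ofFinite _
  have ι : F₀ ≃+* fixF (frobQ hF) := FiniteField.ringEquivOfCardEq (by
    rw [hF₀, ← Nat.card_eq_fintype_card, hc0]
    exact hqk)
  refine ⟨(fixF (frobQ hF)).subtype.comp (ι : F₀ →+* fixF (frobQ hF)), ?_⟩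
  intro b
  rw [← mem_fixF]
  constructor
  · intro hb
    exact ⟨ι.symm ⟨b, hb⟩, by simp⟩
  · rintro ⟨c, rfl⟩
    exact (ι c).2

/-- Every involutory graph automorphism of `PSU_n(q)` has a partner in `PSL_n(q)`. -/
theorem exists_partner (hF : Fintype.card F = q ^ 2) (hn : 3 ≤ n) (h32 : ¬ (n = 3 ∧ q = 2))
    (j : F₀ →+* F) (hj : IsFixEmb (frobQ hF) j) (γ : MulAut (Cfsg.PSU n F q))
    (hγ : Cfsg.IsGraphAutClassPSU γ) (hγ2 : orderOf γ = 2) :
    ∃ (g : GLn) (hg : g ∈ Cfsg.GU n F q) (B : GL (Fin n) F₀),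
      γ = PSUAut.cU (PSUAut.ofGU g hg) * PSUAut.fU (frobQ hF) ∧ Data hF j g B ∧
      Cfsg.IsGraphAutClassPSL (cG B * iG : MulAut PSL₀) ∧
      orderOf (cG B * iG : MulAut PSL₀) = 2 := by
  obtain ⟨g, hg, hs, rfl⟩ := (PSUAut.graph_iff hF hn h32 γ).mp ⟨hγ, hγ2⟩
  obtain ⟨B, k, hBs, hk1, hk2⟩ := exists_data hF (by omega) j hj g hg hs
  exact ⟨g, hg, B, rfl, ⟨k, hk1, hk2⟩, (GraphAut.graph_iff _).mpr ⟨hn, B, rfl⟩,
    (GraphAutOdd.orderOf_eq_two_iff' hn B).mpr hBs⟩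

/-- Every involutory graph automorphism of `PSL_n(q)` has a partner in `PSU_n(q)`. -/
theorem exists_partner' (hF : Fintype.card F = q ^ 2) (hn : 3 ≤ n) (h32 : ¬ (n = 3 ∧ q = 2))
    (j : F₀ →+* F) (hj : IsFixEmb (frobQ hF) j) (δ : MulAut PSL₀)
    (hδ : Cfsg.IsGraphAutClassPSL δ) (hδ2 : orderOf δ = 2) :
    ∃ (g : GLn) (hg : g ∈ Cfsg.GU n F q) (B : GL (Fin n) F₀),
      δ = cG B * iG ∧ Data hF j g B ∧
      Cfsg.IsGraphAutClassPSU
        (PSUAut.cU (PSUAut.ofGU g hg) * PSUAut.fU (frobQ hF) : MulAut (Cfsg.PSU n F q)) ∧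
      orderOf (PSUAut.cU (PSUAut.ofGU g hg) * PSUAut.fU (frobQ hF) :
        MulAut (Cfsg.PSU n F q)) = 2 := by
  obtain ⟨-, B, rfl⟩ := (GraphAut.graph_iff δ).mp hδ
  have hBs := (GraphAutOdd.orderOf_eq_two_iff' hn B).mp hδ2
  obtain ⟨g, k, hg, hgs, hk1, hk2⟩ := exists_g hF j hj B hBs
  have h := (PSUAut.graph_iff hF hn h32 _).mpr ⟨g, hg, hgs, rfl⟩
  exact ⟨g, hg, B, rfl, ⟨k, hk1, hk2⟩, h.1, h.2⟩

end descent

end Cfsg.Agent.Lib.Helper8.PSUGraph
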