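import Mathlib
import Cfsg.Agent.Lib.Helper8.PSUGraph
import Cfsg.Agent.Lib.Helper8.GraphSplit
import Cfsg.Agent.Lib.Helper43.FieldAut.GraphCent

set_option autoImplicit false

/-!
# Splitting of the classes of involutory graph automorphisms of `PSU_n(q)`
-/

namespace Cfsg.Agent.Lib.Helper8.PSUSplit

open Matrix Cfsg.Agent.Lib.Helper43.AutPSLn Cfsg.Agent.Lib.Helper43.FieldAut
  Cfsg.Agent.Lib.Helper45 Cfsg.Agent.Lib.Helper8

open scoped Pointwise

section general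

variable {n : ℕ} {F : Type*} [Field F] [Fintype F] {q : ℕ}

local notation "Mx" => Matrix (Fin n) (Fin n) F
local notation "SLn" => Matrix.SpecialLinearGroup (Fin n) F
local notation "GLn" => GL (Fin n) F

/-- Conjugation by unitary matrices, as automorphisms of `PSU_n`. -/
def cV : ↥(Cfsg.GU n F q) →* MulAut (Cfsg.PSU n F q) :=
  PSUAut.cU.comp (Subgroup.inclusion PSUAut.GU_le_GUs)

theorem cV_apply (u : ↥(Cfsg.GU n F q)) :
    (cV u : MulAut (Cfsg.PSU n F q)) = PSUAut.cU (PSUAut.ofGU (u : GLn) u.2) := rfl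

theorem range_cV (hF : Fintype.card F = q ^ 2) (hn : 1 ≤ n) :
    (cV : ↥(Cfsg.GU n F q) →* MulAut (Cfsg.PSU n F q)).range = Cfsg.inndiagPSU n F q := by
  rw [PSUAut.inndiag_eq hF hn]
  apply le_antisymm
  · rintro _ ⟨u, rfl⟩
    exact ⟨_, rfl⟩
  · rintro _ ⟨x, rfl⟩
    obtain ⟨g, hg, d, hd⟩ := PSUAut.exists_GU_smul hF hn x
    exact ⟨⟨g, hg⟩, (PSUAut.cU_eq_of_smul x (PSUAut.ofGU g hg) d hd).symm⟩

/-- Special unitary matrices as unitary matrices. -/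
def suGU (s : ↥(Cfsg.SU n F q)) : ↥(Cfsg.GU n F q) :=
  ⟨Matrix.SpecialLinearGroup.toGL (s : SLn), fun u v => s.2 u v⟩

theorem suGU_coe (s : ↥(Cfsg.SU n F q)) :
    ((suGU s : ↥(Cfsg.GU n F q)) : GLn) = Matrix.SpecialLinearGroup.toGL (s : SLn) := rfl

theorem cV_suGU (s : ↥(Cfsg.SU n F q)) :
    (cV (suGU s) : MulAut (Cfsg.PSU n F q)) =
      MulAut.conj (QuotientGroup.mk s : Cfsg.PSU n F q) := by
  ext x
  obtain ⟨t, rfl⟩ := QuotientGroup.mk_surjective x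
  rw [cV_apply, PSUAut.cU_mk, MulAut.conj_apply, ← QuotientGroup.mk_mul, ← QuotientGroup.mk_inv,
    ← QuotientGroup.mk_mul]
  rfl

theorem inn_le_range_cV :
    Cfsg.Inn (Cfsg.PSU n F q) ≤ (cV : ↥(Cfsg.GU n F q) →* MulAut (Cfsg.PSU n F q)).range := by
  rintro _ ⟨y, rfl⟩
  obtain ⟨s, rfl⟩ := QuotientGroup.mk_surjective y
  exact ⟨suGU s, cV_suGU s⟩

theorem scalar_mem_GU (hF : Fintype.card F = q ^ 2) (c : Fˣ) (hc : c ^ (q + 1) = 1) :
    Matrix.GeneralLinearGroup.scalar (Fin n) c ∈ Cfsg.GU n F q := by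
  rw [PSUAut.mem_GU_iff hF, Matrix.GeneralLinearGroup.coe_scalar, Matrix.scalar_apply,
    Matrix.diagonal_transpose, Matrix.diagonal_map (map_zero _), Matrix.diagonal_mul_diagonal,
    ← Matrix.diagonal_one]
  congr 1
  ext i
  show (c : F) * frobQ hF (c : F) = 1
  rw [frobQ_apply, ← pow_succ', ← Units.val_pow_eq_pow_val, hc, Units.val_one]

theorem norm_one_iff (hF : Fintype.card F = q ^ 2) (c : Fˣ) :
    c ^ (q + 1) = 1 ↔ c ∈ (powMonoidHom (q - 1) : Fˣ →* Fˣ).range := by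
  have hq := two_le_q hF
  constructor
  · intro hc
    have hc' : (c : F) * sigmaQ hF (c : F) = 1 := by
      rw [sigmaQ_apply, ← pow_succ', ← Units.val_pow_eq_pow_val, hc, Units.val_one]
    obtain ⟨b, hb0, hb⟩ := Cfsg.Agent.Lib.Helper13.hilbert90_involution (sigmaQ hF)
      (PSUGraph.sigmaQ_ne_id hF) (conj_conj hF) (c : F) hc'
    refine ⟨(Units.mk0 b hb0)⁻¹, ?_⟩
    apply Units.ext
    show (((Units.mk0 b hb0)⁻¹ ^ (q - 1) : Fˣ) : F) = (c : F)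
    rw [Units.val_pow_eq_pow_val, Units.val_inv_eq_inv_val, Units.val_mk0, inv_pow]
    rw [sigmaQ_apply] at hb
    have hpow : b ^ q = b ^ (q - 1) * b := by rw [← pow_succ, Nat.sub_add_cancel (by omega)]
    have h5 : b ^ (q - 1) * (c : F) = 1 := by
      apply mul_left_cancel₀ hb0
      rw [mul_one]
      conv_rhs => rw [hb, hpow]
      ring
    exact inv_eq_of_mul_eq_one_right h5
  · rintro ⟨y, rfl⟩
    show (y ^ (q - 1)) ^ (q + 1) = 1
    rw [← pow_mul]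
    have h1 : (q - 1) * (q + 1) = Fintype.card F - 1 := by
      rw [hF]
      obtain ⟨t, rfl⟩ : ∃ t, q = t + 1 := ⟨q - 1, by omega⟩
      simp only [Nat.add_sub_cancel]
      have : (t + 1) ^ 2 = t * (t + 1 + 1) + 1 := by ring
      omega
    rw [h1]
    apply Units.ext
    rw [Units.val_pow_eq_pow_val, Units.val_one]
    exact FiniteField.pow_card_sub_one_eq_one _ y.ne_zero

/-- A scalar multiple of a unitary matrix that is unitary has a scalar of norm one. -/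
theorem norm_of_smul_mem (hF : Fintype.card F = q ^ 2) (hn : 1 ≤ n) (g w : GLn)
    (hg : g ∈ Cfsg.GU n F q) (hw : w ∈ Cfsg.GU n F q) (c : Fˣ)
    (h : (w : Mx) = (c : F) • (g : Mx)) : c ^ (q + 1) = 1 := by
  have hg' := (PSUAut.mem_GU_iff hF g).mp hg
  have hw' := (PSUAut.mem_GU_iff hF w).mp hw
  rw [h, Matrix.transpose_smul] at hw'
  have h1 : ((c : F) • (g : Mx)).map (frobQ hF) = (c : F) ^ q • (g : Mx).map (frobQ hF) := by
    ext a b
    simp [frobQ_apply, mul_pow]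
  rw [h1, Matrix.smul_mul, Matrix.mul_smul, hg', smul_smul] at hw'
  have h2 := congrFun (congrFun hw' ⟨0, hn⟩) ⟨0, hn⟩
  rw [Matrix.smul_apply, Matrix.one_apply_eq, smul_eq_mul, mul_one] at h2
  apply Units.ext
  rw [Units.val_pow_eq_pow_val, Units.val_one, pow_succ']
  exact h2

theorem detU_suGU (s : ↥(Cfsg.SU n F q)) : detU n F q (suGU s) = 1 := by
  apply Units.ext
  show ((Matrix.GeneralLinearGroup.det (Matrix.SpecialLinearGroup.toGL (s : SLn)) : Fˣ) : F) = 1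
  rw [Matrix.GeneralLinearGroup.val_det_apply]
  exact (s : SLn).2

theorem comap_sup_map (hF : Fintype.card F = q ^ 2) (hn : 3 ≤ n) (h32 : ¬ (n = 3 ∧ q = 2))
    (S : Subgroup ↥(Cfsg.GU n F q)) :
    (Cfsg.Inn (Cfsg.PSU n F q) ⊔ S.map cV).comap
        (cV : ↥(Cfsg.GU n F q) →* MulAut (Cfsg.PSU n F q)) =
      ((powMonoidHom ((q - 1) * n) : Fˣ →* Fˣ).range ⊔ S.map (detU n F q)).comap
        (detU n F q) := by
  ext u
  rw [Subgroup.mem_comap, Subgroup.mem_comap]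
  constructor
  · intro hmem
    have hmem' : (cV u : MulAut (Cfsg.PSU n F q)) ∈
        ((Cfsg.Inn (Cfsg.PSU n F q) : Subgroup (MulAut (Cfsg.PSU n F q))) :
          Set (MulAut (Cfsg.PSU n F q))) *
        ((S.map cV : Subgroup (MulAut (Cfsg.PSU n F q))) : Set (MulAut (Cfsg.PSU n F q))) := by
      rw [← Subgroup.normal_mul]
      exact hmem
    obtain ⟨_, ⟨y, rfl⟩, _, ⟨k, hk, rfl⟩, e⟩ := hmem'
    obtain ⟨s, rfl⟩ := QuotientGroup.mk_surjective y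
    have e : (MulAut.conj (QuotientGroup.mk s : Cfsg.PSU n F q) : MulAut (Cfsg.PSU n F q)) *
        cV k = cV u := e
    rw [← cV_suGU, ← map_mul, cV_apply, cV_apply] at e
    obtain ⟨c, hc⟩ := (PSUAut.cU_eq_iff hF hn h32 _ _).mp e
    have hc1 : c ^ (q + 1) = 1 :=
      norm_of_smul_mem hF (by omega) (u : GLn) ((suGU s * k : ↥(Cfsg.GU n F q)) : GLn) u.2
        (suGU s * k).2 c hc
    obtain ⟨y, hy⟩ := (norm_one_iff hF c).mp hc1
    have hy' : y ^ (q - 1) = c := hy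
    have h2 : ((suGU s * k : ↥(Cfsg.GU n F q)) : GLn) =
        Matrix.GeneralLinearGroup.scalar (Fin n) c * (u : GLn) := by
      apply Units.ext
      rw [PSUAut.scalar_mul_coe']
      exact hc
    have h3 := congrArg (Matrix.GeneralLinearGroup.det : GLn →* Fˣ) h2
    rw [Subgroup.coe_mul, map_mul, map_mul, Matrix.GeneralLinearGroup.det_scalar,
      Fintype.card_fin] at h3
    have h4 : Matrix.GeneralLinearGroup.det ((suGU s : ↥(Cfsg.GU n F q)) : GLn) = 1 :=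
      detU_suGU s
    rw [h4, one_mul] at h3
    rw [Subgroup.mem_sup]
    refine ⟨(y⁻¹) ^ ((q - 1) * n), ⟨y⁻¹, rfl⟩, detU n F q k, ⟨k, hk, rfl⟩, ?_⟩
    show (y⁻¹) ^ ((q - 1) * n) * Matrix.GeneralLinearGroup.det (k : GLn) =
      Matrix.GeneralLinearGroup.det (u : GLn)
    rw [h3, pow_mul, inv_pow, hy', inv_pow, inv_mul_cancel_left]
  · intro hmem
    rw [Subgroup.mem_sup] at hmem
    obtain ⟨_, ⟨y, rfl⟩, _, ⟨k, hk, rfl⟩, e⟩ := hmem
    have e' : y ^ ((q - 1) * n) * detU n F q k = detU n F q u := e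
    have hz1 : (y ^ (q - 1)) ^ (q + 1) = 1 := (norm_one_iff hF _).mpr ⟨y, rfl⟩
    obtain ⟨z, hz⟩ : ∃ z : ↥(Cfsg.GU n F q),
        (z : GLn) = Matrix.GeneralLinearGroup.scalar (Fin n) (y ^ (q - 1)) :=
      ⟨⟨_, scalar_mem_GU hF _ hz1⟩, rfl⟩
    obtain ⟨u₁, hu₁⟩ : ∃ u₁ : ↥(Cfsg.GU n F q), u₁ = u * z⁻¹ * k⁻¹ := ⟨_, rfl⟩
    have hdz : detU n F q z = y ^ ((q - 1) * n) := by
      show Matrix.GeneralLinearGroup.det (z : GLn) = _
      rw [hz, Matrix.GeneralLinearGroup.det_scalar, Fintype.card_fin, ← pow_mul]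
    have hdet : detU n F q u₁ = 1 := by
      rw [hu₁, map_mul, map_mul, map_inv, map_inv, ← e', hdz, mul_comm (y ^ _),
        mul_inv_cancel_right, mul_inv_cancel]
    have hdet' : ((u₁ : GLn) : Mx).det = 1 := by
      have h5 := congrArg (fun w : Fˣ => (w : F)) hdet
      exact h5
    obtain ⟨s₁, hs₁⟩ : ∃ s₁ : ↥(Cfsg.SU n F q), suGU s₁ = u₁ :=
      ⟨⟨⟨((u₁ : GLn) : Mx), hdet'⟩, fun a b => u₁.2 a b⟩, Subtype.ext (Units.ext rfl)⟩
    have hu : u = u₁ * k * z := by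
      rw [hu₁]
      group
    have hcz : (cV z : MulAut (Cfsg.PSU n F q)) = 1 := by
      rw [cV_apply]
      refine PSUAut.cU_of_scalar _ ((y ^ (q - 1) : Fˣ) : F) ?_
      show ((z : GLn) : Mx) = _
      rw [hz, Matrix.GeneralLinearGroup.coe_scalar, Matrix.scalar_apply,
        Matrix.smul_one_eq_diagonal]
    rw [hu, map_mul, map_mul, hcz, mul_one, ← hs₁, cV_suGU]
    exact Subgroup.mul_mem_sup ⟨_, rfl⟩ ⟨k, hk, rfl⟩

/-- The unitary matrices inducing automorphisms that centralise `γ`. -/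
def simU (γ : MulAut (Cfsg.PSU n F q)) : Subgroup ↥(Cfsg.GU n F q) :=
  (Subgroup.centralizer {γ}).comap cV

/-- The number of inner classes in the inner-diagonal class of `γ`. -/
theorem splitCount_eq (hF : Fintype.card F = q ^ 2) (hn : 3 ≤ n) (h32 : ¬ (n = 3 ∧ q = 2))
    (γ : MulAut (Cfsg.PSU n F q)) :
    Cfsg.splitClassCount (Cfsg.inndiagPSU n F q) (Cfsg.Inn (Cfsg.PSU n F q)) γ =
      ((powMonoidHom ((q - 1) * n) : Fˣ →* Fˣ).range ⊔ (simU γ).map (detU n F q)).relIndex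
        (powMonoidHom (q - 1) : Fˣ →* Fˣ).range := by
  rw [← range_cV hF (by omega), splitClassCount_eq _ _ inn_le_range_cV]
  have h1 : (cV : ↥(Cfsg.GU n F q) →* MulAut (Cfsg.PSU n F q)).range ⊓
      Subgroup.centralizer {γ} = (simU γ).map cV := by
    unfold simU
    rw [Subgroup.map_comap_eq]
  rw [h1, ← Subgroup.index_comap, comap_sup_map hF hn h32, Subgroup.index_comap,
    detU_range (by omega) (frobQ hF) (frobQ_ne_one hF) (frobQ_sq hF) hF (frobQ_apply hF)]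

end general

section precise

variable {n : ℕ} {K : Type*} [Field K]

local notation "Kx" => Matrix (Fin n) (Fin n) K

theorem gl_inv_mul_coe (P : GL (Fin n) K) :
    ((P⁻¹ : GL (Fin n) K) : Kx) * (P : Kx) = 1 := by
  rw [← Units.val_mul, inv_mul_cancel]
  rfl

theorem gl_mul_inv_coe (P : GL (Fin n) K) :
    (P : Kx) * ((P⁻¹ : GL (Fin n) K) : Kx) = 1 := by
  rw [← Units.val_mul, mul_inv_cancel]
  rfl

/-- Transport of a similitude along a congruence. -/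
theorem sim_conj (g g₁ P h : GL (Fin n) K) (c : K)
    (hP : (g : Kx) = (P : Kx) * (g₁ : Kx) * (P : Kx)ᵀ)
    (hc : (h : Kx) * (g : Kx) * (h : Kx)ᵀ = c • (g : Kx)) :
    ((P⁻¹ * h * P : GL (Fin n) K) : Kx) * (g₁ : Kx) * ((P⁻¹ * h * P : GL (Fin n) K) : Kx)ᵀ =
      c • (g₁ : Kx) := by
  have hPi := gl_inv_mul_coe P
  have hPi' : (P : Kx)ᵀ * ((P⁻¹ : GL (Fin n) K) : Kx)ᵀ = 1 := by
    rw [← Matrix.transpose_mul, hPi, Matrix.transpose_one]
  rw [Units.val_mul, Units.val_mul, Matrix.transpose_mul, Matrix.transpose_mul]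
  calc ((P⁻¹ : GL (Fin n) K) : Kx) * (h : Kx) * (P : Kx) * (g₁ : Kx) *
        ((P : Kx)ᵀ * ((h : Kx)ᵀ * ((P⁻¹ : GL (Fin n) K) : Kx)ᵀ))
      = ((P⁻¹ : GL (Fin n) K) : Kx) * ((h : Kx) * ((P : Kx) * (g₁ : Kx) * (P : Kx)ᵀ) * (h : Kx)ᵀ) *
          ((P⁻¹ : GL (Fin n) K) : Kx)ᵀ := by simp only [Matrix.mul_assoc]
    _ = ((P⁻¹ : GL (Fin n) K) : Kx) * (c • ((P : Kx) * (g₁ : Kx) * (P : Kx)ᵀ)) *
          ((P⁻¹ : GL (Fin n) K) : Kx)ᵀ := by rw [← hP, hc]
    _ = c • ((((P⁻¹ : GL (Fin n) K) : Kx) * (P : Kx)) * (g₁ : Kx) *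
          ((P : Kx)ᵀ * ((P⁻¹ : GL (Fin n) K) : Kx)ᵀ)) := by
        simp only [Matrix.mul_smul, Matrix.smul_mul, Matrix.mul_assoc]
    _ = c • (g₁ : Kx) := by rw [hPi, hPi', Matrix.one_mul, Matrix.mul_one]

/-- Transport of a similitude along a congruence, the other way. -/
theorem sim_conj' (g g₁ P h₁ : GL (Fin n) K) (c : K)
    (hP : (g : Kx) = (P : Kx) * (g₁ : Kx) * (P : Kx)ᵀ)
    (hc : (h₁ : Kx) * (g₁ : Kx) * (h₁ : Kx)ᵀ = c • (g₁ : Kx)) :
    ((P * h₁ * P⁻¹ : GL (Fin n) K) : Kx) * (g : Kx) * ((P * h₁ * P⁻¹ : GL (Fin n) K) : Kx)ᵀ =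
      c • (g : Kx) := by
  have hPi := gl_inv_mul_coe P
  have hPi' : (P : Kx)ᵀ * ((P⁻¹ : GL (Fin n) K) : Kx)ᵀ = 1 := by
    rw [← Matrix.transpose_mul, hPi, Matrix.transpose_one]
  have hP' : (g₁ : Kx) = ((P⁻¹ : GL (Fin n) K) : Kx) * (g : Kx) *
      ((P⁻¹ : GL (Fin n) K) : Kx)ᵀ := by
    rw [hP]
    calc (g₁ : Kx) = (((P⁻¹ : GL (Fin n) K) : Kx) * (P : Kx)) * (g₁ : Kx) *
          ((P : Kx)ᵀ * ((P⁻¹ : GL (Fin n) K) : Kx)ᵀ) := by
          rw [hPi, hPi', Matrix.one_mul, Matrix.mul_one]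
      _ = _ := by simp only [Matrix.mul_assoc]
  have h1 := sim_conj g₁ g P⁻¹ h₁ c hP' hc
  rw [inv_inv] at h1
  exact h1

variable [Fintype K]

/-- Symmetric forms in even dimension have similitudes of every multiplier. -/
theorem exists_sim_symm (h2 : (2 : K) ≠ 0) {m : ℕ} (hnm : n = 2 * m) (g : GL (Fin n) K)
    (hg : (g : Kx)ᵀ = (g : Kx)) (c : Kˣ) :
    ∃ h : GL (Fin n) K, (h : Kx) * (g : Kx) * (h : Kx)ᵀ = (c : K) • (g : Kx) := by
  obtain ⟨g', hg'⟩ : ∃ g' : GL (Fin n) K, g' = Matrix.GeneralLinearGroup.scalar (Fin n) c * g :=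
    ⟨_, rfl⟩
  have hg'c : (g' : Kx) = (c : K) • (g : Kx) := by rw [hg', GraphAut.scalar_mul_coe]
  have hs' : (g' : Kx)ᵀ = (g' : Kx) := by rw [hg'c, Matrix.transpose_smul, hg]
  have hp : (c : K) ^ n = (c : K) ^ m * (c : K) ^ m := by rw [hnm, two_mul, pow_add]
  obtain ⟨h, hh⟩ := (GraphAutOdd.congr_iff_isSquare h2 g g' hg hs').mpr
    ⟨(c : K) ^ m * (g : Kx).det, by
      rw [hg'c, Matrix.det_smul, Fintype.card_fin, hp]
      ring⟩
  exact ⟨h, by rw [← hh, hg'c]⟩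

/-- A symmetric invertible matrix has an isometry of determinant `-1`. -/
theorem exists_isom_neg (h2 : (2 : K) ≠ 0) (hn : 1 ≤ n) (g : GL (Fin n) K)
    (hg : (g : Kx)ᵀ = (g : Kx)) :
    ∃ h : GL (Fin n) K, (h : Kx) * (g : Kx) * (h : Kx)ᵀ = (g : Kx) ∧ (h : Kx).det = -1 := by
  have hdet : (g : Kx).det ≠ 0 := ((Matrix.isUnit_iff_isUnit_det _).mp g.isUnit).ne_zero
  obtain ⟨i₀, hi₀⟩ : ∃ i₀ : Fin n, i₀ = ⟨0, by omega⟩ := ⟨_, rfl⟩
  obtain ⟨d, hd⟩ : ∃ d : Fin n → K, d = fun i => if i = i₀ then (g : Kx).det else 1 := ⟨_, rfl⟩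
  have hdd : (Matrix.diagonal d).det = (g : Kx).det := by
    rw [Matrix.det_diagonal, hd]
    simp [Finset.prod_ite_eq']
  obtain ⟨g', hg'⟩ : ∃ g' : GL (Fin n) K, (g' : Kx) = Matrix.diagonal d :=
    ⟨Matrix.GeneralLinearGroup.mkOfDetNeZero (Matrix.diagonal d) (by rw [hdd]; exact hdet), rfl⟩
  have hs' : (g' : Kx)ᵀ = (g' : Kx) := by rw [hg', Matrix.diagonal_transpose]
  obtain ⟨P, hP⟩ := (GraphAutOdd.congr_iff_isSquare h2 g' g hs' hg).mpr
    ⟨(g : Kx).det, by rw [hg', hdd]⟩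
  obtain ⟨e, he⟩ : ∃ e : Fin n → K, e = fun i => if i = i₀ then -1 else 1 := ⟨_, rfl⟩
  have hed : (Matrix.diagonal e).det = -1 := by
    rw [Matrix.det_diagonal, he]
    simp [Finset.prod_ite_eq']
  obtain ⟨h, hh⟩ : ∃ h : GL (Fin n) K, (h : Kx) = Matrix.diagonal e :=
    ⟨Matrix.GeneralLinearGroup.mkOfDetNeZero (Matrix.diagonal e) (by rw [hed]; simp), rfl⟩
  have h1 : (h : Kx) * (g' : Kx) * (h : Kx)ᵀ = (1 : K) • (g' : Kx) := by
    rw [hh, hg', Matrix.diagonal_transpose, Matrix.diagonal_mul_diagonal,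
      Matrix.diagonal_mul_diagonal, one_smul]
    congr 1
    ext i
    by_cases hi : i = i₀ <;> simp [he, hi]
  have h3 := sim_conj' g g' P h 1 hP h1
  rw [one_smul] at h3
  refine ⟨P * h * P⁻¹, h3, ?_⟩
  rw [Units.val_mul, Units.val_mul, Matrix.det_mul, Matrix.det_mul, hh, hed, mul_comm,
    ← mul_assoc, ← Matrix.det_mul, gl_inv_mul_coe, Matrix.det_one, one_mul]

end precise

section preciseSkew

variable {n : ℕ} {K : Type*} [Field K]

local notation "Kx" => Matrix (Fin n) (Fin n) K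

/-- A skew invertible matrix is congruent to the standard one. -/
theorem exists_std_skew (h2 : (2 : K) ≠ 0) {m : ℕ} (hnm : n = 2 * m) (g : GL (Fin n) K)
    (hg : (g : Kx)ᵀ = -(g : Kx)) :
    ∃ (e : Fin n ≃ Fin m ⊕ Fin m) (g₁ P : GL (Fin n) K),
      (g₁ : Kx) = (Matrix.J (Fin m) K).submatrix e e ∧
      (g : Kx) = (P : Kx) * (g₁ : Kx) * (P : Kx)ᵀ := by
  obtain ⟨e⟩ : Nonempty (Fin n ≃ Fin m ⊕ Fin m) :=
    ⟨(finCongr (by omega : n = m + m)).trans finSumFinEquiv.symm⟩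
  obtain ⟨g₁, hg₁⟩ : ∃ g₁ : GL (Fin n) K,
      g₁ = GraphAutOdd.gI e (Matrix.J (Fin m) K) (GraphSplit.J_det_ne m) := ⟨_, rfl⟩
  have hc₁ : (g₁ : Kx) = (Matrix.J (Fin m) K).submatrix e e := by
    rw [hg₁, GraphAutOdd.gI_coe]
  have hs₁ : (g₁ : Kx)ᵀ = -(g₁ : Kx) := by
    rw [hc₁, Matrix.transpose_submatrix, Matrix.J_transpose]
    rfl
  obtain ⟨P, hP⟩ := GraphAutOdd.congr_of_alt g₁ g (GraphAutOdd.alt_of_skew h2 _ hs₁)
    (GraphAutOdd.alt_of_skew h2 _ hg)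
  exact ⟨e, g₁, P, hc₁, hP⟩

/-- The Pfaffian identity for similitudes of a skew form. -/
theorem det_of_sim_skew (h2 : (2 : K) ≠ 0) {m : ℕ} (hnm : n = 2 * m) (g h : GL (Fin n) K)
    (hg : (g : Kx)ᵀ = -(g : Kx)) (c : K) (hc0 : c ≠ 0)
    (hc : (h : Kx) * (g : Kx) * (h : Kx)ᵀ = c • (g : Kx)) : (h : Kx).det = c ^ m := by
  obtain ⟨e, g₁, P, hc₁, hP⟩ := exists_std_skew h2 hnm g hg
  have h1 := sim_conj g g₁ P h c hP hc
  obtain ⟨h', hh'⟩ : ∃ h' : GL (Fin n) K, h' = P⁻¹ * h * P := ⟨_, rfl⟩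
  rw [← hh'] at h1
  obtain ⟨K', hK'⟩ : ∃ K' : Matrix (Fin m ⊕ Fin m) (Fin m ⊕ Fin m) K,
      K' = (h' : Kx).submatrix e.symm e.symm := ⟨_, rfl⟩
  have hh'' : (h' : Kx) = K'.submatrix e e := by
    rw [hK']
    simp
  rw [hh'', hc₁, Matrix.transpose_submatrix, ← GraphAutOdd.subI_mul, ← GraphAutOdd.subI_mul,
    ← GraphAutOdd.subI_smul] at h1
  have hK := GraphAutOdd.subI_inj e _ _ h1
  have hdet' : (h' : Kx).det = c ^ m := by
    rw [hh'', Matrix.det_submatrix_equiv_self, GraphSplit.J_sim_det K' c hc0 hK]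
  rw [← hdet', hh', Units.val_mul, Units.val_mul, Matrix.det_mul, Matrix.det_mul, mul_comm,
    ← mul_assoc, ← Matrix.det_mul, gl_mul_inv_coe, Matrix.det_one, one_mul]

/-- Skew forms have similitudes of every multiplier. -/
theorem exists_sim_skew (h2 : (2 : K) ≠ 0) {m : ℕ} (hnm : n = 2 * m) (g : GL (Fin n) K)
    (hg : (g : Kx)ᵀ = -(g : Kx)) (c : K) (hc0 : c ≠ 0) :
    ∃ h : GL (Fin n) K, (h : Kx) * (g : Kx) * (h : Kx)ᵀ = c • (g : Kx) := by
  obtain ⟨e, g₁, P, hc₁, hP⟩ := exists_std_skew h2 hnm g hg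
  have hd : (GraphSplit.dJ m c).det ≠ 0 := by
    rw [GraphSplit.det_dJ]
    exact pow_ne_zero _ hc0
  have h1 : ((GraphAutOdd.gI e (GraphSplit.dJ m c) hd : GL (Fin n) K) : Kx) * (g₁ : Kx) *
      ((GraphAutOdd.gI e (GraphSplit.dJ m c) hd : GL (Fin n) K) : Kx)ᵀ = c • (g₁ : Kx) := by
    rw [hc₁, GraphAutOdd.gI_coe, Matrix.transpose_submatrix, ← GraphAutOdd.subI_mul,
      ← GraphAutOdd.subI_mul, GraphSplit.dJ_sim, GraphAutOdd.subI_smul]
  exact ⟨_, sim_conj' g g₁ P _ c hP h1⟩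

end preciseSkew

section transfer

theorem grpT {Q : Type*} [Group Q] (sk ik jA ijA jB zd zμ : Q)
    (hzd : ∀ x : Q, x * zd = zd * x) (hzμ : ∀ x : Q, x * zμ = zμ * x)
    (hD : ik = zd * (sk * jB)) (hS : jA * jB * ijA⁻¹ = zμ * jB) :
    sk * jA * sk⁻¹ = zμ * (ik * ijA * ik⁻¹) := by
  have e2 : ijA = jB⁻¹ * zμ⁻¹ * jA * jB := by
    have h1 : ijA⁻¹ = jB⁻¹ * jA⁻¹ * (zμ * jB) := by
      rw [← hS]
      group
    calc ijA = (ijA⁻¹)⁻¹ := (inv_inv _).symm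
      _ = _ := by
        rw [h1]
        group
  subst hD e2
  calc sk * jA * sk⁻¹ = (sk * zμ) * zμ⁻¹ * jA * sk⁻¹ := by group
    _ = (zμ * sk) * zμ⁻¹ * jA * sk⁻¹ := by rw [hzμ sk]
    _ = zμ * (((sk * jB) * (jB⁻¹ * zμ⁻¹ * jA * jB) * (sk * jB)⁻¹) * zd * zd⁻¹) := by group
    _ = zμ * (zd * ((sk * jB) * (jB⁻¹ * zμ⁻¹ * jA * jB) * (sk * jB)⁻¹) * zd⁻¹) := by rw [hzd]
    _ = zμ * (zd * (sk * jB) * (jB⁻¹ * zμ⁻¹ * jA * jB) * (zd * (sk * jB))⁻¹) := by group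

variable {n : ℕ} {F : Type*} [Field F] [Fintype F] {q : ℕ} {F₀ : Type*} [Field F₀]

local notation "Mx" => Matrix (Fin n) (Fin n) F
local notation "GLn" => GL (Fin n) F

theorem scalar_central {K : Type*} [Field K] (c : Kˣ) (x : GL (Fin n) K) :
    x * Matrix.GeneralLinearGroup.scalar (Fin n) c =
      Matrix.GeneralLinearGroup.scalar (Fin n) c * x := by
  have h : Matrix.GeneralLinearGroup.scalar (Fin n) c ∈ Subgroup.center (GL (Fin n) K) := by
    rw [Matrix.GeneralLinearGroup.center_eq_range_scalar]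
    exact ⟨c, rfl⟩
  exact (Subgroup.mem_center_iff.mp h x)

theorem sg_scalar (hF : Fintype.card F = q ^ 2) (d : Fˣ) :
    PSUGraph.sg hF (Matrix.GeneralLinearGroup.scalar (Fin n) d) =
      Matrix.GeneralLinearGroup.scalar (Fin n) (d ^ q) := by
  apply Units.ext
  rw [PSUGraph.sg_coe, Matrix.GeneralLinearGroup.coe_scalar, Matrix.GeneralLinearGroup.coe_scalar,
    Matrix.scalar_apply, Matrix.scalar_apply, Matrix.diagonal_map (map_zero _)]
  congr 1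

theorem itH_scalar {K : Type*} [Field K] (d : Kˣ) :
    PSUGraph.itH (Matrix.GeneralLinearGroup.scalar (Fin n) d) =
      Matrix.GeneralLinearGroup.scalar (Fin n) d⁻¹ := by
  apply Units.ext
  rw [PSUGraph.itH_coe, ← map_inv, Matrix.GeneralLinearGroup.coe_scalar, Matrix.scalar_apply,
    Matrix.diagonal_transpose]

theorem map_scalar (j : F₀ →+* F) (μ : F₀ˣ) :
    Matrix.GeneralLinearGroup.map j (Matrix.GeneralLinearGroup.scalar (Fin n) μ) =
      Matrix.GeneralLinearGroup.scalar (Fin n) (Units.map (j : F₀ →* F) μ) := by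
  apply Units.ext
  ext a b
  show j ((Matrix.scalar (Fin n) (μ : F₀)) a b) = (Matrix.scalar (Fin n) (j (μ : F₀))) a b
  rw [Matrix.scalar_apply, Matrix.scalar_apply, Matrix.diagonal_apply, Matrix.diagonal_apply]
  split_ifs
  · rfl
  · exact map_zero j

theorem pr_scalar {K : Type*} [Field K] (c : Kˣ) :
    PSUGraph.pr (Matrix.GeneralLinearGroup.scalar (Fin n) c) = 1 := by
  rw [PSUGraph.pr_eq_one_iff_mem, Matrix.GeneralLinearGroup.center_eq_range_scalar]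
  exact ⟨c, rfl⟩

/-- Transfer of a similitude of `B` (over the fixed field) to a unitary matrix centralising
the graph automorphism, with control of the determinant. -/
theorem exists_simU (hF : Fintype.card F = q ^ 2) (hn : 3 ≤ n) (h32 : ¬ (n = 3 ∧ q = 2))
    (j : F₀ →+* F) (hj : IsFixEmb (frobQ hF) j) (g : GLn) (hg : g ∈ Cfsg.GU n F q)
    (B : GL (Fin n) F₀) (hD : PSUGraph.Data hF j g B) (A : GL (Fin n) F₀) (μ : F₀ˣ)
    (hA : (A : Matrix (Fin n) (Fin n) F₀) * (B : Matrix (Fin n) (Fin n) F₀) *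
      (A : Matrix (Fin n) (Fin n) F₀)ᵀ = (μ : F₀) • (B : Matrix (Fin n) (Fin n) F₀))
    (d : Fˣ) (hd : d ^ (q + 1) = Units.map (j : F₀ →* F) μ) :
    ∃ u : ↥(Cfsg.GU n F q),
      u ∈ simU (PSUAut.cU (PSUAut.ofGU g hg) * PSUAut.fU (frobQ hF)) ∧
      detU n F q u =
        Units.map (j : F₀ →* F) (Matrix.GeneralLinearGroup.det A) * (d ^ n)⁻¹ := by
  obtain ⟨k, hk1, hk2⟩ := hD
  have hS₀ : A * B * (PSUGraph.itH A)⁻¹ = Matrix.GeneralLinearGroup.scalar (Fin n) μ * B := by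
    apply Units.ext
    rw [Units.val_mul, Units.val_mul, PSUGraph.itH_inv_coe, PSUAut.scalar_mul_coe']
    exact hA
  obtain ⟨JA, hJA⟩ : ∃ JA : GLn, JA = Matrix.GeneralLinearGroup.map j A := ⟨_, rfl⟩
  obtain ⟨JB, hJB⟩ : ∃ JB : GLn, JB = Matrix.GeneralLinearGroup.map j B := ⟨_, rfl⟩
  have hS : JA * JB * (PSUGraph.itH JA)⁻¹ =
      Matrix.GeneralLinearGroup.scalar (Fin n) (Units.map (j : F₀ →* F) μ) * JB := by
    have h1 := congrArg (Matrix.GeneralLinearGroup.map j) hS₀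
    rw [map_mul, map_mul, map_inv, PSUGraph.glmap_itH, map_mul, map_scalar] at h1
    rw [hJA, hJB]
    exact h1
  rw [← hJB] at hk2
  obtain ⟨c₂, hc₂⟩ := (PSUGraph.pr_eq_iff _ _).mp hk2.symm
  have hD2 : PSUGraph.itH k =
      Matrix.GeneralLinearGroup.scalar (Fin n) c₂ * (PSUGraph.sg hF k * JB) :=
    Units.ext (by rw [PSUAut.scalar_mul_coe']; exact hc₂)
  have key := grpT (PSUGraph.sg hF k) (PSUGraph.itH k) JA (PSUGraph.itH JA) JB
    (Matrix.GeneralLinearGroup.scalar (Fin n) c₂)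
    (Matrix.GeneralLinearGroup.scalar (Fin n) (Units.map (j : F₀ →* F) μ))
    (scalar_central _) (scalar_central _) hD2 hS
  have hsJA : PSUGraph.sg hF JA = JA := by
    rw [hJA]
    exact PSUGraph.sg_map hF j hj A
  obtain ⟨x', hx'⟩ : ∃ x' : GLn, x' = k * JA * k⁻¹ := ⟨_, rfl⟩
  have hsx : PSUGraph.sg hF x' = PSUGraph.sg hF k * JA * (PSUGraph.sg hF k)⁻¹ := by
    rw [hx', map_mul, map_mul, map_inv, hsJA]
  obtain ⟨u₀, hu₀⟩ : ∃ u₀ : GLn, u₀ = (Matrix.GeneralLinearGroup.scalar (Fin n) d)⁻¹ * x' :=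
    ⟨_, rfl⟩
  have hmem : u₀ ∈ Cfsg.GU n F q := by
    have e : (Matrix.GeneralLinearGroup.scalar (Fin n) (d ^ q))⁻¹ *
        Matrix.GeneralLinearGroup.scalar (Fin n) (Units.map (j : F₀ →* F) μ) =
        (Matrix.GeneralLinearGroup.scalar (Fin n) d⁻¹)⁻¹ := by
      rw [← map_inv, ← map_mul, ← map_inv, inv_inv]
      congr 1
      rw [← hd, pow_succ, inv_mul_cancel_left]
    rw [PSUGraph.mem_GU_iff_eq hF, hu₀, map_mul, map_inv, hsx, sg_scalar, key, map_mul PSUGraph.itH,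
      map_inv PSUGraph.itH, itH_scalar, hx', map_mul PSUGraph.itH, map_mul PSUGraph.itH,
      map_inv PSUGraph.itH, ← mul_assoc, e]
  refine ⟨⟨u₀, hmem⟩, ?_, ?_⟩
  · show cV (⟨u₀, hmem⟩ : ↥(Cfsg.GU n F q)) ∈ Subgroup.centralizer _
    rw [cV_apply, PSUGraph.psu_cent_iff hF hn h32]
    show PSUGraph.pr (u₀ * g * PSUGraph.sg hF u₀⁻¹) = PSUGraph.pr g
    have hpu : PSUGraph.pr u₀ = PSUGraph.pr x' := by
      rw [hu₀, map_mul, map_inv, pr_scalar, inv_one, one_mul]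
    have hpu' : PSUGraph.pr (PSUGraph.sg hF u₀⁻¹) = (PSUGraph.pr (PSUGraph.sg hF x'))⁻¹ := by
      rw [map_inv (PSUGraph.sg hF), map_inv]
      congr 1
      exact PSUGraph.pr_sg hF _ _ hpu
    have hA' : PSUGraph.pr JB = PSUGraph.pr JA * PSUGraph.pr JB *
        (PSUGraph.pr (PSUGraph.itH JA))⁻¹ := by
      have h1 := congrArg PSUGraph.pr hS
      rw [map_mul, map_mul, map_inv, map_mul, pr_scalar, one_mul] at h1
      exact h1.symm
    rw [map_mul] at hk1 hk2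
    obtain ⟨e1, e2⟩ := PSUGraph.grp_fwd (PSUGraph.pr g) (PSUGraph.pr g) (PSUGraph.pr k)
      (PSUGraph.pr k) (PSUGraph.pr (PSUGraph.sg hF k)) (PSUGraph.pr (PSUGraph.sg hF k))
      (PSUGraph.pr (PSUGraph.itH k)) (PSUGraph.pr (PSUGraph.itH k)) (PSUGraph.pr JA)
      (PSUGraph.pr (PSUGraph.itH JA)) (PSUGraph.pr JB) (PSUGraph.pr JB) hk1 hk1 hk2 hk2 hA'
    rw [map_mul, map_mul, hpu, hpu', hsx, hx']
    simp only [map_mul, map_inv]
    exact e2.symm
  · show Matrix.GeneralLinearGroup.det u₀ = _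
    rw [hu₀, hx', map_mul, map_inv, map_mul, map_mul, map_inv,
      Matrix.GeneralLinearGroup.det_scalar, Fintype.card_fin, hJA,
      Matrix.GeneralLinearGroup.map_det, mul_comm (Matrix.GeneralLinearGroup.det k),
      mul_inv_cancel_right, mul_comm]

end transfer

section dets

variable {n : ℕ} {F : Type*} [Field F] [Fintype F] {q : ℕ}

local notation "Mx" => Matrix (Fin n) (Fin n) F
local notation "GLn" => GL (Fin n) F

theorem map_inv_eq_transpose (hF : Fintype.card F = q ^ 2) (u : GLn) (hu : u ∈ Cfsg.GU n F q) :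
    ((u⁻¹ : GLn) : Mx).map (frobQ hF) = (u : Mx)ᵀ := by
  have h1 : u⁻¹ ∈ Cfsg.GU n F q := Subgroup.inv_mem _ hu
  have h2 := (PSUGraph.mem_GU_iff_eq hF u⁻¹).mp h1
  have h3 := congrArg (fun x : GLn => (x : Mx)) h2
  simp only [PSUGraph.sg_coe, PSUGraph.itH_coe, inv_inv] at h3
  exact h3

theorem mem_simU (hF : Fintype.card F = q ^ 2) (hn : 3 ≤ n) (h32 : ¬ (n = 3 ∧ q = 2)) (g : GLn)
    (hg : g ∈ Cfsg.GU n F q) (u : ↥(Cfsg.GU n F q)) :
    u ∈ simU (PSUAut.cU (PSUAut.ofGU g hg) * PSUAut.fU (frobQ hF)) ↔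
      ∃ c : Fˣ, ((u : GLn) : Mx) * (g : Mx) * ((u : GLn) : Mx)ᵀ = (c : F) • (g : Mx) := by
  show cV u ∈ Subgroup.centralizer _ ↔ _
  rw [cV_apply, PSUAut.mem_cent_iff hF hn h32]
  have e : ((((PSUAut.ofGU (u : GLn) u.2 : ↥(PSUAut.GUs n F q)) : GLn)⁻¹ : GLn) : Mx).map
      (frobQ hF) = ((u : GLn) : Mx)ᵀ := map_inv_eq_transpose hF _ u.2
  rw [e]
  rfl

theorem mult_norm (hF : Fintype.card F = q ^ 2) (hn1 : 1 ≤ n) (g u : GLn)
    (hg : g ∈ Cfsg.GU n F q) (hu : u ∈ Cfsg.GU n F q) (c : Fˣ)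
    (hc : (u : Mx) * (g : Mx) * (u : Mx)ᵀ = (c : F) • (g : Mx)) : c ^ (q + 1) = 1 := by
  have hw : u * g * PSUGraph.sg hF u⁻¹ ∈ Cfsg.GU n F q :=
    Subgroup.mul_mem _ (Subgroup.mul_mem _ hu hg)
      (PSUAut.map_mem_GU (frobQ hF) _ (Subgroup.inv_mem _ hu))
  refine norm_of_smul_mem hF hn1 g _ hg hw c ?_
  rw [Units.val_mul, Units.val_mul, PSUGraph.sg_coe, map_inv_eq_transpose hF u hu, hc]

theorem det_norm (hF : Fintype.card F = q ^ 2) (u : GLn) (hu : u ∈ Cfsg.GU n F q) :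
    (Matrix.GeneralLinearGroup.det u) ^ (q + 1) = 1 := by
  have h1 := congrArg Matrix.det ((PSUAut.mem_GU_iff hF u).mp hu)
  rw [Matrix.det_mul, Matrix.det_transpose, Matrix.det_one] at h1
  have h3 : ((u : Mx).map (frobQ hF)).det = frobQ hF ((u : Mx).det) :=
    (RingHom.map_det ((frobQ hF : RingAut F) : F →+* F) (u : Mx)).symm
  rw [h3, frobQ_apply] at h1
  apply Units.ext
  rw [Units.val_pow_eq_pow_val, Units.val_one, Matrix.GeneralLinearGroup.val_det_apply, pow_succ']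
  exact h1

/-- Odd dimension: determinants of the centralising unitary matrices are `n`-th powers of
norm-one elements. -/
theorem det_mem_odd (hF : Fintype.card F = q ^ 2) (hn : 3 ≤ n) (h32 : ¬ (n = 3 ∧ q = 2))
    (hodd : Odd n) (g : GLn) (hg : g ∈ Cfsg.GU n F q) :
    (simU (PSUAut.cU (PSUAut.ofGU g hg) * PSUAut.fU (frobQ hF))).map (detU n F q) ≤
      (powMonoidHom ((q - 1) * n) : Fˣ →* Fˣ).range := by
  rintro _ ⟨u, hu, rfl⟩
  obtain ⟨c, hc⟩ := (mem_simU hF hn h32 g hg u).mp hu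
  have hc1 := mult_norm hF (by omega) g (u : GLn) hg u.2 c hc
  have hD1 := det_norm hF (u : GLn) u.2
  have h1 := GraphSplit.det_sq_of_sim g (u : GLn) c hc
  obtain ⟨D, hD⟩ : ∃ D : Fˣ, D = Matrix.GeneralLinearGroup.det (u : GLn) := ⟨_, rfl⟩
  have hdu : detU n F q u = D := hD.symm
  rw [← hD] at h1 hD1
  show detU n F q u ∈ _
  rw [hdu]
  obtain ⟨k, hk⟩ := hodd
  have h2 : (D * (c ^ k)⁻¹) ^ 2 = c := by
    calc (D * (c ^ k)⁻¹) ^ 2 = D ^ 2 * ((c ^ k) ^ 2)⁻¹ := by rw [mul_pow, inv_pow]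
      _ = c ^ (2 * k + 1) * (c ^ (2 * k))⁻¹ := by rw [h1, hk, ← pow_mul, mul_comm k 2]
      _ = c := by rw [pow_succ, mul_comm, ← mul_assoc, inv_mul_cancel, one_mul]
  have h3 : (D * (c ^ k)⁻¹) ^ n = D := by
    rw [hk, pow_succ, pow_mul, h2, mul_comm (c ^ k), mul_assoc, inv_mul_cancel, mul_one]
  have h4 : (D * (c ^ k)⁻¹) ^ (q + 1) = 1 := by
    rw [mul_pow, hD1, one_mul, inv_pow, ← pow_mul, mul_comm k, pow_mul, hc1, one_pow, inv_one]
  obtain ⟨y, hy⟩ := (norm_one_iff hF _).mp h4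
  have hy' : y ^ (q - 1) = D * (c ^ k)⁻¹ := hy
  refine ⟨y, ?_⟩
  show y ^ ((q - 1) * n) = D
  rw [pow_mul, hy', h3]

/-- Characteristic two: determinants of the centralising unitary matrices are `n`-th powers
of norm-one elements. -/
theorem det_mem_char2 (hF : Fintype.card F = q ^ 2) (hn : 3 ≤ n) (h32 : ¬ (n = 3 ∧ q = 2))
    (h2 : (2 : F) = 0) (g : GLn) (hg : g ∈ Cfsg.GU n F q) :
    (simU (PSUAut.cU (PSUAut.ofGU g hg) * PSUAut.fU (frobQ hF))).map (detU n F q) ≤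
      (powMonoidHom ((q - 1) * n) : Fˣ →* Fˣ).range := by
  rintro _ ⟨u, hu, rfl⟩
  obtain ⟨c, hc⟩ := (mem_simU hF hn h32 g hg u).mp hu
  have hc1 := mult_norm hF (by omega) g (u : GLn) hg u.2 c hc
  have h1 := GraphSplit.det_sq_of_sim g (u : GLn) c hc
  obtain ⟨D, hD⟩ : ∃ D : Fˣ, D = Matrix.GeneralLinearGroup.det (u : GLn) := ⟨_, rfl⟩
  have hdu : detU n F q u = D := hD.symm
  rw [← hD] at h1
  show detU n F q u ∈ _
  rw [hdu]
  obtain ⟨e, he⟩ := SympInv.exists_sqrt_char2 h2 (c : F)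
  have he0 : e ≠ 0 := by
    rintro rfl
    rw [mul_zero] at he
    exact c.ne_zero he.symm
  obtain ⟨d, hd⟩ : ∃ d : Fˣ, (d : F) = e := ⟨Units.mk0 e he0, rfl⟩
  have hd2 : d ^ 2 = c := by
    apply Units.ext
    rw [Units.val_pow_eq_pow_val, hd, pow_two, he]
  have hd1 : d ^ (q + 1) = 1 := by
    have h5 : ((d ^ (q + 1) : Fˣ) : F) * ((d ^ (q + 1) : Fˣ) : F) = 1 * 1 := by
      rw [← Units.val_mul, ← pow_two, ← pow_mul, mul_comm, pow_mul, hd2, hc1, Units.val_one,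
        one_mul]
    exact Units.ext (SpInvCent.sq_inj_char2 h2 h5)
  have hDn : D = d ^ n := by
    have h5 : (D : F) * (D : F) = ((d ^ n : Fˣ) : F) * ((d ^ n : Fˣ) : F) := by
      rw [← Units.val_mul, ← Units.val_mul, ← pow_two, ← pow_two, h1, ← hd2, ← pow_mul, ← pow_mul,
        mul_comm]
    exact Units.ext (SpInvCent.sq_inj_char2 h2 h5)
  obtain ⟨y, hy⟩ := (norm_one_iff hF d).mp hd1
  have hy' : y ^ (q - 1) = d := hy
  refine ⟨y, ?_⟩
  show y ^ ((q - 1) * n) = D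
  rw [pow_mul, hy', hDn]

end dets

section even

variable {n : ℕ} {F : Type*} [Field F] [Fintype F] {q : ℕ} {F₀ : Type*} [Field F₀]

local notation "Mx" => Matrix (Fin n) (Fin n) F
local notation "GLn" => GL (Fin n) F

theorem exists_norm_preimage (hF : Fintype.card F = q ^ 2) (j : F₀ →+* F)
    (hj : IsFixEmb (frobQ hF) j) (y : Fˣ) :
    ∃ μ : F₀ˣ, Units.map (j : F₀ →* F) μ = y ^ (q + 1) := by
  have hfix : frobQ hF ((y : F) ^ (q + 1)) = (y : F) ^ (q + 1) := by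
    rw [frobQ_apply, pow_succ, mul_pow, conj_conj hF, mul_comm]
  obtain ⟨b, hb⟩ := (hj _).mp hfix
  have hb0 : b ≠ 0 := by
    rintro rfl
    rw [map_zero] at hb
    exact (pow_ne_zero _ y.ne_zero) hb.symm
  refine ⟨Units.mk0 b hb0, ?_⟩
  apply Units.ext
  rw [Units.val_pow_eq_pow_val]
  exact hb

theorem pow_arith (hF : Fintype.card F = q ^ 2) (y : Fˣ) (m : ℕ) :
    (y ^ (q + 1)) ^ m * (y ^ (2 * m))⁻¹ = y ^ ((q - 1) * m) := by
  have hq := two_le_q hF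
  have e : (q + 1) * m = (q - 1) * m + 2 * m := by
    obtain ⟨t, rfl⟩ : ∃ t, q = t + 1 := ⟨q - 1, by omega⟩
    simp only [Nat.add_sub_cancel]
    ring
  rw [← pow_mul, e, pow_add, mul_inv_cancel_right]

theorem units_map_neg (j : F₀ →+* F) (x : F₀ˣ) :
    Units.map (j : F₀ →* F) (-x) = -Units.map (j : F₀ →* F) x :=
  Units.ext (by simp)

/-- Skew type: the determinants of the centralising unitary matrices. -/
theorem det_skew (hF : Fintype.card F = q ^ 2) (hn : 3 ≤ n) (h32 : ¬ (n = 3 ∧ q = 2))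
    (h2 : (2 : F) ≠ 0) {m : ℕ} (hnm : n = 2 * m) (j : F₀ →+* F) (hj : IsFixEmb (frobQ hF) j)
    (g : GLn) (hg : g ∈ Cfsg.GU n F q) (hs : (g : Mx)ᵀ = -(g : Mx)) (B : GL (Fin n) F₀)
    (hB : (B : Matrix (Fin n) (Fin n) F₀)ᵀ = -(B : Matrix (Fin n) (Fin n) F₀))
    (hD : PSUGraph.Data hF j g B) :
    (simU (PSUAut.cU (PSUAut.ofGU g hg) * PSUAut.fU (frobQ hF))).map (detU n F q) =
      (powMonoidHom ((q - 1) * m) : Fˣ →* Fˣ).range := by
  have h2₀ : (2 : F₀) ≠ 0 := fun h => h2 (by rw [← map_ofNat j 2, h, map_zero])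
  apply le_antisymm
  · rintro _ ⟨u, hu, rfl⟩
    obtain ⟨c, hc⟩ := (mem_simU hF hn h32 g hg u).mp hu
    have hc1 := mult_norm hF (by omega) g (u : GLn) hg u.2 c hc
    have hdet := det_of_sim_skew h2 hnm g (u : GLn) hs (c : F) c.ne_zero hc
    obtain ⟨y, hy⟩ := (norm_one_iff hF c).mp hc1
    have hy' : y ^ (q - 1) = c := hy
    refine ⟨y, ?_⟩
    show y ^ ((q - 1) * m) = detU n F q u
    apply Units.ext
    rw [pow_mul, hy', Units.val_pow_eq_pow_val]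
    exact hdet.symm
  · rintro _ ⟨y, rfl⟩
    obtain ⟨μ, hμ⟩ := exists_norm_preimage hF j hj y
    obtain ⟨A, hA⟩ := exists_sim_skew h2₀ hnm B hB (μ : F₀) μ.ne_zero
    obtain ⟨u, hu, hdu⟩ := exists_simU hF hn h32 j hj g hg B hD A μ hA y hμ.symm
    have hdA : Matrix.GeneralLinearGroup.det A = μ ^ m := Units.ext (by
      rw [Matrix.GeneralLinearGroup.val_det_apply, Units.val_pow_eq_pow_val]
      exact det_of_sim_skew h2₀ hnm B A hB μ μ.ne_zero hA)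
    have hyn : y ^ n = y ^ (2 * m) := by rw [hnm]
    refine ⟨u, hu, ?_⟩
    show detU n F q u = y ^ ((q - 1) * m)
    rw [hdu, hdA, map_pow, hμ, hyn, pow_arith hF]

/-- Symmetric type: the determinants of the centralising unitary matrices. -/
theorem det_symm [Fintype F₀] (hF : Fintype.card F = q ^ 2) (hn : 3 ≤ n)
    (h32 : ¬ (n = 3 ∧ q = 2))
    (h2 : (2 : F) ≠ 0) {m : ℕ} (hnm : n = 2 * m) (j : F₀ →+* F) (hj : IsFixEmb (frobQ hF) j)
    (g : GLn) (hg : g ∈ Cfsg.GU n F q) (B : GL (Fin n) F₀)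
    (hB : (B : Matrix (Fin n) (Fin n) F₀)ᵀ = (B : Matrix (Fin n) (Fin n) F₀))
    (hD : PSUGraph.Data hF j g B) :
    (simU (PSUAut.cU (PSUAut.ofGU g hg) * PSUAut.fU (frobQ hF))).map (detU n F q) =
      Subgroup.zpowers (-1 : Fˣ) ⊔ (powMonoidHom ((q - 1) * m) : Fˣ →* Fˣ).range := by
  have h2₀ : (2 : F₀) ≠ 0 := fun h => h2 (by rw [← map_ofNat j 2, h, map_zero])
  have hneg : (-1 : Fˣ) ∈
      (simU (PSUAut.cU (PSUAut.ofGU g hg) * PSUAut.fU (frobQ hF))).map (detU n F q) := by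
    obtain ⟨A₀, hA₀, hdet₀⟩ := exists_isom_neg h2₀ (by omega) B hB
    obtain ⟨u, hu, hdu⟩ := exists_simU hF hn h32 j hj g hg B hD A₀ 1
      (by rw [Units.val_one, one_smul]; exact hA₀) 1 (by rw [one_pow, map_one])
    refine ⟨u, hu, ?_⟩
    rw [hdu, one_pow, inv_one, mul_one]
    apply Units.ext
    show j ((A₀ : Matrix (Fin n) (Fin n) F₀).det) = ((-1 : Fˣ) : F)
    rw [hdet₀, map_neg, map_one, Units.val_neg, Units.val_one]
  apply le_antisymm
  · rintro _ ⟨u, hu, rfl⟩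
    obtain ⟨c, hc⟩ := (mem_simU hF hn h32 g hg u).mp hu
    have hc1 := mult_norm hF (by omega) g (u : GLn) hg u.2 c hc
    obtain ⟨y, hy⟩ := (norm_one_iff hF c).mp hc1
    have hy' : y ^ (q - 1) = c := hy
    have hcm : c ^ m ∈ (powMonoidHom ((q - 1) * m) : Fˣ →* Fˣ).range :=
      ⟨y, by show y ^ ((q - 1) * m) = c ^ m; rw [pow_mul, hy']⟩
    rcases GraphSplit.det_pm_of_sim hnm g (u : GLn) c hc with h1 | h1
    · have h6 : detU n F q u = c ^ m := h1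
      show detU n F q u ∈ _
      rw [h6]
      exact Subgroup.mem_sup_right hcm
    · have h5 : -c ^ m = (-1) * c ^ m := (neg_one_mul _).symm
      have h6 : detU n F q u = -c ^ m := h1
      show detU n F q u ∈ _
      rw [h6, h5]
      exact Subgroup.mul_mem_sup (Subgroup.mem_zpowers _) hcm
  · rw [sup_le_iff]
    refine ⟨Subgroup.zpowers_le.mpr hneg, ?_⟩
    rintro _ ⟨y, rfl⟩
    obtain ⟨μ, hμ⟩ := exists_norm_preimage hF j hj y
    obtain ⟨A, hA⟩ := exists_sim_symm h2₀ hnm B hB μ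
    obtain ⟨u, hu, hdu⟩ := exists_simU hF hn h32 j hj g hg B hD A μ hA y hμ.symm
    have hyn : y ^ n = y ^ (2 * m) := by rw [hnm]
    show y ^ ((q - 1) * m) ∈ _
    rcases GraphSplit.det_pm_of_sim hnm B A μ hA with h1 | h1
    · refine ⟨u, hu, ?_⟩
      show detU n F q u = y ^ ((q - 1) * m)
      rw [hdu, h1, map_pow, hμ, hyn, pow_arith hF]
    · have h6 : detU n F q u = (-1) * y ^ ((q - 1) * m) := by
        rw [hdu, h1, units_map_neg, map_pow, hμ, hyn, neg_mul, pow_arith hF, neg_one_mul]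
      have h7 : y ^ ((q - 1) * m) = (-1) * detU n F q u := by
        rw [h6, ← mul_assoc]
        simp
      rw [h7]
      exact Subgroup.mul_mem _ hneg (Subgroup.mem_map_of_mem _ hu)

/-- The partner matrices have the same type. -/
theorem type_transfer (hF : Fintype.card F = q ^ 2) (j : F₀ →+* F) (g : GLn)
    (B : GL (Fin n) F₀) (hD : PSUGraph.Data hF j g B) (ε : F₀)
    (hB : (B : Matrix (Fin n) (Fin n) F₀)ᵀ = ε • (B : Matrix (Fin n) (Fin n) F₀)) :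
    (g : Mx)ᵀ = j ε • (g : Mx) := by
  obtain ⟨k, hk1, hk2⟩ := hD
  obtain ⟨c₁, hc₁⟩ := (PSUGraph.pr_eq_iff _ _).mp hk1
  obtain ⟨c₂, hc₂⟩ := (PSUGraph.pr_eq_iff _ _).mp hk2
  rw [Units.val_mul] at hc₁ hc₂
  rw [PSUGraph.itH_coe] at hc₂
  obtain ⟨JB, hJB⟩ : ∃ JB : Mx, JB = ((Matrix.GeneralLinearGroup.map j B : GLn) : Mx) := ⟨_, rfl⟩
  rw [← hJB] at hc₂
  have key : (c₂ : F) • (g : Mx) = (c₁ : F) • ((k : Mx) * JB * (k : Mx)ᵀ) := by
    have h1 : (g : Mx) * (((PSUGraph.sg hF k : GLn) : Mx) * JB) * (k : Mx)ᵀ =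
        (c₂ : F) • (g : Mx) := by
      rw [hc₂, Matrix.mul_smul, Matrix.smul_mul, Matrix.mul_assoc, ← Matrix.transpose_mul,
        gl_mul_inv_coe k, Matrix.transpose_one, Matrix.mul_one]
    have h3 : (g : Mx) * (((PSUGraph.sg hF k : GLn) : Mx) * JB) * (k : Mx)ᵀ =
        (c₁ : F) • ((k : Mx) * JB * (k : Mx)ᵀ) := by
      rw [← Matrix.mul_assoc, hc₁, Matrix.smul_mul, Matrix.smul_mul]
    rw [← h1, h3]
  have hJBt : JBᵀ = j ε • JB := by
    rw [hJB]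
    show ((B : Matrix (Fin n) (Fin n) F₀).map j)ᵀ = j ε • (B : Matrix (Fin n) (Fin n) F₀).map j
    rw [← Matrix.transpose_map, hB]
    ext a b
    simp
  have h4 : (c₂ : F) • (g : Mx)ᵀ = (c₂ : F) • (j ε • (g : Mx)) := by
    rw [← Matrix.transpose_smul, smul_comm (c₂ : F) (j ε), key, Matrix.transpose_smul,
      Matrix.transpose_mul, Matrix.transpose_mul, Matrix.transpose_transpose, hJBt]
    simp only [Matrix.mul_smul, Matrix.smul_mul, Matrix.mul_assoc, smul_comm (j ε) (c₁ : F)]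
  exact smul_right_injective _ c₂.ne_zero h4

end even

section counts

variable {F : Type*} [Field F] [Fintype F] {q : ℕ}

theorem card_sub_one (hF : Fintype.card F = q ^ 2) : Fintype.card F - 1 = (q - 1) * (q + 1) := by
  have hq := two_le_q hF
  rw [hF]
  obtain ⟨t, rfl⟩ : ∃ t, q = t + 1 := ⟨q - 1, by omega⟩
  simp only [Nat.add_sub_cancel]
  have : (t + 1) ^ 2 = t * (t + 1 + 1) + 1 := by ring
  omega

theorem relIndex_pow (hF : Fintype.card F = q ^ 2) (b : ℕ) :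
    ((powMonoidHom ((q - 1) * b) : Fˣ →* Fˣ).range).relIndex
      (powMonoidHom (q - 1) : Fˣ →* Fˣ).range = Nat.gcd (q + 1) b := by
  have hq := two_le_q hF
  have hle : (powMonoidHom ((q - 1) * b) : Fˣ →* Fˣ).range ≤
      (powMonoidHom (q - 1) : Fˣ →* Fˣ).range :=
    GraphSplit.pow_range_le_of_dvd (dvd_mul_right _ _)
  have h1 := Subgroup.relIndex_mul_index hle
  rw [GraphSplit.index_pow, GraphSplit.index_pow, card_sub_one hF, Nat.gcd_mul_left,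
    Nat.gcd_eq_right (dvd_mul_right (q - 1) (q + 1))] at h1
  exact Nat.eq_of_mul_eq_mul_right (by omega : 0 < q - 1) (by rw [h1, mul_comm])

/-- Odd dimension or even characteristic. -/
theorem count_le (hF : Fintype.card F = q ^ 2) (n : ℕ) (D : Subgroup Fˣ)
    (hD : D ≤ (powMonoidHom ((q - 1) * n) : Fˣ →* Fˣ).range) :
    ((powMonoidHom ((q - 1) * n) : Fˣ →* Fˣ).range ⊔ D).relIndex
      (powMonoidHom (q - 1) : Fˣ →* Fˣ).range = Nat.gcd n (q + 1) := by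
  rw [sup_eq_left.mpr hD, relIndex_pow hF, Nat.gcd_comm]

/-- Skew type. -/
theorem count_skew (hF : Fintype.card F = q ^ 2) (m : ℕ) :
    ((powMonoidHom ((q - 1) * (2 * m)) : Fˣ →* Fˣ).range ⊔
      (powMonoidHom ((q - 1) * m) : Fˣ →* Fˣ).range).relIndex
      (powMonoidHom (q - 1) : Fˣ →* Fˣ).range = Nat.gcd m (q + 1) := by
  rw [sup_eq_right.mpr (GraphSplit.pow_range_le_of_dvd
    (Nat.mul_dvd_mul_left _ (dvd_mul_left m 2))), relIndex_pow hF, Nat.gcd_comm]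

/-- Symmetric type. -/
theorem count_symm (hF : Fintype.card F = q ^ 2) (hqodd : Odd q) (h2 : (2 : F) ≠ 0) (m : ℕ) :
    ((powMonoidHom ((q - 1) * (2 * m)) : Fˣ →* Fˣ).range ⊔
      (Subgroup.zpowers (-1 : Fˣ) ⊔ (powMonoidHom ((q - 1) * m) : Fˣ →* Fˣ).range)).relIndex
      (powMonoidHom (q - 1) : Fˣ →* Fˣ).range = Nat.gcd (2 * m) (q + 1) / 2 := by
  have hle : (powMonoidHom ((q - 1) * (2 * m)) : Fˣ →* Fˣ).range ≤
      (powMonoidHom ((q - 1) * m) : Fˣ →* Fˣ).range :=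
    GraphSplit.pow_range_le_of_dvd (Nat.mul_dvd_mul_left _ (dvd_mul_left m 2))
  obtain ⟨t, ht⟩ := hqodd
  obtain ⟨r, hr⟩ : ∃ r, r = t + 1 := ⟨_, rfl⟩
  have hq1 : q + 1 = 2 * r := by omega
  have hq2 : q - 1 = 2 * t := by omega
  have hcard : Fintype.card F / 2 = (q - 1) * r := by
    have h3 := card_sub_one hF
    rw [hq1] at h3
    have h4 : Fintype.card F = 2 * ((q - 1) * r) + 1 := by
      have : 1 ≤ Fintype.card F := Fintype.card_pos
      have h5 : (q - 1) * (2 * r) = 2 * ((q - 1) * r) := by ring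
      omega
    omega
  rw [sup_eq_right.mpr (le_trans hle le_sup_right), GraphSplit.zpowers_neg_one h2, pow_range_sup,
    hcard, Nat.gcd_mul_left, relIndex_pow hF, hq1, Nat.gcd_mul_left,
    Nat.mul_div_cancel_left _ (by norm_num : 0 < 2)]
  rw [Nat.gcd_comm m r]
  exact Nat.gcd_eq_right (dvd_trans (Nat.gcd_dvd_left r m) (dvd_mul_left r 2))

end counts

end Cfsg.Agent.Lib.Helper8.PSUSplit
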