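import Mathlib
import Cfsg.Agent.Lib.Helper8.PSUSplit
import Cfsg.Agent.Lib.Helper43.FieldAut.GraphMain

set_option autoImplicit false

/-!
# Field automorphisms of `PSU_n(q)`: Hilbert 90 for the unitary group

For an automorphism `σ` of odd order `r` of the field `F` with `q²` elements, with fixed field
`F₀` (of `q₀²` elements, `q = q₀ ^ r`): cocycles of `⟨σ⟩` in `GU_n(q)` are coboundaries, and the
norm maps the elements of norm one of `F` onto those of `F₀`.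
-/

namespace Cfsg.Agent.Lib.Helper8.PSUField

open Matrix Cfsg.Agent.Lib.Helper43.AutPSLn Cfsg.Agent.Lib.Helper43.FieldAut
  Cfsg.Agent.Lib.Helper45 Cfsg.Agent.Lib.Helper8

section field

variable {F : Type*} [Field F] [Fintype F] {q : ℕ} {F₀ : Type*} [Field F₀] [Fintype F₀] {q₀ : ℕ}
  {m : Type*} [Fintype m] [DecidableEq m]

theorem pow_pow_odd {K : Type*} [Monoid K] (b : K) {q₀ : ℕ} (hb : b ^ (q₀ ^ 2) = b) {r : ℕ}
    (hr : Odd r) : b ^ (q₀ ^ r) = b ^ q₀ := by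
  obtain ⟨k, rfl⟩ := hr
  induction k with
  | zero => simp
  | succ k ih =>
    have h1 : q₀ ^ (2 * (k + 1) + 1) = q₀ ^ 2 * q₀ ^ (2 * k + 1) := by ring
    rw [h1, pow_mul, hb, ih]

theorem j_pow_sq (hF₀ : Fintype.card F₀ = q₀ ^ 2) (j : F₀ →+* F) (a : F₀) :
    j a ^ (q₀ ^ 2) = j a := by
  rw [← map_pow, ← hF₀, FiniteField.pow_card]

theorem j_frob (hF : Fintype.card F = q ^ 2) (hF₀ : Fintype.card F₀ = q₀ ^ 2) {r : ℕ}
    (hqq : q = q₀ ^ r) (hr : Odd r) (j : F₀ →+* F) (a : F₀) :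
    frobQ hF (j a) = j (frobQ hF₀ a) := by
  rw [frobQ_apply, frobQ_apply, map_pow, hqq]
  exact pow_pow_odd _ (j_pow_sq hF₀ j a) hr

omit [Fintype F] [DecidableEq m] in
theorem rmap_mul (σ : RingAut F) (L M : Matrix m m F) : (L * M).map σ = L.map σ * M.map σ :=
  Matrix.map_mul (f := (σ : F →+* F))

omit [Fintype F] [Fintype m] in
theorem rmap_one (σ : RingAut F) : (1 : Matrix m m F).map σ = 1 :=
  Matrix.map_one _ (map_zero σ) (map_one σ)

/-- **Hilbert 90 for the unitary group** and an automorphism of odd order. -/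
theorem exists_unitary_fixed (hF : Fintype.card F = q ^ 2) (hF₀ : Fintype.card F₀ = q₀ ^ 2)
    {r : ℕ} (hqq : q = q₀ ^ r) (hr : Odd r) (σ : RingAut F) (j : F₀ →+* F) (hj : IsFixEmb σ j)
    (hσ : orderOf σ = r) {n : ℕ} (c : Matrix (Fin n) (Fin n) F)
    (hc : cᵀ * c.map (frobQ hF) = 1) (G : ℕ → Matrix (Fin n) (Fin n) F) (h0 : G 0 = 1)
    (hs : ∀ i, G (i + 1) = c * (G i).map σ) (hr1 : G r = 1) :
    ∃ h : Matrix (Fin n) (Fin n) F, hᵀ * h.map (frobQ hF) = 1 ∧ c * h.map σ = h := by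
  obtain ⟨h₀, hu, hh⟩ := exists_fixed_matrix σ c G r h0 hs hr1 hσ hr.pos
  obtain ⟨φ, hφ⟩ : ∃ φ : RingAut F, φ = frobQ hF := ⟨_, rfl⟩
  rw [← hφ] at hc ⊢
  have hφφ : ∀ a : F, φ (φ a) = a := fun a => by
    rw [hφ]
    exact DFunLike.congr_fun (frobQ_sq hF) a
  have hcomm : ∀ a : F, σ (φ a) = φ (σ a) := fun a => by
    rw [hφ, frobQ_apply, frobQ_apply, map_pow]
  obtain ⟨S, hS⟩ : ∃ S : Matrix (Fin n) (Fin n) F, S = h₀.map σ := ⟨_, rfl⟩
  rw [← hS] at hh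
  obtain ⟨A, hA⟩ : ∃ A : Matrix (Fin n) (Fin n) F, A = h₀ᵀ * h₀.map φ := ⟨_, rfl⟩
  have hA2 : A = Sᵀ * S.map φ := by
    rw [hA]
    conv_lhs => rw [← hh]
    rw [Matrix.transpose_mul, rmap_mul, Matrix.mul_assoc, ← Matrix.mul_assoc cᵀ, hc,
      Matrix.one_mul]
  have hAσ : A.map σ = A := by
    have e2 : (h₀.map φ).map σ = (h₀.map σ).map φ := by
      ext a b
      exact hcomm _
    calc A.map σ = (h₀ᵀ).map σ * (h₀.map φ).map σ := by rw [hA, rmap_mul]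
      _ = Sᵀ * S.map φ := by rw [e2, hS]; rfl
      _ = A := hA2.symm
  have hAH : Aᵀ.map φ = A := by
    rw [hA, Matrix.transpose_mul, Matrix.transpose_transpose, rmap_mul]
    congr 1
    ext a b
    exact hφφ _
  have hfix : ∀ a b, σ (A a b) = A a b := fun a b => congrFun (congrFun hAσ a) b
  choose m₀ hm₀ using fun a b => (hj _).mp (hfix a b)
  obtain ⟨A₀, hA₀⟩ : ∃ A₀ : Matrix (Fin n) (Fin n) F₀, A₀ = Matrix.of m₀ := ⟨_, rfl⟩
  have hA₀j : A₀.map j = A := by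
    rw [hA₀]
    ext a b
    exact hm₀ a b
  have hdetA : A.det ≠ 0 := by
    rw [hA, Matrix.det_mul, Matrix.det_transpose]
    have hd : h₀.det ≠ 0 := ((Matrix.isUnit_iff_isUnit_det _).mp hu).ne_zero
    have hd2 : (h₀.map φ).det = φ h₀.det := (RingHom.map_det (φ : F →+* F) h₀).symm
    rw [hd2]
    exact mul_ne_zero hd ((map_ne_zero φ).mpr hd)
  have hdet₀ : A₀.det ≠ 0 := by
    intro h0'
    have h1 : (A₀.map j).det = 0 := by
      rw [← RingHom.mapMatrix_apply, ← RingHom.map_det, h0', map_zero]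
    rw [hA₀j] at h1
    exact hdetA h1
  have hH₀ : A₀ᵀ.map (frobQ hF₀) = A₀ := by
    ext a b
    apply j.injective
    show j (frobQ hF₀ (A₀ b a)) = j (A₀ a b)
    rw [← j_frob hF hF₀ hqq hr, ← hφ]
    have e1 : j (A₀ b a) = A b a := congrFun (congrFun hA₀j b) a
    have e2 : j (A₀ a b) = A a b := congrFun (congrFun hA₀j a) b
    rw [e1, e2]
    exact congrFun (congrFun hAH a) b
  obtain ⟨k, hk, hAk⟩ := exists_herm_factor (frobQ hF₀) (frobQ_ne_one hF₀) (frobQ_sq hF₀) A₀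
    ((Matrix.isUnit_iff_isUnit_det _).mpr (IsUnit.mk0 _ hdet₀)) hH₀
  obtain ⟨K, hK⟩ : ∃ K : Matrix (Fin n) (Fin n) F, K = k.map j := ⟨_, rfl⟩
  obtain ⟨K', hK'⟩ : ∃ K' : Matrix (Fin n) (Fin n) F, K' = (k⁻¹).map j := ⟨_, rfl⟩
  have hkdet : IsUnit k.det := (Matrix.isUnit_iff_isUnit_det _).mp hk
  have hK'K : K' * K = 1 := by
    rw [hK, hK', ← Matrix.map_mul, Matrix.nonsing_inv_mul _ hkdet,
      Matrix.map_one _ (map_zero j) (map_one j)]
  have hAK : A = K * (Kᵀ).map φ := by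
    rw [← hA₀j, hAk, Matrix.map_mul, hK]
    congr 1
    ext a b
    show j (frobQ hF₀ (k b a)) = φ (j (k b a))
    rw [hφ, j_frob hF hF₀ hqq hr]
  have hKσ : K'.map σ = K' := by
    rw [hK']
    ext a b
    exact (hj _).mpr ⟨_, rfl⟩
  refine ⟨h₀ * K'ᵀ, ?_, ?_⟩
  · rw [Matrix.transpose_mul, Matrix.transpose_transpose, rmap_mul]
    calc K' * h₀ᵀ * (h₀.map φ * (K'ᵀ).map φ)
        = K' * (h₀ᵀ * h₀.map φ) * (K'ᵀ).map φ := by simp only [Matrix.mul_assoc]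
      _ = (K' * K) * ((Kᵀ).map φ * (K'ᵀ).map φ) := by
          rw [← hA, hAK]
          simp only [Matrix.mul_assoc]
      _ = 1 := by
          rw [hK'K, Matrix.one_mul, ← rmap_mul, ← Matrix.transpose_mul, hK'K,
            Matrix.transpose_one, rmap_one]
  · rw [rmap_mul]
    have e : (K'ᵀ).map σ = K'ᵀ := by
      conv_rhs => rw [← hKσ]
      rfl
    rw [e, ← Matrix.mul_assoc, ← hS, hh]

/-- The scalar case: an element of norm one (for both the `q`-power map and `σ`) is of the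
form `ν / σ ν` with `ν` of norm one. -/
theorem exists_norm_one_fixed (hF : Fintype.card F = q ^ 2) (hF₀ : Fintype.card F₀ = q₀ ^ 2)
    {r : ℕ} (hqq : q = q₀ ^ r) (hr : Odd r) (σ : RingAut F) (j : F₀ →+* F) (hj : IsFixEmb σ j)
    (hσ : orderOf σ = r) (lam : F) (hlam : lam ^ (q + 1) = 1)
    (hN : ∏ i ∈ Finset.range r, (σ ^ i) lam = 1) :
    ∃ ν : F, ν ^ (q + 1) = 1 ∧ lam * σ ν = ν := by
  obtain ⟨h, hh1, hh2⟩ := exists_unitary_fixed hF hF₀ hqq hr σ j hj hσ (n := 1)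
    (Matrix.diagonal fun _ => lam)
    (by
      rw [Matrix.diagonal_transpose, Matrix.diagonal_map (map_zero _),
        Matrix.diagonal_mul_diagonal, ← Matrix.diagonal_one]
      congr 1
      ext _
      rw [frobQ_apply, ← pow_succ']
      exact hlam)
    (fun i => Matrix.diagonal fun _ => ∏ k ∈ Finset.range i, (σ ^ k) lam)
    (by simp)
    (by
      intro i
      rw [Matrix.diagonal_map (map_zero _), Matrix.diagonal_mul_diagonal]
      congr 1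
      ext _
      rw [Finset.prod_range_succ', map_prod, mul_comm]
      simp [pow_succ'])
    (by rw [hN]; simp)
  refine ⟨h 0 0, ?_, ?_⟩
  · have h1 := congrFun (congrFun hh1 0) 0
    rw [Matrix.mul_apply, Matrix.one_apply_eq] at h1
    simp only [Fin.sum_univ_one, Fin.isValue, Matrix.transpose_apply, Matrix.map_apply,
      frobQ_apply] at h1
    rw [pow_succ']
    exact h1
  · have h1 := congrFun (congrFun hh2 0) 0
    rw [Matrix.diagonal_mul] at h1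
    exact h1

/-- The norm maps the elements of norm one onto the fixed elements of norm one. -/
theorem exists_norm_fix (hF : Fintype.card F = q ^ 2) (hF₀ : Fintype.card F₀ = q₀ ^ 2)
    {r : ℕ} (hqq : q = q₀ ^ r) (hr : Odd r) (σ : RingAut F) (j : F₀ →+* F) (hj : IsFixEmb σ j)
    (hσ : orderOf σ = r) (lam : F) (hlam : lam ^ (q + 1) = 1) (hfix : σ lam = lam) :
    ∃ ν : F, ν ^ (q + 1) = 1 ∧ ∏ i ∈ Finset.range r, (σ ^ i) ν = lam := by
  have hq := two_le_q hF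
  have hq₀ := two_le_q hF₀
  obtain ⟨l₀, hl₀⟩ := (hj lam).mp hfix
  have hlam0 : lam ≠ 0 := by
    rintro rfl
    rw [zero_pow (by omega)] at hlam
    exact zero_ne_one hlam
  have hl₀0 : l₀ ≠ 0 := by
    rintro rfl
    rw [map_zero] at hl₀
    exact hlam0 hl₀.symm
  have hl₀1 : l₀ ^ (q₀ + 1) = 1 := by
    apply j.injective
    rw [map_pow, map_one, pow_succ, ← pow_pow_odd _ (j_pow_sq hF₀ j l₀) hr, ← hqq, ← pow_succ,
      hl₀]
    exact hlam
  obtain ⟨y₀, hy₀⟩ := (PSUSplit.norm_one_iff hF₀ (Units.mk0 l₀ hl₀0)).mp (by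
    apply Units.ext
    rw [Units.val_pow_eq_pow_val, Units.val_mk0, Units.val_one]
    exact hl₀1)
  have hy₀' : (y₀ : F₀) ^ (q₀ - 1) = l₀ := by
    have h1 := congrArg (fun u : F₀ˣ => (u : F₀)) hy₀
    simpa using h1
  obtain ⟨y, hy⟩ : ∃ y : F, y = j (y₀ : F₀) := ⟨_, rfl⟩
  have hy0 : y ≠ 0 := by
    rw [hy]
    exact (map_ne_zero j).mpr y₀.ne_zero
  have hyfix : σ y = y := (hj _).mpr ⟨_, hy.symm⟩
  obtain ⟨μ, hμ0, hμ⟩ := exists_norm_eq σ hy0 hyfix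
  rw [hσ] at hμ
  refine ⟨μ ^ (q - 1), ?_, ?_⟩
  · rw [← pow_mul, ← PSUSplit.card_sub_one hF]
    exact FiniteField.pow_card_sub_one_eq_one _ hμ0
  · have h1 : ∏ i ∈ Finset.range r, (σ ^ i) (μ ^ (q - 1)) = y ^ (q - 1) := by
      rw [← hμ, ← Finset.prod_pow]
      refine Finset.prod_congr rfl fun i _ => ?_
      rw [map_pow]
    rw [h1]
    apply mul_right_cancel₀ hy0
    rw [← pow_succ, Nat.sub_add_cancel (by omega), hqq, hy,
      pow_pow_odd _ (j_pow_sq hF₀ j (y₀ : F₀)) hr, ← hl₀, ← hy₀', map_pow, ← pow_succ,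
      Nat.sub_add_cancel (by omega)]

end field

section psu

variable {n : ℕ} {F : Type*} [Field F] [Fintype F] {q : ℕ} {F₀ : Type*} [Field F₀] [Fintype F₀]
  {q₀ : ℕ}

local notation "Mx" => Matrix (Fin n) (Fin n) F
local notation "SLn" => Matrix.SpecialLinearGroup (Fin n) F
local notation "GLn" => GL (Fin n) F

open PSUSplit

/-- A field automorphism applied to a unitary matrix. -/
def mapV (τ : RingAut F) (u : ↥(Cfsg.GU n F q)) : ↥(Cfsg.GU n F q) :=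
  ⟨Matrix.GeneralLinearGroup.map (τ : F →+* F) (u : GLn), PSUAut.map_mem_GU τ _ u.2⟩

theorem mapV_coe (τ : RingAut F) (u : ↥(Cfsg.GU n F q)) :
    ((mapV τ u : ↥(Cfsg.GU n F q)) : GLn) =
      Matrix.GeneralLinearGroup.map (τ : F →+* F) (u : GLn) := rfl

theorem fU_cV (τ : RingAut F) (u : ↥(Cfsg.GU n F q)) :
    (PSUAut.fU τ : MulAut (Cfsg.PSU n F q)) * cV u = cV (mapV τ u) * PSUAut.fU τ :=
  PSUAut.fU_cU τ (PSUAut.ofGU (u : GLn) u.2)

theorem nrm_mem_GU (σ : RingAut F) (g : GLn) (hg : g ∈ Cfsg.GU n F q) (i : ℕ) :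
    nrm σ g i ∈ Cfsg.GU n F q := by
  induction i with
  | zero =>
    rw [nrm_zero]
    exact Subgroup.one_mem _
  | succ i ih =>
    rw [nrm_succ]
    exact Subgroup.mul_mem _ hg (PSUAut.map_mem_GU σ _ ih)

/-- The semilinear norm in the unitary group. -/
noncomputable def nrmV (σ : RingAut F) (u : ↥(Cfsg.GU n F q)) (i : ℕ) : ↥(Cfsg.GU n F q) :=
  ⟨nrm σ (u : GLn) i, nrm_mem_GU σ _ u.2 i⟩

theorem nrmV_coe (σ : RingAut F) (u : ↥(Cfsg.GU n F q)) (i : ℕ) :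
    ((nrmV σ u i : ↥(Cfsg.GU n F q)) : GLn) = nrm σ (u : GLn) i := rfl

theorem pow_cV_fU (σ : RingAut F) (u : ↥(Cfsg.GU n F q)) (i : ℕ) :
    (cV u * PSUAut.fU σ : MulAut (Cfsg.PSU n F q)) ^ i = cV (nrmV σ u i) * PSUAut.fU (σ ^ i) := by
  induction i with
  | zero =>
    have h1 : nrmV σ u 0 = 1 := Subtype.ext rfl
    rw [pow_zero, pow_zero, h1, map_one, map_one, one_mul]
  | succ i ih =>
    have h1 : nrmV σ u (i + 1) = u * mapV σ (nrmV σ u i) := Subtype.ext rfl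
    rw [pow_succ', ih, h1, map_mul, pow_succ', map_mul, mul_assoc (cV u), ← mul_assoc (PSUAut.fU σ),
      fU_cV]
    simp only [mul_assoc]

theorem gl_scalar_coe (c : Fˣ) :
    ((Matrix.GeneralLinearGroup.scalar (Fin n) c : GLn) : Mx) = (c : F) • (1 : Mx) := by
  rw [Matrix.GeneralLinearGroup.coe_scalar, Matrix.scalar_apply, Matrix.smul_one_eq_diagonal]

theorem cV_scalar_mul (c : Fˣ) (u w : ↥(Cfsg.GU n F q))
    (h : (w : GLn) = Matrix.GeneralLinearGroup.scalar (Fin n) c * (u : GLn)) :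
    (cV w : MulAut (Cfsg.PSU n F q)) = cV u := by
  rw [cV_apply, cV_apply]
  refine PSUAut.cU_eq_of_smul _ _ (c : F) ?_
  show ((w : GLn) : Mx) = (c : F) • ((u : GLn) : Mx)
  rw [h, PSUAut.scalar_mul_coe']

theorem fU_injective (hF : Fintype.card F = q ^ 2) (hn : 3 ≤ n) (h32 : ¬ (n = 3 ∧ q = 2)) :
    Function.Injective (PSUAut.fU : RingAut F →* MulAut (Cfsg.PSU n F q)) := by
  rw [injective_iff_map_eq_one]
  intro τ hτ
  have hperf := Cfsg.Agent.Lib.Helper13.su_commutator_eq_top (F := F) hF hn h32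
  obtain ⟨p, k, hp, -, hqk⟩ := q_prime_pow hF
  haveI : Fact p.Prime := ⟨hp⟩
  have hF' : Fintype.card F = p ^ (k * 2) := by rw [hF, hqk, pow_mul]
  have h1 : (PSUAut.fAutU τ : MulAut ↥(Cfsg.SU n F q)) = 1 :=
    PSUAut.psuAut_injective hperf (by rw [map_one]; exact hτ)
  have h2 : (PSUAut.fAutU τ : MulAut ↥(Cfsg.SU n F q)) =
      PSUAut.uAut (PSUAut.ofGU (1 : GLn) (Subgroup.one_mem _)) := by
    have h3 : PSUAut.ofGU (1 : GLn) (Subgroup.one_mem (Cfsg.GU n F q)) = 1 := Subtype.ext rfl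
    rw [h1, h3, map_one]
  have h4 : τ * τ = 1 :=
    PSUAut.sq_eq_one_of_fix hF _ (PSUAut.fix_of_fAutU_eq hF (by omega) _ 1 (Subgroup.one_mem _) h2)
  by_contra hne
  have h5 := involution_unique hF' τ (frobQ hF) hne h4 (frobQ_ne_one hF) (frobQ_sq hF)
  rw [h5] at h2
  exact PSUAut.fAutU_frob_ne hF hn _ h2

/-- A field-automorphism coset element of the same (odd) order as the field automorphism is
conjugate to it under the inner-diagonal group. -/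
theorem conj_of_pow_eq_one (hF : Fintype.card F = q ^ 2) (hn : 3 ≤ n) (h32 : ¬ (n = 3 ∧ q = 2))
    (hF₀ : Fintype.card F₀ = q₀ ^ 2) {r : ℕ} (hqq : q = q₀ ^ r) (hr : Odd r) (σ : RingAut F)
    (j : F₀ →+* F) (hj : IsFixEmb σ j) (hσ : orderOf σ = r) (u : ↥(Cfsg.GU n F q))
    (h : (cV u * PSUAut.fU σ : MulAut (Cfsg.PSU n F q)) ^ r = 1) :
    ∃ k : ↥(Cfsg.GU n F q),
      (cV u * PSUAut.fU σ : MulAut (Cfsg.PSU n F q)) = cV k * PSUAut.fU σ * (cV k)⁻¹ := by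
  have hσr : σ ^ r = 1 := by rw [← hσ]; exact pow_orderOf_eq_one σ
  rw [pow_cV_fU, hσr, map_one, mul_one, cV_apply, PSUAut.cU_eq_one_iff hF hn h32] at h
  obtain ⟨lam, hlam⟩ := h
  have hlam' : nrm σ (u : GLn) r = Matrix.GeneralLinearGroup.scalar (Fin n) lam := by
    apply Units.ext
    rw [gl_scalar_coe]
    exact hlam
  have hlam1 : lam ^ (q + 1) = 1 :=
    norm_of_smul_mem hF (by omega) 1 (nrm σ (u : GLn) r) (Subgroup.one_mem _)
      (nrm_mem_GU σ _ u.2 r) lam (by rw [Units.val_one]; exact hlam)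
  have hfix : Units.map (σ : F →* F) lam = lam := by
    have h1 := nrm_succ' σ (u : GLn) r
    rw [nrm_succ, hlam', hσr, glmap_one, glmap_scalar,
      ← Matrix.GeneralLinearGroup.scalar_commute] at h1
    exact scalar_injective (by omega) (mul_right_cancel h1)
  have hfix' : σ ((lam⁻¹ : Fˣ) : F) = ((lam⁻¹ : Fˣ) : F) := by
    rw [Units.val_inv_eq_inv_val, map_inv₀]
    congr 1
    exact congrArg Units.val hfix
  have hlam2 : ((lam⁻¹ : Fˣ) : F) ^ (q + 1) = 1 := by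
    rw [← Units.val_pow_eq_pow_val, inv_pow, hlam1, inv_one, Units.val_one]
  obtain ⟨ν, hν1, hν2⟩ := exists_norm_fix hF hF₀ hqq hr σ j hj hσ _ hlam2 hfix'
  have hν0 : ν ≠ 0 := by
    rintro rfl
    rw [zero_pow (by omega)] at hν1
    exact zero_ne_one hν1
  obtain ⟨c, hc⟩ : ∃ c : Fˣ, c = Units.mk0 ν hν0 := ⟨_, rfl⟩
  have hc1 : c ^ (q + 1) = 1 := by
    apply Units.ext
    rw [Units.val_pow_eq_pow_val, hc, Units.val_mk0, Units.val_one]
    exact hν1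
  have hcN : uN σ c r = lam⁻¹ := by
    apply Units.ext
    rw [uN_coe, hc, Units.val_mk0]
    exact hν2
  obtain ⟨u', hu'⟩ : ∃ u' : ↥(Cfsg.GU n F q),
      (u' : GLn) = Matrix.GeneralLinearGroup.scalar (Fin n) c * (u : GLn) :=
    ⟨⟨_, Subgroup.mul_mem _ (scalar_mem_GU hF c hc1) u.2⟩, rfl⟩
  have hN : nrm σ (u' : GLn) r = 1 := by
    rw [hu', nrm_scalar_mul, hcN, hlam', ← map_mul, inv_mul_cancel, map_one]
  obtain ⟨hm, hm1, hm2⟩ := exists_unitary_fixed hF hF₀ hqq hr σ j hj hσ ((u' : GLn) : Mx)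
    ((PSUAut.mem_GU_iff hF _).mp u'.2) (fun i => (nrm σ (u' : GLn) i : Mx))
    (by rw [nrm_zero]; rfl) (fun i => by rw [nrm_succ, Units.val_mul, glmap_coe])
    (by rw [hN]; rfl)
  have hdet : hm.det ≠ 0 := by
    intro h0
    have h1 := congrArg Matrix.det hm1
    rw [Matrix.det_mul, Matrix.det_transpose, h0, zero_mul, Matrix.det_one] at h1
    exact zero_ne_one h1
  obtain ⟨k, hk⟩ : ∃ k : ↥(Cfsg.GU n F q), ((k : GLn) : Mx) = hm :=
    ⟨⟨Matrix.GeneralLinearGroup.mkOfDetNeZero hm hdet, (PSUAut.mem_GU_iff hF _).mpr hm1⟩, rfl⟩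
  refine ⟨k, ?_⟩
  have hk' : u' = k * (mapV σ k)⁻¹ := by
    rw [eq_mul_inv_iff_mul_eq]
    apply Subtype.ext
    apply Units.ext
    rw [Subgroup.coe_mul, Units.val_mul, mapV_coe, glmap_coe, hk]
    exact hm2
  have h1 : (cV u : MulAut (Cfsg.PSU n F q)) = cV u' := (cV_scalar_mul c u u' hu').symm
  have h2 := fU_cV (n := n) (q := q) σ k
  rw [h1, hk', map_mul, map_inv, mul_assoc, mul_assoc]
  congr 1
  rw [inv_mul_eq_iff_eq_mul, ← mul_assoc, ← h2, mul_assoc, mul_inv_cancel, mul_one]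

theorem isFixEmb_subtype (σ : RingAut F) : IsFixEmb σ (fixF σ).subtype := by
  intro b
  rw [← mem_fixF]
  constructor
  · intro hb
    exact ⟨⟨b, hb⟩, rfl⟩
  · rintro ⟨c, rfl⟩
    exact c.2

/-- The fixed field of an automorphism of odd prime order `r` of the field with `q² = p^{2f}`
elements. -/
theorem fix_data {p f : ℕ} [Fact p.Prime] (hq : q = p ^ f) (hF : Fintype.card F = q ^ 2)
    (σ : RingAut F) {r : ℕ} (hr : r.Prime) (hro : Odd r) (ho : orderOf σ = r) :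
    r ∣ f ∧ Nat.card (fixF σ) = (p ^ (f / r)) ^ 2 ∧ q = (p ^ (f / r)) ^ r := by
  have hF' : Fintype.card F = p ^ (2 * f) := by rw [hF, hq, ← pow_mul, mul_comm]
  obtain ⟨h1, h2⟩ := card_fixF_eq hF' σ hr.pos ho
  have hdiv : r ∣ f := (Nat.Coprime.dvd_of_dvd_mul_left hro.coprime_two_right h1)
  refine ⟨hdiv, ?_, ?_⟩
  · rw [h2, Nat.mul_div_assoc 2 hdiv, ← pow_mul, mul_comm]
  · rw [hq, ← pow_mul, Nat.div_mul_cancel hdiv]

/-- Elements of prime order in the coset of a field automorphism of the inner-diagonal group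
are conjugate under the inner-diagonal group. -/
theorem coset_conj {p f : ℕ} [Fact p.Prime] (hq : q = p ^ f) (hF : Fintype.card F = q ^ 2)
    (hn : 3 ≤ n) (h32 : ¬ (n = 3 ∧ q = 2)) (hN : (Cfsg.inndiagPSU n F q).Normal)
    (x δ : MulAut (Cfsg.PSU n F q)) (hx : Cfsg.IsFieldAutClassPSU x) {r : ℕ} (hr : r.Prime)
    (hxr : orderOf x = r) (hδ : δ ∈ Cfsg.inndiagPSU n F q) (hord : orderOf (δ * x) = r) :
    Cfsg.IsConjUnder (Cfsg.inndiagPSU n F q) x (δ * x) := by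
  haveI := hN
  obtain ⟨α, φ, σ, hσ1, hσodd, hφ, hconj⟩ := hx
  rw [PSUAut.fieldAut_iff] at hφ
  subst hφ
  have ho : orderOf σ = r := by
    rw [← orderOf_injective PSUAut.fU (fU_injective hF hn h32) σ, ← hconj, orderOf_conj_aut, hxr]
  have hro : Odd r := ho ▸ hσodd
  obtain ⟨hdiv, hc0, hqq⟩ := fix_data hq hF σ hr hro ho
  haveI : Fintype (fixF σ) := Fintype.ofFinite _
  have hF₀ : Fintype.card (fixF σ) = (p ^ (f / r)) ^ 2 := by
    rw [← Nat.card_eq_fintype_card, hc0]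
  show ∃ k ∈ Cfsg.inndiagPSU n F q, δ * x = k * x * k⁻¹
  apply conj_transport _ α
  have hδ' := hN.conj_mem δ hδ α
  rw [← range_cV hF (by omega)] at hδ' ⊢
  obtain ⟨u, hu⟩ := hδ'
  rw [← hu, hconj]
  have hpow : (cV u * PSUAut.fU σ : MulAut (Cfsg.PSU n F q)) ^ r = 1 := by
    have e1 : (cV u * PSUAut.fU σ : MulAut (Cfsg.PSU n F q)) = α * (δ * x) * α⁻¹ := by
      rw [hu, ← hconj]
      group
    rw [e1, ← hord, ← orderOf_conj_aut α (δ * x)]
    exact pow_orderOf_eq_one _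
  obtain ⟨k, hk⟩ := conj_of_pow_eq_one hF hn h32 hF₀ hqq hro σ _ (isFixEmb_subtype σ) ho u hpow
  exact ⟨cV k, ⟨k, rfl⟩, hk⟩

/-! ### The centralizer -/

theorem map_mem_GU_iff (hF : Fintype.card F = q ^ 2) (hF₀ : Fintype.card F₀ = q₀ ^ 2) {r : ℕ}
    (hqq : q = q₀ ^ r) (hr : Odd r) (j : F₀ →+* F) (k : GL (Fin n) F₀) :
    Matrix.GeneralLinearGroup.map j k ∈ Cfsg.GU n F q ↔ k ∈ Cfsg.GU n F₀ q₀ := by
  rw [PSUAut.mem_GU_iff hF, PSUAut.mem_GU_iff hF₀]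
  have h1 : ((Matrix.GeneralLinearGroup.map j k : GLn) : Mx) =
      (k : Matrix (Fin n) (Fin n) F₀).map j := rfl
  have h2 : ((k : Matrix (Fin n) (Fin n) F₀).map j)ᵀ *
      ((k : Matrix (Fin n) (Fin n) F₀).map j).map (frobQ hF) =
      ((k : Matrix (Fin n) (Fin n) F₀)ᵀ * (k : Matrix (Fin n) (Fin n) F₀).map (frobQ hF₀)).map j := by
    rw [Matrix.map_mul]
    congr 1
    ext a b
    exact j_frob hF hF₀ hqq hr j _
  rw [h1, h2]
  constructor
  · intro h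
    ext a b
    apply j.injective
    have h3 := congrFun (congrFun h a) b
    rw [Matrix.map_apply] at h3
    rw [h3, Matrix.one_apply, Matrix.one_apply]
    split_ifs <;> simp
  · intro h
    rw [h, Matrix.map_one _ (map_zero j) (map_one j)]

/-- The unitary group of the fixed field, inside the unitary group. -/
def mapJ (hF : Fintype.card F = q ^ 2) (hF₀ : Fintype.card F₀ = q₀ ^ 2) {r : ℕ}
    (hqq : q = q₀ ^ r) (hr : Odd r) (j : F₀ →+* F) : ↥(Cfsg.GU n F₀ q₀) →* ↥(Cfsg.GU n F q) where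
  toFun k := ⟨Matrix.GeneralLinearGroup.map j (k : GL (Fin n) F₀),
    (map_mem_GU_iff hF hF₀ hqq hr j _).mpr k.2⟩
  map_one' := Subtype.ext (map_one _)
  map_mul' a b := Subtype.ext (map_mul _ _ _)

theorem mapJ_coe (hF : Fintype.card F = q ^ 2) (hF₀ : Fintype.card F₀ = q₀ ^ 2) {r : ℕ}
    (hqq : q = q₀ ^ r) (hr : Odd r) (j : F₀ →+* F) (k : ↥(Cfsg.GU n F₀ q₀)) :
    ((mapJ hF hF₀ hqq hr j k : ↥(Cfsg.GU n F q)) : GLn) =
      Matrix.GeneralLinearGroup.map j (k : GL (Fin n) F₀) := rfl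

/-- An inner-diagonal automorphism commuting with a field automorphism comes from a unitary
matrix over the fixed field. -/
theorem cent_fU (hF : Fintype.card F = q ^ 2) (hn : 3 ≤ n) (h32 : ¬ (n = 3 ∧ q = 2))
    (hF₀ : Fintype.card F₀ = q₀ ^ 2) {r : ℕ} (hqq : q = q₀ ^ r) (hr : Odd r) (σ : RingAut F)
    (j : F₀ →+* F) (hj : IsFixEmb σ j) (hσ : orderOf σ = r) (u : ↥(Cfsg.GU n F q))
    (h : (cV u : MulAut (Cfsg.PSU n F q)) * PSUAut.fU σ = PSUAut.fU σ * cV u) :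
    ∃ k : ↥(Cfsg.GU n F₀ q₀),
      (cV u : MulAut (Cfsg.PSU n F q)) = cV (mapJ hF hF₀ hqq hr j k) := by
  have hq := two_le_q hF
  have hσr : σ ^ r = 1 := by rw [← hσ]; exact pow_orderOf_eq_one σ
  rw [fU_cV] at h
  have h1 : (cV (mapV σ u) : MulAut (Cfsg.PSU n F q)) = cV u := (mul_right_cancel h).symm
  rw [cV_apply, cV_apply, PSUAut.cU_eq_iff hF hn h32] at h1
  obtain ⟨lam, hlam⟩ := h1
  have hlam' : ((mapV σ u : ↥(Cfsg.GU n F q)) : GLn) = lam • ((u : GLn) : Mx) := hlam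
  have hg : Matrix.GeneralLinearGroup.map (σ : F →+* F) (u : GLn) =
      Matrix.GeneralLinearGroup.scalar (Fin n) lam * (u : GLn) := by
    apply Units.ext
    rw [PSUAut.scalar_mul_coe']
    exact hlam
  have hlam1 : lam ^ (q + 1) = 1 :=
    norm_of_smul_mem hF (by omega) (u : GLn) ((mapV σ u : ↥(Cfsg.GU n F q)) : GLn) u.2
      (mapV σ u).2 lam hlam
  have hpow : ∀ i : ℕ, Matrix.GeneralLinearGroup.map ((σ ^ i : RingAut F) : F →+* F) (u : GLn) =
      Matrix.GeneralLinearGroup.scalar (Fin n) (uN σ lam i) * (u : GLn) := by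
    intro i
    induction i with
    | zero => rw [pow_zero, glmap_one, uN_zero, map_one, one_mul]
    | succ i ih =>
      rw [pow_succ', glmap_mul, ih, map_mul, glmap_scalar, hg, uN_succ, ← mul_assoc, ← map_mul,
        mul_comm]
  have hN : uN σ lam r = 1 := by
    have h2 := hpow r
    rw [hσr, glmap_one] at h2
    have h3 : Matrix.GeneralLinearGroup.scalar (Fin n) (uN σ lam r) = 1 :=
      (mul_eq_right (b := (u : GLn))).mp h2.symm
    exact scalar_injective (by omega) (h3.trans (map_one _).symm)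
  have hN' : ∏ i ∈ Finset.range r, (σ ^ i) (lam : F) = 1 := by
    rw [← uN_coe, hN, Units.val_one]
  have hlam2 : (lam : F) ^ (q + 1) = 1 := by
    rw [← Units.val_pow_eq_pow_val, hlam1, Units.val_one]
  obtain ⟨ν, hν1, hν2⟩ := exists_norm_one_fixed hF hF₀ hqq hr σ j hj hσ (lam : F) hlam2 hN'
  have hν0 : ν ≠ 0 := by
    rintro rfl
    rw [zero_pow (by omega)] at hν1
    exact zero_ne_one hν1
  obtain ⟨c, hc⟩ : ∃ c : Fˣ, c = Units.mk0 ν hν0 := ⟨_, rfl⟩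
  have hc1 : c ^ (q + 1) = 1 := by
    apply Units.ext
    rw [Units.val_pow_eq_pow_val, hc, Units.val_mk0, Units.val_one]
    exact hν1
  have hcl : Units.map (σ : F →* F) c * lam = c := by
    apply Units.ext
    rw [Units.val_mul, Units.coe_map, hc, Units.val_mk0, mul_comm]
    exact hν2
  obtain ⟨u', hu'⟩ : ∃ u' : ↥(Cfsg.GU n F q),
      (u' : GLn) = Matrix.GeneralLinearGroup.scalar (Fin n) c * (u : GLn) :=
    ⟨⟨_, Subgroup.mul_mem _ (scalar_mem_GU hF c hc1) u.2⟩, rfl⟩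
  have hfix : Matrix.GeneralLinearGroup.map (σ : F →+* F) (u' : GLn) = (u' : GLn) := by
    rw [hu', map_mul, glmap_scalar, hg, ← mul_assoc, ← map_mul, hcl]
  obtain ⟨k, hk⟩ := exists_map_of_fixed σ j hj (u' : GLn) hfix
  have hkU : k ∈ Cfsg.GU n F₀ q₀ := by
    rw [← map_mem_GU_iff hF hF₀ hqq hr j, hk]
    exact u'.2
  refine ⟨⟨k, hkU⟩, ?_⟩
  have h5 : mapJ hF hF₀ hqq hr j ⟨k, hkU⟩ = u' := Subtype.ext hk
  rw [h5]
  exact (cV_scalar_mul c u u' hu').symm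

theorem theta_ker (hF : Fintype.card F = q ^ 2) (hn : 3 ≤ n) (h32 : ¬ (n = 3 ∧ q = 2))
    (hF₀ : Fintype.card F₀ = q₀ ^ 2) {r : ℕ} (hqq : q = q₀ ^ r) (hr : Odd r) (j : F₀ →+* F) :
    ((cV : ↥(Cfsg.GU n F q) →* MulAut (Cfsg.PSU n F q)).comp (mapJ hF hF₀ hqq hr j)).ker =
      (Cfsg.Geo.scalars (Fin n) F₀).subgroupOf (Cfsg.GU n F₀ q₀) := by
  ext k
  rw [MonoidHom.mem_ker, Subgroup.mem_subgroupOf, MonoidHom.comp_apply, cV_apply,
    PSUAut.cU_eq_one_iff hF hn h32, Cfsg.Geo.mem_scalars_iff]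
  constructor
  · rintro ⟨c, hc⟩
    have hent : ∀ a b, j (((k : GL (Fin n) F₀) : Matrix (Fin n) (Fin n) F₀) a b) =
        if a = b then (c : F) else 0 := by
      intro a b
      have h1 := congrFun (congrFun hc a) b
      rw [Matrix.smul_apply, Matrix.one_apply, smul_eq_mul, mul_ite, mul_one, mul_zero] at h1
      exact h1
    have hc0 : ((k : GL (Fin n) F₀) : Matrix (Fin n) (Fin n) F₀) ⟨0, by omega⟩ ⟨0, by omega⟩ ≠ 0 := by
      intro h0
      have h1 := hent ⟨0, by omega⟩ ⟨0, by omega⟩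
      rw [h0, map_zero, if_pos rfl] at h1
      exact c.ne_zero h1.symm
    refine ⟨Units.mk0 _ hc0, ?_⟩
    ext a b
    apply j.injective
    rw [hent a b, Units.val_mk0, Matrix.smul_apply, Matrix.one_apply, smul_eq_mul, mul_ite,
      mul_one, mul_zero]
    by_cases hab : a = b
    · rw [if_pos hab, if_pos hab, hent, if_pos rfl]
    · rw [if_neg hab, if_neg hab, map_zero]
  · rintro ⟨c₀, hc₀⟩
    refine ⟨Units.map (j : F₀ →* F) c₀, ?_⟩
    show ((k : GL (Fin n) F₀) : Matrix (Fin n) (Fin n) F₀).map j = _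
    rw [hc₀]
    ext a b
    rw [Matrix.map_apply, Matrix.smul_apply, Matrix.smul_apply, Matrix.one_apply,
      Matrix.one_apply]
    by_cases hab : a = b
    · simp [hab]
    · simp [hab]

/-- The centralizer of the standard field automorphism in the inner-diagonal group. -/
theorem inf_centralizer_fU (hF : Fintype.card F = q ^ 2) (hn : 3 ≤ n) (h32 : ¬ (n = 3 ∧ q = 2))
    (hF₀ : Fintype.card F₀ = q₀ ^ 2) {r : ℕ} (hqq : q = q₀ ^ r) (hr : Odd r) (σ : RingAut F)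
    (j : F₀ →+* F) (hj : IsFixEmb σ j) (hσ : orderOf σ = r) :
    (cV : ↥(Cfsg.GU n F q) →* MulAut (Cfsg.PSU n F q)).range ⊓
        Subgroup.centralizer {(PSUAut.fU σ : MulAut (Cfsg.PSU n F q))} =
      ((cV : ↥(Cfsg.GU n F q) →* MulAut (Cfsg.PSU n F q)).comp (mapJ hF hF₀ hqq hr j)).range := by
  ext y
  rw [Subgroup.mem_inf, Subgroup.mem_centralizer_iff]
  constructor
  · rintro ⟨⟨u, rfl⟩, hc⟩
    have h1 := hc (PSUAut.fU σ) rfl
    obtain ⟨k, hk⟩ := cent_fU hF hn h32 hF₀ hqq hr σ j hj hσ u h1.symm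
    exact ⟨k, hk.symm⟩
  · rintro ⟨k, rfl⟩
    refine ⟨⟨_, rfl⟩, ?_⟩
    intro z hz
    rw [Set.mem_singleton_iff] at hz
    subst hz
    rw [MonoidHom.comp_apply, fU_cV]
    have h1 : mapV σ (mapJ hF hF₀ hqq hr j k) = mapJ hF hF₀ hqq hr j k :=
      Subtype.ext (glmap_map_of_fix σ j hj (k : GL (Fin n) F₀))
    rw [h1]

/-- The centralizer of a field automorphism in the inner-diagonal group is `PGU_n` of the
fixed field. -/
theorem centralizer_equiv (hF : Fintype.card F = q ^ 2) (hn : 3 ≤ n) (h32 : ¬ (n = 3 ∧ q = 2))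
    (hF₀ : Fintype.card F₀ = q₀ ^ 2) {r : ℕ} (hqq : q = q₀ ^ r) (hr : Odd r) (σ : RingAut F)
    (j : F₀ →+* F) (hj : IsFixEmb σ j) (hσ : orderOf σ = r)
    (hN : (Cfsg.inndiagPSU n F q).Normal) (a : MulAut (Cfsg.PSU n F q)) :
    Nonempty (↥(Cfsg.inndiagPSU n F q ⊓
      Subgroup.centralizer {a * (PSUAut.fU σ : MulAut (Cfsg.PSU n F q)) * a⁻¹}) ≃*
        Cfsg.PGU n F₀ q₀) := by
  haveI := hN
  rw [inf_centralizer_conj, ← range_cV hF (by omega),
    inf_centralizer_fU hF hn h32 hF₀ hqq hr σ j hj hσ]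
  have e1 : ↥(Cfsg.GU n F₀ q₀) ⧸
      ((cV : ↥(Cfsg.GU n F q) →* MulAut (Cfsg.PSU n F q)).comp (mapJ hF hF₀ hqq hr j)).ker ≃*
        Cfsg.PGU n F₀ q₀ :=
    QuotientGroup.quotientMulEquivOfEq (theta_ker hF hn h32 hF₀ hqq hr j)
  have e2 := QuotientGroup.quotientKerEquivRange
    ((cV : ↥(Cfsg.GU n F q) →* MulAut (Cfsg.PSU n F q)).comp (mapJ hF hF₀ hqq hr j))
  have e3 := (MulAut.conj a).subgroupMap
    ((cV : ↥(Cfsg.GU n F q) →* MulAut (Cfsg.PSU n F q)).comp (mapJ hF hF₀ hqq hr j)).range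
  exact ⟨(e3.symm.trans e2.symm).trans e1⟩

/-! ### The class splitting -/

theorem card_fixF_of_emb (σ : RingAut F) (j : F₀ →+* F) (hj : IsFixEmb σ j) :
    Nat.card (fixF σ) = Fintype.card F₀ := by
  rw [← Nat.card_eq_fintype_card]
  symm
  apply Nat.card_congr
  exact Equiv.ofBijective
    (fun b => (⟨j b, (mem_fixF σ).mpr ((hj _).mpr ⟨b, rfl⟩)⟩ : fixF σ))
    ⟨fun a b h => j.injective (congrArg Subtype.val h), fun ⟨c, hc⟩ => by
      obtain ⟨b, hb⟩ := (hj c).mp ((mem_fixF σ).mp hc)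
      exact ⟨b, Subtype.ext hb⟩⟩

theorem arith_ME {q₀ : ℕ} (hq₀ : 2 ≤ q₀) {r : ℕ} (hr : Odd r) :
    ((q₀ ^ r) ^ 2 - 1) / (q₀ ^ 2 - 1) * (q₀ - 1) =
      (q₀ ^ r - 1) * ((q₀ ^ r + 1) / (q₀ + 1)) := by
  obtain ⟨D, hD⟩ := Nat.sub_one_dvd_pow_sub_one q₀ r
  obtain ⟨E, hE⟩ : q₀ + 1 ∣ q₀ ^ r + 1 := by
    have := hr.nat_add_dvd_pow_add_pow q₀ 1
    rwa [one_pow] at this
  have h1 : q₀ ^ 2 - 1 = (q₀ - 1) * (q₀ + 1) := by
    obtain ⟨t, rfl⟩ : ∃ t, q₀ = t + 1 := ⟨q₀ - 1, by omega⟩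
    simp only [Nat.add_sub_cancel]
    have : (t + 1) ^ 2 = t * (t + 1 + 1) + 1 := by ring
    omega
  have h2 : (q₀ ^ r) ^ 2 - 1 = (q₀ ^ r - 1) * (q₀ ^ r + 1) := by
    have hpos : 1 ≤ q₀ ^ r := Nat.one_le_pow _ _ (by omega)
    obtain ⟨t, ht⟩ : ∃ t, q₀ ^ r = t + 1 := ⟨q₀ ^ r - 1, by omega⟩
    rw [ht]
    simp only [Nat.add_sub_cancel]
    have : (t + 1) ^ 2 = t * (t + 1 + 1) + 1 := by ring
    omega
  have h3 : (q₀ ^ r) ^ 2 - 1 = (q₀ ^ 2 - 1) * (D * E) := by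
    rw [h2, h1, hD, hE]
    ring
  have hpos : 0 < q₀ ^ 2 - 1 := by
    have : 2 ^ 2 ≤ q₀ ^ 2 := Nat.pow_le_pow_left hq₀ 2
    omega
  rw [h3, Nat.mul_div_cancel_left _ hpos, hE, Nat.mul_div_cancel_left _ (by omega : 0 < q₀ + 1),
    hD]
  ring

theorem detU_mapJ (hF : Fintype.card F = q ^ 2) (hF₀ : Fintype.card F₀ = q₀ ^ 2) {r : ℕ}
    (hqq : q = q₀ ^ r) (hr : Odd r) (j : F₀ →+* F) (k : ↥(Cfsg.GU n F₀ q₀)) :
    detU n F q (mapJ hF hF₀ hqq hr j k) = Units.map (j : F₀ →* F) (detU n F₀ q₀ k) :=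
  Matrix.GeneralLinearGroup.map_det j (k : GL (Fin n) F₀)

theorem map_detU_range (hF : Fintype.card F = q ^ 2) (hn : 1 ≤ n)
    (hF₀ : Fintype.card F₀ = q₀ ^ 2) {r : ℕ} (hqq : q = q₀ ^ r) (hr : Odd r) (σ : RingAut F)
    (j : F₀ →+* F) (hj : IsFixEmb σ j) :
    ((mapJ (n := n) hF hF₀ hqq hr j).range).map (detU n F q) =
      (powMonoidHom ((q - 1) * ((q + 1) / (q₀ + 1))) : Fˣ →* Fˣ).range := by
  have hq₀ := two_le_q hF₀
  have hM : (Nat.card F - 1) / (Nat.card (fixF σ) - 1) * (q₀ - 1) =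
      (q - 1) * ((q + 1) / (q₀ + 1)) := by
    rw [card_fixF_of_emb σ j hj, hF₀, Nat.card_eq_fintype_card, hF, hqq]
    exact arith_ME hq₀ hr
  have hU := units_fixed_eq σ j hj
  have hD := detU_range (n := n) hn (frobQ hF₀) (frobQ_ne_one hF₀) (frobQ_sq hF₀) hF₀
    (frobQ_apply hF₀)
  ext w
  constructor
  · rintro ⟨_, ⟨k, rfl⟩, rfl⟩
    have h1 : detU n F₀ q₀ k ∈ (detU n F₀ q₀).range := ⟨k, rfl⟩
    rw [hD] at h1
    obtain ⟨y₀, hy₀⟩ := h1
    have hy₀' : y₀ ^ (q₀ - 1) = detU n F₀ q₀ k := hy₀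
    have h2 : Units.map (j : F₀ →* F) y₀ ∈ (Units.map (j : F₀ →* F)).range := ⟨y₀, rfl⟩
    rw [hU] at h2
    obtain ⟨z, hz⟩ := h2
    have hz' : z ^ ((Nat.card F - 1) / (Nat.card (fixF σ) - 1)) = Units.map (j : F₀ →* F) y₀ := hz
    refine ⟨z, ?_⟩
    show z ^ ((q - 1) * ((q + 1) / (q₀ + 1))) = detU n F q (mapJ hF hF₀ hqq hr j k)
    rw [detU_mapJ, ← hy₀', ← hM, pow_mul, hz', map_pow]
  · rintro ⟨z, rfl⟩
    have h2 : z ^ ((Nat.card F - 1) / (Nat.card (fixF σ) - 1)) ∈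
        (Units.map (j : F₀ →* F)).range := by
      rw [hU]
      exact ⟨z, rfl⟩
    obtain ⟨y₀, hy₀⟩ := h2
    have h1 : y₀ ^ (q₀ - 1) ∈ (detU n F₀ q₀).range := by
      rw [hD]
      exact ⟨y₀, rfl⟩
    obtain ⟨k, hk⟩ := h1
    refine ⟨mapJ hF hF₀ hqq hr j k, ⟨k, rfl⟩, ?_⟩
    show detU n F q (mapJ hF hF₀ hqq hr j k) = z ^ ((q - 1) * ((q + 1) / (q₀ + 1)))
    rw [detU_mapJ, hk, map_pow, hy₀, ← pow_mul, hM]

/-- The class of a field automorphism under the inner-diagonal group splits into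
`gcd(n, (q+1)/(q₀+1))` classes under the inner group. -/
theorem splitCount_field (hF : Fintype.card F = q ^ 2) (hn : 3 ≤ n) (h32 : ¬ (n = 3 ∧ q = 2))
    (hF₀ : Fintype.card F₀ = q₀ ^ 2) {r : ℕ} (hqq : q = q₀ ^ r) (hr : Odd r) (σ : RingAut F)
    (j : F₀ →+* F) (hj : IsFixEmb σ j) (hσ : orderOf σ = r)
    (hN : (Cfsg.inndiagPSU n F q).Normal) (a : MulAut (Cfsg.PSU n F q)) :
    Cfsg.splitClassCount (Cfsg.inndiagPSU n F q) (Cfsg.Inn (Cfsg.PSU n F q))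
        (a * (PSUAut.fU σ : MulAut (Cfsg.PSU n F q)) * a⁻¹) =
      Nat.gcd n ((q + 1) / (q₀ + 1)) := by
  haveI := hN
  have hle : Cfsg.Inn (Cfsg.PSU n F q) ≤ Cfsg.inndiagPSU n F q := by
    rw [← range_cV hF (by omega)]
    exact inn_le_range_cV
  rw [splitClassCount_eq _ _ hle, inf_centralizer_conj]
  conv_lhs =>
    rw [← normal_map_conj (Cfsg.Inn (Cfsg.PSU n F q)) a, ← Subgroup.map_sup]
  conv_lhs =>
    arg 2
    rw [← normal_map_conj (Cfsg.inndiagPSU n F q) a]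
  rw [Subgroup.relIndex_map_map_of_injective _ _ (MulAut.conj a).injective,
    ← range_cV hF (by omega), inf_centralizer_fU hF hn h32 hF₀ hqq hr σ j hj hσ,
    MonoidHom.range_comp, ← Subgroup.index_comap, comap_sup_map hF hn h32, Subgroup.index_comap,
    detU_range (by omega) (frobQ hF) (frobQ_ne_one hF) (frobQ_sq hF) hF (frobQ_apply hF),
    map_detU_range hF (by omega) hF₀ hqq hr σ j hj, pow_range_sup, Nat.gcd_mul_left,
    relIndex_pow hF]
  apply Nat.gcd_eq_right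
  refine dvd_trans (Nat.gcd_dvd_right _ _) (Nat.div_dvd_of_dvd ?_)
  rw [hqq]
  have := hr.nat_add_dvd_pow_add_pow q₀ 1
  rwa [one_pow] at this

/-- Field automorphisms of prime order of `PSU_n(q)`: centralizer in the inner-diagonal group
and class splitting, given that the inner-diagonal group is normal in the automorphism group. -/
theorem field_aut_main {p f : ℕ} [Fact p.Prime] (hq : q = p ^ f)
    (hF : Fintype.card F = q ^ 2) (hn : 3 ≤ n) (h32 : ¬ (n = 3 ∧ q = 2))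
    (hN : (Cfsg.inndiagPSU n F q).Normal) (x : MulAut (Cfsg.PSU n F q))
    (hx : Cfsg.IsFieldAutClassPSU x) {r : ℕ} (hr : r.Prime) (hxr : orderOf x = r)
    (hF₀ : Fintype.card F₀ = p ^ (2 * (f / r))) :
    r ∣ f ∧
      Nonempty (↥(Cfsg.inndiagPSU n F q ⊓ Subgroup.centralizer {x}) ≃*
        Cfsg.PGU n F₀ (p ^ (f / r))) ∧
      Cfsg.splitClassCount (Cfsg.inndiagPSU n F q) (Cfsg.Inn (Cfsg.PSU n F q)) x =
        Nat.gcd n ((q + 1) / (p ^ (f / r) + 1)) := by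
  obtain ⟨α, φ, σ, hσ1, hσodd, hφ, hconj⟩ := hx
  rw [PSUAut.fieldAut_iff] at hφ
  subst hφ
  have hx' : x = α⁻¹ * PSUAut.fU σ * α⁻¹⁻¹ := by
    rw [← hconj]
    group
  have ho : orderOf σ = r := by
    rw [← orderOf_injective PSUAut.fU (fU_injective hF hn h32) σ, ← hconj, orderOf_conj_aut, hxr]
  have hro : Odd r := ho ▸ hσodd
  obtain ⟨hdiv, hc0, hqq⟩ := fix_data hq hF σ hr hro ho
  haveI : Fintype (fixF σ) := Fintype.ofFinite _
  have hF₀' : Fintype.card F₀ = (p ^ (f / r)) ^ 2 := by rw [hF₀, ← pow_mul, mul_comm]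
  have ι : F₀ ≃+* fixF σ := FiniteField.ringEquivOfCardEq (by
    rw [hF₀', ← hc0, Nat.card_eq_fintype_card])
  have hj : IsFixEmb σ ((fixF σ).subtype.comp (ι : F₀ →+* fixF σ)) := by
    intro b
    rw [← mem_fixF]
    constructor
    · intro hb
      exact ⟨ι.symm ⟨b, hb⟩, by simp⟩
    · rintro ⟨c, rfl⟩
      exact (ι c).2
  refine ⟨hdiv, ?_, ?_⟩
  · rw [hx']
    exact centralizer_equiv hF hn h32 hF₀' hqq hro σ _ hj ho hN α⁻¹
  · rw [hx']
    exact splitCount_field hF hn h32 hF₀' hqq hro σ _ hj ho hN α⁻¹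

/-- The inner-diagonal group is normal, given the decomposition of automorphisms. -/
theorem inndiag_normal (hF : Fintype.card F = q ^ 2) (hn : 3 ≤ n)
    (hAut : ∀ β : MulAut (Cfsg.PSU n F q), ∃ (δ φ : MulAut (Cfsg.PSU n F q)) (σ : F ≃+* F),
      Cfsg.IsInnerDiagonalAutPSU δ ∧ Cfsg.IsFieldAutPSUOf σ φ ∧ β = δ * φ) :
    (Cfsg.inndiagPSU n F q).Normal := by
  rw [← range_cV hF (by omega)]
  constructor
  rintro _ ⟨k, rfl⟩ α
  obtain ⟨δ, φ, σ, hδ, hφ, rfl⟩ := hAut α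
  rw [PSUAut.fieldAut_iff] at hφ
  subst hφ
  have hδ' : δ ∈ Cfsg.inndiagPSU n F q := Subgroup.subset_closure hδ
  rw [← range_cV hF (by omega)] at hδ'
  obtain ⟨d, rfl⟩ := hδ'
  have h1 : (cV d * PSUAut.fU σ : MulAut (Cfsg.PSU n F q)) * cV k =
      cV (d * mapV σ k) * PSUAut.fU σ := by
    rw [mul_assoc, fU_cV, ← mul_assoc, map_mul]
  have h2 : (cV d * PSUAut.fU σ : MulAut (Cfsg.PSU n F q))⁻¹ = (PSUAut.fU σ)⁻¹ * (cV d)⁻¹ := by
    rw [_root_.mul_inv_rev]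
  rw [h1, h2, mul_assoc, mul_inv_cancel_left, ← map_inv, ← map_mul]
  exact ⟨_, rfl⟩

end psu

end Cfsg.Agent.Lib.Helper8.PSUField
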