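import Mathlib
import Cfsg.Agent.Lib.Helper8.PSUField
import Cfsg.Agent.Lib.Helper43.AutPSL2.Main
import Cfsg.Prelude.Def_KGroupFacts

set_option autoImplicit false

/-!
# The outer automorphism group of `PSU_n(q)`

Given the factorization of automorphisms (inner-diagonal times field), the field part is a
homomorphism onto the automorphism group of the field, and the outer automorphism group has the
diagonal automorphisms as kernel.
-/

namespace Cfsg.Agent.Lib.Helper8.PSUOut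

open Matrix Cfsg.Agent.Lib.Helper43.AutPSLn Cfsg.Agent.Lib.Helper43.FieldAut
  Cfsg.Agent.Lib.Helper45 Cfsg.Agent.Lib.Helper8 PSUSplit PSUField

variable {n : ℕ} {F : Type*} [Field F] [Fintype F] {q : ℕ}

local notation "Mx" => Matrix (Fin n) (Fin n) F
local notation "SLn" => Matrix.SpecialLinearGroup (Fin n) F
local notation "GLn" => GL (Fin n) F

/-- `α` is inner-diagonal times the field automorphism of `σ`. -/
def TwU (α : MulAut (Cfsg.PSU n F q)) (σ : RingAut F) : Prop :=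
  ∃ u : ↥(Cfsg.GU n F q), α = cV u * PSUAut.fU σ

theorem twU_mul {α β : MulAut (Cfsg.PSU n F q)} {σ τ : RingAut F} (h1 : TwU α σ)
    (h2 : TwU β τ) : TwU (α * β) (σ * τ) := by
  obtain ⟨u, rfl⟩ := h1
  obtain ⟨w, rfl⟩ := h2
  refine ⟨u * mapV σ w, ?_⟩
  rw [map_mul, map_mul, mul_assoc (cV u), ← mul_assoc (PSUAut.fU σ), fU_cV]
  simp only [mul_assoc]

/-- A field automorphism that is inner-diagonal is trivial. -/
theorem eq_one_of_fU_eq (hF : Fintype.card F = q ^ 2) (hn : 3 ≤ n) (h32 : ¬ (n = 3 ∧ q = 2))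
    (σ : RingAut F) (u : ↥(Cfsg.GU n F q))
    (h : (PSUAut.fU σ : MulAut (Cfsg.PSU n F q)) = cV u) : σ = 1 := by
  have hperf := Cfsg.Agent.Lib.Helper13.su_commutator_eq_top (F := F) hF hn h32
  obtain ⟨p, k, hp, -, hqk⟩ := q_prime_pow hF
  haveI : Fact p.Prime := ⟨hp⟩
  have hF' : Fintype.card F = p ^ (k * 2) := by rw [hF, hqk, pow_mul]
  have h2 : (PSUAut.fAutU σ : MulAut ↥(Cfsg.SU n F q)) =
      PSUAut.uAut (PSUAut.ofGU (u : GLn) u.2) := PSUAut.psuAut_injective hperf h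
  have h4 : σ * σ = 1 :=
    PSUAut.sq_eq_one_of_fix hF _ (PSUAut.fix_of_fAutU_eq hF (by omega) _ (u : GLn) u.2 h2)
  by_contra hne
  have h5 := involution_unique hF' σ (frobQ hF) hne h4 (frobQ_ne_one hF) (frobQ_sq hF)
  rw [h5] at h2
  exact PSUAut.fAutU_frob_ne hF hn _ h2

theorem twU_unique (hF : Fintype.card F = q ^ 2) (hn : 3 ≤ n) (h32 : ¬ (n = 3 ∧ q = 2))
    {α : MulAut (Cfsg.PSU n F q)} {σ τ : RingAut F} (h1 : TwU α σ) (h2 : TwU α τ) : σ = τ := by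
  obtain ⟨u, rfl⟩ := h1
  obtain ⟨w, he⟩ := h2
  have h3 : (PSUAut.fU (σ * τ⁻¹) : MulAut (Cfsg.PSU n F q)) = cV (u⁻¹ * w) := by
    rw [map_mul, map_inv, map_mul, map_inv, eq_inv_mul_iff_mul_eq, ← mul_assoc, he,
      mul_inv_cancel_right]
  exact mul_inv_eq_one.mp (eq_one_of_fU_eq hF hn h32 _ _ h3)

theorem twU_exists (hF : Fintype.card F = q ^ 2) (hn : 3 ≤ n)
    (hAut : ∀ β : MulAut (Cfsg.PSU n F q), ∃ (δ φ : MulAut (Cfsg.PSU n F q)) (σ : F ≃+* F),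
      Cfsg.IsInnerDiagonalAutPSU δ ∧ Cfsg.IsFieldAutPSUOf σ φ ∧ β = δ * φ)
    (α : MulAut (Cfsg.PSU n F q)) : ∃ σ : RingAut F, TwU α σ := by
  obtain ⟨δ, φ, σ, hδ, hφ, rfl⟩ := hAut α
  rw [PSUAut.fieldAut_iff] at hφ
  subst hφ
  have hδ' : δ ∈ Cfsg.inndiagPSU n F q := Subgroup.subset_closure hδ
  rw [← range_cV hF (by omega)] at hδ'
  obtain ⟨d, rfl⟩ := hδ'
  exact ⟨σ, d, rfl⟩

/-- The field part of an automorphism of `PSU_n(q)`. -/
noncomputable def typeU (hF : Fintype.card F = q ^ 2) (hn : 3 ≤ n) (h32 : ¬ (n = 3 ∧ q = 2))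
    (hAut : ∀ β : MulAut (Cfsg.PSU n F q), ∃ (δ φ : MulAut (Cfsg.PSU n F q)) (σ : F ≃+* F),
      Cfsg.IsInnerDiagonalAutPSU δ ∧ Cfsg.IsFieldAutPSUOf σ φ ∧ β = δ * φ) :
    MulAut (Cfsg.PSU n F q) →* RingAut F :=
  MonoidHom.mk' (fun α => Classical.choose (twU_exists hF hn hAut α)) (by
    intro α β
    exact twU_unique hF hn h32 (Classical.choose_spec (twU_exists hF hn hAut (α * β)))
      (twU_mul (Classical.choose_spec (twU_exists hF hn hAut α))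
        (Classical.choose_spec (twU_exists hF hn hAut β))))

theorem typeU_eq (hF : Fintype.card F = q ^ 2) (hn : 3 ≤ n) (h32 : ¬ (n = 3 ∧ q = 2))
    (hAut : ∀ β : MulAut (Cfsg.PSU n F q), ∃ (δ φ : MulAut (Cfsg.PSU n F q)) (σ : F ≃+* F),
      Cfsg.IsInnerDiagonalAutPSU δ ∧ Cfsg.IsFieldAutPSUOf σ φ ∧ β = δ * φ)
    {α : MulAut (Cfsg.PSU n F q)} {σ : RingAut F} (h : TwU α σ) :
    typeU hF hn h32 hAut α = σ :=
  twU_unique hF hn h32 (Classical.choose_spec (twU_exists hF hn hAut α)) h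

theorem typeU_surjective (hF : Fintype.card F = q ^ 2) (hn : 3 ≤ n) (h32 : ¬ (n = 3 ∧ q = 2))
    (hAut : ∀ β : MulAut (Cfsg.PSU n F q), ∃ (δ φ : MulAut (Cfsg.PSU n F q)) (σ : F ≃+* F),
      Cfsg.IsInnerDiagonalAutPSU δ ∧ Cfsg.IsFieldAutPSUOf σ φ ∧ β = δ * φ) :
    Function.Surjective (typeU hF hn h32 hAut) := fun σ =>
  ⟨PSUAut.fU σ, typeU_eq hF hn h32 hAut ⟨1, by rw [map_one, one_mul]⟩⟩

theorem typeU_ker (hF : Fintype.card F = q ^ 2) (hn : 3 ≤ n) (h32 : ¬ (n = 3 ∧ q = 2))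
    (hAut : ∀ β : MulAut (Cfsg.PSU n F q), ∃ (δ φ : MulAut (Cfsg.PSU n F q)) (σ : F ≃+* F),
      Cfsg.IsInnerDiagonalAutPSU δ ∧ Cfsg.IsFieldAutPSUOf σ φ ∧ β = δ * φ) :
    (typeU hF hn h32 hAut).ker =
      (cV : ↥(Cfsg.GU n F q) →* MulAut (Cfsg.PSU n F q)).range := by
  ext α
  rw [MonoidHom.mem_ker]
  constructor
  · intro h
    obtain ⟨σ, u, hu⟩ := twU_exists hF hn hAut α
    have h2 := typeU_eq hF hn h32 hAut (α := α) ⟨u, hu⟩
    rw [h] at h2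
    refine ⟨u, ?_⟩
    rw [hu, ← h2, map_one, mul_one]
  · rintro ⟨u, rfl⟩
    exact typeU_eq hF hn h32 hAut ⟨u, by rw [map_one, mul_one]⟩

theorem inn_le_ker (hF : Fintype.card F = q ^ 2) (hn : 3 ≤ n) (h32 : ¬ (n = 3 ∧ q = 2))
    (hAut : ∀ β : MulAut (Cfsg.PSU n F q), ∃ (δ φ : MulAut (Cfsg.PSU n F q)) (σ : F ≃+* F),
      Cfsg.IsInnerDiagonalAutPSU δ ∧ Cfsg.IsFieldAutPSUOf σ φ ∧ β = δ * φ) :
    Cfsg.Inn (Cfsg.PSU n F q) ≤ (typeU hF hn h32 hAut).ker := by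
  rw [typeU_ker]
  exact inn_le_range_cV

/-- The induced map on outer automorphisms. -/
noncomputable def outU (hF : Fintype.card F = q ^ 2) (hn : 3 ≤ n) (h32 : ¬ (n = 3 ∧ q = 2))
    (hAut : ∀ β : MulAut (Cfsg.PSU n F q), ∃ (δ φ : MulAut (Cfsg.PSU n F q)) (σ : F ≃+* F),
      Cfsg.IsInnerDiagonalAutPSU δ ∧ Cfsg.IsFieldAutPSUOf σ φ ∧ β = δ * φ) :
    Cfsg.Out (Cfsg.PSU n F q) →* RingAut F :=
  QuotientGroup.lift (Cfsg.Inn (Cfsg.PSU n F q)) (typeU hF hn h32 hAut)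
    (inn_le_ker hF hn h32 hAut)

theorem outU_mk (hF : Fintype.card F = q ^ 2) (hn : 3 ≤ n) (h32 : ¬ (n = 3 ∧ q = 2))
    (hAut : ∀ β : MulAut (Cfsg.PSU n F q), ∃ (δ φ : MulAut (Cfsg.PSU n F q)) (σ : F ≃+* F),
      Cfsg.IsInnerDiagonalAutPSU δ ∧ Cfsg.IsFieldAutPSUOf σ φ ∧ β = δ * φ)
    (α : MulAut (Cfsg.PSU n F q)) :
    outU hF hn h32 hAut (QuotientGroup.mk α) = typeU hF hn h32 hAut α := rfl

/-- The inner-diagonal automorphisms, as outer automorphisms. -/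
noncomputable def diagOutU (n : ℕ) (F : Type*) [Field F] [Fintype F] (q : ℕ) :
    ↥(Cfsg.GU n F q) →* Cfsg.Out (Cfsg.PSU n F q) :=
  (QuotientGroup.mk' (Cfsg.Inn (Cfsg.PSU n F q))).comp cV

theorem diagOutU_range (hF : Fintype.card F = q ^ 2) (hn : 3 ≤ n) (h32 : ¬ (n = 3 ∧ q = 2))
    (hAut : ∀ β : MulAut (Cfsg.PSU n F q), ∃ (δ φ : MulAut (Cfsg.PSU n F q)) (σ : F ≃+* F),
      Cfsg.IsInnerDiagonalAutPSU δ ∧ Cfsg.IsFieldAutPSUOf σ φ ∧ β = δ * φ) :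
    (diagOutU n F q).range = (outU hF hn h32 hAut).ker := by
  ext x
  constructor
  · rintro ⟨u, rfl⟩
    rw [MonoidHom.mem_ker]
    show outU hF hn h32 hAut (QuotientGroup.mk (cV u)) = 1
    rw [outU_mk, ← MonoidHom.mem_ker, typeU_ker]
    exact ⟨u, rfl⟩
  · intro hx
    obtain ⟨α, rfl⟩ := QuotientGroup.mk_surjective x
    rw [MonoidHom.mem_ker, outU_mk, ← MonoidHom.mem_ker, typeU_ker] at hx
    obtain ⟨u, rfl⟩ := hx
    exact ⟨u, rfl⟩

theorem diagOutU_ker (hF : Fintype.card F = q ^ 2) (hn : 3 ≤ n) (h32 : ¬ (n = 3 ∧ q = 2)) :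
    (diagOutU n F q).ker =
      ((QuotientGroup.mk' (powMonoidHom ((q - 1) * n) : Fˣ →* Fˣ).range).comp
        (detU n F q)).ker := by
  have h1 := comap_sup_map hF hn h32 (⊥ : Subgroup ↥(Cfsg.GU n F q))
  rw [Subgroup.map_bot, Subgroup.map_bot, sup_bot_eq, sup_bot_eq] at h1
  unfold diagOutU
  rw [← MonoidHom.comap_ker, ← MonoidHom.comap_ker, QuotientGroup.ker_mk', QuotientGroup.ker_mk']
  exact h1

theorem card_diagOutU_range (hF : Fintype.card F = q ^ 2) (hn : 3 ≤ n)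
    (h32 : ¬ (n = 3 ∧ q = 2)) : Nat.card (diagOutU n F q).range = Nat.gcd n (q + 1) := by
  rw [← Subgroup.index_ker, diagOutU_ker hF hn h32, ← MonoidHom.comap_ker, QuotientGroup.ker_mk',
    Subgroup.index_comap,
    detU_range (by omega) (frobQ hF) (frobQ_ne_one hF) (frobQ_sq hF) hF (frobQ_apply hF),
    relIndex_pow hF, Nat.gcd_comm]

theorem isCyclic_diagOutU_range (hF : Fintype.card F = q ^ 2) (hn : 3 ≤ n)
    (h32 : ¬ (n = 3 ∧ q = 2)) : IsCyclic (diagOutU n F q).range := by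
  have e1 := QuotientGroup.quotientKerEquivRange (diagOutU n F q)
  have e2 := QuotientGroup.quotientKerEquivRange
    ((QuotientGroup.mk' (powMonoidHom ((q - 1) * n) : Fˣ →* Fˣ).range).comp (detU n F q))
  have e3 := QuotientGroup.quotientMulEquivOfEq (diagOutU_ker hF hn h32)
  haveI : IsCyclic (Fˣ ⧸ (powMonoidHom ((q - 1) * n) : Fˣ →* Fˣ).range) :=
    isCyclic_of_surjective (QuotientGroup.mk' _) (QuotientGroup.mk'_surjective _)
  haveI : IsCyclic ((QuotientGroup.mk' (powMonoidHom ((q - 1) * n) : Fˣ →* Fˣ).range).comp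
      (detU n F q)).range := Subgroup.isCyclic _
  exact isCyclic_of_surjective ((e2.symm.trans e3.symm).trans e1) (MulEquiv.surjective _)

/-- **`Out (PSU_n(q))`**: it maps onto the cyclic group of order `2f` with cyclic kernel of
order `gcd(n, q + 1)`, given the factorization of automorphisms. -/
theorem out_psu {p f : ℕ} [Fact p.Prime] (hq : q = p ^ f) (hF : Fintype.card F = q ^ 2)
    (hn : 3 ≤ n) (h32 : ¬ (n = 3 ∧ q = 2))
    (hAut : ∀ β : MulAut (Cfsg.PSU n F q), ∃ (δ φ : MulAut (Cfsg.PSU n F q)) (σ : F ≃+* F),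
      Cfsg.IsInnerDiagonalAutPSU δ ∧ Cfsg.IsFieldAutPSUOf σ φ ∧ β = δ * φ) :
    ∃ φ : Cfsg.Out (Cfsg.PSU n F q) →* Multiplicative (ZMod (2 * f)),
      Function.Surjective φ ∧ IsCyclic φ.ker ∧ Nat.card φ.ker = Nat.gcd n (q + 1) := by
  have hF' : Fintype.card F = p ^ (2 * f) := by rw [hF, hq, ← pow_mul, mul_comm]
  obtain ⟨e⟩ := Cfsg.Agent.Lib.Helper43.AutPSL2.exists_ringAut_equiv (F := F) hF'
  refine ⟨e.toMonoidHom.comp (outU hF hn h32 hAut), ?_, ?_⟩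
  · refine e.surjective.comp ?_
    intro σ
    obtain ⟨α, hα⟩ := typeU_surjective hF hn h32 hAut σ
    exact ⟨QuotientGroup.mk α, hα⟩
  · have hker : (e.toMonoidHom.comp (outU hF hn h32 hAut)).ker = (diagOutU n F q).range := by
      rw [diagOutU_range hF hn h32 hAut]
      ext x
      rw [MonoidHom.mem_ker, MonoidHom.mem_ker]
      show e (outU hF hn h32 hAut x) = 1 ↔ _
      rw [MulEquiv.map_eq_one_iff]
    rw [hker]
    exact ⟨isCyclic_diagOutU_range hF hn h32, card_diagOutU_range hF hn h32⟩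

theorem conj_injective (hF : Fintype.card F = q ^ 2) (hn : 3 ≤ n) (h32 : ¬ (n = 3 ∧ q = 2)) :
    Function.Injective (MulAut.conj : Cfsg.PSU n F q →* MulAut (Cfsg.PSU n F q)) := by
  rw [injective_iff_map_eq_one]
  intro x hx
  obtain ⟨s, rfl⟩ := QuotientGroup.mk_surjective x
  rw [← cV_suGU, cV_apply, PSUAut.cU_eq_one_iff hF hn h32] at hx
  obtain ⟨c, hc⟩ := hx
  have hs : ((s : SLn) : Mx) = (c : F) • (1 : Mx) := hc
  rw [QuotientGroup.eq_one_iff, Subgroup.mem_center_iff]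
  intro t
  apply Subtype.ext
  apply Subtype.ext
  show ((t : SLn) : Mx) * ((s : SLn) : Mx) = ((s : SLn) : Mx) * ((t : SLn) : Mx)
  rw [hs, Matrix.mul_smul, Matrix.smul_mul, Matrix.mul_one, Matrix.one_mul]

/-- **`|Aut (PSU_n(q))|`**, given the factorization of automorphisms. -/
theorem card_aut_psu {p f : ℕ} [Fact p.Prime] (hq : q = p ^ f) (hF : Fintype.card F = q ^ 2)
    (hn : 3 ≤ n) (h32 : ¬ (n = 3 ∧ q = 2))
    (hAut : ∀ β : MulAut (Cfsg.PSU n F q), ∃ (δ φ : MulAut (Cfsg.PSU n F q)) (σ : F ≃+* F),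
      Cfsg.IsInnerDiagonalAutPSU δ ∧ Cfsg.IsFieldAutPSUOf σ φ ∧ β = δ * φ) :
    Nat.card (MulAut (Cfsg.PSU n F q)) =
      Nat.gcd n (q + 1) * (2 * f) * Nat.card (Cfsg.PSU n F q) := by
  obtain ⟨φ, hsurj, -, hcard⟩ := out_psu hq hF hn h32 hAut
  have h1 := Subgroup.card_mul_index (Cfsg.Inn (Cfsg.PSU n F q))
  have h2 : (Cfsg.Inn (Cfsg.PSU n F q)).index = Nat.card (Cfsg.Out (Cfsg.PSU n F q)) := rfl
  have h3 := Subgroup.card_mul_index φ.ker
  have h4 : φ.ker.index = 2 * f := by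
    rw [Subgroup.index_ker, MonoidHom.range_eq_top.mpr hsurj, Subgroup.card_top,
      Nat.card_congr Multiplicative.toAdd, Nat.card_zmod]
  have h5 : Nat.card (Cfsg.Inn (Cfsg.PSU n F q)) = Nat.card (Cfsg.PSU n F q) :=
    (Nat.card_congr (MonoidHom.ofInjective (conj_injective hF hn h32)).toEquiv).symm
  rw [← h1, h5, h2, ← h3, hcard, h4]
  ring

end Cfsg.Agent.Lib.Helper8.PSUOut
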