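import Mathlib
import Cfsg.Agent.Lib.Helper22.PComp
import Cfsg.Agent.Lib.Helper8.OCent
import Cfsg.Agent.Lib.Helper14.POmegaSimple

set_option autoImplicit false

/-!
# Local balance for the odd-dimensional orthogonal groups

The `p'`-core of the centralizer of a field automorphism of prime order `p` of `Ω_{2m+1}(F)` in an
almost simple group.
-/

namespace Cfsg.Agent.Lib.Helper8.OBal

section abstract

variable {G : Type*} [Group G] [Finite G]

/-- An abstract criterion: if the centralizer of `x` in the normal subgroup `I` contains a simple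
normal subgroup `L₁` whose centralizer in `C(x)` is `⟨x⟩`, then the `p'`-core of `C_A(x)` is
nontrivial exactly when `C_I(x)` is a `p'`-group. -/
theorem core_criterion (p : ℕ) [Fact p.Prime] (A I : Subgroup G) (hI : I.Normal) (hIA : I ≤ A)
    (x : G) (L₁ : Subgroup G) (hL₁ : L₁ ≤ I ⊓ Subgroup.centralizer {x})
    (hsimple : IsSimpleGroup ↥L₁)
    (hnorm₁ : ∀ l ∈ I ⊓ Subgroup.centralizer {x}, ∀ k ∈ L₁, l * k * l⁻¹ ∈ L₁)
    (hp : p ∣ Nat.card ↥(I ⊓ Subgroup.centralizer {x}) → p ∣ Nat.card ↥L₁)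
    (hcent : ∀ β ∈ Subgroup.centralizer {x}, (∀ l ∈ L₁, β * l = l * β) →
      β ∈ Subgroup.zpowers x)
    (hx : orderOf x = p) :
    Cfsg.pPrimeCore p ↥(A ⊓ Subgroup.centralizer {x}) ≠ ⊥ ↔
      Nat.Coprime p (Nat.card ↥(I ⊓ Subgroup.centralizer {x})) := by
  classical
  have hp' : p.Prime := Fact.out
  have hLC : I ⊓ Subgroup.centralizer {x} ≤ A ⊓ Subgroup.centralizer {x} :=
    inf_le_inf_right _ hIA
  have hLnorm : ∀ c ∈ A ⊓ Subgroup.centralizer {x}, ∀ l ∈ I ⊓ Subgroup.centralizer {x},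
      c * l * c⁻¹ ∈ I ⊓ Subgroup.centralizer {x} := by
    intro c hc l hl
    exact ⟨hI.conj_mem l hl.1 c,
      Subgroup.mul_mem _ (Subgroup.mul_mem _ hc.2 hl.2) (Subgroup.inv_mem _ hc.2)⟩
  have hzp : Nat.card ↥(Subgroup.zpowers x) = p := by rw [Nat.card_zpowers, hx]
  constructor
  · intro hne
    by_contra hcop
    have hdvd : p ∣ Nat.card ↥(I ⊓ Subgroup.centralizer {x}) := by
      by_contra hnd
      exact hcop ((Nat.Prime.coprime_iff_not_dvd hp').mpr hnd)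
    have hdvd₁ := hp hdvd
    obtain ⟨N, hN⟩ : ∃ N : Subgroup G,
        N = (Cfsg.pPrimeCore p ↥(A ⊓ Subgroup.centralizer {x})).map
          (A ⊓ Subgroup.centralizer {x}).subtype := ⟨_, rfl⟩
    have hNC : N ≤ A ⊓ Subgroup.centralizer {x} := by
      rw [hN]
      rintro _ ⟨n, -, rfl⟩
      exact n.2
    have hNcard : (Nat.card ↥N).Coprime p := by
      have h1 := Cfsg.Agent.Lib.Helper22.card_pPrimeCore_coprime p
        ↥(A ⊓ Subgroup.centralizer {x})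
      have h2 : Nat.card ↥N = Nat.card ↥(Cfsg.pPrimeCore p ↥(A ⊓ Subgroup.centralizer {x})) := by
        rw [hN]
        exact Nat.card_congr ((Cfsg.pPrimeCore p ↥(A ⊓ Subgroup.centralizer {x})).equivMapOfInjective
          _ (Subgroup.subtype_injective _)).symm.toEquiv
      rw [h2]
      exact h1
    have hNnorm : ∀ c ∈ A ⊓ Subgroup.centralizer {x}, ∀ n ∈ N, c * n * c⁻¹ ∈ N := by
      intro c hc n hn
      rw [hN] at hn ⊢
      obtain ⟨n', hn', rfl⟩ := hn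
      have := (Cfsg.Agent.Lib.Helper22.pPrimeCore_normal' p
        ↥(A ⊓ Subgroup.centralizer {x})).conj_mem n' hn' ⟨c, hc⟩
      exact ⟨_, this, rfl⟩
    have hsub : ∀ M : Subgroup G, M ≤ N → (Nat.card ↥M).Coprime p := fun M hM =>
      Nat.Coprime.coprime_dvd_left (Subgroup.card_dvd_of_le hM) hNcard
    have hzero : ∀ M : Subgroup G, M ≤ N → M ≤ Subgroup.zpowers x → M = ⊥ := by
      intro M hM hMz
      have h1 := hsub M hM
      have h2 : Nat.card ↥M ∣ p := by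
        rw [← hzp]
        exact Subgroup.card_dvd_of_le hMz
      have h3 : Nat.card ↥M = 1 := Nat.Coprime.eq_one_of_dvd h1 h2
      exact Subgroup.card_eq_one.mp h3
    -- Step 1
    have h1 : N ⊓ L₁ = ⊥ := by
      have hnormal : ((N ⊓ L₁).subgroupOf L₁).Normal := by
        constructor
        intro n hn g
        rw [Subgroup.mem_subgroupOf] at hn ⊢
        exact ⟨hNnorm g (hLC (hL₁ g.2)) n hn.1, (g * n * g⁻¹).2⟩
      rcases hsimple.eq_bot_or_eq_top_of_normal _ hnormal with h | h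
      · rw [Subgroup.subgroupOf_eq_bot] at h
        exact disjoint_iff.mp (h.mono_left le_rfl) ▸ (by
          rw [inf_assoc, inf_idem])
      · rw [Subgroup.subgroupOf_eq_top] at h
        exfalso
        have h3 := hsub L₁ (le_trans h inf_le_left)
        exact (Nat.Prime.coprime_iff_not_dvd hp').mp h3.symm hdvd₁
    -- Step 2
    have h2 : N ⊓ (I ⊓ Subgroup.centralizer {x}) = ⊥ := by
      apply hzero _ inf_le_left
      intro u hu
      apply hcent u hu.2.2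
      intro k hk
      have hmem : u * k * u⁻¹ * k⁻¹ ∈ N ⊓ L₁ := by
        refine ⟨?_, ?_⟩
        · have e : u * k * u⁻¹ * k⁻¹ = u * (k * u⁻¹ * k⁻¹) := by group
          rw [e]
          exact Subgroup.mul_mem _ hu.1
            (hNnorm k (hLC (hL₁ hk)) _ (Subgroup.inv_mem _ hu.1))
        · exact Subgroup.mul_mem _ (hnorm₁ u hu.2 k hk) (Subgroup.inv_mem _ hk)
      rw [h1, Subgroup.mem_bot] at hmem
      have e : u * k = (u * k * u⁻¹ * k⁻¹) * (k * u) := by group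
      rw [e, hmem, one_mul]
    -- Step 3
    have h3 : N = ⊥ := by
      apply hzero N le_rfl
      intro n hn
      apply hcent n (hNC hn).2
      intro k hk
      have hmem : n * k * n⁻¹ * k⁻¹ ∈ N ⊓ (I ⊓ Subgroup.centralizer {x}) := by
        refine ⟨?_, ?_⟩
        · have e : n * k * n⁻¹ * k⁻¹ = n * (k * n⁻¹ * k⁻¹) := by group
          rw [e]
          exact Subgroup.mul_mem _ hn
            (hNnorm k (hLC (hL₁ hk)) _ (Subgroup.inv_mem _ hn))
        · exact Subgroup.mul_mem _ (hLnorm n (hNC hn) k (hL₁ hk))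
            (Subgroup.inv_mem _ (hL₁ hk))
      rw [h2, Subgroup.mem_bot] at hmem
      have e : n * k = (n * k * n⁻¹ * k⁻¹) * (k * n) := by group
      rw [e, hmem, one_mul]
    apply hne
    rw [hN] at h3
    exact (Subgroup.map_eq_bot_iff_of_injective _ (Subgroup.subtype_injective _)).mp h3
  · intro hcop
    have hnormal : ((I ⊓ Subgroup.centralizer {x}).subgroupOf
        (A ⊓ Subgroup.centralizer {x})).Normal := by
      constructor
      intro n hn g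
      rw [Subgroup.mem_subgroupOf] at hn ⊢
      exact hLnorm g g.2 n hn
    have hc : (Nat.card ↥((I ⊓ Subgroup.centralizer {x}).subgroupOf
        (A ⊓ Subgroup.centralizer {x}))).Coprime p := by
      rw [Nat.card_congr (Subgroup.subgroupOfEquivOfLe hLC).toEquiv]
      exact hcop.symm
    have hle := Cfsg.Agent.Lib.Helper22.le_pPrimeCore_of_normal p hnormal hc
    intro hbot
    rw [hbot, le_bot_iff, Subgroup.subgroupOf_eq_bot] at hle
    haveI := hsimple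
    obtain ⟨k, hk⟩ := exists_ne (1 : ↥L₁)
    apply hk
    have h5 : (k : G) ∈ (I ⊓ Subgroup.centralizer {x}) ⊓ (A ⊓ Subgroup.centralizer {x}) :=
      ⟨hL₁ k.2, hLC (hL₁ k.2)⟩
    rw [disjoint_iff.mp hle, Subgroup.mem_bot] at h5
    exact Subtype.ext h5

/-- Conjugation invariance of the criterion. -/
theorem core_criterion_conj (p : ℕ) (A I : Subgroup G) (hI : I.Normal) (x₀ h : G)
    (hcrit : Cfsg.pPrimeCore p ↥(A.comap (MulAut.conj h).toMonoidHom ⊓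
        Subgroup.centralizer {x₀}) ≠ ⊥ ↔
      Nat.Coprime p (Nat.card ↥(I ⊓ Subgroup.centralizer {x₀}))) :
    Cfsg.pPrimeCore p ↥(A ⊓ Subgroup.centralizer {h * x₀ * h⁻¹}) ≠ ⊥ ↔
      Nat.Coprime p (Nat.card ↥(I ⊓ Subgroup.centralizer {h * x₀ * h⁻¹})) := by
  have e1 : A ⊓ Subgroup.centralizer {h * x₀ * h⁻¹} =
      (A.comap (MulAut.conj h).toMonoidHom ⊓ Subgroup.centralizer {x₀}).map
        (MulAut.conj h).toMonoidHom := by
    ext y
    simp only [Subgroup.mem_inf, Subgroup.mem_centralizer_iff, Set.mem_singleton_iff, forall_eq,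
      Subgroup.mem_map, Subgroup.mem_comap, MulEquiv.coe_toMonoidHom, MulAut.conj_apply]
    constructor
    · rintro ⟨hy, hc⟩
      refine ⟨h⁻¹ * y * h, ⟨?_, ?_⟩, by group⟩
      · have e : h * (h⁻¹ * y * h) * h⁻¹ = y := by group
        rw [e]
        exact hy
      · have e1 : x₀ * (h⁻¹ * y * h) = h⁻¹ * ((h * x₀ * h⁻¹) * y) * h := by group
        rw [e1, hc]
        group
    · rintro ⟨z, ⟨hz, hc⟩, rfl⟩
      refine ⟨hz, ?_⟩
      have e1 : h * x₀ * h⁻¹ * (h * z * h⁻¹) = h * (x₀ * z) * h⁻¹ := by group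
      rw [e1, hc]
      group
  haveI := hI
  have e2 := Cfsg.Agent.Lib.Helper43.FieldAut.inf_centralizer_conj I h x₀
  rw [e1, e2]
  have inj : Function.Injective (MulAut.conj h).toMonoidHom := (MulAut.conj h).injective
  have c2 : Nat.card ↥((I ⊓ Subgroup.centralizer {x₀}).map (MulAut.conj h).toMonoidHom) =
      Nat.card ↥(I ⊓ Subgroup.centralizer {x₀}) :=
    Nat.card_congr ((I ⊓ Subgroup.centralizer {x₀}).equivMapOfInjective _ inj).symm.toEquiv
  rw [c2, ← hcrit]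
  have φ := (A.comap (MulAut.conj h).toMonoidHom ⊓ Subgroup.centralizer {x₀}).equivMapOfInjective
    _ inj
  have e3 := Cfsg.Agent.Lib.Helper22.pPrimeCore_map_equiv p φ
  rw [← e3]
  constructor
  · intro hne hbot
    apply hne
    rw [hbot, Subgroup.map_bot]
  · intro hne hbot
    apply hne
    exact (Subgroup.map_eq_bot_iff_of_injective _ φ.injective).mp hbot

end abstract

open Matrix Cfsg.Agent.Lib.Helper14 Cfsg.Agent.Lib.Helper44 Cfsg.Agent.Lib.Helper43.FieldAut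
  Cfsg.Agent.Lib.Helper8.OField Cfsg.Agent.Lib.Helper8.OOdd Cfsg.Agent.Lib.Helper8.OOut
  Cfsg.Agent.Lib.Helper8.GraphAutOdd Cfsg.Agent.Lib.Helper8.OCent

section concrete

variable {F : Type*} [Field F] {F₀ : Type*} [Field F₀] (m : ℕ)

theorem map_mem_isom_j (h2 : (2 : F) ≠ 0) (j : F₀ →+* F) (k : GL (Unit ⊕ (Fin m ⊕ Fin m)) F₀)
    (hk : k ∈ Cfsg.isometryGroup F₀ (Cfsg.quadFormOdd m F₀)) :
    Matrix.GeneralLinearGroup.map j k ∈ Cfsg.isometryGroup F (Cfsg.quadFormOdd m F) := by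
  have h2' : (2 : F₀) ≠ 0 := two_ne_zero_of_hom h2 j
  refine (mem_isom_iff_gram m h2 _).mpr ?_
  have h1 := (mem_isom_iff_gram m h2' k).mp hk
  have h3 := congrArg (fun M : Matrix (Unit ⊕ (Fin m ⊕ Fin m)) (Unit ⊕ (Fin m ⊕ Fin m)) F₀ =>
    M.map j) h1
  simp only [Matrix.map_mul] at h3
  rw [gramOdd_map m j, Matrix.transpose_map] at h3
  exact h3

/-- The entrywise embedding of the orthogonal group over a subfield. -/
noncomputable def isoJ (h2 : (2 : F) ≠ 0) (j : F₀ →+* F) :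
    ↥(Cfsg.isometryGroup F₀ (Cfsg.quadFormOdd m F₀)) →*
      ↥(Cfsg.isometryGroup F (Cfsg.quadFormOdd m F)) where
  toFun k := ⟨Matrix.GeneralLinearGroup.map j (k : GL (Unit ⊕ (Fin m ⊕ Fin m)) F₀),
    map_mem_isom_j m h2 j _ k.2⟩
  map_one' := Subtype.ext (map_one _)
  map_mul' a b := Subtype.ext (map_mul _ _ _)

theorem isoJ_mem_omega (h2 : (2 : F) ≠ 0) (j : F₀ →+* F)
    (g₀ : ↥(Cfsg.isometryGroup F₀ (Cfsg.quadFormOdd m F₀)))
    (hg₀ : g₀ ∈ Cfsg.Omega F₀ (Cfsg.quadFormOdd m F₀)) :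
    isoJ m h2 j g₀ ∈ Cfsg.Omega F (Cfsg.quadFormOdd m F) := by
  have h : (commutator ↥(Cfsg.isometryGroup F₀ (Cfsg.quadFormOdd m F₀))).map (isoJ m h2 j) ≤
      commutator ↥(Cfsg.isometryGroup F (Cfsg.quadFormOdd m F)) := by
    rw [commutator_def, Subgroup.map_commutator, commutator_def]
    exact Subgroup.commutator_mono le_top le_top
  exact h ⟨g₀, hg₀, rfl⟩

theorem theta0_eq_thetaJ (h2' : (2 : F₀) ≠ 0)
    (k : ↥(Cfsg.specialIsometryGL F₀ (Cfsg.quadFormOdd m F₀))) :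
    theta0 m F₀ k = thetaJ m h2' (RingHom.id F₀) k := by
  show simAut _ _ = simAut _ _
  congr 1

theorem theta0_mem_inn_iff [Fintype F₀] (h2' : (2 : F₀) ≠ 0) {m : ℕ} (hm : 3 ≤ m)
    (k : ↥(Cfsg.specialIsometryGL F₀ (Cfsg.quadFormOdd m F₀))) :
    theta0 m F₀ k ∈ Cfsg.Inn (Cfsg.POmega F₀ (Cfsg.quadFormOdd m F₀)) ↔
      ∃ g : ↥(Cfsg.isometryGroup F₀ (Cfsg.quadFormOdd m F₀)),
        g ∈ Cfsg.Omega F₀ (Cfsg.quadFormOdd m F₀) ∧
        ((g : GL (Unit ⊕ (Fin m ⊕ Fin m)) F₀) :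
          Matrix (Unit ⊕ (Fin m ⊕ Fin m)) (Unit ⊕ (Fin m ⊕ Fin m)) F₀) =
        ((k : GL (Unit ⊕ (Fin m ⊕ Fin m)) F₀) :
          Matrix (Unit ⊕ (Fin m ⊕ Fin m)) (Unit ⊕ (Fin m ⊕ Fin m)) F₀) := by
  rw [theta0_eq_thetaJ m h2', thetaJ_mem_inn_iff h2' hm (RingHom.id F₀) k]
  have e : ((k : GL (Unit ⊕ (Fin m ⊕ Fin m)) F₀) :
      Matrix (Unit ⊕ (Fin m ⊕ Fin m)) (Unit ⊕ (Fin m ⊕ Fin m)) F₀).map (RingHom.id F₀) =
      ((k : GL (Unit ⊕ (Fin m ⊕ Fin m)) F₀) :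
        Matrix (Unit ⊕ (Fin m ⊕ Fin m)) (Unit ⊕ (Fin m ⊕ Fin m)) F₀) := by
    ext a b
    rfl
  rw [e]

/-- `Ω` of the small field inside its special orthogonal group. -/
noncomputable def S0 (F₀ : Type*) [Field F₀] :
    Subgroup ↥(Cfsg.specialIsometryGL F₀ (Cfsg.quadFormOdd m F₀)) :=
  (Cfsg.Inn (Cfsg.POmega F₀ (Cfsg.quadFormOdd m F₀))).comap (theta0 m F₀)

/-- `Ω` of the small field inside the automorphism group of `PΩ` of the big field. -/
noncomputable def L1 (h2 : (2 : F) ≠ 0) (j : F₀ →+* F) :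
    Subgroup (MulAut (Cfsg.POmega F (Cfsg.quadFormOdd m F))) :=
  (S0 m F₀).map (thetaJ m h2 j)

theorem S0_map_theta0 [Fintype F₀] (h2' : (2 : F₀) ≠ 0) :
    (S0 m F₀).map (theta0 m F₀) = Cfsg.Inn (Cfsg.POmega F₀ (Cfsg.quadFormOdd m F₀)) := by
  unfold S0
  rw [Subgroup.map_comap_eq, theta0_range h2' m]
  exact inf_eq_right.mpr (inn_le_odd h2' m)

theorem L1_simple [Fintype F] [Fintype F₀] (h2 : (2 : F) ≠ 0) {m : ℕ} (hm : 3 ≤ m)
    (j : F₀ →+* F) : IsSimpleGroup ↥(L1 m h2 j) := by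
  have h2' : (2 : F₀) ≠ 0 := two_ne_zero_of_hom h2 j
  haveI : IsSimpleGroup (Cfsg.POmega F₀ (Cfsg.quadFormOdd m F₀)) :=
    pomega_isSimple' _ (oddQF m F₀) (oddQF_coe m F₀) (oddQF_nondegenerate m F₀ h2')
      (by rw [card_odd]; omega)
  have e1 : Cfsg.POmega F₀ (Cfsg.quadFormOdd m F₀) ≃*
      ↥(Cfsg.Inn (Cfsg.POmega F₀ (Cfsg.quadFormOdd m F₀))) :=
    MonoidHom.ofInjective (conj_inj_odd h2' hm)
  have e2 : ↥(S0 m F₀) ≃* ↥((S0 m F₀).map (theta0 m F₀)) :=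
    (S0 m F₀).equivMapOfInjective _ (theta0_injective h2' hm)
  have e3 : ↥(S0 m F₀) ≃* ↥(L1 m h2 j) :=
    (S0 m F₀).equivMapOfInjective _ (thetaJ_injective h2 hm j)
  have e4 : ↥((S0 m F₀).map (theta0 m F₀)) ≃*
      ↥(Cfsg.Inn (Cfsg.POmega F₀ (Cfsg.quadFormOdd m F₀))) :=
    MulEquiv.subgroupCongr (S0_map_theta0 m h2')
  exact (e3.symm.trans (e2.trans (e4.trans e1.symm))).isSimpleGroup

theorem L1_le_range (h2 : (2 : F) ≠ 0) (j : F₀ →+* F) :
    L1 m h2 j ≤ (thetaJ m h2 j).range := by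
  rintro _ ⟨k, -, rfl⟩
  exact ⟨k, rfl⟩

theorem L1_le_inn [Fintype F] [Fintype F₀] (h2 : (2 : F) ≠ 0) {m : ℕ} (hm : 3 ≤ m)
    (j : F₀ →+* F) :
    L1 m h2 j ≤ Cfsg.Inn (Cfsg.POmega F (Cfsg.quadFormOdd m F)) := by
  have h2' : (2 : F₀) ≠ 0 := two_ne_zero_of_hom h2 j
  rintro _ ⟨k, hk, rfl⟩
  have hk' : theta0 m F₀ k ∈ Cfsg.Inn (Cfsg.POmega F₀ (Cfsg.quadFormOdd m F₀)) := hk
  rw [theta0_mem_inn_iff h2' hm] at hk'
  obtain ⟨g₀, hg₀, e⟩ := hk'
  refine (thetaJ_mem_inn_iff h2 hm j k).mpr ⟨isoJ m h2 j g₀, isoJ_mem_omega m h2 j g₀ hg₀, ?_⟩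
  show ((g₀ : GL (Unit ⊕ (Fin m ⊕ Fin m)) F₀) :
    Matrix (Unit ⊕ (Fin m ⊕ Fin m)) (Unit ⊕ (Fin m ⊕ Fin m)) F₀).map j = _
  rw [e]

theorem L1_le [Fintype F] [Fintype F₀] (h2 : (2 : F) ≠ 0) {m : ℕ} (hm : 3 ≤ m)
    (σ : RingAut F) (j : F₀ →+* F) (hj : IsFixEmb σ j) :
    L1 m h2 j ≤ Cfsg.Inn (Cfsg.POmega F (Cfsg.quadFormOdd m F)) ⊓ Subgroup.centralizer
      {(fO (fieldCompat_odd m) σ : MulAut (Cfsg.POmega F (Cfsg.quadFormOdd m F)))} := by
  refine le_inf (L1_le_inn h2 hm j) ?_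
  have h := L1_le_range m h2 j
  rw [← inf_centralizer_fO h2 hm σ j hj] at h
  exact le_trans h inf_le_right

theorem inn_cent_le_range [Fintype F] (h2 : (2 : F) ≠ 0) {m : ℕ} (hm : 3 ≤ m)
    (σ : RingAut F) (j : F₀ →+* F) (hj : IsFixEmb σ j) :
    Cfsg.Inn (Cfsg.POmega F (Cfsg.quadFormOdd m F)) ⊓ Subgroup.centralizer
      {(fO (fieldCompat_odd m) σ : MulAut (Cfsg.POmega F (Cfsg.quadFormOdd m F)))} ≤
      (thetaJ m h2 j).range := by
  rw [← inf_centralizer_fO h2 hm σ j hj]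
  exact inf_le_inf_right _ (inn_le_odd h2 m)

theorem L1_normal [Fintype F] (h2 : (2 : F) ≠ 0) {m : ℕ} (hm : 3 ≤ m)
    (σ : RingAut F) (j : F₀ →+* F) (hj : IsFixEmb σ j) :
    ∀ l ∈ Cfsg.Inn (Cfsg.POmega F (Cfsg.quadFormOdd m F)) ⊓ Subgroup.centralizer
      {(fO (fieldCompat_odd m) σ : MulAut (Cfsg.POmega F (Cfsg.quadFormOdd m F)))},
      ∀ k ∈ L1 m h2 j, l * k * l⁻¹ ∈ L1 m h2 j := by
  intro l hl k hk
  obtain ⟨a, rfl⟩ := inn_cent_le_range h2 hm σ j hj hl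
  obtain ⟨s, hs, rfl⟩ := hk
  have hn : (S0 m F₀).Normal := Subgroup.Normal.comap inferInstance _
  refine ⟨a * s * a⁻¹, hn.conj_mem s hs a, ?_⟩
  rw [map_mul, map_mul, map_inv]

theorem S0_index [Fintype F₀] (h2' : (2 : F₀) ≠ 0) {m : ℕ} (hm : 3 ≤ m) :
    (S0 m F₀).index = 2 := by
  have h1 := Subgroup.relIndex_map_map_of_injective (S0 m F₀) ⊤ (theta0_injective h2' hm)
  rw [S0_map_theta0 m h2', ← MonoidHom.range_eq_map, theta0_range h2' m,
    relIndex_inn_odd h2' hm, Subgroup.relIndex_top_right] at h1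
  exact h1.symm

theorem card_L1 [Fintype F] (h2 : (2 : F) ≠ 0) {m : ℕ} (hm : 3 ≤ m) (j : F₀ →+* F) :
    Nat.card ↥(L1 m h2 j) = Nat.card ↥(S0 m F₀) :=
  Nat.card_congr ((S0 m F₀).equivMapOfInjective _ (thetaJ_injective h2 hm j)).symm.toEquiv

theorem relIndex_L1_dvd [Fintype F] [Fintype F₀] (h2 : (2 : F) ≠ 0) {m : ℕ} (hm : 3 ≤ m)
    (σ : RingAut F) (j : F₀ →+* F) (hj : IsFixEmb σ j) :
    (L1 m h2 j).relIndex (Cfsg.Inn (Cfsg.POmega F (Cfsg.quadFormOdd m F)) ⊓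
      Subgroup.centralizer
        {(fO (fieldCompat_odd m) σ : MulAut (Cfsg.POmega F (Cfsg.quadFormOdd m F)))}) ∣ 2 := by
  have h2' : (2 : F₀) ≠ 0 := two_ne_zero_of_hom h2 j
  have h1 := Subgroup.relIndex_mul_relIndex _ _ _ (L1_le h2 hm σ j hj)
    (inn_cent_le_range h2 hm σ j hj)
  have h3 : (L1 m h2 j).relIndex (thetaJ m h2 j).range = 2 := by
    rw [MonoidHom.range_eq_map]
    unfold L1
    rw [Subgroup.relIndex_map_map_of_injective _ _ (thetaJ_injective h2 hm j),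
      Subgroup.relIndex_top_right, S0_index h2' hm]
  rw [h3] at h1
  exact Dvd.intro _ h1

/-- Diagonal elements of `Ω` over the small field. -/
theorem exists_diag_S0 [Fintype F₀] (h2' : (2 : F₀) ≠ 0) {m : ℕ} (hm : 3 ≤ m) (i0 i1 : Fin m)
    (t : F₀) (ht : t ≠ 0) :
    ∃ k : ↥(Cfsg.specialIsometryGL F₀ (Cfsg.quadFormOdd m F₀)), k ∈ S0 m F₀ ∧
      ((k : GL (Unit ⊕ (Fin m ⊕ Fin m)) F₀) :
        Matrix (Unit ⊕ (Fin m ⊕ Fin m)) (Unit ⊕ (Fin m ⊕ Fin m)) F₀) =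
      Matrix.diagonal (fun i => dv i0 t i * (dv i0 t (pw i0 i1 i))⁻¹) := by
  obtain ⟨g, hg, hgm⟩ := comm_diag_perm (oddQF m F₀) (oddQF_nondegenerate m F₀ h2') _
    (oddQF_coe m F₀) (dv i0 t) (dv_ne i0 t ht) (pw i0 i1) (dv_isom i0 t ht) (pw_isom i0 i1)
  have hdet : ((g : GL (Unit ⊕ (Fin m ⊕ Fin m)) F₀) :
      Matrix (Unit ⊕ (Fin m ⊕ Fin m)) (Unit ⊕ (Fin m ⊕ Fin m)) F₀).det = 1 :=
    (mem_specialIsometryGroup_iff _ g).mp (commutator_le_specialIsometryGroup _ hg)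
  have hSO : (g : GL (Unit ⊕ (Fin m ⊕ Fin m)) F₀) ∈
      Cfsg.specialIsometryGL F₀ (Cfsg.quadFormOdd m F₀) := by
    refine ⟨g.2, ?_⟩
    show (g : GL (Unit ⊕ (Fin m ⊕ Fin m)) F₀) ∈
      (Matrix.GeneralLinearGroup.det : GL (Unit ⊕ (Fin m ⊕ Fin m)) F₀ →* F₀ˣ).ker
    rw [MonoidHom.mem_ker]
    apply Units.ext
    rw [Matrix.GeneralLinearGroup.val_det_apply, Units.val_one]
    exact hdet
  refine ⟨⟨(g : GL (Unit ⊕ (Fin m ⊕ Fin m)) F₀), hSO⟩, ?_, hgm⟩
  show theta0 m F₀ _ ∈ Cfsg.Inn (Cfsg.POmega F₀ (Cfsg.quadFormOdd m F₀))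
  rw [theta0_mem_inn_iff h2' hm]
  exact ⟨g, hg, rfl⟩

theorem two_dvd_card_S0 [Fintype F₀] (h2' : (2 : F₀) ≠ 0) {m : ℕ} (hm : 3 ≤ m) :
    2 ∣ Nat.card ↥(S0 m F₀) := by
  obtain ⟨i0, i1, h01⟩ : ∃ i0 i1 : Fin m, i0 ≠ i1 :=
    ⟨⟨0, by omega⟩, ⟨1, by omega⟩, by simp [Fin.ext_iff]⟩
  have hm1 : (-1 : F₀) ≠ 0 := neg_ne_zero.mpr one_ne_zero
  obtain ⟨k, hkS, hkm⟩ := exists_diag_S0 h2' hm i0 i1 (-1 : F₀) hm1
  have hD : ∀ i, (dv i0 (-1 : F₀) i * (dv i0 (-1 : F₀) (pw i0 i1 i))⁻¹) *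
      (dv i0 (-1 : F₀) i * (dv i0 (-1 : F₀) (pw i0 i1 i))⁻¹) = 1 := by
    intro i
    rcases dv_ratio_mem i0 i1 h01 (-1 : F₀) i with h | h | h
    · rw [h, one_mul]
    · rw [h]
      ring
    · rw [h, ← mul_inv]
      have : (-1 : F₀) * -1 = 1 := by ring
      rw [this, inv_one]
  have hmat : ((k : GL (Unit ⊕ (Fin m ⊕ Fin m)) F₀) :
      Matrix (Unit ⊕ (Fin m ⊕ Fin m)) (Unit ⊕ (Fin m ⊕ Fin m)) F₀) *
      ((k : GL (Unit ⊕ (Fin m ⊕ Fin m)) F₀) :
        Matrix (Unit ⊕ (Fin m ⊕ Fin m)) (Unit ⊕ (Fin m ⊕ Fin m)) F₀) = 1 := by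
    rw [hkm, Matrix.diagonal_mul_diagonal]
    exact (congrArg Matrix.diagonal (funext fun i => hD i)).trans Matrix.diagonal_one
  have hsq : (⟨k, hkS⟩ : ↥(S0 m F₀)) ^ 2 = 1 := by
    rw [pow_two]
    apply Subtype.ext
    apply Subtype.ext
    apply Units.ext
    exact hmat
  have hne : (⟨k, hkS⟩ : ↥(S0 m F₀)) ≠ 1 := by
    intro h
    have h1 : ((k : GL (Unit ⊕ (Fin m ⊕ Fin m)) F₀) :
        Matrix (Unit ⊕ (Fin m ⊕ Fin m)) (Unit ⊕ (Fin m ⊕ Fin m)) F₀) = 1 := by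
      have h0 : k = 1 := congrArg Subtype.val h
      rw [h0]
      rfl
    rw [hkm] at h1
    have h3 := congrFun (congrFun h1 (Sum.inr (Sum.inl i0))) (Sum.inr (Sum.inl i0))
    rw [Matrix.diagonal_apply_eq, dv_ratio_i0 i0 i1 h01, Matrix.one_apply_eq] at h3
    apply h2'
    linear_combination (-1 : F₀) * h3
  have ho := orderOf_eq_prime hsq hne
  rw [← ho]
  exact orderOf_dvd_natCard _

theorem dvd_card_L1 [Fintype F] [Fintype F₀] (h2 : (2 : F) ≠ 0) {m : ℕ} (hm : 3 ≤ m)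
    (σ : RingAut F) (j : F₀ →+* F) (hj : IsFixEmb σ j) (p : ℕ) (hp : p.Prime)
    (h : p ∣ Nat.card ↥(Cfsg.Inn (Cfsg.POmega F (Cfsg.quadFormOdd m F)) ⊓
      Subgroup.centralizer
        {(fO (fieldCompat_odd m) σ : MulAut (Cfsg.POmega F (Cfsg.quadFormOdd m F)))})) :
    p ∣ Nat.card ↥(L1 m h2 j) := by
  have h2' : (2 : F₀) ≠ 0 := two_ne_zero_of_hom h2 j
  have hle := L1_le h2 hm σ j hj
  have h1 := Subgroup.relIndex_mul_relIndex ⊥ (L1 m h2 j) _ bot_le hle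
  rw [Subgroup.relIndex_bot_left, Subgroup.relIndex_bot_left] at h1
  rw [← h1] at h
  rcases (Nat.Prime.dvd_mul hp).mp h with h3 | h3
  · exact h3
  · have h4 := Nat.dvd_trans h3 (relIndex_L1_dvd h2 hm σ j hj)
    have h5 : p = 2 := (Nat.prime_dvd_prime_iff_eq hp Nat.prime_two).mp h4
    rw [h5, card_L1 h2 hm j]
    exact two_dvd_card_S0 h2' hm

/-- An automorphism fixing the fixed field of `σ` pointwise is a power of `σ`. -/
theorem mem_zpowers_of_fixes [Finite F] (σ τ : RingAut F) (h : ∀ a, σ a = a → τ a = a) :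
    τ ∈ Subgroup.zpowers σ := by
  classical
  have := finite_ringAut F
  haveI : Fintype (Subgroup.zpowers σ) := Fintype.ofFinite _
  let τ' : F ≃ₐ[fixF σ] F :=
    AlgEquiv.ofRingEquiv (f := τ) (fun r => h _ ((mem_fixF σ).mp r.2))
  obtain ⟨g, hg⟩ := (FixedPoints.toAlgAutMulEquiv (Subgroup.zpowers σ) F).surjective τ'
  have e : (g : RingAut F) = τ := by
    ext a
    have := congrArg (fun e : F ≃ₐ[fixF σ] F => e a) hg
    exact this
  rw [← e]
  exact g.2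

/-- A field automorphism moving every nonzero element of a subfield only to `1`, itself or its
inverse fixes the subfield pointwise. -/
theorem aut_fix_of_values (h2 : (2 : F) ≠ 0) (τ : RingAut F) (j : F₀ →+* F)
    (h : ∀ t : F₀, t ≠ 0 → τ (j t) = 1 ∨ τ (j t) = j t ∨ τ (j t) = (j t)⁻¹) (t : F₀) :
    τ (j t) = j t := by
  by_contra hne
  have ht0 : t ≠ 0 := by
    rintro rfl
    apply hne
    rw [map_zero, map_zero]
  have hT0 : j t ≠ 0 := fun h0 => ht0 (j.injective (by rw [h0, map_zero]))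
  have hinv : τ (j t) = (j t)⁻¹ := by
    rcases h t ht0 with h1 | h1 | h1
    · exfalso
      apply hne
      have h3 : j t = 1 := by
        have := congrArg τ.symm h1
        simpa using this
      rw [h3, map_one]
    · exact absurd h1 hne
    · exact h1
  have hti : j t * (j t)⁻¹ = 1 := mul_inv_cancel₀ hT0
  have ht1 : j t ≠ 1 := by
    intro h1
    apply hne
    rw [h1, map_one]
  have htm1 : j t + 1 ≠ 0 := by
    intro h0
    have h3 : j t = -1 := by linear_combination h0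
    apply hne
    rw [h3, map_neg, map_one]
  have htm1' : t + 1 ≠ 0 := by
    intro h0
    apply htm1
    rw [← map_one j, ← map_add, h0, map_zero]
  have hA : (j t) ^ 2 + j t + 1 = 0 := by
    have e : τ (j (t + 1)) = (j t)⁻¹ + 1 := by rw [map_add, map_one, map_add, map_one, hinv]
    have e' : j (t + 1) = j t + 1 := by rw [map_add, map_one]
    rcases h (t + 1) htm1' with h1 | h1 | h1
    · rw [e] at h1
      have h3 : (j t)⁻¹ = 0 := by linear_combination h1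
      exact absurd (inv_eq_zero.mp h3) hT0
    · rw [e, e'] at h1
      exfalso
      apply hne
      rw [hinv]
      linear_combination h1
    · rw [e, e'] at h1
      have h3 : ((j t)⁻¹ + 1) * (j t + 1) = 1 := by rw [h1, inv_mul_cancel₀ htm1]
      linear_combination (j t) * h3 - (j t + 1) * hti
  have htm : j t - 1 ≠ 0 := sub_ne_zero.mpr ht1
  have htm' : t - 1 ≠ 0 := by
    intro h0
    apply htm
    rw [← map_one j, ← map_sub, h0, map_zero]
  have hB : (j t) ^ 2 - j t + 1 = 0 := by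
    have e : τ (j (t - 1)) = (j t)⁻¹ - 1 := by rw [map_sub, map_one, map_sub, map_one, hinv]
    have e' : j (t - 1) = j t - 1 := by rw [map_sub, map_one]
    rcases h (t - 1) htm' with h1 | h1 | h1
    · rw [e] at h1
      exfalso
      apply hne
      have h4 : (j t)⁻¹ = 2 := by linear_combination h1
      have h5 : j t = 2⁻¹ := by rw [← h4, inv_inv]
      rw [h5, map_inv₀, map_ofNat]
    · rw [e, e'] at h1
      exfalso
      apply hne
      rw [hinv]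
      linear_combination h1
    · rw [e, e'] at h1
      have h3 : ((j t)⁻¹ - 1) * (j t - 1) = 1 := by rw [h1, inv_mul_cancel₀ htm]
      linear_combination (-(j t)) * h3 + (j t - 1) * hti
  have h6 : 2 * j t = 0 := by linear_combination hA - hB
  rcases mul_eq_zero.mp h6 with h | h
  · exact h2 h
  · exact hT0 h

/-- If a semisimilarity commutes with the image of an element of the small special orthogonal
group, the matrices satisfy the twisted commutation relation. -/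
theorem comm_mat [Fintype F] (h2 : (2 : F) ≠ 0) {m : ℕ} (hm : 3 ≤ m) (j : F₀ →+* F)
    (τ : RingAut F) (s : ↥(Cfsg.Geo.quadSimilarityGroup (F := F) (Cfsg.quadFormOdd m F)))
    (hs : (s : GL (Unit ⊕ (Fin m ⊕ Fin m)) F) ∈
      Cfsg.specialIsometryGL F (Cfsg.quadFormOdd m F))
    (s₀ : ↥(Cfsg.specialIsometryGL F₀ (Cfsg.quadFormOdd m F₀)))
    (hc : simAut (Cfsg.quadFormOdd m F) s * fO (fieldCompat_odd m) τ * thetaJ m h2 j s₀ =
      thetaJ m h2 j s₀ * (simAut (Cfsg.quadFormOdd m F) s * fO (fieldCompat_odd m) τ)) :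
    ((s : GL (Unit ⊕ (Fin m ⊕ Fin m)) F) :
        Matrix (Unit ⊕ (Fin m ⊕ Fin m)) (Unit ⊕ (Fin m ⊕ Fin m)) F) *
      (((s₀ : GL (Unit ⊕ (Fin m ⊕ Fin m)) F₀) :
        Matrix (Unit ⊕ (Fin m ⊕ Fin m)) (Unit ⊕ (Fin m ⊕ Fin m)) F₀).map j).map τ =
      ((s₀ : GL (Unit ⊕ (Fin m ⊕ Fin m)) F₀) :
        Matrix (Unit ⊕ (Fin m ⊕ Fin m)) (Unit ⊕ (Fin m ⊕ Fin m)) F₀).map j *
      ((s : GL (Unit ⊕ (Fin m ⊕ Fin m)) F) :
        Matrix (Unit ⊕ (Fin m ⊕ Fin m)) (Unit ⊕ (Fin m ⊕ Fin m)) F) := by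
  have h1 : simAut (Cfsg.quadFormOdd m F) (s * mapG (fieldCompat_odd m) τ (mapJ m h2 j s₀)) =
      simAut (Cfsg.quadFormOdd m F) (mapJ m h2 j s₀ * s) := by
    have e : thetaJ m h2 j s₀ = simAut (Cfsg.quadFormOdd m F) (mapJ m h2 j s₀) := rfl
    rw [e, mul_assoc, fO_simAut, ← mul_assoc, ← mul_assoc, ← map_mul, ← map_mul] at hc
    exact mul_right_cancel hc
  have h3 : simAut (Cfsg.quadFormOdd m F) ((mapJ m h2 j s₀ * s)⁻¹ *
      (s * mapG (fieldCompat_odd m) τ (mapJ m h2 j s₀))) = 1 := by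
    rw [map_mul, map_inv, inv_mul_eq_one]
    exact h1.symm
  obtain ⟨lam, -, hlam⟩ := scalar_odd h2 hm _ h3
  have hJ : ((mapJ m h2 j s₀ : ↥(Cfsg.Geo.quadSimilarityGroup (F := F)
      (Cfsg.quadFormOdd m F))) : GL (Unit ⊕ (Fin m ⊕ Fin m)) F) ∈
      Cfsg.specialIsometryGL F (Cfsg.quadFormOdd m F) := map_mem_SO_j m h2 j _ s₀.2
  have hSO : (((mapJ m h2 j s₀ * s)⁻¹ * (s * mapG (fieldCompat_odd m) τ (mapJ m h2 j s₀)) :
      ↥(Cfsg.Geo.quadSimilarityGroup (F := F) (Cfsg.quadFormOdd m F))) :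
        GL (Unit ⊕ (Fin m ⊕ Fin m)) F) ∈ Cfsg.specialIsometryGL F (Cfsg.quadFormOdd m F) :=
    Subgroup.mul_mem _ (Subgroup.inv_mem _ (Subgroup.mul_mem _ hJ hs))
      (Subgroup.mul_mem _ hs (map_mem_SO (fieldCompat_odd m) τ _ hJ))
  have h4 := scalar_SO_eq_one (oddQF m F) _ (oddQF_coe m F) (odd_ne m) m (card_odd m) _ hSO
    lam hlam
  have h5 : s * mapG (fieldCompat_odd m) τ (mapJ m h2 j s₀) = mapJ m h2 j s₀ * s := by
    have h6 : (mapJ m h2 j s₀ * s)⁻¹ * (s * mapG (fieldCompat_odd m) τ (mapJ m h2 j s₀)) = 1 :=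
      Subtype.ext (Units.ext h4)
    exact (inv_mul_eq_one.mp h6).symm
  have h7 := congrArg (fun x : ↥(Cfsg.Geo.quadSimilarityGroup (F := F)
    (Cfsg.quadFormOdd m F)) => ((x : GL (Unit ⊕ (Fin m ⊕ Fin m)) F) :
      Matrix (Unit ⊕ (Fin m ⊕ Fin m)) (Unit ⊕ (Fin m ⊕ Fin m)) F)) h5
  exact h7

theorem values_of_comm [Fintype F] [Fintype F₀] (h2 : (2 : F) ≠ 0) {m : ℕ} (hm : 3 ≤ m)
    (j : F₀ →+* F) (τ : RingAut F)
    (s : ↥(Cfsg.Geo.quadSimilarityGroup (F := F) (Cfsg.quadFormOdd m F)))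
    (hs : (s : GL (Unit ⊕ (Fin m ⊕ Fin m)) F) ∈
      Cfsg.specialIsometryGL F (Cfsg.quadFormOdd m F))
    (hc : ∀ l ∈ L1 m h2 j,
      simAut (Cfsg.quadFormOdd m F) s * fO (fieldCompat_odd m) τ * l =
        l * (simAut (Cfsg.quadFormOdd m F) s * fO (fieldCompat_odd m) τ))
    (t : F₀) (ht : t ≠ 0) :
    τ (j t) = 1 ∨ τ (j t) = j t ∨ τ (j t) = (j t)⁻¹ := by
  have h2' : (2 : F₀) ≠ 0 := two_ne_zero_of_hom h2 j
  obtain ⟨i0, i1, h01⟩ : ∃ i0 i1 : Fin m, i0 ≠ i1 :=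
    ⟨⟨0, by omega⟩, ⟨1, by omega⟩, by simp [Fin.ext_iff]⟩
  obtain ⟨k, hkS, hkm⟩ := exists_diag_S0 h2' hm i0 i1 t ht
  have hmat := comm_mat h2 hm j τ s hs k (hc _ ⟨k, hkS, rfl⟩)
  rw [hkm, Matrix.diagonal_map (map_zero j), Matrix.diagonal_map (map_zero τ)] at hmat
  obtain ⟨G, hG⟩ : ∃ G : Matrix (Unit ⊕ (Fin m ⊕ Fin m)) (Unit ⊕ (Fin m ⊕ Fin m)) F,
    G = ((s : GL (Unit ⊕ (Fin m ⊕ Fin m)) F) :
      Matrix (Unit ⊕ (Fin m ⊕ Fin m)) (Unit ⊕ (Fin m ⊕ Fin m)) F) := ⟨_, rfl⟩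
  rw [← hG] at hmat
  have hGdet : G.det ≠ 0 := by
    rw [hG]
    exact ((Matrix.isUnit_iff_isUnit_det _).mp
      (s : GL (Unit ⊕ (Fin m ⊕ Fin m)) F).isUnit).ne_zero
  obtain ⟨i, hi⟩ : ∃ i, G i (Sum.inr (Sum.inl i0)) ≠ 0 := by
    by_contra hcon
    push_neg at hcon
    exact hGdet (Matrix.det_eq_zero_of_column_eq_zero (Sum.inr (Sum.inl i0)) hcon)
  have he := congrFun (congrFun hmat i) (Sum.inr (Sum.inl i0))
  rw [Matrix.mul_diagonal, Matrix.diagonal_mul] at he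
  rw [dv_ratio_i0 i0 i1 h01 t] at he
  have he' : τ (j t) = j (dv i0 t i * (dv i0 t (pw i0 i1 i))⁻¹) := by
    apply mul_left_cancel₀ hi
    rw [he, mul_comm]
  rw [he']
  rcases dv_ratio_mem i0 i1 h01 t i with h | h | h
  · left
    rw [h, map_one]
  · right; left
    rw [h]
  · right; right
    rw [h, map_inv₀]

theorem conj_apply_aut {G : Type*} [Group G] (α : MulAut G) (q : G) :
    MulAut.conj (α q) = α * MulAut.conj q * α⁻¹ := by
  ext y
  simp only [MulAut.conj_apply, MulAut.mul_apply, MulAut.inv_apply, map_mul, map_inv,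
    MulEquiv.apply_symm_apply]

/-- An automorphism centralizing the field automorphism and `Ω` of its fixed field is a power
of the field automorphism. -/
theorem cent_L1 [Fintype F] [Fintype F₀] (h2 : (2 : F) ≠ 0) {m : ℕ} (hm : 3 ≤ m)
    (hAut : Cfsg.gammaPOmega F (Cfsg.quadFormOdd m F) = ⊤) (σ : RingAut F)
    (j : F₀ →+* F) (hj : IsFixEmb σ j)
    (β : MulAut (Cfsg.POmega F (Cfsg.quadFormOdd m F)))
    (hβ : β ∈ Subgroup.centralizer
      {(fO (fieldCompat_odd m) σ : MulAut (Cfsg.POmega F (Cfsg.quadFormOdd m F)))})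
    (hc : ∀ l ∈ L1 m h2 j, β * l = l * β) :
    β ∈ Subgroup.zpowers
      (fO (fieldCompat_odd m) σ : MulAut (Cfsg.POmega F (Cfsg.quadFormOdd m F))) := by
  have h2' : (2 : F₀) ≠ 0 := two_ne_zero_of_hom h2 j
  obtain ⟨u, τ, rfl⟩ := aut_decomp (fieldCompat_odd m) hAut β
  obtain ⟨s, hs, hsu⟩ := exists_SO_odd h2 m u
  rw [← hsu] at hβ hc ⊢
  have hfix : ∀ t : F₀, τ (j t) = j t :=
    aut_fix_of_values h2 τ j (values_of_comm h2 hm j τ s hs hc)
  have hτ : τ ∈ Subgroup.zpowers σ := mem_zpowers_of_fixes σ τ (fun a ha => by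
    obtain ⟨b, rfl⟩ := (hj a).mp ha
    exact hfix b)
  obtain ⟨n, rfl⟩ := Subgroup.mem_zpowers_iff.mp hτ
  have hfz : (fO (fieldCompat_odd m) (σ ^ n) : MulAut (Cfsg.POmega F (Cfsg.quadFormOdd m F))) ∈
      Subgroup.zpowers
        (fO (fieldCompat_odd m) σ : MulAut (Cfsg.POmega F (Cfsg.quadFormOdd m F))) := by
    rw [map_zpow]
    exact Subgroup.zpow_mem_zpowers _ n
  have hzc : Subgroup.zpowers
      (fO (fieldCompat_odd m) σ : MulAut (Cfsg.POmega F (Cfsg.quadFormOdd m F))) ≤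
      Subgroup.centralizer
        {(fO (fieldCompat_odd m) σ : MulAut (Cfsg.POmega F (Cfsg.quadFormOdd m F)))} := by
    rw [Subgroup.zpowers_le, Subgroup.mem_centralizer_iff]
    intro y hy
    rw [Set.mem_singleton_iff] at hy
    rw [hy]
  have hs_c : simAut (Cfsg.quadFormOdd m F) s ∈ Subgroup.centralizer
      {(fO (fieldCompat_odd m) σ : MulAut (Cfsg.POmega F (Cfsg.quadFormOdd m F)))} := by
    have := Subgroup.mul_mem _ hβ (Subgroup.inv_mem _ (hzc hfz))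
    rwa [mul_inv_cancel_right] at this
  have hs_r : simAut (Cfsg.quadFormOdd m F) s ∈ (thetaJ m h2 j).range := by
    rw [← inf_centralizer_fO h2 hm σ j hj]
    exact ⟨⟨s, rfl⟩, hs_c⟩
  obtain ⟨k₀, hk₀⟩ := hs_r
  have hcomm : ∀ s₀ ∈ S0 m F₀, k₀ * s₀ = s₀ * k₀ := by
    intro s₀ hs₀
    apply thetaJ_injective h2 hm j
    rw [map_mul, map_mul, hk₀]
    have hl : thetaJ m h2 j s₀ ∈ L1 m h2 j := ⟨s₀, hs₀, rfl⟩
    have h1 := hc _ hl
    have h3 : (fO (fieldCompat_odd m) (σ ^ n) :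
        MulAut (Cfsg.POmega F (Cfsg.quadFormOdd m F))) * thetaJ m h2 j s₀ =
        thetaJ m h2 j s₀ * fO (fieldCompat_odd m) (σ ^ n) := by
      have hl2 := (L1_le h2 hm σ j hj hl).2
      have hz : Subgroup.zpowers
          (fO (fieldCompat_odd m) σ : MulAut (Cfsg.POmega F (Cfsg.quadFormOdd m F))) ≤
          Subgroup.centralizer {thetaJ m h2 j s₀} := by
        rw [Subgroup.zpowers_le, Subgroup.mem_centralizer_iff]
        intro y hy
        rw [Set.mem_singleton_iff] at hy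
        subst hy
        exact ((Subgroup.mem_centralizer_iff.mp hl2) _ rfl).symm
      exact ((Subgroup.mem_centralizer_iff.mp (hz hfz)) _ rfl).symm
    rw [mul_assoc, h3, ← mul_assoc, ← mul_assoc] at h1
    exact mul_right_cancel h1
  have hk1 : k₀ = 1 := by
    apply theta0_injective h2' hm
    rw [map_one]
    have hci : ∀ q : Cfsg.POmega F₀ (Cfsg.quadFormOdd m F₀),
        theta0 m F₀ k₀ * MulAut.conj q = MulAut.conj q * theta0 m F₀ k₀ := by
      intro q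
      have hq : (MulAut.conj q : MulAut (Cfsg.POmega F₀ (Cfsg.quadFormOdd m F₀))) ∈
          (S0 m F₀).map (theta0 m F₀) := by
        rw [S0_map_theta0 m h2']
        exact ⟨q, rfl⟩
      obtain ⟨s₀, hs₀, e⟩ := hq
      rw [← e, ← map_mul, ← map_mul, hcomm s₀ hs₀]
    apply MulEquiv.ext
    intro q
    have h5 : MulAut.conj (theta0 m F₀ k₀ q) = MulAut.conj q := by
      rw [conj_apply_aut, hci q, mul_inv_cancel_right]
    exact conj_inj_odd h2' hm h5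
  rw [hk1, map_one] at hk₀
  rw [← hk₀, one_mul]
  exact hfz

theorem simInduced_simAut {ι : Type} [Fintype ι] [DecidableEq ι] {K : Type*} [Field K]
    (Qf : (ι → K) → K) (g : ↥(Cfsg.Geo.quadSimilarityGroup (F := K) Qf)) :
    Cfsg.IsSimilarityInducedAutPOmega Qf (simAut Qf g) := by
  refine ⟨(g : GL ι K), g.2, ?_⟩
  intro s s' hs'
  rw [simAut_mk]
  congr 1
  apply Subtype.ext
  apply isom_ext
  rw [hs', simConj_coe, map_refl_eq]

/-- The fixed points of an automorphism correspond to the inner automorphisms commuting with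
it. -/
theorem card_fix_eq [Fintype F] (h2 : (2 : F) ≠ 0) {m : ℕ} (hm : 3 ≤ m)
    (x : MulAut (Cfsg.POmega F (Cfsg.quadFormOdd m F))) :
    Nat.card ↥(MonoidHom.eqLocus x.toMonoidHom
        (MonoidHom.id (Cfsg.POmega F (Cfsg.quadFormOdd m F)))) =
      Nat.card ↥(Cfsg.Inn (Cfsg.POmega F (Cfsg.quadFormOdd m F)) ⊓
        Subgroup.centralizer {x}) := by
  apply Nat.card_congr
  refine Equiv.ofBijective (fun k => ⟨MulAut.conj (k : Cfsg.POmega F (Cfsg.quadFormOdd m F)),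
    ⟨⟨k, rfl⟩, ?_⟩⟩) ⟨?_, ?_⟩
  · show MulAut.conj (k : Cfsg.POmega F (Cfsg.quadFormOdd m F)) ∈ Subgroup.centralizer {x}
    rw [Subgroup.mem_centralizer_iff]
    intro y hy
    rw [Set.mem_singleton_iff] at hy
    subst hy
    have hk : y (k : Cfsg.POmega F (Cfsg.quadFormOdd m F)) = k := k.2
    have h1 := conj_apply_aut y (k : Cfsg.POmega F (Cfsg.quadFormOdd m F))
    rw [hk] at h1
    calc y * MulAut.conj (k : Cfsg.POmega F (Cfsg.quadFormOdd m F))
        = (y * MulAut.conj (k : Cfsg.POmega F (Cfsg.quadFormOdd m F)) * y⁻¹) * y := by group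
      _ = MulAut.conj (k : Cfsg.POmega F (Cfsg.quadFormOdd m F)) * y := by rw [← h1]
  · intro a b hab
    have h1 := congrArg Subtype.val hab
    exact Subtype.ext (conj_inj_odd h2 hm h1)
  · rintro ⟨y, ⟨k, rfl⟩, hc⟩
    refine ⟨⟨k, ?_⟩, rfl⟩
    have h1 := (Subgroup.mem_centralizer_iff.mp hc) x rfl
    have h3 : MulAut.conj (x k) = MulAut.conj k := by
      rw [conj_apply_aut, h1, mul_inv_cancel_right]
    exact conj_inj_odd h2 hm h3

end concrete

/-- Local balance for `Ω_{2m+1}(F)`: for an automorphism `x` of prime order `p` that is not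
inner-diagonal, the `p'`-core of `C_A(x)` is nontrivial exactly when `p` does not divide the
number of fixed points of `x` (and `x` is then a field automorphism). -/
theorem local_balance_odd {F : Type*} [Field F] [Fintype F] (h2 : (2 : F) ≠ 0) {m : ℕ}
    (hm : 3 ≤ m) (hAut : Cfsg.gammaPOmega F (Cfsg.quadFormOdd m F) = ⊤)
    (A : Subgroup (MulAut (Cfsg.POmega F (Cfsg.quadFormOdd m F))))
    (hinn : ∀ k : Cfsg.POmega F (Cfsg.quadFormOdd m F), MulAut.conj k ∈ A) {p : ℕ}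
    [Fact p.Prime] (x : MulAut (Cfsg.POmega F (Cfsg.quadFormOdd m F))) (hord : orderOf x = p)
    (hnot : ¬ Cfsg.IsInnerDiagonalAutPOmegaOdd m x) :
    Cfsg.pPrimeCore p ↥(A ⊓ Subgroup.centralizer {x}) ≠ ⊥ ↔
      (Cfsg.IsFieldAutClassPOmega (Cfsg.quadFormOdd m F) x ∧
        Nat.Coprime p (Nat.card ↥(MonoidHom.eqLocus x.toMonoidHom
          (MonoidHom.id (Cfsg.POmega F (Cfsg.quadFormOdd m F)))))) := by
  have hp : p.Prime := Fact.out
  obtain ⟨u, τ, hx⟩ := aut_decomp (fieldCompat_odd m) hAut x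
  have hτ1 : τ ≠ 1 := by
    rintro rfl
    rw [map_one, mul_one] at hx
    apply hnot
    rw [hx]
    exact simInduced_simAut _ u
  have hty : typeO h2 hm hAut x = τ := typeO_eq h2 hm hAut ⟨u, hx⟩
  have hτp : τ ^ p = 1 := by
    rw [← hty, ← map_pow, ← hord, pow_orderOf_eq_one, map_one]
  have hoτ : orderOf τ = p := orderOf_eq_prime hτp hτ1
  have hofO : orderOf (fO (fieldCompat_odd m) τ :
      MulAut (Cfsg.POmega F (Cfsg.quadFormOdd m F))) = p := by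
    rw [orderOf_injective (fO (fieldCompat_odd m) :
      RingAut F →* MulAut (Cfsg.POmega F (Cfsg.quadFormOdd m F))) (fO_injective h2 hm) τ, hoτ]
  have hfc : Cfsg.IsFieldAutClassPOmega (Cfsg.quadFormOdd m F)
      (fO (fieldCompat_odd m) τ : MulAut (Cfsg.POmega F (Cfsg.quadFormOdd m F))) :=
    ⟨1, fO (fieldCompat_odd m) τ, τ, hτ1, (fieldAut_iff (fieldCompat_odd m) τ _).mpr rfl,
      by group⟩
  have hδ : simAut (Cfsg.quadFormOdd m F) u ∈ Cfsg.inndiagPOmegaOdd m F := by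
    rw [inndiag_eq_range]
    exact ⟨u, rfl⟩
  have hconj := coset_conj h2 hm hAut _ _ hfc hp hofO hδ (by rw [← hx]; exact hord)
  obtain ⟨h, -, hh⟩ := hconj
  rw [← hx] at hh
  have hxf : Cfsg.IsFieldAutClassPOmega (Cfsg.quadFormOdd m F) x :=
    ⟨h⁻¹, fO (fieldCompat_odd m) τ, τ, hτ1, (fieldAut_iff (fieldCompat_odd m) τ _).mpr rfl,
      by rw [hh]; group⟩
  rw [card_fix_eq h2 hm x]
  have key : Cfsg.pPrimeCore p ↥(A ⊓ Subgroup.centralizer {x}) ≠ ⊥ ↔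
      Nat.Coprime p (Nat.card ↥(Cfsg.Inn (Cfsg.POmega F (Cfsg.quadFormOdd m F)) ⊓
        Subgroup.centralizer {x})) := by
    rw [hh]
    apply core_criterion_conj p A (Cfsg.Inn (Cfsg.POmega F (Cfsg.quadFormOdd m F))) inferInstance
      (fO (fieldCompat_odd m) τ) h
    haveI : Fintype ↥(fixF τ) := Fintype.ofFinite _
    have hj := isFixEmb_sub τ
    have hIA : Cfsg.Inn (Cfsg.POmega F (Cfsg.quadFormOdd m F)) ≤
        A.comap (MulAut.conj h).toMonoidHom := by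
      rintro _ ⟨k, rfl⟩
      rw [Subgroup.mem_comap]
      show h * MulAut.conj k * h⁻¹ ∈ A
      rw [← conj_apply_aut]
      exact hinn _
    exact core_criterion p (A.comap (MulAut.conj h).toMonoidHom)
      (Cfsg.Inn (Cfsg.POmega F (Cfsg.quadFormOdd m F))) inferInstance hIA
      (fO (fieldCompat_odd m) τ) (L1 m h2 (fixF τ).subtype)
      (L1_le h2 hm τ _ hj) (L1_simple h2 hm _) (L1_normal h2 hm τ _ hj)
      (dvd_card_L1 h2 hm τ _ hj p hp)
      (fun β hβ hc => cent_L1 h2 hm hAut τ _ hj β hβ hc) hofO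
  rw [key]
  exact ⟨fun hc => ⟨hxf, hc⟩, fun hc => hc.2⟩

end Cfsg.Agent.Lib.Helper8.OBal
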